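import Mathlib

/-!
# Irreducible modules of abelian groups over finite fields are fields
-/

set_option autoImplicit false

namespace Cfsg.Agent.H22

universe u v w

theorem exists_field_of_irreducible {F : Type u} [Field F] {H : Type v} [CommGroup H]
    {V : Type w} [AddCommGroup V] [Module F V] [Finite V] [Nontrivial V]
    (ρ : Representation F H V)
    (hirr : ∀ U : Submodule F V, (∀ h : H, ∀ u ∈ U, ρ h u ∈ U) → U = ⊥ ∨ U = ⊤) :
    ∃ (K : Type (max u v)) (_ : Field K) (_ : Algebra F K) (ι : H →* K) (e : K ≃ₗ[F] V),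
      (∀ h x, ρ h (e x) = e (ι h * x)) ∧ Algebra.adjoin F (Set.range ι) = ⊤ := by
  set π := ρ.asAlgebraHom with hπ
  set I := RingHom.ker π with hI
  have hof : ∀ h : H, π (MonoidAlgebra.of F H h) = ρ h := fun h => ρ.asAlgebraHom_of h
  have hinj : ∀ a, a ∉ I → Function.Injective (π a) := by
    intro a ha
    rw [← LinearMap.ker_eq_bot]
    refine (hirr _ fun h u hu => ?_).resolve_right fun ht => ha (LinearMap.ker_eq_top.1 ht)
    rw [LinearMap.mem_ker] at hu ⊢
    rw [← hof, ← Module.End.mul_apply, ← map_mul, mul_comm, map_mul, Module.End.mul_apply, hu,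
      map_zero]
  obtain ⟨v, hv⟩ := exists_ne (0 : V)
  let ev : MonoidAlgebra F H →ₗ[F] V := LinearMap.applyₗ v ∘ₗ π.toLinearMap
  have hev : ∀ a, ev a = π a v := fun _ => rfl
  have hker : LinearMap.ker ev = I.restrictScalars F := by
    ext a
    rw [LinearMap.mem_ker, hev, Submodule.restrictScalars_mem]
    refine ⟨fun h => by_contra fun ha => hv (hinj a ha (by rw [h, map_zero])), fun h => ?_⟩
    rw [RingHom.mem_ker.1 h]; rfl
  have hrange : LinearMap.range ev = ⊤ := by
    refine (hirr _ ?_).resolve_left fun hb => hv ?_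
    · rintro h _ ⟨a, rfl⟩
      exact ⟨MonoidAlgebra.of F H h * a, by rw [hev, map_mul, hof]; rfl⟩
    · have : v ∈ LinearMap.range ev := ⟨1, by rw [hev, map_one]; rfl⟩
      rwa [hb] at this
  let e : (MonoidAlgebra F H ⧸ I) ≃ₗ[F] V :=
    (Submodule.Quotient.restrictScalarsEquiv F I).symm.trans
      ((Submodule.quotEquivOfEq _ _ hker.symm).trans
        (ev.quotKerEquivOfSurjective (LinearMap.range_eq_top.1 hrange)))
  have he : ∀ a, e (Ideal.Quotient.mk I a) = π a v := fun a => rfl
  haveI : I.IsPrime := by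
    refine ⟨fun ht => ?_, fun {a b} hab => ?_⟩
    · have : (1 : MonoidAlgebra F H) ∈ I := ht ▸ Submodule.mem_top
      rw [RingHom.mem_ker, map_one] at this
      exact hv (LinearMap.congr_fun this v)
    · by_contra hc
      rw [not_or] at hc
      rw [RingHom.mem_ker, map_mul] at hab
      exact hv (((hinj a hc.1).comp (hinj b hc.2)) (a₁ := v) (a₂ := 0) (by
        simpa using LinearMap.congr_fun hab v))
  haveI : Finite (MonoidAlgebra F H ⧸ I) := Finite.of_equiv _ e.symm.toEquiv
  haveI : I.IsMaximal := Ideal.Quotient.maximal_of_isField I (Finite.isField_of_domain _)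
  refine ⟨MonoidAlgebra F H ⧸ I, Ideal.Quotient.field I, inferInstance,
    (Ideal.Quotient.mk I : MonoidAlgebra F H →* _).comp (MonoidAlgebra.of F H), e, ?_, ?_⟩
  · intro h x
    obtain ⟨a, rfl⟩ := Ideal.Quotient.mk_surjective x
    change _ = e (Ideal.Quotient.mk I (MonoidAlgebra.of F H h * a))
    rw [he, he, map_mul, hof]; rfl
  · rw [eq_top_iff]
    intro x _
    obtain ⟨a, rfl⟩ := Ideal.Quotient.mk_surjective x
    induction a using MonoidAlgebra.induction_on with
    | of m => exact Algebra.subset_adjoin ⟨m, rfl⟩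
    | add f g hf hg => rw [map_add]; exact add_mem (hf trivial) (hg trivial)
    | smul r f hf => exact Subalgebra.smul_mem _ (hf trivial) r

end Cfsg.Agent.H22
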