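import Cfsg.Agent.H53.AhKit

/-! Symplectic modules with distinct orbit lengths: two blocks are orthogonal. -/

set_option autoImplicit false

namespace Cfsg.Agent.H22.AH

open MulAction Cfsg.Agent.H12.RO Cfsg.Agent.H53.MW Cfsg.Agent.H53.AH

universe u

theorem t23_one {k : ℕ} (h : T23 k) (h2 : ¬ 2 ∣ k) (h3 : ¬ 3 ∣ k) : k = 1 := by
  by_contra e
  obtain ⟨q, hq, hd⟩ := Nat.exists_prime_and_dvd e
  rcases h q hq hd with rfl | rfl
  exacts [h2 hd, h3 hd]

theorem five_odd {m n : ℕ} (e : 5 ^ (2 * m + 1) = n + 1) (h : T23 n) : m = 0 := by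
  have h1 : 5 ^ (2 * m + 1) % 24 = 5 := by
    rw [pow_succ, pow_mul, Nat.mul_mod, Nat.pow_mod]; norm_num
  obtain ⟨k, rfl⟩ : 4 ∣ n := by omega
  obtain rfl := t23_one (h.of_dvd (dvd_mul_left k 4)) (by omega) (by omega)
  have : 5 ^ (2 * m + 1) = 5 ^ 1 := e
  have := Nat.pow_right_injective (by norm_num : 2 ≤ 5) this
  omega

theorem five_pow {d n : ℕ} (e : 5 ^ d = n + 1) (h : T23 n) (h0 : n ≠ 0) : d = 1 ∨ d = 2 := by
  rcases Nat.even_or_odd' d with ⟨m, rfl | rfl⟩
  · obtain ⟨k, hk⟩ : ∃ k, 5 ^ m = k + 1 := ⟨5 ^ m - 1, by have := Nat.one_le_pow m 5; omega⟩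
    have e1 : n = k * (k + 2) := by
      rw [mul_comm, pow_mul, hk] at e
      nlinarith
    rcases Nat.even_or_odd' m with ⟨l, rfl | rfl⟩
    · have h1 : 5 ^ (2 * l) % 24 = 1 := by rw [pow_mul, Nat.pow_mod]; norm_num
      obtain ⟨j, hj⟩ : 2 ∣ k + 2 := by omega
      have := t23_one (h.of_dvd (e1 ▸ hj ▸ (dvd_mul_left j 2).mul_left k)) (by omega) (by omega)
      exact absurd (by rw [e1, show k = 0 by omega, zero_mul]) h0
    · have := five_odd hk (h.of_dvd (e1 ▸ dvd_mul_right k _))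
      omega
  · have := five_odd e h
    omega

theorem img_le {G V T : Type*} [Group G] [MulAction G V] [Finite V] [Finite T] (w : V) (φ : G → T)
    (h : ∀ g g' : G, g • w = w → g' • w = w → φ g = φ g' → ∀ x : V, g • x = g' • x) :
    Nat.card (img G V) ≤ (orbit G w).ncard * Nat.card T := by
  have e : orbit (img G V) w = orbit G w := Set.ext fun x =>
    ⟨fun ⟨⟨_, g, rfl⟩, hg⟩ => ⟨g, hg⟩, fun ⟨g, hg⟩ => ⟨⟨_, g, rfl⟩, hg⟩⟩
  rw [← (stabilizer (img G V) w).index_mul_card, index_stabilizer, e]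
  refine Nat.mul_le_mul_left _ ?_
  have : ∀ s : stabilizer (img G V) w, ∃ g : G, ∀ x, g • x = s.1.1 x := fun ⟨⟨_, g, rfl⟩, _⟩ =>
    ⟨g, fun _ => rfl⟩
  choose f hf using this
  refine Nat.card_le_card_of_injective (fun s => φ (f s)) fun s t e => ?_
  refine Subtype.ext (Subtype.ext (Equiv.ext fun x => ?_))
  rw [← hf, ← hf]
  exact h _ _ ((hf s w).trans s.2) ((hf t w).trans t.2) e x

theorem two (hc : H53.AH.CntStmt.{u}) : TwoStmt.{u} := by
  intro G V _ _ _ _ _ _ _ p β h Ω _ _ S h2 ω ω' hne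
  classical
  have hu : (Finset.univ : Finset Ω) = {ω, ω'} :=
    (Finset.eq_univ_of_card _ (by rw [Finset.card_pair hne, h2])).symm
  have tw : ∀ c : Ω, c = ω ∨ c = ω' := fun c => by simpa [hu] using Finset.mem_univ c
  have sm : ∀ x, S.e ω x + S.e ω' x = x := fun x => by
    rw [← Finset.sum_pair (f := fun c => S.e c x) hne, ← hu, S.sum]
  let U : AddSubgroup V :=
    { carrier := {x | ∀ a b, a ≠ b → ∀ y, β (S.e a x) (S.e b y) = 0}
      zero_mem' := fun a b _ y => by simp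
      add_mem' := fun {x x'} hx hx' a b hab y => by
        rw [map_add, add_left, hx a b hab, hx' a b hab, add_zero]
      neg_mem' := fun {x} hx a b hab y => by
        rw [map_neg, map_neg, AddMonoidHom.neg_apply, hx a b hab, neg_zero] }
  rcases h.irr U (fun g x hx a b hab y => by
    have := hx (g⁻¹ • a) (g⁻¹ • b) (fun e => hab (smul_left_cancel _ e)) (g⁻¹ • y)
    rwa [← h.inv g, ← S.equiv, ← S.equiv, smul_inv_smul, smul_inv_smul, smul_inv_smul] at this)
    with hU | hU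
  swap
  · exact fun x y => (hU ▸ AddSubgroup.mem_top x : x ∈ U) ω ω' hne y
  exfalso
  have rad : ∀ a b, a ≠ b → ∀ x, S.e a x = x → (∀ y, β x (S.e b y) = 0) → x = 0 := by
    intro a b hab x hx hy
    refine AddSubgroup.mem_bot.1 (hU ▸ fun a' b' hab' y => ?_)
    by_cases e : a' = a
    · have : b' = b := by
        rcases tw a with h1 | h1 <;> rcases tw b with h2 | h2 <;> rcases tw b' with h3 | h3 <;>
          simp_all
      rw [e, this, hx, hy]
    · rw [← hx, S.orth _ _ e]; simp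
  have ex : ∀ w, S.e ω' w = w → w ≠ 0 → ∃ v, S.e ω v = v ∧ β v w ≠ 0 := fun w hw h0 => by
    by_contra hn
    push Not at hn
    exact h0 (rad ω' ω hne.symm w hw fun y => by rw [h.skew, hn _ (S.idem ω y), neg_zero])
  have blk : ∀ (g : G) a x, S.e a x = x → S.e (g • a) (g • x) = g • x := fun g a x hx => by
    rw [S.equiv, hx]
  have fx : ∀ (g : G) w, S.e ω' w = w → w ≠ 0 → g • w = w → g • ω' = ω' ∧ g • ω = ω := by
    intro g w hw h0 hg
    have h1 : g • ω' = ω' := (tw _).resolve_left fun e => h0 (by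
      have := blk g ω' w hw
      rw [e, hg] at this
      rw [← this, ← hw, S.orth _ _ hne])
    exact ⟨h1, (tw _).resolve_right fun e => hne (smul_left_cancel g (e.trans h1.symm))⟩
  obtain ⟨w, hw, w0⟩ : ∃ w, S.e ω' w = w ∧ w ≠ 0 :=
    let ⟨x, hx⟩ := S.ne ω'; ⟨_, S.idem ω' x, hx⟩
  obtain rfl : p = 5 := let ⟨v, hv, hb⟩ := ex w hw w0; (h.pair S hne hv hw hb).1
  have tr : ∀ w', S.e ω' w' = w' → w' ≠ 0 → ∃ g : G, g • w = w' := by
    intro w' hw' w0'
    obtain ⟨v, hv, b1, b2⟩ : ∃ v, S.e ω v = v ∧ β v w ≠ 0 ∧ β v w' ≠ 0 := by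
      obtain ⟨v, hv, b1⟩ := ex w hw w0
      obtain ⟨v', hv', b2⟩ := ex w' hw' w0'
      by_cases c1 : β v w' = 0
      · by_cases c2 : β v' w = 0
        · exact ⟨v + v', by rw [map_add, hv, hv'], by rwa [add_left, c2, add_zero],
            by rwa [add_left, c1, zero_add]⟩
        · exact ⟨v', hv', c2, b2⟩
      · exact ⟨v, hv, b1, c1⟩
    obtain ⟨-, g, e1, -⟩ := h.pair S hne hv hw b1
    obtain ⟨-, g', e2, -⟩ := h.pair S hne hv hw' b2
    refine ⟨g' * g⁻¹, sub_eq_zero.1 (h.nsmul_eq_zero (k := 2) (by decide) ?_)⟩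
    rw [smul_sub, ← smul_comm, ← e1, ← e2, mul_smul, inv_smul_smul, sub_self]
  obtain ⟨g0, hg0⟩ := S.trans h.irr ω ω'
  have mr : ∀ a x, x ∈ (S.e a).range ↔ S.e a x = x := fun a x =>
    ⟨fun ⟨y, hy⟩ => hy ▸ S.idem a y, fun e => ⟨x, e⟩⟩
  have cle : ∀ (g : G) a, Nat.card (S.e a).range ≤ Nat.card (S.e (g • a)).range := fun g a =>
    Nat.card_le_card_of_injective
      (fun x => ⟨g • x.1, (mr _ _).2 (blk g a _ ((mr _ _).1 x.2))⟩)
      fun x y e => Subtype.ext (smul_left_cancel g (congrArg Subtype.val e))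
  have ce : Nat.card (S.e ω).range = Nat.card (S.e ω').range :=
    le_antisymm (hg0 ▸ cle g0 ω) (by simpa only [← hg0, inv_smul_smul] using cle g0⁻¹ ω')
  obtain ⟨n, hn⟩ : ∃ n, Nat.card (S.e ω').range = n + 1 :=
    ⟨_, (Nat.succ_pred_eq_of_pos Nat.card_pos).symm⟩
  have cV : (n + 1) * (n + 1) ≤ Nat.card V := by
    nth_rw 1 [← hn, ← ce]
    rw [← hn, ← Nat.card_prod]
    refine Nat.card_le_card_of_injective (fun x => x.1.1 + x.2.1) fun x y e => ?_
    have e1 : x.1.1 = y.1.1 := by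
      have := congrArg (S.e ω) e
      rwa [map_add, map_add, (mr _ _).1 x.1.2, (mr _ _).1 y.1.2, ← (mr _ _).1 x.2.2,
        ← (mr _ _).1 y.2.2, S.orth _ _ hne, S.orth _ _ hne, add_zero, add_zero] at this
    have e2 : x.1.1 + x.2.1 = y.1.1 + y.2.1 := e
    rw [e1] at e2
    exact Prod.ext (Subtype.ext e1) (Subtype.ext (add_left_cancel e2))
  have eo : orbit G w = ((S.e ω).range : Set V) \ {0} ∪ ((S.e ω').range : Set V) \ {0} := by
    ext x
    constructor
    · rintro ⟨g, rfl⟩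
      have h0 : g • w ≠ 0 := fun e => w0 ((smul_eq_zero_iff_eq g).1 e)
      have := blk g ω' w hw
      rcases tw (g • ω') with e | e <;> rw [e] at this
      exacts [.inl ⟨(mr _ _).2 this, h0⟩, .inr ⟨(mr _ _).2 this, h0⟩]
    · rintro (⟨h1, h0⟩ | ⟨h1, h0⟩)
      · obtain ⟨g, e⟩ := tr (g0 • x) (hg0 ▸ blk g0 ω x ((mr _ _).1 h1))
          fun e => h0 ((smul_eq_zero_iff_eq g0).1 e)
        exact ⟨g0⁻¹ * g, by simp only [mul_smul, e, inv_smul_smul]⟩
      · exact tr x ((mr _ _).1 h1) h0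
  have co : (orbit G w).ncard = 2 * n := by
    rw [eo, Set.ncard_union_eq, Set.ncard_sdiff_singleton_of_mem (zero_mem _),
      Set.ncard_sdiff_singleton_of_mem (zero_mem _), ← Nat.card_coe_set_eq, ← Nat.card_coe_set_eq]
    · change Nat.card (S.e ω).range - 1 + (Nat.card (S.e ω').range - 1) = _
      omega
    · refine Set.disjoint_left.2 fun x h1 h3 => h1.2 ?_
      rw [← (mr _ _).1 h1.1, ← (mr _ _).1 h3.1, S.orth _ _ hne]
      rfl
  have tn : T23 n := (h.sm.index w).of_dvd (by rw [index_stabilizer, co]; exact dvd_mul_left n 2)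
  have ow : ∀ x : V, x ≠ 0 → Nat.card (AddSubgroup.zmultiples x) = 5 := fun x hx => by
    have : Fact (Nat.Prime 5) := ⟨h.prime⟩
    rw [Nat.card_zmultiples, addOrderOf_eq_prime (h.pV x) hx]
  have wle : AddSubgroup.zmultiples w ≤ (S.e ω').range :=
    AddSubgroup.zmultiples_le.2 ((mr _ _).2 hw)
  obtain ⟨d, hd⟩ : ∃ d, Nat.card (S.e ω').range = 5 ^ d := by
    have : Fact (Nat.Prime 5) := ⟨h.prime⟩
    have : IsPGroup 5 (Multiplicative (S.e ω').range) := fun x =>
      ⟨1, congrArg Multiplicative.ofAdd (Subtype.ext (h.pV (Multiplicative.toAdd x).1))⟩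
    exact (IsPGroup.iff_card (G := Multiplicative (S.e ω').range)).1 this
  have triv : ∀ g g' : G, g • w = w → g' • w = w → (∀ y ∈ (S.e ω').range, (g'⁻¹ * g) • y = y) →
      ∀ x : V, g • x = g' • x := by
    intro g g' h1 h3 hy x
    have hk := fx (g'⁻¹ * g) w hw w0 (hy w ((mr _ _).2 hw))
    have h4 : (g'⁻¹ * g) • S.e ω x = S.e ω x := by
      refine sub_eq_zero.1 (rad ω ω' hne _ ?_ fun y => ?_)
      · rw [map_sub, S.idem, ← hk.2, blk _ _ _ (by rw [hk.2, S.idem])]
      · rw [map_sub, AddMonoidHom.sub_apply, ← hy _ ⟨y, rfl⟩, h.inv, hy _ ⟨y, rfl⟩, sub_self]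
    rw [← inv_smul_eq_iff, ← mul_smul, ← sm x, smul_add, h4, hy _ ⟨x, rfl⟩]
  have cnt := hc G V 5 β h
  have n0 : n ≠ 0 := by
    have := AddSubgroup.card_le_of_le wle
    rw [ow w w0] at this
    omega
  rcases five_pow (hd.symm.trans hn) tn n0 with rfl | rfl
  · have e := AddSubgroup.eq_of_le_of_card_ge wle (by rw [hd, ow w w0]; rfl)
    have := img_le w (fun _ : G => ()) fun g g' h1 h3 _ => triv g g' h1 h3 fun y hy => by
      obtain ⟨i, rfl⟩ := AddSubgroup.mem_zmultiples_iff.1 (e ▸ hy)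
      rw [smul_comm, mul_smul, h1, inv_smul_eq_iff.2 h3.symm]
    rw [co, Nat.card_unique (α := Unit)] at this
    obtain rfl : n = 4 := by omega
    omega
  · obtain rfl : n = 24 := by omega
    obtain ⟨w2, m2, n2⟩ := SetLike.exists_of_lt (lt_of_le_of_ne wle fun e => by
      have := ow w w0
      rw [e] at this
      omega)
    have e : AddSubgroup.zmultiples w ⊔ AddSubgroup.zmultiples w2 = (S.e ω').range := by
      have l := sup_le wle (AddSubgroup.zmultiples_le.2 m2)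
      obtain ⟨j, hj, c⟩ := (Nat.dvd_prime_pow h.prime).1 (hd ▸ AddSubgroup.card_dvd_of_le l)
      refine AddSubgroup.eq_of_le_of_card_ge l ?_
      rw [hd, c]
      refine Nat.pow_le_pow_right (by norm_num) (not_lt.1 fun hj' => n2 ?_)
      rw [AddSubgroup.eq_of_le_of_card_ge
        (le_sup_left (a := AddSubgroup.zmultiples w) (b := AddSubgroup.zmultiples w2))
        (by rw [c, ow w w0]; exact Nat.pow_le_pow_right (j := 1) (by norm_num) (by omega))]
      exact AddSubgroup.mem_sup_right (AddSubgroup.mem_zmultiples w2)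
    have dec : ∀ y ∈ (S.e ω').range, ∃ i j : ℤ, y = i • w + j • w2 := fun y hy => by
      obtain ⟨_, ⟨i, rfl⟩, _, ⟨j, rfl⟩, rfl⟩ := AddSubgroup.mem_sup.1 (e ▸ hy)
      exact ⟨i, j, rfl⟩
    have z5 : ∀ {i j : ℤ}, (i : ZMod 5) = j → i • w2 = j • w2 := fun {i j} c => by
      obtain ⟨k, hk⟩ := (ZMod.intCast_eq_intCast_iff_dvd_sub i j 5).1 c
      rw [show j = i + k * (5 : ℕ) by omega, add_zsmul, mul_zsmul, natCast_zsmul, h.pV, smul_zero,
        add_zero]
    have : ∀ g : G, ∃ j : {j : ZMod 5 // j ≠ 0}, g • w = w →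
        ∃ i k : ℤ, (k : ZMod 5) = j ∧ g • w2 = i • w + k • w2 := fun g => by
      by_cases hg : g • w = w
      · obtain ⟨i, k, c⟩ := dec (g • w2) ((mr _ _).2 (by
          have := blk g _ _ ((mr _ _).1 m2)
          rwa [(fx g w hw w0 hg).1] at this))
        refine ⟨⟨k, fun k0 => n2 ⟨i, smul_left_cancel g ?_⟩⟩, fun _ => ⟨i, k, rfl, c⟩⟩
        rw [c, z5 (j := 0) (by simpa using k0), zero_zsmul, add_zero]
        exact (smul_comm g i w).trans (by rw [hg])
      · exact ⟨⟨1, by decide⟩, fun e => absurd e hg⟩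
    choose φ hφ using this
    have := img_le w φ fun g g' h1 h3 c => triv g g' h1 h3 fun y hy => by
      obtain ⟨i, k, c1, e1⟩ := hφ g h1
      obtain ⟨i', k', c2, e2⟩ := hφ g' h3
      have k1 : (g'⁻¹ * g) • w = w := by rw [mul_smul, h1, inv_smul_eq_iff.2 h3.symm]
      have k2 : (g'⁻¹ * g) • w2 = w2 + (i - i') • w := by
        rw [mul_smul, inv_smul_eq_iff, smul_add, smul_comm g' (i - i'), h3, e1, e2,
          z5 (c1.trans (c ▸ c2.symm)), sub_zsmul]
        abel
      have k3 : ∀ m : ℕ, (g'⁻¹ * g) ^ m • w2 = w2 + m • (i - i') • w := fun m => by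
        induction m with
        | zero => simp
        | succ m ih =>
          rw [pow_succ', mul_smul, ih, smul_add, k2, smul_comm _ m, smul_comm _ (i - i'), k1,
            succ_nsmul', add_assoc]
      obtain ⟨a, ha⟩ := h.sm
      have k4 := k3 (6 ^ a)
      rw [ha, left_eq_add] at k4
      rw [h.nsmul_eq_zero (fun e => absurd (h.prime.dvd_of_dvd_pow e) (by decide)) k4,
        add_zero] at k2
      obtain ⟨s, t, rfl⟩ := dec y hy
      rw [smul_add, smul_comm _ s, smul_comm _ t, k1, k2]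
    rw [co, show Nat.card {j : ZMod 5 // j ≠ 0} = 4 by rw [Nat.card_eq_fintype_card]; rfl] at this
    omega

end Cfsg.Agent.H22.AH
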