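import Cfsg.Agent.H9.C3Defs

/-! The normalizer of the group of order 256 of the diamond. -/

set_option autoImplicit false

namespace Cfsg.Agent.H22.C3Dn

open Subgroup Cfsg.Agent.H62 Cfsg.Agent.H9.C3

universe u

theorem perm4 : ∀ (α β : Equiv.Perm (Fin 4)) (i : Fin 4), α i = i → β i = i → α ≠ 1 →
    α ^ 3 = 1 → β ^ 3 = 1 → ∃ k : Fin 3, β * α ^ k.1 = 1 := by decide +kernel

theorem permX {X : Type*} (h : Nat.card X = 4) (α β : Equiv.Perm X) (i : X) (a : α i = i)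
    (b : β i = i) (n : α ≠ 1) (c : α ^ 3 = 1) (d : β ^ 3 = 1) : ∃ k : ℕ, β * α ^ k = 1 := by
  have := Nat.finite_of_card_ne_zero (h ▸ four_ne_zero : Nat.card X ≠ 0)
  let e := Finite.equivFinOfCardEq h
  obtain ⟨k, hk⟩ := perm4 (e.permCongrHom α) (e.permCongrHom β) (e i) (by simp [a]) (by simp [b])
    (fun j => n (e.permCongrHom.injective (j.trans (map_one _).symm))) (by rw [← map_pow, c, map_one]) (by rw [← map_pow, d, map_one])
  exact ⟨k, e.permCongrHom.injective (by rw [map_mul, map_pow, hk, map_one])⟩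

variable {G : Type u} [Group G]

theorem cj {A : Subgroup G} {g a : G} (h : g ∈ Nm A) (ha : a ∈ A) : g * a * g⁻¹ ∈ A :=
  (mem_normalizer_iff.1 h a).1 ha

/-- the elements which act trivially on `A / Z` -/
def Tr (A Z : Subgroup G) : Subgroup G where
  carrier := {g | (g ∈ Nm A ∧ g ∈ Nm Z) ∧ ∀ a ∈ A, a⁻¹ * (g * a * g⁻¹) ∈ Z}
  one_mem' := ⟨⟨one_mem _, one_mem _⟩, fun a _ => by simp⟩
  mul_mem' := fun {g h} a b => ⟨⟨mul_mem a.1.1 b.1.1, mul_mem a.1.2 b.1.2⟩, fun x hx => by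
    have := mul_mem (a.2 x hx) (cj a.1.2 (b.2 x hx))
    convert this using 1
    group⟩
  inv_mem' := fun {g} a => ⟨⟨inv_mem a.1.1, inv_mem a.1.2⟩, fun x hx => by
    have := inv_mem (a.2 _ (cj (inv_mem a.1.1) hx))
    convert this using 1
    group⟩

variable {A Z : Subgroup G}

theorem tr_cj {g t : G} (hA : g ∈ Nm A) (hZ : g ∈ Nm Z) (h : t ∈ Tr A Z) : g * t * g⁻¹ ∈ Tr A Z :=
  ⟨⟨mul_mem (mul_mem hA h.1.1) (inv_mem hA), mul_mem (mul_mem hZ h.1.2) (inv_mem hZ)⟩, fun a ha => by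
    have := cj hZ (h.2 _ (cj (inv_mem hA) ha))
    convert this using 1
    group⟩

theorem s3 (hc : Z.relIndex A = 4) {y n : G} (yA : y ∈ Nm A) (yZ : y ∈ Nm Z) (nA : n ∈ Nm A)
    (nZ : n ∈ Nm Z) (y3 : y ^ 3 = 1) (n3 : n ^ 3 = 1) (hy : y ∉ Tr A Z) :
    ∃ k : ℕ, n * y ^ k ∈ Tr A Z := by
  let H : Subgroup G := Nm A ⊓ Nm Z
  let _ : MulAction H A := MulAction.compHom A
    ((normalizerMonoidHom A).comp (inclusion (inf_le_left : H ≤ Nm A)))
  have sm : ∀ (h : H) (a : A), ((h • a : A) : G) = h * a * (h : G)⁻¹ := fun _ _ => rfl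
  have : MulAction.QuotientAction H (Z.subgroupOf A) := ⟨fun h a a' e => by
    have := cj h.2.2 (mem_subgroupOf.1 e)
    rw [mem_subgroupOf, coe_mul, coe_inv, sm, sm]
    convert this using 1
    rw [coe_mul, coe_inv]
    group⟩
  let f := MulAction.toPermHom H (A ⧸ Z.subgroupOf A)
  have fx : ∀ h : H, f h ((1 : A) : A ⧸ Z.subgroupOf A) = (1 : A) := fun h =>
    congrArg _ (Subtype.ext (by rw [sm]; simp))
  have k : ∀ h : H, f h = 1 ↔ (h : G) ∈ Tr A Z := fun h =>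
    ⟨fun e => ⟨h.2, fun a ha => mem_subgroupOf.1 (QuotientGroup.eq.1
      (DFunLike.congr_fun e ((⟨a, ha⟩ : A) : A ⧸ Z.subgroupOf A)).symm)⟩,
      fun e => Equiv.ext fun c => QuotientGroup.induction_on c fun a =>
        (QuotientGroup.eq.2 (mem_subgroupOf.2 (e.2 a a.2))).symm⟩
  obtain ⟨m, hm⟩ := permX hc (f ⟨y, yA, yZ⟩) (f ⟨n, nA, nZ⟩) _ (fx _) (fx _)
    (fun e => hy ((k _).1 e)) (by rw [← map_pow, ← map_one f]; exact congrArg f (Subtype.ext y3))
    (by rw [← map_pow, ← map_one f]; exact congrArg f (Subtype.ext n3))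
  exact ⟨m, (k (⟨n, nA, nZ⟩ * ⟨y, yA, yZ⟩ ^ m)).1 (by rw [map_mul, map_pow, hm])⟩

theorem nm_inf {B C : Subgroup G} {g : G} (h : g ∈ Nm B) (k : g ∈ Nm C) : g ∈ Nm (B ⊓ C) :=
  mem_normalizer_iff.2 fun a => and_congr (mem_normalizer_iff.1 h a) (mem_normalizer_iff.1 k a)

variable [Finite G] {P : Sylow 3 G} {e x : G}

omit [Finite G] in
theorem le_Pr {I : Finset (Fin 4)} {i : Fin 4} (h : i ∈ I) : W e x i ≤ Pr e x I :=
  le_iSup₂_of_le i h le_rfl

/-- only the line `i` is trivial on `V₀ V₁ V_i / V₀ V₁` -/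
theorem tr_iff (K : Kit G) (L : Lin (P : Subgroup G) e x) (D : DDat e x) {i : Fin 4}
    (hi : i ∉ ({0, 1} : Finset (Fin 4))) (hA : EA (Pr e x {0, 1, i})) (j : Fin 4) :
    ln e x j ∈ Tr (Pr e x {0, 1, i}) (Pr e x {0, 1}) ↔ j = i := by
  have mi : i ∈ ({0, 1, i} : Finset (Fin 4)) := by simp
  constructor
  · intro h
    by_contra n
    refine D.big i (eq_bot_iff.2 fun v hv => ?_)
    have c := (L.cl {0, 1} (fun j _ => D.big j) fun j hj k _ => by
      rcases Finset.mem_insert.1 hj with rfl | hj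
      exacts [D.c0 k, Finset.mem_singleton.1 hj ▸ D.c1 k]).2.2 i hi
    have : v⁻¹ * (ln e x j * v * (ln e x j)⁻¹) ∈ (⊥ : Subgroup G) :=
      c ▸ mem_inf.2 ⟨mul_mem (inv_mem hv) (cj (L.nW i (L.mem j)) hv), h.2 v (le_Pr mi hv)⟩
    rw [mem_bot, inv_mul_eq_one, eq_mul_inv_iff_mul_eq] at this
    exact K.fpf _ _ (L.ord i) (L.ord j) (K.comm P _ (L.mem i) _ (L.mem j)) (L.ne i j (Ne.symm n))
      v hv this
  · rintro rfl
    have nZ := L.nP {0, 1} (L.mem j)
    have zA : Pr e x {0, 1} ≤ Pr e x {0, 1, j} :=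
      iSup₂_le fun k hk => le_Pr (Finset.insert_subset_insert _ (by simp) hk)
    refine ⟨⟨L.nP _ (L.mem j), nZ⟩, fun a ha => ?_⟩
    have s : Pr e x {0, 1, j} ≤ Pr e x {0, 1} ⊔ W e x j := iSup₂_le fun k hk => by
      simp only [Finset.mem_insert, Finset.mem_singleton] at hk
      rcases hk with rfl | rfl | rfl
      exacts [le_sup_of_le_left (le_Pr (by simp)), le_sup_of_le_left (le_Pr (by simp)), le_sup_right]
    have := s ha
    rw [← SetLike.mem_coe, coe_mul_of_left_le_normalizer_right] at this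
    · obtain ⟨z, hz, v, hv, rfl⟩ := this
      have c := ((K.mem _ (L.ord j) v).1 hv).2
      have m := mul_mem (inv_mem hz) (cj nZ hz)
      have := hA.comm (zA m) (le_Pr mi hv)
      convert m using 1
      calc (z * v)⁻¹ * (ln e x j * (z * v) * (ln e x j)⁻¹)
          = v⁻¹ * (z⁻¹ * (ln e x j * z * (ln e x j)⁻¹) * (ln e x j * v * (ln e x j)⁻¹)) := by group
        _ = _ := by rw [← c, mul_inv_cancel_right, this, inv_mul_cancel_left]
    · exact fun z hz => mem_normalizer_fintype fun v hv => by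
        rwa [hA.comm (zA hz) (le_Pr mi hv), mul_inv_cancel_right]

theorem main (K : Kit G) (F : Fr (P : Subgroup G) e) (L : Lin (P : Subgroup G) e x) (D : DDat e x)
    (U : DUo (Pr e x Finset.univ) (Pr e x {0, 1, 2}) (Pr e x {0, 1, 3}))
    (hZ : Pr e x {0, 1, 2} ⊓ Pr e x {0, 1, 3} = Pr e x {0, 1}) {n : G}
    (h2 : n ∈ Nm (Pr e x {0, 1, 2})) (h3 : n ∈ Nm (Pr e x {0, 1, 3})) :
    n ∈ Pr e x Finset.univ ⊔ ((P : Subgroup G) ⊔ zpowers e) := by
  have t2 := tr_iff K L D (i := 2) (by decide) U.ea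
  have t3 := tr_iff K L D (i := 3) (by decide) U.ea'
  have nZ : ∀ g ∈ Nm (Pr e x {0, 1, 2}), g ∈ Nm (Pr e x {0, 1, 3}) → g ∈ Nm (Pr e x {0, 1}) :=
    fun g a b => hZ ▸ nm_inf a b
  have ri : ∀ B : Subgroup G, Pr e x {0, 1} ≤ B → Nat.card B = 64 → (Pr e x {0, 1}).relIndex B = 4 :=
    fun B h c => by
    have := (Pr e x {0, 1}).subgroupOf B |>.card_mul_index
    rw [c, Nat.card_congr (subgroupOfEquivOfLe h).toEquiv, ← hZ, U.cZ, hZ] at this
    unfold relIndex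
    omega
  have kU : Tr (Pr e x {0, 1, 2}) (Pr e x {0, 1}) ⊓ Tr (Pr e x {0, 1, 3}) (Pr e x {0, 1}) ≤
      Pr e x Finset.univ := by
    have nK : (P : Subgroup G) ≤ Nm (Tr (Pr e x {0, 1, 2}) (Pr e x {0, 1}) ⊓
        Tr (Pr e x {0, 1, 3}) (Pr e x {0, 1})) := fun p hp => mem_normalizer_fintype fun t ht =>
      ⟨tr_cj (L.nP _ hp) (L.nP _ hp) ht.1, tr_cj (L.nP _ hp) (L.nP _ hp) ht.2⟩
    obtain ⟨I, -, k⟩ := L.gen _ (K.cop P _ nK (eq_bot_iff.2 fun z hz => by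
      by_contra z1
      obtain ⟨j, rfl | rfl⟩ := L.cov z hz.2 z1
      · exact absurd (((t2 j).1 hz.1.1).symm.trans ((t3 j).1 hz.1.2)) (by decide)
      · exact absurd (((t2 j).1 (inv_mem_iff.1 hz.1.1)).symm.trans
          ((t3 j).1 (inv_mem_iff.1 hz.1.2))) (by decide))) nK
    exact k ▸ iSup₂_le fun i _ => le_Pr (Finset.mem_univ i)
  have hP : (P : Subgroup G) ≤ Pr e x Finset.univ ⊔ P := le_sup_right
  have hQ : ((n • P : Sylow 3 G) : Subgroup G) ≤ Pr e x Finset.univ ⊔ P := by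
    rintro _ ⟨p, hp, rfl⟩
    change n * p * n⁻¹ ∈ _
    have p3 : (n * p * n⁻¹) ^ 3 = 1 := by rw [conj_pow, K.cube P p hp]; simp
    have a2 := mul_mem (mul_mem h2 (L.nP _ hp)) (inv_mem h2)
    have a3 := mul_mem (mul_mem h3 (L.nP _ hp)) (inv_mem h3)
    obtain ⟨i, hi⟩ := s3 (ri _ (hZ ▸ inf_le_left) U.cA) (L.nP _ (L.mem 3)) (L.nP _ (L.mem 3)) a2
      (nZ _ a2 a3) (K.cube P _ (L.mem 3)) p3 fun h => absurd ((t2 3).1 h) (by decide)
    obtain ⟨j, hj⟩ := s3 (ri _ (hZ ▸ inf_le_right) U.cA') (L.nP _ (L.mem 2)) (L.nP _ (L.mem 2)) a3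
      (nZ _ a2 a3) (K.cube P _ (L.mem 2)) p3 fun h => absurd ((t3 2).1 h) (by decide)
    have c := K.comm P _ (pow_mem (L.mem 3) i) _ (pow_mem (L.mem 2) j)
    have := kU ⟨mul_mem hi (pow_mem ((t2 2).2 rfl) j), by
      rw [mul_assoc, c, ← mul_assoc]; exact mul_mem hj (pow_mem ((t3 3).2 rfl) i)⟩
    exact (mul_mem_cancel_right (hP (pow_mem (L.mem 3) i))).1
      ((mul_mem_cancel_right (hP (pow_mem (L.mem 2) j))).1 (mem_sup_left this))
  obtain ⟨u, hu⟩ := MulAction.exists_smul_eq (Pr e x Finset.univ ⊔ P : Subgroup G)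
    ((n • P).subtype hQ) (P.subtype hP)
  simp_rw [Sylow.smul_subtype, Subgroup.smul_def, smul_smul] at hu
  have m := Sylow.smul_eq_iff_mem_normalizer.mp (Sylow.subtype_injective hu)
  have m2 := mul_mem (sup_le U.nA (L.nP _) u.2) h2
  have m3 := mul_mem (sup_le U.nA' (L.nP _) u.2) h3
  have uT := (sup_le_sup_left (le_sup_left : (P : Subgroup G) ≤ (P : Subgroup G) ⊔ zpowers e) _) u.2
  refine (mul_mem_cancel_left uT).1 (mem_sup_right ?_)
  generalize (u : G) * n = g at m m2 m3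
  have y1 : ln e x 2 ≠ 1 := fun h => by simpa [h] using L.ord 2
  have t := tr_cj m2 (nZ g m2 m3) ((t2 2).2 rfl)
  obtain ⟨j, h | h⟩ := L.cov _ (cj m (L.mem 2)) (by simpa using y1)
  · obtain rfl := (t2 j).1 (h ▸ t)
    exact mem_sup_left (K.sr P g m _ (L.mem 2) y1 (mul_inv_eq_iff_eq_mul.1 h))
  · obtain rfl := (t2 j).1 (inv_mem_iff.1 (h ▸ t))
    have ee : e * e ∈ (P : Subgroup G) ⊔ zpowers e :=
      mem_sup_right (mul_mem (mem_zpowers e) (mem_zpowers e))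
    refine (mul_mem_cancel_left ee).1 (mem_sup_left (K.sr P _ (mul_mem (mul_mem F.norm F.norm) m) _
      (L.mem 2) y1 (mul_inv_eq_iff_eq_mul.1 ?_)))
    have := F.inv _ (inv_mem (L.mem 2))
    rw [inv_inv, ← h] at this
    refine Eq.trans ?_ this
    group

/-- DN -/
theorem dn : DNStmt.{u} := fun G _ _ K P e x F L D U hZ n hn => by
  have un : ∀ B ≤ Pr e x Finset.univ, EA B → (∀ a ∈ B, n * a * n⁻¹ ∈ Pr e x {0, 1, 2}) ∨
      ∀ a ∈ B, n * a * n⁻¹ ∈ Pr e x {0, 1, 3} := fun B h k =>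
    (SubgroupClass.subset_union (H := B) (K := (Pr e x {0, 1, 2}).comap (MulAut.conj n).toMonoidHom)
      (L := (Pr e x {0, 1, 3}).comap (MulAut.conj n).toMonoidHom)).1 fun a ha =>
        U.inv _ (cj hn (h ha)) (by rw [← map_mul, k a ha, map_one])
  have no : ∀ B : Subgroup G, Nat.card B = 64 → (∀ a ∈ Pr e x {0, 1, 2}, n * a * n⁻¹ ∈ B) →
      ¬ ∀ a ∈ Pr e x {0, 1, 3}, n * a * n⁻¹ ∈ B := fun B c a b => by
    have k : Pr e x Finset.univ ≤ B.comap (MulAut.conj n).toMonoidHom := U.sup ▸ sup_le a b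
    have : Pr e x Finset.univ ≤ B := fun w hw => by
      simpa [mul_assoc] using k (cj (inv_mem hn) hw)
    have := card_le_of_le this
    rw [c, U.cU] at this
    omega
  rcases un _ (U.sup ▸ le_sup_left) U.ea with a | a <;>
    rcases un _ (U.sup ▸ le_sup_right) U.ea' with b | b
  · exact absurd b (no _ U.cA a)
  · exact main K F L D U hZ (mem_normalizer_fintype a) (mem_normalizer_fintype b)
  · have e2 : Finset.image sg {0, 1, 2} = {0, 1, 3} := by decide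
    have e3 : Finset.image sg {0, 1, 3} = {0, 1, 2} := by decide
    refine (mul_mem_cancel_left (mem_sup_right (mem_sup_right (mem_zpowers e)))).1
      (main K F L D U hZ (mem_normalizer_fintype fun v hv => ?_)
        (mem_normalizer_fintype fun v hv => ?_))
    · have := (L.cjP _ _).1 (a v hv)
      rw [e3] at this
      simpa [mul_assoc] using this
    · have := (L.cjP _ _).1 (b v hv)
      rw [e2] at this
      simpa [mul_assoc] using this
  · exact absurd b (no _ U.cA' a)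

end Cfsg.Agent.H22.C3Dn
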