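import Mathlib
import Cfsg.Agent.H72.CSDefs
import Cfsg.Agent.H8.Tate
import Cfsg.Agent.H2.SchurZassenhaus

/-! Project CS47: a nonsolvable group with `H2` has a good normal subgroup. -/

set_option autoImplicit false

namespace Cfsg.Agent.H22.CsEx

open Subgroup Cfsg.Agent.H92 Cfsg.Agent.H72.CS
open scoped commutatorElement

universe u

variable {G S D : Type u} [Group G] [Group S] [Group D]

theorem three [Finite G] (h : H2 G) (x : G) {a b c : ℕ} (ha : a.Prime) (hb : b.Prime)
    (hc : c.Prime) (ab : a ≠ b) (ac : a ≠ c) (bc : b ≠ c) (h1 : a ∣ cs[x]) (h2 : b ∣ cs[x])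
    (h3 : c ∣ cs[x]) : False := by
  have h4 : ({a, b, c} : Finset ℕ) ⊆ (cs[x]).primeFactors := by
    intro r hr
    simp only [Finset.mem_insert, Finset.mem_singleton] at hr
    rcases hr with rfl | rfl | rfl <;> exact Nat.mem_primeFactors.2 ⟨‹_›, ‹_›, cs_ne_zero x⟩
  have h5 := (Finset.card_le_card h4).trans (h x)
  rw [Finset.card_eq_three.2 ⟨a, b, c, ab, ac, bc, rfl⟩] at h5
  omega

theorem h2_of_dvd [Finite G] (h : H2 G) (k : ∀ y : S, ∃ x : G, cs[y] ∣ cs[x]) : H2 S := fun y =>
  let ⟨x, hx⟩ := k y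
  (Finset.card_le_card (Nat.primeFactors_mono hx (cs_ne_zero x))).trans (h x)

theorem h2_sub [Finite G] (h : H2 G) (N : Subgroup G) [N.Normal] : H2 N :=
  h2_of_dvd h fun y => ⟨y, cs_subgroup_dvd N y⟩

theorem h2_surj [Finite G] (h : H2 G) {f : G →* S} (hf : Function.Surjective f) : H2 S :=
  h2_of_dvd h fun y => let ⟨x, hx⟩ := hf y; ⟨x, hx ▸ cs_map_dvd hf x⟩

theorem good_congr [Finite S] (h : Good S) (e : S ≃* D) : Good D where
  simple := by have := h.simple; exact e.symm.isSimpleGroup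
  h2 := h2_surj h.h2 (f := e.toMonoidHom) e.surjective
  card := by rw [← Nat.card_congr e.toEquiv]; exact h.card
  ab r hr R pR x hx y hy := by
    have := (h.ab r hr _ (pR.map e.symm.toMonoidHom) _ (mem_map_of_mem _ hx) _
      (mem_map_of_mem _ hy)).map e
    simpa using this
  cen r hr x x1 hx := by
    have h1 := h.cen r hr (e.symm x) (by simpa using x1) (by rwa [e.symm.orderOf_eq])
    exact (h1.comap_of_injective e.symm.toMonoidHom e.symm.injective).to_le fun y hy =>
      mem_C.2 ((mem_C.1 hy).map e.symm)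

theorem pick (h : Good S) {r : ℕ} (hr : r.Prime) : ∃ r' a b : ℕ, r'.Prime ∧ a.Prime ∧ b.Prime ∧
    r' ∣ Nat.card S ∧ a ∣ Nat.card S ∧ b ∣ Nat.card S ∧ a ≠ b ∧ a ≠ r ∧ b ≠ r ∧ a ≠ r' ∧
    b ≠ r' := by
  obtain ⟨c, hc, h1, h2, h3⟩ : ∃ c : ℕ, c.Prime ∧ c ∣ Nat.card S ∧ 3 < c ∧ 6 ∣ Nat.card S := by
    rcases h.card with e | e <;> rw [e]
    exacts [⟨5, by norm_num, by norm_num, by norm_num, by norm_num⟩,
      ⟨7, by norm_num, by norm_num, by norm_num, by norm_num⟩]
  have d2 : 2 ∣ Nat.card S := by omega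
  have d3 : 3 ∣ Nat.card S := by omega
  by_cases e3 : r = 3
  · exact ⟨3, 2, c, Nat.prime_three, Nat.prime_two, hc, d3, d2, h1, by omega, by omega, by omega,
      by omega, by omega⟩
  by_cases ec : r = c
  · exact ⟨c, 2, 3, hc, Nat.prime_two, Nat.prime_three, h1, d2, d3, by omega, by omega, by omega,
      by omega, by omega⟩
  · exact ⟨2, 3, c, Nat.prime_two, Nat.prime_three, hc, d2, d3, h1, by omega, by omega, by omega,
      by omega, by omega⟩

theorem dvd_cs [Finite S] {r a : ℕ} (hr : r.Prime) (ha : a.Prime) (ar : a ≠ r) {x : S}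
    (hx : IsPGroup r Ce[x]) (h : a ∣ Nat.card S) : a ∣ cs[x] := by
  have := Fact.mk hr
  obtain ⟨k, hk⟩ := IsPGroup.iff_card.1 hx
  rw [← cs_mul_card x, hk] at h
  exact ((Nat.coprime_primes ha hr).2 ar).pow_right k |>.dvd_of_dvd_mul_right h

theorem exists_elt [Finite S] (h : Good S) {r : ℕ} (hr : r.Prime) (hd : r ∣ Nat.card S) :
    ∃ x : S, x ≠ 1 ∧ IsPGroup r Ce[x] := by
  have := Fact.mk hr
  obtain ⟨x, hx⟩ := exists_prime_orderOf_dvd_card' r hd
  have x1 : x ≠ 1 := fun e => by rw [e, orderOf_one] at hx; exact hr.one_lt.ne hx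
  exact ⟨x, x1, h.cen r hr x x1 ⟨1, by rw [hx, pow_one]⟩⟩

theorem perfect [Finite S] (h : Good S) : commutator S = ⊤ := by
  have := h.simple
  refine (Subgroup.Normal.eq_bot_or_eq_top inferInstance).resolve_left fun e => ?_
  obtain ⟨r, a, -, hr, ha, -, h1, h2, -, -, -, -, h3, -⟩ := pick h Nat.prime_two
  obtain ⟨x, -, hx⟩ := exists_elt h hr h1
  have h4 := dvd_cs hr ha h3 hx h2
  rw [cs_eq_one_iff.2 (by rw [(commutator_eq_bot_iff_center_eq_top S).1 e]; exact mem_top x)] at h4
  exact ha.one_lt.ne' (Nat.dvd_one.1 h4)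

theorem key [Finite D] (hD : H2 D) (hS : Good S) (f : D →* S) (hf : Function.Surjective f)
    {r : ℕ} (hr : r.Prime) (hV : IsPGroup r f.ker) (hc : ∀ a ∈ f.ker, ∀ b ∈ f.ker, a * b = b * a) :
    Good (commutator D) := by
  have := Fact.mk hr
  have := Finite.of_surjective f hf
  have := hS.simple
  obtain ⟨r', a, b, hr', ha, hb, d1, d2, d3, ab, ar, br, ar', br'⟩ := pick hS hr
  have VC : f.ker ≤ centralizer (f.ker : Set D) := fun y hy x hx => hc x hx y hy
  have cen : centralizer (f.ker : Set D) = ⊤ := by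
    rcases ((inferInstance : (centralizer (f.ker : Set D)).Normal).map f hf).eq_bot_or_eq_top
      with e | e
    swap
    · rw [← comap_map_eq_self VC, e, comap_top]
    exfalso
    obtain ⟨y, y1, hy⟩ := exists_elt hS hr' d1
    obtain ⟨x, rfl⟩ := hf y
    refine three hD x ha hb hr ab ar br ((dvd_cs hr' ha ar' hy d2).trans (cs_map_dvd hf x))
      ((dvd_cs hr' hb br' hy d3).trans (cs_map_dvd hf x))
      (dvd_trans ?_ (relIndex_normal_dvd_index Ce[x] f.ker))
    obtain ⟨n, hn⟩ := hV.index ((Ce[x]).subgroupOf f.ker)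
    rcases n with _ | n
    · exact absurd ((Subgroup.map_eq_bot_iff _).1 e (le_C_iff.1 (relIndex_eq_one.1 hn))) y1
    · exact ⟨r ^ n, hn.trans (pow_succ' r n)⟩
  obtain ⟨T, VT⟩ := hV.exists_le_sylow
  have ab' : ∀ x ∈ (T : Subgroup D), ∀ y ∈ (T : Subgroup D), Commute x y := by
    intro x hx y hy
    by_contra hn
    have x1 : f x ≠ 1 := fun e => hn ((cen ▸ mem_top y : y ∈ centralizer (f.ker : Set D)) x e)
    have pT := T.isPGroup'.map f
    obtain ⟨k, hk⟩ := IsPGroup.iff_orderOf.1 pT ⟨f x, mem_map_of_mem f hx⟩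
    have h1 := hS.cen r hr (f x) x1 ⟨k, by rw [← hk, ← orderOf_coe]⟩
    refine three hD x ha hb hr ab ar br ((dvd_cs hr ha ar h1 d2).trans (cs_map_dvd hf x))
      ((dvd_cs hr hb br h1 d3).trans (cs_map_dvd hf x)) ?_
    by_contra h2
    obtain ⟨P, hP⟩ := not_dvd_cs_iff.1 h2
    have h3 : (Ce[f x]).comap f = T := T.is_maximal' (h1.comap_of_ker_isPGroup f hV)
      fun w hw => mem_C.2 (hS.ab r hr _ pT _ (mem_map_of_mem f hw) _ (mem_map_of_mem f hx))
    have h4 : (T : Subgroup D) = P := P.is_maximal' T.isPGroup'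
      (h3 ▸ hP.trans (map_le_iff_le_comap.1 (map_C_le f x)))
    exact hn (mem_C'.1 (hP (h4 ▸ hy)))
  have h5 := H8.center_inf_commutator_inf_sylow_le T
  rw [commutator_eq_bot_iff_le_centralizer.2 fun x hx y hy => (ab' y hy x hx).eq] at h5
  refine good_congr hS (MulEquiv.ofBijective (f.comp (commutator D).subtype)
    ⟨(injective_iff_map_eq_one (f.comp (commutator D).subtype)).2 fun x hx => ?_,
      fun y => ?_⟩).symm
  · exact Subtype.ext (mem_bot.1 (h5 ⟨⟨mem_center_iff.2 fun g =>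
      ((cen ▸ mem_top g : g ∈ centralizer (f.ker : Set D)) x hx).symm, x.2⟩, VT hx⟩))
  · have h6 : y ∈ (commutator D).map f := by
      rw [map_commutator_eq, f.range_eq_top_of_surjective hf, ← _root_.commutator_def,
        perfect hS]
      exact mem_top y
    obtain ⟨x, hx, rfl⟩ := h6
    exact ⟨⟨x, hx⟩, rfl⟩

theorem of_comm [Finite G] (N : Subgroup G) [N.Normal] (h : Good (commutator N)) :
    ∃ S : Subgroup G, S.Normal ∧ Good S :=
  ⟨(commutator N).map N.subtype, inferInstance,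
    good_congr h (equivMapOfInjective _ _ N.subtype_injective)⟩

theorem ex (hS : SimpleStmt.{u}) (hF : FinStmt.{u}) : ExStmt.{u} := by
  intro G _ _
  induction hn : Nat.card G using Nat.strong_induction_on generalizing G with
  | _ n ih =>
  intro h hs
  by_cases simple : IsSimpleGroup G
  · exact ⟨⊤, inferInstance, good_congr
      (hS G (fun e => hs (Group.isSolvable_of_comm e.1.1)) h) topEquiv.symm⟩
  have : Nontrivial G := by
    by_contra h0
    have := not_nontrivial_iff_subsingleton.1 h0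
    exact hs (Group.isSolvable_of_comm fun a b => Subsingleton.elim _ _)
  obtain ⟨N, hN, N0, N1⟩ : ∃ N : Subgroup G, N.Normal ∧ N ≠ ⊥ ∧ N ≠ ⊤ := by
    by_contra h0
    push Not at h0
    exact simple ⟨fun N hN => or_iff_not_imp_left.2 (h0 N hN)⟩
  by_cases sN : Group.IsSolvable N
  swap
  · have lt : Nat.card N < n := hn ▸ lt_of_le_of_ne (card_le_card_group N)
      fun e => N1 (eq_top_of_card_eq N e)
    obtain ⟨S, nS, gS⟩ := ih _ lt N rfl (h2_sub h N) sN
    have h1 := (hF N (h2_sub h N) S nS gS).2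
    have h2 : commutator N = S := le_antisymm
      (Subgroup.Normal.commutator_le_of_self_sup_commutative_eq_top ((sup_comm _ _).trans h1)
        (center.isMulCommutative N)) (by
        have h3 := map_subtype_commutator S
        rw [perfect gS, ← MonoidHom.range_eq_map, range_subtype] at h3
        exact h3.le.trans (commutator_mono le_top le_top))
    exact of_comm N (h2 ▸ gS)
  obtain ⟨V, nV, V0, -, cV, r, hr, pV⟩ := H2.exists_abelian_pgroup_normal_le N N0 sN
  have lt : Nat.card (G ⧸ V) < n := by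
    rw [← hn, card_eq_card_quotient_mul_card_subgroup V]
    exact lt_mul_of_one_lt_right Nat.card_pos ((one_lt_card_iff_ne_bot V).2 V0)
  obtain ⟨S, nS, gS⟩ := ih _ lt (G ⧸ V) rfl (h2_surj h (QuotientGroup.mk'_surjective V))
    fun e => by
      have : Group.IsSolvable V := Group.isSolvable_of_comm cV.1.1
      exact hs (Group.isSolvable_of_ker_le_range V.subtype (QuotientGroup.mk' V) (by simp))
  have mem : ∀ x : S.comap (QuotientGroup.mk' V),
      x ∈ ((QuotientGroup.mk' V).subgroupComap S).ker → (x : G) ∈ V := fun x hx =>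
    (QuotientGroup.eq_one_iff _).1 (congrArg Subtype.val hx)
  refine of_comm (S.comap (QuotientGroup.mk' V)) (key (h2_sub h _) gS _
    ((QuotientGroup.mk' V).subgroupComap_surjective_of_surjective S
      (QuotientGroup.mk'_surjective V)) hr (pV.comap_subtype.to_le mem) fun a ha b hb => ?_)
  have e : (a : G) * b = b * a := congrArg Subtype.val (cV.1.1 ⟨a, mem a ha⟩ ⟨b, mem b hb⟩)
  exact Subtype.ext e

end Cfsg.Agent.H22.CsEx
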