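import Cfsg.Agent.H53.DgDefs
import Cfsg.Agent.H12.Triple
import Cfsg.Agent.H24.Deg

/-! Clifford theory in the form used by the project on degree graphs. -/

set_option autoImplicit false

namespace Cfsg.Agent.H22.DgClif

open Cfsg Cfsg.Agent.H11 Cfsg.Agent.H53.Dg

theorem central {G : Type} [Group G] [Fintype G] (N : Subgroup G) [N.Normal] [Fintype N]
    {χ : G → ℂ} (hχ : IsIrrCharacter G χ) {θ : N → ℂ} (hθ : IsIrrCharacter N θ)
    (h : classInner (fun n : N => χ n) θ ≠ 0) {z : N} (hz : (z : G) ∈ Subgroup.center G) :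
    (Nat.card (H14.inertia N θ) : ℂ) * χ z =
      classInner (fun n : N => χ n) θ * (Fintype.card G * θ z) := by
  have e := congrFun (H14.clifford_sum N hχ hθ h) z
  have k : ∀ g, H14.conjChar N θ g z = θ z := fun g => congrArg θ (Subtype.ext (by
    change g * z * g⁻¹ = z
    rw [Subgroup.mem_center_iff.1 hz g, mul_inv_cancel_right]))
  simpa [k] using e

/-- CLIF -/
theorem clif : ClifStmt := fun G _ _ N _ => by
  classical
  let _ := Fintype.ofFinite G
  let _ := Fintype.ofFinite N
  refine ⟨fun χ n hχ hn => ?_, fun θ m hθ hm => ?_, fun χ hχ h =>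
    exists_irr_lift hχ N ((le_charKer_iff (isCharacter_of_irr hχ)).2 h), fun h2 χ hχ h => ?_⟩
  · obtain ⟨θ, hθ, k⟩ := H14.exists_irr_under N hχ
    obtain ⟨e, he, hd⟩ := H12.exists_degree_eq_mul_dvd_index N hχ hθ k
    have hr : IsCharacter N fun x : N => χ x := isCharacter_comp (isCharacter_of_irr hχ) N.subtype
    refine ⟨θ, _, hθ, H24.irr_deg hθ, ?_, fun z hz => apply_eq_of_mem_charKer
      (charKer_le_of_constituent hr hθ k ((mem_charKer_iff hr).2 hz))⟩
    rw [hn, H24.irr_deg hθ] at he
    obtain rfl : n = e * charDegree θ := by exact_mod_cast he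
    exact Nat.mul_dvd_mul_right hd _
  · obtain ⟨χ, hχ, k⟩ := H14.exists_irr_over N hθ
    refine ⟨χ, _, hχ, H24.irr_deg hχ, H24.deg_eq hm ▸ H24.deg_dvd_of_over N hχ hθ k,
      fun z s hz e => ?_⟩
    have h0 : (Nat.card (H14.inertia N θ) : ℂ) ≠ 0 := Nat.cast_ne_zero.2 Nat.card_pos.ne'
    have h1 := central N hχ hθ k hz
    have h2 := central N hχ hθ k (z := 1) (one_mem _)
    rw [OneMemClass.coe_one] at h2
    refine mul_left_cancel₀ h0 ?_
    rw [e] at h1
    linear_combination h1 - s * h2
  · obtain ⟨θ, hθ, k⟩ := H14.exists_irr_under N hχ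
    rcases H24.res_eq_or_indFun_eq N (h2 ▸ Nat.prime_two) hχ hθ k with e | e
    · exact e.1 ▸ hθ
    · have := h (fun g => if g ∈ N then 1 else -1) (fun g hg => if_pos hg) fun g hg => if_neg hg
      have j : (fun g => χ g * if g ∈ N then 1 else -1) = χ := funext fun g => by
        split_ifs with hg
        · exact mul_one _
        · rw [← e.1, H14.indFun_normal_of_not_mem N θ hg, zero_mul]
      rw [j, ip, classInner_irr_self hχ] at this
      exact absurd this one_ne_zero

end Cfsg.Agent.H22.DgClif
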