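import Cfsg.Agent.H26.K64Defs
import Cfsg.Agent.H3.Frattini

/-! Project K64, piece P0C: recognition of `D₈ ⋊ C₄`. -/

set_option autoImplicit false

namespace Cfsg.Agent.H22.K64P0

open Subgroup Cfsg.Agent.H18 Cfsg.Agent.H26.K64
open scoped commutatorElement

universe u

variable {X : Type u} [Group X]

theorem idx2 [Finite X] {A B : Subgroup X} (h : A ≤ B) (hc : Nat.card B = 2 * Nat.card A) {a b : X}
    (ha : a ∈ B) (hb : b ∈ B) : a * b ∈ A ↔ (a ∈ A ↔ b ∈ A) := by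
  have h1 := (A.subgroupOf B).index_mul_card
  rw [Nat.card_congr (subgroupOfEquivOfLe h).toEquiv, hc] at h1
  exact mul_mem_iff_of_index_two (H := A.subgroupOf B) (a := ⟨a, ha⟩) (b := ⟨b, hb⟩)
    (Nat.eq_of_mul_eq_mul_right Nat.card_pos h1)

theorem comm_el {E : Subgroup X} (h : ∀ e ∈ E, e * e = 1) {a b : X} (ha : a ∈ E) (hb : b ∈ E) :
    a * b = b * a := by
  rw [← inv_eq_of_mul_eq_one_right (h _ (E.mul_mem ha hb)), mul_inv_rev,
    inv_eq_of_mul_eq_one_right (h a ha), inv_eq_of_mul_eq_one_right (h b hb)]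

/-- A two-generated group all of whose squares lie in `N` has order at most `4 |N|`. -/
theorem card_le_of_sq [Finite X] {N : Subgroup X} (h2 : ∃ a b : X, closure {a, b} = ⊤)
    (hs : ∀ a : X, a * a ∈ N) : Nat.card X ≤ Nat.card N * 4 := by
  classical
  obtain ⟨a, b, hab⟩ := h2
  have hc : _root_.commutator X ≤ N := commutator_le.2 fun a _ b _ => by
    rw [show ⁅a, b⁆ = (a * b) * (a * b) * ((b⁻¹ * a⁻¹ * b) * (b⁻¹ * a⁻¹ * b)) * (b⁻¹ * b⁻¹) by
      rw [commutatorElement_def]; group]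
    exact mul_mem (mul_mem (hs _) (hs _)) (hs _)
  have h := H3.card_closure_sup_dvd Nat.prime_two hc (fun x => by rw [sq]; exact hs x) {a, b}
  rw [Finset.coe_pair, hab, top_sup_eq, card_top] at h
  refine (Nat.le_of_dvd (Nat.mul_pos Nat.card_pos (by positivity)) h).trans
    (Nat.mul_le_mul_left _ ?_)
  exact Nat.pow_le_pow_right (n := 2) (by omega) (Finset.card_le_two (a := a) (b := b))

theorem card_norm [Finite X] (hX : Nat.card X = 32) {E : Subgroup X} (hE : Nat.card E = 8)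
    (hn : ¬ E.Normal) : Nat.card (Nz E) = 16 := by
  have : Fact (Nat.Prime 2) := ⟨Nat.prime_two⟩
  have hp : IsPGroup 2 X := IsPGroup.of_card (n := 5) hX
  have := hp.isNilpotent
  have h1 : E < ⊤ := lt_top_iff_ne_top.2 fun h => hn (h ▸ inferInstance)
  have h2 : E < Nz E := Group.normalizerCondition_of_isNilpotent E h1
  have h3 : Nat.card (Nz E) ≠ 8 := fun h => h2.ne (eq_of_le_of_card_ge h2.le (by omega))
  have h4 : Nat.card (Nz E) ≠ 32 := fun h =>
    hn (normalizer_eq_top_iff.1 (eq_top_of_card_eq _ (h.trans hX.symm)))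
  have h5 := card_dvd_of_le h2.le
  have h6 := card_subgroup_dvd_card (Nz E)
  rw [hE] at h5
  rw [hX] at h6
  have h7 := Nat.le_of_dvd (by omega) h6
  generalize Nat.card (Nz E) = n at h3 h4 h5 h6 h7
  obtain ⟨c, rfl⟩ := h5
  have : c ≤ 4 := by omega
  interval_cases c <;> omega

theorem p0Char : P0Char.{u} := by
  intro X _ _ hX h2 E hE el hC hn
  have hM := card_norm hX hE hn
  have EM : E ≤ Nz E := le_normalizer
  have iM : ∀ a b : X, a * b ∈ Nz E ↔ (a ∈ Nz E ↔ b ∈ Nz E) := fun a b =>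
    idx2 le_top (by rw [card_top, hX, hM]) (mem_top a) (mem_top b)
  have iE : ∀ a ∈ Nz E, ∀ b ∈ Nz E, (a * b ∈ E ↔ (a ∈ E ↔ b ∈ E)) := fun a ha b hb =>
    idx2 EM (by rw [hM, hE]) ha hb
  have cM : ∀ g a : X, a ∈ Nz E → g * a * g⁻¹ ∈ Nz E := fun g a ha => by
    simp only [iM, inv_mem_iff, ha, iff_true]
  obtain ⟨g0, hg0⟩ : ∃ g0, g0 ∉ Nz E := by
    by_contra! h
    exact hn (normalizer_eq_top_iff.1 (eq_top_iff.2 fun g _ => h g))
  obtain ⟨E', hE'⟩ : ∃ E' : Subgroup X, ∀ a, a ∈ E' ↔ g0 * a * g0⁻¹ ∈ E :=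
    ⟨E.comap (MulAut.conj g0).toMonoidHom, fun _ => Iff.rfl⟩
  have f1 : ∀ g, g ∉ Nz E → ∀ a, g * a * g⁻¹ ∈ E ↔ a ∈ E' := fun g hg a => by
    have hm : g * g0⁻¹ ∈ Nz E := by rw [iM, inv_mem_iff]; exact iff_of_false hg hg0
    rw [hE', mem_normalizer_iff.1 hm (g0 * a * g0⁻¹)]
    exact iff_of_eq (by congr 1; group)
  have f2 : ∀ g, g ∉ Nz E → ∀ a, g * a * g⁻¹ ∈ E' ↔ a ∈ E := fun g hg a => by
    rw [← f1 g⁻¹ (by rwa [inv_mem_iff])]
    exact iff_of_eq (by congr 1; group)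
  have EM' : E' ≤ Nz E := fun a ha => by
    have := cM g0⁻¹ _ (EM ((hE' a).1 ha))
    rwa [show g0⁻¹ * (g0 * a * g0⁻¹) * g0⁻¹⁻¹ = a by group] at this
  have el' : ∀ a ∈ E', a * a = 1 := fun a ha => by
    have := el _ ((hE' a).1 ha)
    rwa [conj_mul, conj_eq_one_iff] at this
  have iE' : ∀ a ∈ Nz E, ∀ b ∈ Nz E, (a * b ∈ E' ↔ (a ∈ E' ↔ b ∈ E')) := fun a ha b hb => by
    rw [hE', hE', hE', ← conj_mul, iE _ (cM g0 a ha) _ (cM g0 b hb)]
  obtain ⟨x, hx, hx'⟩ : ∃ x ∈ E, x ∉ E' := by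
    by_contra! h
    exact hg0 (mem_normalizer_fintype fun a ha => (hE' a).1 (h a ha))
  obtain ⟨g, hg, y, hy, hgE⟩ : ∃ g, g ∉ Nz E ∧ ∃ y, g * x * g⁻¹ = y ∧ g * g ∈ E := by
    by_cases h : g0 * g0 ∈ E
    · exact ⟨g0, hg0, _, rfl, h⟩
    · refine ⟨g0 * x, fun k => hg0 ((Nz E).mul_mem_cancel_right (EM hx) |>.1 k), _, rfl, ?_⟩
      rw [show g0 * x * (g0 * x) = g0 * x * g0⁻¹ * (g0 * g0) * x by group]
      refine mul_mem ?_ hx
      rw [iE _ (cM _ _ (EM hx)) _ ((iM _ _).2 Iff.rfl), f1 g0 hg0]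
      exact iff_of_false hx' h
  have hgE' : g * g ∈ E' := by
    rw [← f1 g hg, show g * (g * g) * g⁻¹ = g * g by group]; exact hgE
  have yE' : y ∈ E' := hy ▸ (f2 g hg x).2 hx
  have yE : y ∉ E := hy ▸ fun h => hx' ((f1 g hg x).1 h)
  have xM := EM hx
  have yM := EM' yE'
  have xx := el x hx
  have yy := el' y yE'
  have xi : x⁻¹ = x := inv_eq_of_mul_eq_one_right xx
  have yi : y⁻¹ = y := inv_eq_of_mul_eq_one_right yy
  have gy : g * y * g⁻¹ = x := by
    rw [← hy, show g * (g * x * g⁻¹) * g⁻¹ = g * g * x * (g * g)⁻¹ by group, comm_el el hgE hx,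
      mul_inv_cancel_right]
  have nc : x * y ≠ y * x := fun h => yE (hC fun a ha => by
    by_cases h' : a ∈ E'
    · exact comm_el el' h' yE'
    · have h1 := comm_el el' ((iE' x xM a (EM ha)).2 (iff_of_false hx' h')) yE'
      rw [← mul_assoc, ← h, mul_assoc, mul_assoc] at h1
      exact mul_left_cancel h1)
  have vi : (x * y)⁻¹ = y * x := by rw [mul_inv_rev, xi, yi]
  have gv : g * (x * y) * g⁻¹ = (x * y)⁻¹ := by rw [← conj_mul, hy, gy, vi]
  obtain ⟨s, hs⟩ : ∃ s, s = x * y * (x * y) := ⟨_, rfl⟩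
  have vM := mul_mem xM yM
  have sE : s ∈ E := hs ▸ (iE _ vM _ vM).2 Iff.rfl
  have sE' : s ∈ E' := hs ▸ (iE' _ vM _ vM).2 Iff.rfl
  have s1 : s ≠ 1 := fun h => nc (by rw [← vi, inv_eq_of_mul_eq_one_right (hs ▸ h)])
  have ss := el s sE
  have gs : g * s * g⁻¹ = s := by
    rw [hs, ← conj_mul, gv, ← mul_inv_rev, ← hs, inv_eq_of_mul_eq_one_right ss]
  have v4 : (x * y) ^ 4 = 1 := by rw [← ss, hs]; simp only [pow_succ, pow_zero, one_mul, mul_assoc]
  have cZ : Nat.card ↥(E ⊓ E') = 4 := by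
    have h1 : ((E ⊓ E').subgroupOf E).index = 2 := index_eq_two_iff.2 ⟨⟨x, hx⟩, fun b => by
      have := iE' b (EM b.2) x xM
      simp only [mem_subgroupOf, mem_inf, coe_mul, b.2, mul_mem b.2 hx, true_and, this, hx']
      by_cases h : (b : X) ∈ E' <;> simp [h]⟩
    have h3 := ((E ⊓ E').subgroupOf E).index_mul_card
    rw [Nat.card_congr (subgroupOfEquivOfLe inf_le_left).toEquiv, h1, hE] at h3
    omega
  have iS : ∀ a ∈ E ⊓ E', ∀ b ∈ E ⊓ E', (a * b ∈ zpowers s ↔ (a ∈ zpowers s ↔ b ∈ zpowers s)) :=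
    fun a ha b hb => idx2 (zpowers_le.2 (mem_inf.2 ⟨sE, sE'⟩)) (by
      rw [cZ, Nat.card_zpowers, orderOf_eq_prime (by rw [sq, ss]) s1]) ha hb
  have dec : ∀ m ∈ Nz E, ∃ c, ∃ ζ ∈ E ⊓ E', m = c * ζ ∧ (c = 1 ∨ c = x ∨ c = y ∨ c = x * y) := by
    intro m hm
    have k : ∀ c, c⁻¹ * m ∈ E → c⁻¹ * m ∈ E' → (c = 1 ∨ c = x ∨ c = y ∨ c = x * y) →
        ∃ c, ∃ ζ ∈ E ⊓ E', m = c * ζ ∧ (c = 1 ∨ c = x ∨ c = y ∨ c = x * y) :=
      fun c h1 h2 h3 => ⟨c, _, ⟨h1, h2⟩, by group, h3⟩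
    have e1 := iE x xM y yM
    have e2 := iE' x xM y yM
    by_cases h1 : m ∈ E <;> by_cases h2 : m ∈ E'
    · exact k 1 (by rwa [inv_one, one_mul]) (by rwa [inv_one, one_mul]) (Or.inl rfl)
    · refine k x ?_ ?_ (Or.inr (Or.inl rfl)) <;> rw [xi]
      · exact mul_mem hx h1
      · exact (iE' x xM m hm).2 (iff_of_false hx' h2)
    · refine k y ?_ ?_ (Or.inr (Or.inr (Or.inl rfl))) <;> rw [yi]
      · exact (iE y yM m hm).2 (iff_of_false yE h1)
      · exact mul_mem yE' h2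
    · refine k (x * y) ?_ ?_ (Or.inr (Or.inr (Or.inr rfl)))
      · rw [iE _ (inv_mem vM) m hm, inv_mem_iff]
        exact iff_of_false (fun h => yE ((e1.1 h).1 hx)) h1
      · rw [iE' _ (inv_mem vM) m hm, inv_mem_iff]
        exact iff_of_false (fun h => hx' ((e2.1 h).2 yE')) h2
  by_cases hq : g * g ∈ zpowers s
  · exfalso
    have sv : zpowers s ≤ zpowers (x * y) :=
      zpowers_le.2 (hs ▸ mul_mem (mem_zpowers _) (mem_zpowers _))
    have h4 : Nat.card (zpowers (x * y)) ≤ 4 := by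
      rw [Nat.card_zpowers]; exact orderOf_le_of_pow_eq_one (by omega) v4
    have h5 := card_le_of_sq (N := zpowers (x * y)) h2 fun a => by
      have cx : ∀ ζ ∈ E ⊓ E', Commute ζ x := fun ζ h => comm_el el h.1 hx
      have cy : ∀ ζ ∈ E ⊓ E', Commute ζ y := fun ζ h => comm_el el' h.2 yE'
      by_cases ha : a ∈ Nz E
      · obtain ⟨c, ζ, hζ, rfl, hc⟩ := dec a ha
        have c1 : Commute ζ c := by
          rcases hc with h | h | h | h <;> rw [h]
          exacts [Commute.one_right _, cx ζ hζ, cy ζ hζ, (cx ζ hζ).mul_right (cy ζ hζ)]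
        rw [mul_assoc, ← mul_assoc ζ, c1.eq, mul_assoc, el ζ hζ.1, mul_one]
        rcases hc with h | h | h | h <;> rw [h]
        · simp
        · rw [xx]; exact one_mem _
        · rw [yy]; exact one_mem _
        · exact mul_mem (mem_zpowers _) (mem_zpowers _)
      · obtain ⟨c, ζ, hζ, h0, hc⟩ := dec (a * g⁻¹)
          (by rw [iM, inv_mem_iff]; exact iff_of_false ha hg)
        have c1 : Commute ζ (g * c * g⁻¹) := by
          rcases hc with h | h | h | h <;> rw [h]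
          · simp
          · rw [hy]; exact cy ζ hζ
          · rw [gy]; exact cx ζ hζ
          · rw [gv]; exact ((cx ζ hζ).mul_right (cy ζ hζ)).inv_right
        have c2 : ζ * (g * ζ * g⁻¹) ∈ zpowers s := by
          rw [iS ζ hζ _ ⟨(f1 g hg ζ).2 hζ.2, (f2 g hg ζ).2 hζ.1⟩]
          refine mem_normalizer_iff.1 (centralizer_le_normalizer _ ?_) ζ
          rintro _ ⟨n, rfl⟩
          exact ((show Commute s g from (mul_inv_eq_iff_eq_mul.1 gs).symm).zpow_left n).eq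
        have c3 : a * a = c * (g * c * g⁻¹) * (ζ * (g * ζ * g⁻¹)) * (g * g) := by
          calc a * a = c * (ζ * (g * c * g⁻¹)) * (g * ζ * g⁻¹) * (g * g) := by
                rw [mul_inv_eq_iff_eq_mul.1 h0]; group
            _ = _ := by rw [c1.eq]; group
        rw [c3]
        refine mul_mem (mul_mem ?_ (sv c2)) (sv hq)
        rcases hc with h | h | h | h <;> rw [h]
        · simp
        · rw [hy]; exact mem_zpowers _
        · rw [gy, ← vi]; exact inv_mem (mem_zpowers _)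
        · rw [gv]; simp
    omega
  refine ⟨x * y, x, g, hX, v4, xx,
    by rw [← el _ hgE]; simp only [pow_succ, pow_zero, one_mul, mul_assoc], ?_, gv, ?_, ?_⟩
  · rw [vi, xi, ← mul_assoc, xx, one_mul]
  · rw [hy, ← mul_assoc, xx, one_mul]
  · have m1 : x * y ∈ closure ({x * y, x, g} : Set X) := subset_closure (by simp)
    have m2 : x ∈ closure ({x * y, x, g} : Set X) := subset_closure (by simp)
    have m3 : g ∈ closure ({x * y, x, g} : Set X) := subset_closure (by simp)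
    generalize closure ({x * y, x, g} : Set X) = H at m1 m2 m3
    have sv : zpowers s ≤ H := zpowers_le.2 (hs ▸ mul_mem m1 m1)
    have hMH : Nz E ≤ H := fun m hm => by
      obtain ⟨c, ζ, hζ, rfl, hc⟩ := dec m hm
      refine mul_mem ?_ ?_
      · rcases hc with h | h | h | h <;> rw [h]
        exacts [one_mem _, m2, (H.mul_mem_cancel_left m2).1 m1, m1]
      · by_cases h : ζ ∈ zpowers s
        · exact sv h
        · exact (H.mul_mem_cancel_right (mul_mem m3 m3)).1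
            (sv ((iS ζ hζ _ ⟨hgE, hgE'⟩).2 (iff_of_false h hq)))
    refine eq_top_iff.2 fun a _ => ?_
    by_cases ha : a ∈ Nz E
    · exact hMH ha
    · exact (H.mul_mem_cancel_right m3).1 (hMH ((iM a g).2 (iff_of_false ha hg)))

end Cfsg.Agent.H22.K64P0
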