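import Mathlib
import Cfsg.Agent.H20.GalAvg
import Cfsg.Agent.H19.GaloisBlock
import Cfsg.Agent.H11.PermChar
import Cfsg.Agent.H24.Deg

/-!
# Knörr's criterion for the `k(GV)` problem
-/

namespace Cfsg.Agent.H22.KGV

open Cfsg Cfsg.Agent.H19 Cfsg.Agent.H20
open scoped ComplexConjugate

/-- The `N`-th cyclotomic field. -/
noncomputable def KN (N : ℕ) : Subfield ℂ := Subfield.closure {z : ℂ | z ^ N = 1}

/-- Its ring of integers. -/
noncomputable def RN (N : ℕ) : Subring ℂ where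
  carrier := {z | IsIntegral ℤ z ∧ z ∈ KN N}
  mul_mem' ha hb := ⟨ha.1.mul hb.1, mul_mem ha.2 hb.2⟩
  one_mem' := ⟨isIntegral_one, one_mem _⟩
  add_mem' ha hb := ⟨ha.1.add hb.1, add_mem ha.2 hb.2⟩
  zero_mem' := ⟨isIntegral_zero, zero_mem _⟩
  neg_mem' ha := ⟨ha.1.neg, neg_mem ha.2⟩

variable {N : ℕ} [NeZero N]

theorem root_mem {z : ℂ} (hz : z ^ N = 1) : z ∈ RN N :=
  ⟨isIntegral_of_pow_eq_one (NeZero.ne N) hz, Subfield.subset_closure hz⟩

omit [NeZero N] in
theorem hom_ext {f g : ℂ →+* ℂ} (h : ∀ z : ℂ, z ^ N = 1 → f z = g z) {z : ℂ} (hz : z ∈ KN N) :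
    f z = g z :=
  (Subfield.closure_le (t := f.eqLocusField g)).mpr h hz

omit [NeZero N] in
theorem conj_mem_KN {z : ℂ} (hz : z ∈ KN N) : conj z ∈ KN N :=
  (Subfield.closure_le (t := (KN N).comap (starRingEnd ℂ))).mpr
    (fun w hw => Subfield.subset_closure (by
      show (conj w) ^ N = 1
      rw [← map_pow, show w ^ N = 1 from hw, map_one])) hz

omit [NeZero N] in
theorem conj_mem {z : ℂ} (hz : z ∈ RN N) : conj z ∈ RN N :=
  ⟨isIntegral_map hz.1 _, conj_mem_KN hz.2⟩

theorem map_conj (σ : ℂ →+* ℂ) {z : ℂ} (hz : z ∈ KN N) : σ (conj z) = conj (σ z) := by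
  refine hom_ext (f := σ.comp (starRingEnd ℂ)) (g := (starRingEnd ℂ).comp σ) (fun w hw => ?_) hz
  have hN := Nat.pos_of_ne_zero (NeZero.ne N)
  simp only [RingHom.comp_apply]
  rw [H12.conj_eq_pow_of_pow_eq_one hN hw, map_pow,
    H12.conj_eq_pow_of_pow_eq_one hN (z := σ w) (by rw [← map_pow, hw, map_one])]

theorem card_le_of_sum {ι : Type*} [Fintype ι] (a : ι → ℂ) (ha : ∀ i, a i ∈ RN N)
    (h0 : ∀ i, a i ≠ 0) (r : ℚ) (hr : ∑ i, a i * conj (a i) = r) : (Fintype.card ι : ℚ) ≤ r := by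
  choose σ hσ using fun k : (ZMod N)ˣ => exists_ringEquiv_of_unit k
  have h1 : ∀ i, (Nat.totient N : ℝ) ≤ ∑ k, Complex.normSq (σ k (a i)) := by
    intro i
    refine GalFam.le_sum_normSq' (a := fun k => σ k (a i)) (fun τ m hm k => ?_)
      (fun k => isIntegral_map (ha i).1 (σ k : ℂ →+* ℂ)) (by simpa using h0 i)
    refine hom_ext (f := τ.comp (σ k : ℂ →+* ℂ)) (g := (σ (k * m) : ℂ →+* ℂ)) (fun z hz => ?_)
      (ha i).2
    simp only [RingHom.comp_apply, RingHom.coe_coe]
    rw [hσ k z hz, hσ _ z hz, hm _ (by rw [← pow_mul, mul_comm, pow_mul, hz, one_pow]),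
      Units.val_mul, pow_val_mul hz]
  have h2 : ∀ k, ∑ i, Complex.normSq (σ k (a i)) = (r : ℝ) := by
    intro k
    have := congrArg (σ k) hr
    rw [map_sum, map_ratCast] at this
    apply Complex.ofReal_injective
    push_cast
    rw [← this]
    refine Finset.sum_congr rfl fun i _ => ?_
    rw [map_mul, ← Complex.mul_conj]
    exact congrArg _ (map_conj (σ k : ℂ →+* ℂ) (ha i).2).symm
  have h3 := Finset.sum_le_sum fun i (_ : i ∈ Finset.univ) => h1 i
  rw [Finset.sum_comm] at h3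
  simp only [h2, Finset.sum_const, Finset.card_univ, nsmul_eq_mul, ZMod.card_units_eq_totient] at h3
  have h4 : (0 : ℝ) < Nat.totient N := by
    exact_mod_cast Nat.totient_pos.mpr (Nat.pos_of_ne_zero (NeZero.ne N))
  have h5 : (Fintype.card ι : ℝ) ≤ r := by nlinarith
  exact_mod_cast h5

section A

variable {H : Type*} [Group H] [Fintype H]

theorem char_mem (hN : Nat.card H ∣ N) {χ : H → ℂ} (hχ : IsCharacter H χ) (h : H) :
    χ h ∈ RN N := by
  obtain ⟨n, μ, -, h1, h2⟩ := H12.IsCharacter_exists_eigenvalues hχ h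
  have := h2 1
  rw [pow_one] at this
  rw [this]
  refine sum_mem fun i _ => ?_
  rw [pow_one]
  obtain ⟨c, hc⟩ := (orderOf_dvd_natCard h).trans hN
  exact root_mem (by rw [hc, pow_mul, h1, one_pow])

/-- `R`-linear combinations of characters. -/
def IsA (N : ℕ) (φ : H → ℂ) : Prop :=
  IsClassFunction H φ ∧ ∀ χ, IsIrrCharacter H χ → classInner φ χ ∈ RN N

omit [NeZero N] in
theorem IsA.of_char {χ : H → ℂ} (hχ : IsCharacter H χ) : IsA N χ :=
  ⟨H11.isClassFunction_of_isCharacter hχ, fun ψ hψ => by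
    obtain ⟨n, hn⟩ := H11.exists_nat_classInner hχ (H11.isCharacter_of_irr hψ)
    rw [hn]; exact natCast_mem _ n⟩

omit [NeZero N] in
theorem IsA.add {φ ψ : H → ℂ} (h : IsA N φ) (h' : IsA N ψ) : IsA N (φ + ψ) :=
  ⟨H11.isClassFunction_add h.1 h'.1, fun χ hχ => by
    rw [H11.classInner_add_left]; exact add_mem (h.2 χ hχ) (h'.2 χ hχ)⟩

omit [NeZero N] in
theorem IsA.smul {φ : H → ℂ} (h : IsA N φ) {c : ℂ} (hc : c ∈ RN N) : IsA N (c • φ) :=
  ⟨H11.isClassFunction_smul h.1 c, fun χ hχ => by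
    rw [H11.classInner_smul_left]; exact mul_mem hc (h.2 χ hχ)⟩

omit [NeZero N] in
theorem IsA.const {c : ℂ} (hc : c ∈ RN N) : IsA N (fun _ : H => c) := by
  have := (IsA.of_char (N := N) (H11.isCharacter_one (G := H))).smul hc
  convert this using 1
  ext; simp

omit [NeZero N] in
theorem IsA.sum {ι : Type*} (s : Finset ι) {f : ι → H → ℂ} (h : ∀ i ∈ s, IsA N (f i)) :
    IsA N (∑ i ∈ s, f i) :=
  Finset.sum_induction f (IsA N) (fun _ _ => IsA.add) (IsA.of_char H11.isCharacter_zero) h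

omit [NeZero N] in
theorem IsA.mul {φ ψ : H → ℂ} (h : IsA N φ) (h' : IsA N ψ) : IsA N (φ * ψ) := by
  have := Fintype.ofFinite (IrrCharacter H)
  rw [H11.classFun_eq_sum h.1, H11.classFun_eq_sum h'.1, Finset.sum_mul_sum]
  refine IsA.sum _ fun a _ => IsA.sum _ fun b _ => ?_
  rw [smul_mul_smul_comm]
  exact (IsA.of_char (H11.isCharacter_mul (H11.irr_isCharacter a) (H11.irr_isCharacter b))).smul
    (mul_mem (h.2 _ a.2) (h'.2 _ b.2))

theorem IsA.apply_mem (hN : Nat.card H ∣ N) {φ : H → ℂ} (h : IsA N φ) (x : H) : φ x ∈ RN N := by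
  have := Fintype.ofFinite (IrrCharacter H)
  rw [H11.classFun_apply_eq_sum h.1]
  exact sum_mem fun a _ => mul_mem (h.2 _ a.2) (char_mem hN (H11.irr_isCharacter a) x)

theorem IsA.of_pow_smul (hN : Nat.card H ∣ N) {p : ℕ} (hp : p.Prime) (hH : ¬ p ∣ Nat.card H)
    {γ : H → ℂ} (h1 : ∀ x, γ x ∈ RN N) {k : ℕ} (h : IsA N ((p : ℂ) ^ k • γ)) : IsA N γ := by
  have hp0 : (p : ℂ) ^ k ≠ 0 := pow_ne_zero _ (Nat.cast_ne_zero.mpr hp.ne_zero)
  refine ⟨?_, fun χ hχ => ?_⟩
  · have := H11.isClassFunction_smul h.1 ((p : ℂ) ^ k)⁻¹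
    rwa [smul_smul, inv_mul_cancel₀ hp0, one_smul] at this
  · have e1 := h.2 χ hχ
    rw [H11.classInner_smul_left] at e1
    have e2 : (Nat.card H : ℂ) * classInner γ χ ∈ RN N := by
      rw [H11.card_mul_classInner]
      exact sum_mem fun x _ => mul_mem (h1 x) (conj_mem (char_mem hN (H11.isCharacter_of_irr hχ) x))
    have hc : IsCoprime ((p ^ k : ℕ) : ℤ) (Nat.card H : ℤ) :=
      Nat.isCoprime_iff_coprime.mpr (((Nat.Prime.coprime_iff_not_dvd hp).mpr hH).pow_left k)
    obtain ⟨a, b, hab⟩ := hc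
    have e3 : classInner γ χ = a * ((p : ℂ) ^ k * classInner γ χ) +
        b * ((Nat.card H : ℂ) * classInner γ χ) := by
      have : (a : ℂ) * (p : ℂ) ^ k + b * (Nat.card H : ℂ) = 1 := by exact_mod_cast hab
      linear_combination -classInner γ χ * this
    rw [e3]
    exact add_mem (mul_mem (intCast_mem _ a) e1) (mul_mem (intCast_mem _ b) e2)

theorem IsA.exists_inv (hN : Nat.card H ∣ N) {χ : H → ℂ} (h : IsA N χ) {c : ℂ}
    (hc : ∀ x, ∃ y ∈ RN N, χ x * y = c) :
    ∃ ψ, IsA N ψ ∧ ∀ x, χ x * ψ x = c ^ Fintype.card H := by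
  classical
  have key : ∀ s : Finset H, ∃ ψ, IsA N ψ ∧
      ∀ x, ∏ y ∈ s, (χ y - χ x) = ∏ y ∈ s, χ y - χ x * ψ x := by
    intro s
    induction s using Finset.induction_on with
    | empty => exact ⟨0, IsA.of_char H11.isCharacter_zero, by simp⟩
    | insert a s ha ih =>
      obtain ⟨ψ, h1, h2⟩ := ih
      refine ⟨χ a • ψ + (fun _ => ∏ y ∈ s, χ y) + (-1 : ℂ) • (χ * ψ),
        ((h1.smul (h.apply_mem hN a)).add (IsA.const (prod_mem fun y _ => h.apply_mem hN y))).add
          ((h.mul h1).smul (neg_mem (one_mem _))), fun x => ?_⟩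
      rw [Finset.prod_insert ha, Finset.prod_insert ha, h2]
      simp only [Pi.add_apply, Pi.smul_apply, Pi.mul_apply, smul_eq_mul]
      ring
  obtain ⟨ψ, h1, h2⟩ := key Finset.univ
  choose y hy hy' using hc
  refine ⟨(∏ x, y x) • ψ, h1.smul (prod_mem fun x _ => hy x), fun x => ?_⟩
  have h3 := h2 x
  rw [Finset.prod_eq_zero (Finset.mem_univ x) (sub_self _), eq_comm, sub_eq_zero] at h3
  rw [Pi.smul_apply, smul_eq_mul, mul_left_comm, ← h3, ← Finset.prod_mul_distrib]
  simp [mul_comm (y _), hy']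

/-- If `γ χ = g` with `χ` in `A` and the values of `χ` and `g` divide a power of `p`. -/
theorem IsA.of_mul_eq (hN : Nat.card H ∣ N) {p : ℕ} (hp : p.Prime) (hH : ¬ p ∣ Nat.card H)
    {γ χ : H → ℂ} (h1 : ∀ x, γ x ∈ RN N) (h : IsA N χ) {g g' : ℂ} (hg : g ∈ RN N)
    (hg' : g' ∈ RN N) {a : ℕ} (hgg : g * g' = (p : ℂ) ^ a) (he : ∀ x, γ x * χ x = g) :
    IsA N γ := by
  obtain ⟨ψ, h2, h3⟩ := h.exists_inv hN (c := (p : ℂ) ^ a)
    fun x => ⟨γ x * g', mul_mem (h1 x) hg', by rw [← hgg, ← he x]; ring⟩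
  refine IsA.of_pow_smul hN hp hH h1 (k := a * Fintype.card H) ?_
  convert h2.smul hg using 1
  ext x
  simp only [Pi.smul_apply, smul_eq_mul, pow_mul, ← h3 x, ← he x]
  ring

omit [NeZero N] in
theorem IsA.sum_fixed {Y : Type*} [Fintype Y] [DecidableEq Y] [MulAction H Y] (f : Y → ℂ)
    (hf : ∀ y, f y ∈ RN N) (hi : ∀ (h : H) y, f (h • y) = f y) :
    IsA N fun h : H => ∑ y with h • y = y, f y := by
  classical
  let S : ℂ → SubMulAction H Y := fun c => ⟨{y | f y = c}, fun h y hy => (hi h y).trans hy⟩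
  have : (fun h : H => ∑ y with h • y = y, f y) =
      ∑ c ∈ Finset.univ.image f, c • H11.permChar H (S c) := by
    ext h
    rw [Finset.sum_apply, ← Finset.sum_fiberwise_of_maps_to (t := Finset.univ.image f) (g := f)
      (fun y _ => Finset.mem_image_of_mem f (Finset.mem_univ y))]
    refine Finset.sum_congr rfl fun c _ => ?_
    rw [Finset.sum_congr rfl (g := fun _ => c) (fun y hy => (Finset.mem_filter.mp hy).2),
      Finset.sum_const, nsmul_eq_mul, Pi.smul_apply, smul_eq_mul, mul_comm, H11.permChar_apply]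
    congr 2
    rw [← Nat.card_eq_finsetCard]
    refine Nat.card_congr ⟨fun y => ⟨⟨y.1, ?_⟩, ?_⟩, fun y => ⟨y.1.1, ?_⟩, fun _ => rfl, fun _ => rfl⟩
    · exact (Finset.mem_filter.mp y.2).2
    · exact Subtype.ext (Finset.mem_filter.mp (Finset.mem_filter.mp y.2).1).2
    · exact Finset.mem_filter.mpr ⟨Finset.mem_filter.mpr ⟨Finset.mem_univ _,
        congrArg Subtype.val y.2⟩, y.1.2⟩
  rw [this]
  refine IsA.sum _ fun c hc => (IsA.of_char (H11.isCharacter_permChar _)).smul ?_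
  obtain ⟨y, -, rfl⟩ := Finset.mem_image.mp hc
  exact hf y

end A

theorem isA_shift {X : Type*} [Group X] [Finite X] (hN : Nat.card X ∣ N) (H : Subgroup X)
    [Fintype H] {v : X} (hHv : ∀ h ∈ H, h * v = v * h) {χ : X → ℂ} (hχ : IsCharacter X χ) :
    IsA N fun h : H => χ (h * v) := by
  let K := Subgroup.centralizer ({v} : Set X)
  have hK : H ≤ K := fun h hh => Subgroup.mem_centralizer_singleton_iff.mpr (hHv h hh)
  let w : K := ⟨v, Subgroup.mem_centralizer_singleton_iff.mpr rfl⟩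
  have key : ∀ θ : K → ℂ, IsCharacter K θ → IsA N fun h : H => θ (⟨h, hK h.2⟩ * w) := by
    intro θ hθ
    refine H11.isCharacter_induction (P := fun θ => IsA N fun h : H => θ (⟨h, hK h.2⟩ * w))
      (IsA.of_char H11.isCharacter_zero) ?_ (fun _ _ _ _ h1 h2 => h1.add h2) hθ
    rintro _ ⟨n, ρ, hρ, rfl⟩
    obtain ⟨c, hc⟩ := H11.exists_eq_smul_id_of_commute ρ (ρ w) fun g => by
      rw [← map_mul, ← map_mul]
      congr 1
      exact Subtype.ext (Subgroup.mem_centralizer_singleton_iff.mp g.2).symm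
    have := H11.nontrivial_of_isIrreducible ρ
    have h1 := H12.pow_orderOf_eq_one_of_eq_smul_id ρ w c hc
    obtain ⟨e, he⟩ := ((orderOf_dvd_natCard w).trans (Subgroup.card_subgroup_dvd_card K)).trans hN
    have h2 := (IsA.of_char (N := N) (H11.isCharacter_restrict_of_le
      (H11.isCharacter_character ρ) hK)).smul (root_mem (z := c) (by rw [he, pow_mul, h1, one_pow]))
    convert h2 using 2 with h
    simp only [Representation.character, map_mul, hc, Pi.smul_apply, smul_eq_mul, mul_smul_comm,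
      map_smul, ← Module.End.one_eq_id, mul_one]
  exact key _ (H11.isCharacter_restrict hχ K)

theorem core {X : Type*} [Group X] [Finite X] (hN : Nat.card X ∣ N) {p : ℕ} {M : Ideal AlgInt}
    (hM : IsPModular p M) (H : Subgroup X) [Fintype H] {v : X} (hv : v ^ p = 1)
    (hHv : ∀ h ∈ H, h * v = v * h) (hH : ¬ p ∣ Nat.card H)
    (hdeg : ∀ χ : IrrCharacter X, ¬ p ∣ charDegree χ.1) {γ : H → ℂ} (hγ : IsA N γ) (d : H → ℕ)
    (hd : ∀ h, γ h * conj (γ h) = d h) (hd1 : d 1 = 1) (hval : ∀ h, h ≠ 1 → val M (γ h) < 1)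
    (n : ℕ) (hcent : ∀ h : H, d h * Nat.card (Subgroup.centralizer ({(h : X) * v} : Set X)) ≤
      n * Nat.card (Subgroup.centralizer ({h} : Set H))) : Nat.card (ConjClasses X) ≤ n := by
  classical
  have := Fintype.ofFinite (IrrCharacter X)
  have := Fintype.ofFinite (IrrCharacter H)
  have hNH : Nat.card H ∣ N := (Subgroup.card_subgroup_dvd_card H).trans hN
  let f : IrrCharacter X → H → ℂ := fun χ h => χ.1 (h * v)
  have hf : ∀ χ, IsA N (γ * f χ) := fun χ => hγ.mul (isA_shift hN H hHv (H11.irr_isCharacter χ))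
  have hH0 := H11.card_ne_zero H
  let a : IrrCharacter X × IrrCharacter H → ℂ := fun t => classInner (γ * f t.1) t.2.1
  have h1 := card_le_of_sum (N := N) a (fun t => (hf t.1).2 _ t.2.2) (fun t h0 => ?_)
    ((Nat.card H : ℚ)⁻¹ * ∑ h : H,
      (d h * Nat.card (Subgroup.centralizer ({(h : X) * v} : Set X)) : ℕ)) ?_
  · have h2 : (Nat.card H : ℂ)⁻¹ * ∑ h : H, (Nat.card (Subgroup.centralizer ({h} : Set H)) : ℂ) =
        Fintype.card (IrrCharacter H) := by
      simp only [← H11.column_orthogonality_of_isConj (IsConj.refl _)]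
      rw [Finset.sum_comm, Finset.mul_sum]
      simp only [← H11.classInner_def, fun χ : IrrCharacter H => H11.classInner_irr_self χ.2]
      simp
    have h3 : ∑ h : H, Nat.card (Subgroup.centralizer ({h} : Set H)) =
        Nat.card H * Fintype.card (IrrCharacter H) := by
      rw [inv_mul_eq_iff_eq_mul₀ hH0] at h2
      exact_mod_cast h2
    have h4 := Finset.sum_le_sum fun h (_ : h ∈ Finset.univ) => hcent h
    rw [← Finset.mul_sum, h3] at h4
    have h5 : (0 : ℚ) < Nat.card H := by exact_mod_cast Nat.card_pos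
    rw [le_inv_mul_iff₀ h5, Fintype.card_prod] at h1
    have h6 : Nat.card H * (Fintype.card (IrrCharacter X) * Fintype.card (IrrCharacter H)) ≤
        n * (Nat.card H * Fintype.card (IrrCharacter H)) := le_trans (by exact_mod_cast h1) h4
    rw [← H11.card_irr_eq_card_conjClasses, Nat.card_eq_fintype_card]
    have h7 : 0 < Nat.card H * Fintype.card (IrrCharacter H) :=
      Nat.mul_pos Nat.card_pos Fintype.card_pos
    exact Nat.le_of_mul_le_mul_right (by linarith) h7
  · obtain ⟨χ, μ⟩ := t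
    have e1 : ∑ h : H, γ h * χ.1 (h * v) * conj (μ.1 h) = 0 := by
      have := H11.card_mul_classInner (γ * f χ) μ.1
      rw [show classInner (γ * f χ) μ.1 = 0 from h0, mul_zero] at this
      exact this.symm
    rw [← Finset.add_sum_erase _ _ (Finset.mem_univ 1), add_eq_zero_iff_eq_neg] at e1
    have hi : ∀ h : H, γ h ∈ Vr M := fun h => mem_Vr_of_isIntegral (hγ.apply_mem hNH h).1
    have hχ : ∀ x, χ.1 x ∈ Vr M := fun x =>
      mem_Vr_of_isIntegral (H12.IsCharacter_isIntegral (H11.irr_isCharacter χ) x)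
    have hμ : ∀ x, conj (μ.1 x) ∈ Vr M := fun x =>
      mem_Vr_of_isIntegral (conj_mem (char_mem hNH (H11.irr_isCharacter μ) x)).1
    have e2 : val M (γ 1 * χ.1 ((1 : H) * v) * conj (μ.1 1)) < 1 := by
      rw [e1]
      exact val_neg_lt_one (val_sum_lt_one fun h hh => val_mul_lt_one_left
        (val_mul_lt_one_left (hval h (Finset.ne_of_mem_erase hh)) (hχ _)) (hμ _))
    have e3 : val M (γ 1) = 1 := by
      refine val_eq_one_of_not_lt (hi 1) fun hlt => ?_
      have := val_mul_lt_one_left hlt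
        (mem_Vr_of_isIntegral (M := M) (conj_mem (hγ.apply_mem hNH 1)).1)
      rw [hd, hd1] at this
      simp at this
    have e4 : val M (χ.1 ((1 : H) * v)) = 1 := by
      rw [← red_ne_zero_iff (hχ _), OneMemClass.coe_one, one_mul,
        red_char_p_elem hM (H11.irr_isCharacter χ) (k := 1) (by rwa [pow_one]),
        red_ne_zero_iff (hχ _), H24.irr_deg χ.2, val_natCast_eq_one_iff hM]
      exact hdeg χ
    have e5 : val M (conj (μ.1 1)) = 1 := by
      rw [H24.irr_deg μ.2, map_natCast, val_natCast_eq_one_iff hM]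
      exact fun h => hH (h.trans (H12.irr_degree_dvd_card μ.2 (H24.irr_deg μ.2)))
    rw [map_mul, map_mul, e3, e4, e5] at e2
    simp at e2
  · rw [Fintype.sum_prod_type]
    simp only [a, ← H11.classInner_eq_sum (hf _).1]
    simp only [H11.classInner_def, ← Finset.mul_sum]
    rw [Finset.sum_comm]
    push_cast
    congr 1
    refine Finset.sum_congr rfl fun h _ => ?_
    rw [← H11.column_orthogonality_of_isConj (IsConj.refl _), ← hd, Finset.mul_sum]
    refine Finset.sum_congr rfl fun χ _ => ?_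
    simp only [Pi.mul_apply, map_mul, f]
    ring

end Cfsg.Agent.H22.KGV
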