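import Mathlib
import Cfsg.Agent.H13.Rep

/-!
# Self-dual coprime modules are symplectic plus orthogonal
-/

set_option autoImplicit false

namespace Cfsg.Agent.H22

open LinearMap (BilinForm)

section SD

variable {F : Type*} [Field F] {G : Type*} [Group G] {V : Type*} [AddCommGroup V] [Module F V]
  {ρ : Representation F G V}

/-- invariant submodule -/
def SInv (ρ : Representation F G V) (U : Submodule F V) : Prop := ∀ g : G, ∀ u ∈ U, ρ g u ∈ U

/-- invariant bilinear form -/
def BInv (ρ : Representation F G V) (B : BilinForm F V) : Prop :=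
  ∀ (g : G) (x y : V), B (ρ g x) (ρ g y) = B x y

theorem SInv.sup {U W : Submodule F V} (hU : SInv ρ U) (hW : SInv ρ W) : SInv ρ (U ⊔ W) := by
  intro g x hx
  obtain ⟨u, hu, w, hw, rfl⟩ := Submodule.mem_sup.1 hx
  rw [map_add]
  exact Submodule.add_mem_sup (hU g u hu) (hW g w hw)

theorem SInv.exists_isCompl [Finite G] [NeZero (Nat.card G : F)] {U : Submodule F V}
    (hU : SInv ρ U) : ∃ W, SInv ρ W ∧ IsCompl U W := by
  obtain ⟨W, hW⟩ := H13.exists_isCompl_subrep (ρ := ρ) ⟨U, fun g u hu => hU g u hu⟩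
  exact ⟨W.toSubmodule, fun g w hw => W.apply_mem_toSubmodule g hw, hW⟩

theorem SInv.projection_apply {R Y : Submodule F V} (hR : SInv ρ R) (hY : SInv ρ Y)
    (h : IsCompl R Y) (g : G) (x : V) :
    R.projection Y h (ρ g x) = ρ g (R.projection Y h x) := by
  have h1 : ρ g x = ρ g (R.projection Y h x) + ρ g (x - R.projection Y h x) := by
    rw [← map_add]; congr 1; abel
  rw [h1, map_add, Submodule.projection_apply_of_mem_left h
    (hR g _ (Submodule.projection_apply_mem h x)), Submodule.projection_apply_of_mem_right h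
    (hY g _ (Submodule.sub_projection_mem h x)), add_zero]

theorem BInv.move {B : BilinForm F V} (hB : BInv ρ B) (g : G) (x y : V) :
    B (ρ g x) y = B x (ρ g⁻¹ y) := by
  conv_lhs => rw [← ρ.self_inv_apply g y, hB]

/-- a symplectic part `U` and an orthogonal part `W` -/
structure SDGood (ρ : Representation F G V) (U W : Submodule F V) (A S : BilinForm F V) : Prop where
  invU : SInv ρ U
  invW : SInv ρ W
  disj : ∀ x ∈ U, x ∈ W → x = 0
  alt : ∀ x, A x x = 0
  invA : BInv ρ A
  ndA : ∀ x ∈ U, (∀ y ∈ U, A x y = 0) → x = 0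
  zeroA : ∀ w ∈ W, ∀ y, A w y = 0
  sym : ∀ x y, S x y = S y x
  invS : BInv ρ S
  ndS : ∀ x ∈ W, (∀ y ∈ W, S x y = 0) → x = 0
  zeroS : ∀ u ∈ U, ∀ y, S u y = 0
  triv : (2 : F) = 0 → ∀ g, ∀ w ∈ W, ρ g w = w

theorem alt_swap {A : BilinForm F V} (h : ∀ x, A x x = 0) (x y : V) : A x y = -A y x := by
  have := h (x + y)
  simp only [map_add, LinearMap.add_apply, h] at this
  linear_combination this

theorem SDGood.step_alt {U W : Submodule F V} {A S : BilinForm F V} (h : SDGood ρ U W A S)
    {R Y : Submodule F V} (hR : SInv ρ R) (hY : SInv ρ Y) (hc : IsCompl R Y) (hle : U ⊔ W ≤ R)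
    {γ : BilinForm F V} (hγ : BInv ρ γ) (hz : ∀ r ∈ R, ∀ y, γ r y = 0)
    (hnd : ∀ x ∈ Y, (∀ y ∈ Y, γ x y = 0) → x = 0) (halt : ∀ x, γ x x = 0) :
    ∃ A' S', SDGood ρ (U ⊔ Y) W A' S' := by
  set π := R.projection Y hc with hπ
  have hU : ∀ u ∈ U, π u = u := fun u hu =>
    Submodule.projection_apply_of_mem_left hc (hle (Submodule.mem_sup_left hu))
  have hW : ∀ u ∈ W, π u = u := fun u hu =>
    Submodule.projection_apply_of_mem_left hc (hle (Submodule.mem_sup_right hu))
  have hY0 : ∀ y ∈ Y, π y = 0 := fun y hy => Submodule.projection_apply_of_mem_right hc hy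
  have he := hR.projection_apply hY hc
  refine ⟨A.compl₁₂ π π + γ, S.compl₁₂ π π, h.invU.sup hY, h.invW, ?_, ?_, ?_, ?_, ?_, ?_, ?_, ?_,
    ?_, h.triv⟩
  · intro x hx hxW
    obtain ⟨u, hu, y, hy, rfl⟩ := Submodule.mem_sup.1 hx
    have h1 := hW _ hxW
    rw [map_add, hU u hu, hY0 y hy, add_zero] at h1
    rw [← h1] at hxW ⊢
    exact h.disj u hu hxW
  · intro x; simp [h.alt, halt]
  · intro g x y; simp [hπ, he, h.invA g, hγ g]
  · intro x hx H
    obtain ⟨u, hu, y, hy, rfl⟩ := Submodule.mem_sup.1 hx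
    have h1 : u = 0 := h.ndA u hu fun u' hu' => by
      have := H u' (Submodule.mem_sup_left hu')
      rw [LinearMap.add_apply, LinearMap.add_apply, alt_swap halt,
        hz u' (hle (Submodule.mem_sup_left hu'))] at this
      simpa [hU u hu, hU u' hu', hY0 y hy] using this
    have h2 : y = 0 := hnd y hy fun y' hy' => by
      have := H y' (Submodule.mem_sup_right hy')
      simpa [h1, hY0 y' hy'] using this
    rw [h1, h2, add_zero]
  · intro w hw y
    simp [hW w hw, h.zeroA w hw, hz w (hle (Submodule.mem_sup_right hw))]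
  · intro x y; simp [h.sym (π x)]
  · intro g x y; simp [hπ, he, h.invS g]
  · intro x hx H
    exact h.ndS x hx fun y hy => by simpa [hW x hx, hW y hy] using H y hy
  · intro x hx z
    obtain ⟨u, hu, y, hy, rfl⟩ := Submodule.mem_sup.1 hx
    simp [hU u hu, hY0 y hy, h.zeroS u hu]

theorem SDGood.step_sym {U W : Submodule F V} {A S : BilinForm F V} (h : SDGood ρ U W A S)
    {R Y : Submodule F V} (hR : SInv ρ R) (hY : SInv ρ Y) (hc : IsCompl R Y) (hle : U ⊔ W ≤ R)
    {γ : BilinForm F V} (hγ : BInv ρ γ) (hz : ∀ r ∈ R, ∀ y, γ r y = 0)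
    (hnd : ∀ x ∈ Y, (∀ y ∈ Y, γ x y = 0) → x = 0) (hsym : ∀ x y, γ x y = γ y x)
    (htriv : (2 : F) = 0 → ∀ g, ∀ w ∈ Y, ρ g w = w) :
    ∃ A' S', SDGood ρ U (W ⊔ Y) A' S' := by
  set π := R.projection Y hc with hπ
  have hU : ∀ u ∈ U, π u = u := fun u hu =>
    Submodule.projection_apply_of_mem_left hc (hle (Submodule.mem_sup_left hu))
  have hW : ∀ u ∈ W, π u = u := fun u hu =>
    Submodule.projection_apply_of_mem_left hc (hle (Submodule.mem_sup_right hu))
  have hY0 : ∀ y ∈ Y, π y = 0 := fun y hy => Submodule.projection_apply_of_mem_right hc hy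
  have he := hR.projection_apply hY hc
  refine ⟨A.compl₁₂ π π, S.compl₁₂ π π + γ, h.invU, h.invW.sup hY, ?_, ?_, ?_, ?_, ?_, ?_, ?_, ?_,
    ?_, ?_⟩
  · intro x hxU hx
    obtain ⟨u, hu, y, hy, rfl⟩ := Submodule.mem_sup.1 hx
    have h1 := hU _ hxU
    rw [map_add, hW u hu, hY0 y hy, add_zero] at h1
    rw [← h1] at hxU ⊢
    exact h.disj u hxU hu
  · intro x; simp [h.alt]
  · intro g x y; simp [hπ, he, h.invA g]
  · intro x hx H
    exact h.ndA x hx fun y hy => by simpa [hU x hx, hU y hy] using H y hy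
  · intro x hx z
    obtain ⟨u, hu, y, hy, rfl⟩ := Submodule.mem_sup.1 hx
    simp [hW u hu, hY0 y hy, h.zeroA u hu]
  · intro x y; simp [h.sym (π x), hsym x]
  · intro g x y; simp [hπ, he, h.invS g, hγ g]
  · intro x hx H
    obtain ⟨u, hu, y, hy, rfl⟩ := Submodule.mem_sup.1 hx
    have h1 : u = 0 := h.ndS u hu fun u' hu' => by
      have := H u' (Submodule.mem_sup_left hu')
      rw [LinearMap.add_apply, LinearMap.add_apply, hsym,
        hz u' (hle (Submodule.mem_sup_right hu'))] at this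
      simpa [hW u hu, hW u' hu', hY0 y hy] using this
    have h2 : y = 0 := hnd y hy fun y' hy' => by
      have := H y' (Submodule.mem_sup_right hy')
      simpa [h1, hY0 y' hy'] using this
    rw [h1, h2, add_zero]
  · intro w hw y
    simp [hU w hw, h.zeroS w hw, hz w (hle (Submodule.mem_sup_left hw))]
  · intro h2 g x hx
    obtain ⟨u, hu, y, hy, rfl⟩ := Submodule.mem_sup.1 hx
    rw [map_add, h.triv h2 g u hu, htriv h2 g y hy]

/-- a non-injective endomorphism has a nonzero two-sided annihilator commuting with its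
commutant -/
theorem exists_annihilator [FiniteDimensional F V] (T : Module.End F V)
    (hT : ¬ Function.Injective T) :
    ∃ S : Module.End F V, S ≠ 0 ∧ T * S = 0 ∧ S * T = 0 ∧ ∀ f, Commute f T → Commute f S := by
  have hint : IsIntegral F T := Algebra.IsIntegral.isIntegral T
  set μ := minpoly F T with hμ
  have h1 : T * Polynomial.aeval T μ.divX + algebraMap F _ (μ.coeff 0) = 0 := by
    have := minpoly.aeval F T
    rw [← hμ, ← Polynomial.X_mul_divX_add μ, map_add, map_mul, Polynomial.aeval_X,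
      Polynomial.aeval_C] at this
    exact this
  have hcomm : ∀ f, Commute f T → Commute f (Polynomial.aeval T μ.divX) := by
    intro f hf
    rw [Polynomial.aeval_eq_sum_range]
    exact Commute.sum_right _ _ _ fun i _ => (hf.pow_right i).smul_right _
  have hc := hcomm T (Commute.refl T)
  have h0 : μ.coeff 0 = 0 := by
    by_contra hne
    apply hT
    rw [injective_iff_map_eq_zero]
    intro x hx
    have := LinearMap.congr_fun h1 x
    rw [hc.eq] at this
    simpa [hx, hne] using this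
  rw [h0, map_zero, add_zero] at h1
  refine ⟨_, fun h => ?_, h1, hc.eq ▸ h1, hcomm⟩
  have hne : μ ≠ 0 := minpoly.ne_zero hint
  have hd : μ.divX ≠ 0 := by
    intro hd
    apply hne
    rw [← Polynomial.X_mul_divX_add μ, hd, h0]; simp
  exact absurd (minpoly.degree_le_of_ne_zero F T hd h) (not_le.2 (Polynomial.degree_divX_lt hne))

theorem exists_form_vanishing [FiniteDimensional F V] {B C : BilinForm F V}
    (hB : B.Nondegenerate) (hBi : BInv ρ B) (hCi : BInv ρ C) {M : Submodule F V} (hM : SInv ρ M)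
    (hnd : ∀ x ∈ M, (∀ y ∈ M, C x y = 0) → x = 0) (hne : M ≠ ⊤) :
    ∃ β : BilinForm F V, β ≠ 0 ∧ BInv ρ β ∧ (∀ m ∈ M, ∀ y, β m y = 0) ∧
      ∀ m ∈ M, ∀ y, β y m = 0 := by
  have hinj : Function.Injective (C.restrict M) := by
    rw [injective_iff_map_eq_zero]
    intro x hx
    exact Subtype.ext (hnd x x.2 fun y hy => LinearMap.congr_fun hx ⟨y, hy⟩)
  let e : M ≃ₗ[F] Module.Dual F M :=
    LinearMap.linearEquivOfInjective (C.restrict M) hinj Subspace.dual_finrank_eq.symm
  let T : Module.End F V := M.subtype ∘ₗ e.symm.toLinearMap ∘ₗ M.dualRestrict ∘ₗ B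
  have hTM : ∀ v, T v ∈ M := fun v => (e.symm (M.dualRestrict (B v))).2
  have hT : ∀ v, ∀ m ∈ M, C (T v) m = B v m := by
    intro v m hm
    have := LinearMap.congr_fun (e.apply_symm_apply (M.dualRestrict (B v))) ⟨m, hm⟩
    exact this
  have huniq : ∀ v, ∀ t ∈ M, (∀ m ∈ M, C t m = B v m) → T v = t := by
    intro v t ht H
    rw [← sub_eq_zero]
    exact hnd _ (M.sub_mem (hTM v) ht) fun y hy => by
      rw [map_sub, LinearMap.sub_apply, hT v y hy, H y hy, sub_self]
  have hcomm : ∀ g, Commute (ρ g) T := by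
    intro g
    ext v
    exact (huniq _ _ (hM g _ (hTM v)) fun m hm => by
      rw [hCi.move, hT v _ (hM _ m hm), hBi.move]).symm
  have hsurj : ∀ m ∈ M, ∃ v, T v = m := by
    intro m hm
    obtain ⟨v, hv⟩ := (B.toDual hB).surjective (C m)
    exact ⟨v, huniq v m hm fun y _ => by rw [← hv]; rfl⟩
  have hT' : ¬ Function.Injective T := by
    intro h
    apply hne
    rw [eq_top_iff]
    intro v _
    obtain ⟨w, rfl⟩ := (LinearMap.injective_iff_surjective.1 h) v
    exact hTM w
  obtain ⟨S, hS0, hTS, hST, hSc⟩ := exists_annihilator T hT'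
  refine ⟨B ∘ₗ S, fun h => hS0 ?_, fun g x y => ?_, fun m hm y => ?_, fun m hm y => ?_⟩
  · ext v
    exact hB.1 _ fun y => LinearMap.congr_fun (LinearMap.congr_fun h v) y
  · have := LinearMap.congr_fun (hSc _ (hcomm g)).eq x
    simp only [Module.End.mul_apply] at this
    simp only [LinearMap.comp_apply]
    rw [← this, hBi]
  · obtain ⟨v, rfl⟩ := hsurj m hm
    have := LinearMap.congr_fun hST v
    simp only [Module.End.mul_apply, LinearMap.zero_apply] at this
    simp [this]
  · have := LinearMap.congr_fun hTS y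
    simp only [Module.End.mul_apply, LinearMap.zero_apply] at this
    simp only [LinearMap.comp_apply]
    rw [← hT _ m hm, this]; simp

theorem exists_sdGood [Finite G] [NeZero (Nat.card G : F)] [FiniteDimensional F V]
    {B : BilinForm F V} (hB : B.Nondegenerate) (hBi : BInv ρ B) :
    ∃ U W A S, SDGood ρ U W A S ∧ U ⊔ W = ⊤ := by
  obtain ⟨M, ⟨U, W, A, S, h, rfl⟩, hmax⟩ := (wellFounded_gt (α := Submodule F V)).has_min
    {M | ∃ U W A S, SDGood ρ U W A S ∧ U ⊔ W = M}
    ⟨⊥, ⊥, ⊥, 0, 0, ⟨fun g u hu => by simp_all, fun g u hu => by simp_all, by simp, by simp,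
      fun _ _ _ => rfl, by simp, by simp, by simp, fun _ _ _ => rfl, by simp, by simp, by simp⟩,
      by simp⟩
  refine ⟨U, W, A, S, h, ?_⟩
  by_contra hne
  obtain ⟨β, hβ0, hβi, hβl, hβr⟩ := exists_form_vanishing hB hBi (C := A + S)
    (fun g x y => by simp [h.invA g, h.invS g]) (h.invU.sup h.invW) (by
      intro x hx H
      obtain ⟨u, hu, w, hw, rfl⟩ := Submodule.mem_sup.1 hx
      have h1 : u = 0 := h.ndA u hu fun u' hu' => by
        have := H u' (Submodule.mem_sup_left hu')
        rw [LinearMap.add_apply, LinearMap.add_apply, h.sym, h.zeroS u' hu'] at this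
        simpa [h.zeroA w hw] using this
      have h2 : w = 0 := h.ndS w hw fun w' hw' => by
        have := H w' (Submodule.mem_sup_right hw')
        simpa [h1, h.zeroA w hw] using this
      rw [h1, h2, add_zero]) hne
  have hlt : ∀ R Y : Submodule F V, IsCompl R Y → U ⊔ W ≤ R → R ≠ ⊤ → U ⊔ W < U ⊔ W ⊔ Y := by
    intro R Y hc hle hR
    refine lt_of_le_of_ne le_sup_left fun he => hR ?_
    rw [← hc.sup_eq_top, left_eq_sup]
    exact (le_sup_right.trans he.ge).trans hle
  -- reflexive forms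
  have hrefl : ∀ γ : BilinForm F V, γ ≠ 0 → BInv ρ γ → (∀ m ∈ U ⊔ W, ∀ y, γ m y = 0) →
      (∀ x y, γ x y = 0 → γ y x = 0) → ∃ R Y, SInv ρ R ∧ SInv ρ Y ∧ IsCompl R Y ∧ U ⊔ W ≤ R ∧
        R ≠ ⊤ ∧ (∀ r ∈ R, ∀ y, γ r y = 0) ∧ ∀ x ∈ Y, (∀ y ∈ Y, γ x y = 0) → x = 0 := by
    intro γ h0 hi hz hr
    have hR : SInv ρ (LinearMap.ker γ) := by
      intro g u hu
      rw [LinearMap.mem_ker] at hu ⊢
      ext y
      rw [hi.move, hu]; rfl
    obtain ⟨Y, hY, hc⟩ := hR.exists_isCompl
    refine ⟨_, Y, hR, hY, hc, fun m hm => LinearMap.ext (hz m hm),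
      fun ht => h0 (LinearMap.ker_eq_top.1 ht), fun r hr y => by rw [LinearMap.mem_ker.1 hr]; rfl,
      fun x hx H => ?_⟩
    refine (Submodule.disjoint_def.1 hc.disjoint) x ?_ hx
    rw [LinearMap.mem_ker]
    ext z
    obtain ⟨r, hr', y, hy, rfl⟩ := Submodule.mem_sup.1 (hc.sup_eq_top ▸ Submodule.mem_top : z ∈ _)
    rw [map_add, H y hy, hr r x (by rw [LinearMap.mem_ker.1 hr']; rfl)]
    simp
  have halt : ∀ γ : BilinForm F V, γ ≠ 0 → BInv ρ γ → (∀ m ∈ U ⊔ W, ∀ y, γ m y = 0) →
      (∀ x, γ x x = 0) → False := by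
    intro γ h0 hi hz ha
    obtain ⟨R, Y, hR, hY, hc, hle, hRt, hz', hnd⟩ := hrefl γ h0 hi hz
      (fun x y hxy => by rw [alt_swap ha, hxy, neg_zero])
    obtain ⟨A', S', h'⟩ := h.step_alt hR hY hc hle hi hz' hnd ha
    exact hmax _ ⟨_, _, _, _, h', rfl⟩ (by rw [sup_right_comm]; exact hlt R Y hc hle hRt)
  by_cases hs : β - β.flip = 0
  swap
  · exact halt _ hs (fun g x y => by simp [hβi g]) (fun m hm y => by simp [hβl m hm, hβr m hm])
      (fun x => by simp)
  have hsym : ∀ x y, β x y = β y x := fun x y => by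
    have := LinearMap.congr_fun (LinearMap.congr_fun hs x) y
    simpa [sub_eq_zero] using this
  by_cases h2 : (2 : F) = 0
  swap
  · obtain ⟨R, Y, hR, hY, hc, hle, hRt, hz', hnd⟩ := hrefl β hβ0 hβi hβl
      (fun x y hxy => by rw [hsym, hxy])
    obtain ⟨A', S', h'⟩ := h.step_sym hR hY hc hle hβi hz' hnd hsym (fun h => absurd h h2)
    exact hmax _ ⟨_, _, _, _, h', rfl⟩ (by rw [← sup_assoc]; exact hlt R Y hc hle hRt)
  by_cases ha : ∀ x, β x x = 0
  · exact halt β hβ0 hβi hβl ha
  have hadd : ∀ x y, β (x + y) (x + y) = β x x + β y y := fun x y => by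
    simp only [map_add, LinearMap.add_apply, hsym y x]
    linear_combination β x y * h2
  let R : Submodule F V :=
    { carrier := {x | β x x = 0}
      add_mem' := fun {a b} ha hb => by
        have h1 : β a a = 0 := ha
        have h2 : β b b = 0 := hb
        change β (a + b) (a + b) = 0
        rw [hadd, h1, h2, add_zero]
      zero_mem' := by simp
      smul_mem' := fun c x hx => by
        have h1 : β x x = 0 := hx
        change β (c • x) (c • x) = 0
        simp [h1] }
  have hRm : ∀ x, x ∈ R ↔ β x x = 0 := fun x => Iff.rfl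
  have hR : SInv ρ R := fun g u hu => by rw [hRm, hβi]; exact hu
  obtain ⟨Y, hY, hc⟩ := hR.exists_isCompl
  have hle : U ⊔ W ≤ R := fun m hm => hβl m hm m
  have hRt : R ≠ ⊤ := fun ht => ha fun x => (hRm x).1 (ht ▸ Submodule.mem_top)
  set q := Y.projection R hc.symm with hq
  have he := hY.projection_apply hR hc.symm
  obtain ⟨A', S', h'⟩ := h.step_sym hR hY hc hle (γ := β.compl₁₂ q q)
    (fun g x y => by simp [hq, he, hβi g])
    (fun r hr y => by simp [hq, Submodule.projection_apply_of_mem_right hc.symm hr])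
    (fun x hx H => (Submodule.disjoint_def.1 hc.disjoint) x (by
      have := H x hx
      rw [hRm]
      simpa [hq, Submodule.projection_apply_of_mem_left hc.symm hx] using this) hx)
    (fun x y => by simp [hsym (q x)])
    (fun _ g w hw => by
      rw [← sub_eq_zero]
      refine (Submodule.disjoint_def.1 hc.disjoint) _ ?_ (Y.sub_mem (hY g w hw) hw)
      rw [hRm, sub_eq_add_neg, hadd, hβi]
      simp only [map_neg, LinearMap.neg_apply, neg_neg]
      linear_combination β w w * h2)
  exact hmax _ ⟨_, _, _, _, h', rfl⟩ (by rw [← sup_assoc]; exact hlt R Y hc hle hRt)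

end SD

end Cfsg.Agent.H22
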