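import Mathlib
import Cfsg.Agent.H22.KGVa
import Cfsg.Agent.H22.SelfDual
import Cfsg.Agent.H22.AbField
import Cfsg.Agent.H62.ElemAb

/-!
# Knörr's criterion: reduction to a linear condition, and the abelian case
-/

set_option autoImplicit false

namespace Cfsg.Agent.H22.KGV

open Cfsg Cfsg.Agent.H19
open scoped ComplexConjugate

universe u

variable {N : ℕ} [NeZero N] {M : Ideal AlgInt} {p : ℕ} [hp : Fact p.Prime]

section Lin

variable {H : Type*} [Group H] [Fintype H] {W : Type u} [AddCommGroup W] [Module (ZMod p) W]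

/-- A square root of Knörr's character. -/
def Good (N : ℕ) (M : Ideal AlgInt) (σ : Representation (ZMod p) H W) : Prop :=
  ∃ γ : H → ℂ, IsA N γ ∧ (∀ h, γ h * conj (γ h) * Nat.card {w // σ h w = w} = Nat.card W) ∧
    ∀ h, (∃ w, σ h w ≠ w) → val M (γ h) < 1

/-- restriction to an invariant submodule -/
abbrev sub (σ : Representation (ZMod p) H W) {U : Submodule (ZMod p) W} (hU : SInv σ U) :
    Representation (ZMod p) H U := σ.subrepresentation U fun g u hu => hU g u hu

omit [Fintype H] in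
theorem sub_apply {σ : Representation (ZMod p) H W} {U : Submodule (ZMod p) W} (hU : SInv σ U)
    (h : H) (u : U) : (sub σ hU h u : W) = σ h u := rfl

theorem Good.of_isCompl (hN : Nat.card H ∣ N) {σ : Representation (ZMod p) H W}
    {U U' : Submodule (ZMod p) W} (hU : SInv σ U) (hU' : SInv σ U') (hc : IsCompl U U')
    (h1 : Good N M (sub σ hU)) (h2 : Good N M (sub σ hU')) : Good N M σ := by
  obtain ⟨γ, a1, a2, a3⟩ := h1
  obtain ⟨δ, b1, b2, b3⟩ := h2
  let e := Submodule.prodEquivOfIsCompl U U' hc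
  have he : ∀ h x y, σ h (e (x, y)) = e (sub σ hU h x, sub σ hU' h y) := fun h x y => by
    simp [e, sub_apply]
  refine ⟨γ * δ, a1.mul b1, fun h => ?_, fun h ⟨w, hw⟩ => ?_⟩
  · have e1 : Nat.card {w // σ h w = w} =
        Nat.card {w // sub σ hU h w = w} * Nat.card {w // sub σ hU' h w = w} := by
      rw [← Nat.card_prod]
      refine Nat.card_congr ((Equiv.subtypeProdEquivProd.symm.trans
        (e.toEquiv.subtypeEquiv fun x => ?_)).symm)
      obtain ⟨x, y⟩ := x
      rw [LinearEquiv.coe_toEquiv, he, e.injective.eq_iff, Prod.mk.injEq]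
    rw [e1, ← Nat.card_congr e.toEquiv, Nat.card_prod]
    push_cast
    rw [← a2 h, ← b2 h, Pi.mul_apply, map_mul]
    ring
  · obtain ⟨⟨x, y⟩, rfl⟩ := e.surjective w
    rw [he, e.injective.ne_iff] at hw
    by_cases hx : sub σ hU h x = x
    · exact val_mul_lt_one_right (mem_Vr_of_isIntegral (a1.apply_mem hN h).1)
        (b3 h ⟨y, fun hy => hw (by rw [hx, hy])⟩)
    · exact val_mul_lt_one_left (a3 h ⟨x, hx⟩) (mem_Vr_of_isIntegral (b1.apply_mem hN h).1)

omit [NeZero N] in
theorem good_of_trivial {σ : Representation (ZMod p) H W} (h : ∀ g w, σ g w = w) : Good N M σ :=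
  ⟨fun _ => 1, IsA.const (one_mem _), fun g => by
    rw [Nat.card_congr (Equiv.subtypeUnivEquiv (h g))]; simp, fun g ⟨w, hw⟩ => (hw (h g w)).elim⟩

theorem addChar_pow {A : Type*} [AddCommGroup A] [Module (ZMod p) A] (ψ : AddChar A ℂ) (a : A) :
    ψ a ^ p = 1 := by
  rw [← AddChar.map_nsmul_eq_pow, ZModModule.char_nsmul_eq_zero p, AddChar.map_zero_eq_one]

theorem addChar_mem {A : Type*} [AddCommGroup A] [Module (ZMod p) A] (hpN : p ∣ N)
    (ψ : AddChar A ℂ) (a : A) : ψ a ∈ RN N := by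
  obtain ⟨c, rfl⟩ := hpN
  exact root_mem (by rw [pow_mul, addChar_pow, one_pow])

theorem addChar_val {A : Type*} [AddCommGroup A] [Module (ZMod p) A] (hM : IsPModular p M)
    (ψ : AddChar A ℂ) (a : A) : val M (ψ a - 1) < 1 :=
  val_sub_one_lt_one_of_pow_p_pow hM (k := 1) (by rw [pow_one, addChar_pow])

theorem good_of_irreducible (hN : Nat.card H ∣ N) (hpN : p ∣ N) (hM : IsPModular p M)
    (hc : ∀ a b : H, a * b = b * a) [Finite W] [Nontrivial W] (σ : Representation (ZMod p) H W)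
    (hirr : ∀ U, SInv σ U → U = ⊥ ∨ U = ⊤) : Good N M σ := by
  classical
  letI : CommGroup H := { (inferInstance : Group H) with mul_comm := hc }
  obtain ⟨K, _, _, ι, e, he, -⟩ := exists_field_of_irreducible σ hirr
  haveI : Finite K := Finite.of_equiv _ e.symm.toEquiv
  have := Fintype.ofFinite K
  obtain ⟨E⟩ := MulChar.mulEquiv_units K ℂ
  let ψ := AddChar.FiniteField.primitiveChar_to_Complex K
  have hψ : ψ.IsPrimitive := AddChar.FiniteField.primitiveChar_to_Complex_isPrimitive K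
  have hψ1 : ψ ≠ 1 := by simpa using hψ one_ne_zero
  let χ : H →* MulChar K ℂ := E.symm.toMonoidHom.comp ι.toHomUnits
  have hχ : ∀ h, χ h = 1 ↔ ι h = 1 := fun h => by
    simp [χ, Units.ext_iff]
  have hch : ∀ x : K, IsCharacter H fun h => χ h x := by
    intro x
    by_cases hx : x = 0
    · simp only [hx, MulChar.map_zero]
      exact H11.isCharacter_zero
    · refine H11.isCharacter_of_irr (H11.isIrrCharacter_of_map_mul ?_ fun a b => ?_)
      · rw [map_one, MulChar.one_apply (Ne.isUnit hx)]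
      · rw [map_mul, MulChar.mul_apply]
  refine ⟨fun h => gaussSum (χ h) ψ, ?_, fun h => ?_, fun h ⟨w, hw⟩ => ?_⟩
  · have := IsA.sum (N := N) Finset.univ fun (x : K) _ =>
      (IsA.of_char (hch x)).smul (addChar_mem hpN ψ x)
    convert this using 1
    ext h
    simp [gaussSum, mul_comm]
  · beta_reduce
    by_cases h1 : ι h = 1
    · rw [(hχ h).2 h1, gaussSum_one_left hψ1, Nat.card_congr (Equiv.subtypeUnivEquiv fun w => ?_)]
      · simp
      · obtain ⟨x, rfl⟩ := e.surjective w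
        rw [he, h1, one_mul]
    · have : Unique {w // σ h w = w} := ⟨⟨⟨0, map_zero _⟩⟩, fun ⟨w, hw⟩ => Subtype.ext (by
        obtain ⟨x, rfl⟩ := e.surjective w
        rw [he, e.injective.eq_iff] at hw
        have : x = 0 := by
          by_contra hx
          exact h1 (mul_right_cancel₀ hx (hw.trans (one_mul x).symm))
        simp [this])⟩
      rw [Nat.card_unique, Nat.cast_one, mul_one, ← Nat.card_congr e.toEquiv,
        Nat.card_eq_fintype_card, ← gaussSum_mul_gaussSum_eq_card (mt (hχ h).1 h1) hψ,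
        ← star_gaussSum_eq]
      rfl
  · have h1 : ι h ≠ 1 := fun h1 => hw (by
      obtain ⟨x, rfl⟩ := e.surjective w
      rw [he, h1, one_mul])
    have : gaussSum (χ h) ψ = ∑ x, χ h x * (ψ x - 1) := by
      simp [gaussSum, mul_sub, Finset.sum_sub_distrib,
        MulChar.sum_eq_zero_of_ne_one (mt (hχ h).1 h1)]
    beta_reduce
    rw [this]
    exact val_sum_lt_one fun x _ => val_mul_lt_one_right
      (mem_Vr_of_isIntegral (char_mem hN (hch x) h).1) (addChar_val hM ψ x)

theorem good_of_comm (hN : Nat.card H ∣ N) (hpN : p ∣ N) (hM : IsPModular p M)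
    (hH : ¬ p ∣ Nat.card H) (hc : ∀ a b : H, a * b = b * a) (n : ℕ) :
    ∀ (W : Type u) [AddCommGroup W] [Module (ZMod p) W] [Finite W]
      (σ : Representation (ZMod p) H W), Nat.card W = n → Good N M σ := by
  haveI : NeZero (Nat.card H : ZMod p) := ⟨fun h => hH ((ZMod.natCast_eq_zero_iff _ _).1 h)⟩
  induction n using Nat.strong_induction_on with
  | _ n ih =>
  intro W _ _ _ σ hn
  rcases subsingleton_or_nontrivial W with h0 | h0
  · exact good_of_trivial fun _ _ => Subsingleton.elim _ _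
  by_cases hirr : ∀ U, SInv σ U → U = ⊥ ∨ U = ⊤
  · exact good_of_irreducible hN hpN hM hc σ hirr
  push Not at hirr
  obtain ⟨U, hU, h1, h2⟩ := hirr
  obtain ⟨U', hU', hc'⟩ := hU.exists_isCompl
  have key : ∀ Y : Submodule (ZMod p) W, Y ≠ ⊤ → Nat.card Y < n := fun Y hY => by
    obtain ⟨x, hx⟩ : ∃ x, x ∉ Y := by
      by_contra! h
      exact hY (eq_top_iff.2 fun x _ => h x)
    rw [← hn]
    exact Finite.card_subtype_lt hx
  exact Good.of_isCompl hN hU hU' hc' (ih _ (key U h2) _ _ rfl)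
    (ih _ (key U' fun h => h1 (by simpa [h] using hc'.disjoint)) _ _ rfl)

end Lin

theorem kgv {X : Type*} [Group X] [Finite X] (V : Subgroup X) [V.Normal]
    (hVexp : ∀ v ∈ V, v ^ p = 1) (hidx : ¬ p ∣ V.index)
    (hself : Subgroup.centralizer (V : Set X) = V) (G : Subgroup X)
    (hGV : Subgroup.IsComplement' V G) {v : X} (hv : v ∈ V) (H : Subgroup X) [Fintype H]
    (hH : ∀ h, h ∈ H ↔ h ∈ G ∧ h * v = v * h) :
    ¬ p ∣ Nat.card H ∧ ∃ (N : ℕ) (_ : NeZero N) (M : Ideal AlgInt) (d : ℕ)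
      (σ : Representation (ZMod p) H (Fin d → ZMod p)) (ι : (Fin d → ZMod p) → X),
      Nat.card H ∣ N ∧ p ∣ N ∧ IsPModular p M ∧ Function.Injective ι ∧ (∀ w, ι w ∈ V) ∧
      (∀ x ∈ V, ∃ w, ι w = x) ∧ ι 0 = 1 ∧ (∀ w w', ι (w + w') = ι w * ι w') ∧
      (∀ (h : H) w, ι (σ h w) = h * ι w * (h : X)⁻¹) ∧
      ∀ U (hU : SInv σ U), (∀ h, (∀ u ∈ U, σ h u = u) → h = 1) → Good N M (sub σ hU) →
        Nat.card (ConjClasses X) ≤ Nat.card V := by
  have hcomm : ∀ a ∈ V, ∀ b ∈ V, a * b = b * a := fun a ha b hb => by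
    rw [← hself] at hb
    exact hb a ha
  have hHG : H ≤ G := fun h hh => ((hH h).1 hh).1
  have hHp : ¬ p ∣ Nat.card H := fun h => hidx (by
    rw [hGV.symm.index_eq_card]
    exact h.trans (Subgroup.card_dvd_of_le hHG))
  refine ⟨hHp, ?_⟩
  obtain ⟨M, hM⟩ := exists_isPModular hp.out
  obtain ⟨d, ι, ρ, -, h1, h2, h3, h4, h5, h6⟩ :=
    H62.exists_conjRep V (p := p) ⟨⟨fun a b => Subtype.ext (hcomm _ a.2 _ b.2)⟩⟩ hVexp
  let σ : Representation (ZMod p) H (Fin d → ZMod p) :=
    (LinearEquiv.automorphismGroup.toLinearMapMonoidHom.comp ρ).comp H.subtype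
  have hσ : ∀ (h : H) w, ι (σ h w) = h * ι w * (h : X)⁻¹ := fun h w => h6 h w
  haveI : NeZero (p * Nat.card X) := ⟨mul_ne_zero hp.out.ne_zero Nat.card_pos.ne'⟩
  refine ⟨p * Nat.card X, inferInstance, M, d, σ, ι,
    (Subgroup.card_subgroup_dvd_card H).mul_left p, dvd_mul_right _ _, hM, h1, h2, h3, h4, h5, hσ,
    fun U hU hf ⟨γ, a1, a2, a3⟩ => ?_⟩
  let K : H → AddSubgroup (Fin d → ZMod p) := fun h => (LinearMap.ker (σ h - 1)).toAddSubgroup
  have hK : ∀ h w, w ∈ K h ↔ σ h w = w := fun h w => by simp [K, sub_eq_zero]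
  have hV : Nat.card V = Nat.card (Fin d → ZMod p) :=
    (Nat.card_congr (Equiv.ofBijective (fun w => (⟨ι w, h2 w⟩ : V))
      ⟨fun a b hab => h1 (congrArg Subtype.val hab),
        fun x => (h3 x x.2).imp fun w hw => Subtype.ext hw⟩)).symm
  have hd : ∀ h, γ h * conj (γ h) = (K h).relIndex U.toAddSubgroup := fun h => by
    have e1 : Nat.card {w // sub σ hU h w = w} =
        Nat.card ((K h).addSubgroupOf U.toAddSubgroup) :=
      Nat.card_congr (Equiv.subtypeEquivRight fun w => by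
        rw [AddSubgroup.mem_addSubgroupOf, hK, Subtype.ext_iff]; rfl)
    have e2 := a2 h
    have e3 := ((K h).addSubgroupOf U.toAddSubgroup).card_mul_index
    rw [e1, show Nat.card U = Nat.card U.toAddSubgroup from rfl, ← e3, Nat.cast_mul,
      mul_comm] at e2
    exact mul_left_cancel₀ (Nat.cast_ne_zero.2 Nat.card_pos.ne') e2
  refine core (N := p * Nat.card X) (dvd_mul_left _ _) hM H (hVexp v hv)
    (fun h hh => ((hH h).1 hh).2) hHp
    (fun χ h => hidx (h.trans (H24.deg_dvd_index_of_comm χ.2 V hcomm))) a1 _ hd ?_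
    (fun h hh => a3 h ?_) _ fun h => ?_
  · rw [AddSubgroup.relIndex_eq_one]
    exact fun w _ => (hK _ _).2 (by simp)
  · by_contra! h0
    exact hh (hf h fun u hu => congrArg Subtype.val (h0 ⟨u, hu⟩))
  have e1 : Nat.card (Subgroup.centralizer ({(h : X) * v} : Set X)) ≤
      Nat.card (K h) * Nat.card (Subgroup.centralizer ({h} : Set H)) := by
    rw [← Nat.card_prod]
    refine Nat.card_le_card_of_surjective
      (f := fun t : {t : K h × Subgroup.centralizer ({h} : Set H) //
        ι t.1 * t.2 ∈ Subgroup.centralizer ({(h : X) * v} : Set X)} =>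
        (⟨_, t.2⟩ : Subgroup.centralizer ({(h : X) * v} : Set X))) ?_ |>.trans
      (Finite.card_subtype_le _)
    rintro ⟨x, hx⟩
    have hx1 : Commute x (h * v) := Subgroup.mem_centralizer_singleton_iff.1 hx
    have hhv : Commute (h : X) v := ((hH h).1 h.2).2
    have hxv : Commute x v := by
      obtain ⟨m, hm⟩ := exists_pow_eq_self_of_coprime (x := v) (n := Nat.card H)
        (((Nat.Prime.coprime_iff_not_dvd hp.out).2 hHp).symm.coprime_dvd_right
          (orderOf_dvd_of_pow_eq_one (hVexp v hv)))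
      have := (hx1.pow_right (Nat.card H)).pow_right m
      rwa [hhv.mul_pow, ← Subgroup.coe_pow, pow_card_eq_one', OneMemClass.coe_one, one_mul,
        hm] at this
    have hxh : Commute x h := by
      have := hx1.mul_right hxv.inv_right
      rwa [mul_inv_cancel_right] at this
    obtain ⟨⟨w, g⟩, rfl⟩ := hGV.2 x
    dsimp only at hx hxv hxh ⊢
    have hg : (g : X) ∈ H := (hH g).2 ⟨g.2, mul_left_cancel (a := (w : X)) (by
      rw [← mul_assoc, hxv.eq, ← mul_assoc, ← mul_assoc, hcomm _ hv _ w.2])⟩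
    have key := hGV.1 (a₁ := (w, g * ⟨h, hHG h.2⟩))
      (a₂ := (⟨h * w * (h : X)⁻¹, ‹V.Normal›.conj_mem _ w.2 _⟩, ⟨h, hHG h.2⟩ * g)) (by
        show (w : X) * (g * h) = h * w * (h : X)⁻¹ * (h * g)
        rw [← mul_assoc, hxh.eq]; group)
    obtain ⟨u, hu⟩ := h3 w w.2
    refine ⟨⟨(⟨u, (hK _ _).2 (h1 ?_)⟩, ⟨⟨g, hg⟩, Subgroup.mem_centralizer_singleton_iff.2
      (Subtype.ext ?_)⟩), ?_⟩, Subtype.ext ?_⟩
    · rw [hσ, hu]
      exact (congrArg (fun t => (t.1 : X)) key).symm
    · exact congrArg (fun t => (t.2 : X)) key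
    · simpa [hu] using hx
    · simp [hu]
  have e2 : (K h).relIndex U.toAddSubgroup ≤ (K h).index := by
    rw [← AddSubgroup.relIndex_top_right]
    exact AddSubgroup.relIndex_le_of_le_right le_top (by
      rw [AddSubgroup.relIndex_top_right]; exact AddSubgroup.index_ne_zero_of_finite)
  rw [hV, ← (K h).index_mul_card, mul_assoc]
  exact Nat.mul_le_mul e2 e1

end Cfsg.Agent.H22.KGV
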