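import Mathlib
import Cfsg.Agent.H22.KGVb
import Cfsg.Agent.H27.AltBasis
import Cfsg.Agent.H75.WeilSp

/-!
# Knörr's criterion for self-dual modules
-/

set_option autoImplicit false

namespace Cfsg.Agent.H22.KGV

open Cfsg Cfsg.Agent.H19 Module
open LinearMap (BilinForm)
open scoped ComplexConjugate

variable {N : ℕ} [NeZero N] {M : Ideal AlgInt} {p : ℕ} [hp : Fact p.Prime]

variable {H : Type*} [Group H] [Fintype H] {W : Type*} [AddCommGroup W] [Module (ZMod p) W]

theorem val_sum_addChar (hM : IsPModular p M) (ψ : AddChar (ZMod p) ℂ) [Fintype W] [Nontrivial W]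
    (f : W → ZMod p) : val M (∑ w, ψ (f w)) < 1 := by
  have : ∑ w, ψ (f w) = ∑ w, (ψ (f w) - 1) + (Nat.card W : ℕ) := by simp
  rw [this]
  refine val_add_lt_one (val_sum_lt_one fun w _ => addChar_val hM ψ _)
    ((val_natCast_lt_one_iff hM _).2 ?_)
  rw [Module.natCard_eq_pow_finrank (K := ZMod p), Nat.card_zmod]
  exact dvd_pow_self _ Module.finrank_pos.ne'

theorem gauss_mul_conj {ψ : AddChar (ZMod p) ℂ} (hψ : ψ ≠ 1) [Fintype W]
    (B : BilinForm (ZMod p) W) (hnd : ∀ z, (∀ w, B z w + B w z = 0) → z = 0) :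
    (∑ w, ψ (B w w)) * conj (∑ w, ψ (B w w)) = Nat.card W := by
  classical
  obtain ⟨a, ha⟩ := AddChar.ne_one_iff.1 hψ
  have h1 : ∀ w, (∑ u, ψ (B u u)) * conj (ψ (B w w)) =
      ∑ z, ψ (B z z) * ψ (B z w + B w z) := fun w => by
    rw [← Equiv.sum_comp (Equiv.addRight w), Finset.sum_mul]
    refine Finset.sum_congr rfl fun z _ => ?_
    rw [← AddChar.map_neg_eq_conj, ← AddChar.map_add_eq_mul, ← AddChar.map_add_eq_mul]
    congr 1
    simp only [Equiv.coe_addRight, map_add, LinearMap.add_apply]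
    ring
  rw [map_sum, Finset.mul_sum, Finset.sum_congr rfl fun w _ => h1 w, Finset.sum_comm,
    Finset.sum_eq_single 0 (fun z _ hz => ?_) (by simp)]
  · simp
  rw [← Finset.mul_sum]
  refine mul_eq_zero_of_right _ ?_
  obtain ⟨w, hw⟩ : ∃ w, B z w + B w z ≠ 0 := by
    by_contra! h
    exact hz (hnd z h)
  refine (AddChar.sum_eq_zero_iff_ne_zero
    (ψ := ψ.compAddMonoidHom (B z + B.flip z).toAddMonoidHom)).2
    (AddChar.ne_one_iff.2 ⟨(a / (B z w + B w z)) • w, ?_⟩)
  rw [AddChar.compAddMonoidHom_apply, LinearMap.toAddMonoidHom_coe, map_smul, smul_eq_mul]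
  erw [div_mul_cancel₀ _ hw]
  exact ha

theorem isCompl_ker_range [Finite W] {T : End (ZMod p) W} {n : ℕ} (hn : ¬ p ∣ n) (hT : T ^ n = 1) :
    IsCompl (LinearMap.ker (T - 1)) (LinearMap.range (T - 1)) := by
  rw [Submodule.isCompl_iff_disjoint _ _
    (by rw [add_comm, LinearMap.finrank_range_add_finrank_ker]), Submodule.disjoint_def]
  rintro w hw ⟨u, rfl⟩
  have h1 : T ((T - 1) u) = (T - 1) u := by simpa [sub_eq_zero] using hw
  have h2 := congrArg (fun f : End (ZMod p) W => f u) (geom_sum_mul T n)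
  simp only [hT, sub_self, End.mul_apply, LinearMap.sum_apply, LinearMap.zero_apply,
    End.pow_apply, Function.iterate_fixed h1, Finset.sum_const, Finset.card_range,
    ← Nat.cast_smul_eq_nsmul (ZMod p), smul_eq_zero, ZMod.natCast_eq_zero_iff] at h2
  exact h2.resolve_left hn

theorem good_of_quad (hN : Nat.card H ∣ N) (hpN : p ∣ N) (hM : IsPModular p M)
    (hH : ¬ p ∣ Nat.card H) [Finite W] {σ : Representation (ZMod p) H W}
    {B : BilinForm (ZMod p) W} (hB : BInv σ B) (hnd : ∀ z, (∀ w, B z w + B w z = 0) → z = 0) :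
    Good N M σ := by
  classical
  have := Fintype.ofFinite W
  let ψ : AddChar (ZMod p) ℂ := ZMod.stdAddChar
  have hψ : ψ ≠ 1 := by simpa using ZMod.isPrimitive_stdAddChar p one_ne_zero
  let C : H → Submodule (ZMod p) W := fun h => LinearMap.ker (σ h - 1)
  let D : H → Submodule (ZMod p) W := fun h => LinearMap.range (σ h - 1)
  have hC : ∀ h w, w ∈ C h ↔ σ h w = w := fun h w => by simp [C, sub_eq_zero]
  have hc : ∀ h, IsCompl (C h) (D h) := fun h =>
    isCompl_ker_range hH (by rw [← map_pow, pow_card_eq_one', map_one])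
  have ho : ∀ h (c : C h) (d : D h), B c d = 0 ∧ B d c = 0 := by
    rintro h ⟨c, hc⟩ ⟨_, u, rfl⟩
    have h1 := hB h c u
    have h2 := hB h u c
    rw [(hC h c).1 hc] at h1 h2
    simp [h1, h2]
  let γ : H → ℂ := fun h => ∑ d : D h, ψ (B d d)
  letI : MulAction H W := MulAction.compHom W (σ : H →* End (ZMod p) W)
  have h1 : IsA N fun h : H => ∑ y with h • y = y, ψ (B y y) :=
    IsA.sum_fixed _ (fun y => addChar_mem hpN ψ _) fun h y => congrArg ψ (hB h y y)
  have h2 : ∀ h : H, γ h * (∑ y with h • y = y, ψ (B y y)) = ∑ w, ψ (B w w) := fun h => by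
    rw [Finset.sum_subtype (p := (· ∈ C h)) _ (fun y => by rw [hC]; simp; rfl), mul_comm,
      Finset.sum_mul_sum, ← (Submodule.prodEquivOfIsCompl _ _ (hc h)).toEquiv.sum_comp,
      Fintype.sum_prod_type]
    refine Finset.sum_congr rfl fun c _ => Finset.sum_congr rfl fun d _ => ?_
    simp [← AddChar.map_add_eq_mul, ho h c d]
  have h3 : ∑ w, ψ (B w w) ∈ RN N := sum_mem fun _ _ => addChar_mem hpN ψ _
  refine ⟨γ, IsA.of_mul_eq hN hp.out hH (fun h => sum_mem fun _ _ => addChar_mem hpN ψ _) h1 h3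
    (conj_mem h3) (a := finrank (ZMod p) W) ?_ h2, fun h => ?_, fun h ⟨w, hw⟩ => ?_⟩
  · rw [gauss_mul_conj hψ B hnd, Module.natCard_eq_pow_finrank (K := ZMod p), Nat.card_zmod,
      Nat.cast_pow]
  · have e1 : γ h * conj (γ h) = Nat.card (D h) :=
      gauss_mul_conj hψ (B.restrict (D h)) fun z hz => Subtype.ext (hnd z fun w => by
        obtain ⟨⟨c, d⟩, rfl⟩ := (Submodule.prodEquivOfIsCompl _ _ (hc h)).surjective w
        simpa [ho h c z] using hz d)
    rw [e1, ← Nat.card_congr (Submodule.prodEquivOfIsCompl _ _ (hc h)).toEquiv, Nat.card_prod,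
      Nat.card_congr (Equiv.subtypeEquivRight fun w => (hC h w).symm)]
    push_cast
    ring
  · have : Nontrivial (D h) := Submodule.nontrivial_iff_ne_bot.2 fun h0 => hw (by
      have : (σ h - 1) w ∈ D h := ⟨w, rfl⟩
      simpa [h0, sub_eq_zero] using this)
    exact val_sum_addChar hM ψ fun d : D h => B d d

theorem good_of_alt_two (hN : Nat.card H ∣ N) (hpN : p ∣ N) (hM : IsPModular p M)
    (hH : ¬ p ∣ Nat.card H) [Finite W] {σ : Representation (ZMod p) H W}
    {A : BilinForm (ZMod p) W} (hA : BInv σ A) (halt : ∀ x, A x x = 0)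
    (hnd : ∀ z, (∀ w, A z w = 0) → z = 0) (h2 : (2 : ZMod p) = 0) : Good N M σ := by
  classical
  let b := Module.finBasis (ZMod p) W
  let B : BilinForm (ZMod p) W :=
    Matrix.toBilin b (Matrix.of fun i j => if i < j then A (b i) (b j) else 0)
  have h1 : ∀ i j, B (b i) (b j) = if i < j then A (b i) (b j) else 0 := fun i j => by
    rw [← LinearMap.BilinForm.toMatrix_apply b, LinearMap.BilinForm.toMatrix_toBilin,
      Matrix.of_apply]
  have h3 : B + B.flip = A := LinearMap.BilinForm.ext_basis b fun i j => by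
    rw [LinearMap.add_apply, LinearMap.add_apply, LinearMap.BilinForm.flip_apply, h1, h1]
    rcases lt_trichotomy i j with h | rfl | h
    · simp [h, h.le]
    · simp [halt]
    · rw [if_neg h.not_gt, if_pos h, alt_swap halt]
      linear_combination -A (b i) (b j) * h2
  have h4 : ∀ x y, B x y + B y x = A x y := fun x y => by rw [← h3]; rfl
  let B' : BilinForm (ZMod p) W := ∑ h, B.compl₁₂ (σ h) (σ h)
  have h5 : ∀ x y, B' x y = ∑ h, B (σ h x) (σ h y) := fun x y => by
    simp [B', LinearMap.sum_apply]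
  refine good_of_quad hN hpN hM hH (B := B') (fun g x y => ?_) fun z hz => hnd z fun w => ?_
  · rw [h5, h5, ← Equiv.sum_comp (Equiv.mulRight g) fun h => B (σ h x) (σ h y)]
    simp
  · have := hz w
    rw [h5, h5, ← Finset.sum_add_distrib] at this
    simp only [h4, hA _ _ _, Finset.sum_const, Finset.card_univ, nsmul_eq_mul, mul_eq_zero,
      ZMod.natCast_eq_zero_iff, ← Nat.card_eq_fintype_card] at this
    exact this.resolve_left hH

open H75 Matrix in
theorem weil_aux {l : Type*} [Fintype l] [DecidableEq l] (hM : IsPModular p M)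
    (h2 : (2 : ZMod p) ≠ 0) {ψ : AddChar (ZMod p) ℂ} (hψ : ψ ≠ 1)
    (ρ : Representation ℂ (symplecticGroup l (ZMod p)) ((l → ZMod p) → ℂ))
    (hρ : ∀ g v, ρ g * heis ψ v = heis ψ (g • v) * ρ g) (g : symplecticGroup l (ZMod p)) :
    IsIntegral ℤ ((p : ℂ) ^ Fintype.card l / ρ.character g⁻¹) ∧
      ((∃ v : l ⊕ l → ZMod p, g • v ≠ v) →
        val M ((p : ℂ) ^ Fintype.card l / ρ.character g⁻¹) < 1) := by
  classical
  let E : (l ⊕ l → ZMod p) → End ℂ ((l → ZMod p) → ℂ) := fun v => heis ψ v * ρ g * heis ψ (-v)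
  have h1 : ∀ u v, heis ψ u * E v * heis ψ (-u) = E (u + v) := fun u v => by
    have : heis ψ u * E v * heis ψ (-u) =
        (heis ψ u * heis ψ v) * ρ g * (heis ψ (-v) * heis ψ (-u)) := by
      simp only [E, mul_assoc]
    rw [this, heis_mul ψ h2, heis_mul ψ h2, smul_mul_assoc, smul_mul_smul_comm,
      ← AddChar.map_add_eq_mul, LinearMap.BilinForm.neg_left, LinearMap.BilinForm.neg_right,
      neg_neg, ← H27.jBilin_isAlt.neg_eq u v, mul_neg, neg_neg, neg_add_cancel,
      AddChar.map_zero_eq_one, one_smul, ← neg_add_rev]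
  have h3 : ∀ u, heis ψ u * ∑ v, E v = (∑ v, E v) * heis ψ u := fun u => by
    have : heis ψ u * (∑ v, E v) * heis ψ (-u) = ∑ v, E v := by
      rw [Finset.mul_sum, Finset.sum_mul, Finset.sum_congr rfl fun v _ => h1 u v]
      exact Equiv.sum_comp (Equiv.addLeft u) E
    have h4 := heis_mul_neg ψ h2 (-u)
    rw [neg_neg] at h4
    rw [← this, mul_assoc _ (heis ψ (-u)), h4, mul_one, this]
  obtain ⟨c, hc⟩ := exists_smul_one_of_comm (∑ v, E v) fun X => by
    have := (heisBasis l h2 hψ).ext (f₁ := LinearMap.mulRight ℂ (∑ v, E v))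
      (f₂ := LinearMap.mulLeft ℂ (∑ v, E v)) fun v => by
        simpa [heisBasis_apply] using h3 v
    exact LinearMap.congr_fun this X
  have hp0 : (p : ℂ) ^ Fintype.card l ≠ 0 := pow_ne_zero _ (Nat.cast_ne_zero.2 hp.out.ne_zero)
  have h4 : c = (p : ℂ) ^ Fintype.card l * ρ.character g := by
    have := congrArg (LinearMap.trace ℂ _) hc
    have h5 : ∀ v, LinearMap.trace ℂ _ (E v) = ρ.character g := fun v => by
      have h6 := heis_mul_neg ψ h2 (-v)
      rw [neg_neg] at h6
      rw [LinearMap.trace_mul_cycle, h6, one_mul]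
      rfl
    simp only [map_sum, h5, Finset.sum_const, Finset.card_univ, Fintype.card_fun, ZMod.card,
      Fintype.card_sum, map_smul, LinearMap.trace_one, finrank_fintype_fun_eq_card, nsmul_eq_mul,
      smul_eq_mul, Nat.cast_pow, pow_add, Nat.cast_mul] at this
    exact mul_right_cancel₀ hp0 (by linear_combination -this)
  let C : Submodule (ZMod p) (l ⊕ l → ZMod p) :=
    LinearMap.ker ((H27.spToLin l (ZMod p) g).toLinearMap - 1)
  have hC : ∀ v, v ∈ C ↔ g • v = v := fun v => by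
    simp [C, sub_eq_zero, H27.spToLin_apply, H27.sp_smul_def]
  obtain ⟨S, hS⟩ := C.exists_isCompl
  have h5 : ∑ v, E v = (Nat.card C : ℂ) • ∑ s : S, E s := by
    rw [← Equiv.sum_comp (Submodule.prodEquivOfIsCompl _ _ hS).toEquiv, Fintype.sum_prod_type,
      Finset.sum_congr rfl (g := fun _ => ∑ s : S, E s) fun c _ =>
        Finset.sum_congr rfl fun s _ => ?_]
    · rw [Finset.sum_const, Finset.card_univ, Nat.card_eq_fintype_card, Nat.cast_smul_eq_nsmul]
    have h6 := hρ g c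
    rw [(hC _).1 c.2] at h6
    rw [LinearEquiv.coe_toEquiv, Submodule.coe_prodEquivOfIsCompl', add_comm, ← h1]
    simp only [E]
    rw [← h6, mul_assoc (ρ g), heis_mul_neg ψ h2, mul_one]
  have h6 : ρ.character g⁻¹ * ρ.character g = Nat.card C := by
    rw [weilSp_char_mul h2 hψ ρ hρ, H11.permChar_apply]
    exact congrArg _ (Nat.card_congr (Equiv.subtypeEquivRight fun v => (hC v).symm))
  have hC0 : (Nat.card C : ℂ) ≠ 0 := Nat.cast_ne_zero.2 Nat.card_pos.ne'
  set t := (p : ℂ) ^ Fintype.card l / ρ.character g⁻¹ with ht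
  let a : S → ZMod p := fun s => -(2⁻¹ * H27.jBilin l (ZMod p) s (g • -s.1))
  let B : End ℂ ((l → ZMod p) → ℂ) := ∑ s : S, ψ (a s) • heis ψ (s.1 + g • -s.1)
  have h7 : B = t • ρ g⁻¹ := by
    have h8 : B * ρ g = ∑ s : S, E s := by
      rw [Finset.sum_mul]
      refine Finset.sum_congr rfl fun s _ => ?_
      simp only [E]
      rw [mul_assoc, hρ, ← mul_assoc, heis_mul ψ h2]
    have h9 : ∑ s : S, E s = t • 1 := by
      refine smul_right_injective _ hC0 ?_
      beta_reduce
      rw [← h5, hc, smul_smul, h4, ht, ← h6]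
      congr 1
      field_simp [left_ne_zero_of_mul (h6 ▸ hC0)]
    rw [← mul_one B, ← map_one ρ, ← mul_inv_cancel g, map_mul, ← mul_assoc, h8, h9, smul_mul_assoc,
      one_mul]
  have h8 : ∀ (I : AddSubmonoid ℂ), (∀ x, ∀ z ∈ I, ψ x * z ∈ I) → ∀ f, (∀ x, f x ∈ I) →
      ∀ k x, (B ^ k) f x ∈ I := by
    intro I hI f hf k
    induction k with
    | zero => exact hf
    | succ k ih =>
      intro x
      rw [pow_succ', End.mul_apply]
      simp only [B, LinearMap.sum_apply, Finset.sum_apply, LinearMap.smul_apply, Pi.smul_apply,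
        smul_eq_mul, heis_apply]
      exact sum_mem fun s _ => hI _ _ (hI _ _ (ih _))
  obtain ⟨n, hn⟩ : ∃ n, g⁻¹ ^ (n + 1) = 1 :=
    ⟨orderOf g⁻¹ - 1, by rw [Nat.sub_add_cancel (orderOf_pos _), pow_orderOf_eq_one]⟩
  have h9 : (B ^ (n + 1)) 1 0 = t ^ (n + 1) := by
    rw [h7, smul_pow, ← map_pow, hn, map_one ρ]
    simp
  have hi : ∀ x, IsIntegral ℤ (ψ x) := fun x =>
    isIntegral_of_pow_eq_one hp.out.ne_zero (addChar_pow ψ x)
  refine ⟨IsIntegral.of_pow n.succ_pos ?_, fun ⟨v, hv⟩ => ?_⟩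
  · rw [← h9]
    exact h8 (integralClosure ℤ ℂ).toAddSubmonoid (fun x z hz => (hi x).mul hz) _
      (fun _ => isIntegral_one) _ _
  · have : Nontrivial S := Submodule.nontrivial_iff_ne_bot.2 fun h0 => hv ((hC v).1 (by
      rw [h0] at hS
      rw [eq_top_of_isCompl_bot hS]; trivial))
    have h10 : val M (t ^ (n + 1)) < 1 := by
      rw [← h9, pow_succ, End.mul_apply]
      refine h8 ⟨⟨{z | val M z < 1}, val_add_lt_one⟩, by simp⟩
        (fun x z hz => val_mul_lt_one_right (mem_Vr_of_isIntegral (hi x)) hz) _ (fun x => ?_) _ _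
      simp only [B, LinearMap.sum_apply, Finset.sum_apply, LinearMap.smul_apply, Pi.smul_apply,
        smul_eq_mul, heis_apply, Pi.one_apply, mul_one, ← AddChar.map_add_eq_mul]
      exact val_sum_addChar hM ψ _
    rw [map_pow] at h10
    exact lt_of_not_ge fun h => h10.not_ge (one_le_pow_of_one_le' h _)

open H75 Matrix in
theorem good_of_alt_odd (hN : Nat.card H ∣ N) (hM : IsPModular p M)
    (hH : ¬ p ∣ Nat.card H) [Finite W] {σ : Representation (ZMod p) H W}
    {A : BilinForm (ZMod p) W} (hA : BInv σ A) (halt : ∀ x, A x x = 0)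
    (hnd : ∀ z, (∀ w, A z w = 0) → z = 0) (h2 : (2 : ZMod p) ≠ 0) : Good N M σ := by
  classical
  have hA' : A.Nondegenerate :=
    ⟨hnd, fun z hz => hnd z fun w => by rw [alt_swap halt, hz, neg_zero]⟩
  obtain ⟨m, hm⟩ := H27.even_finrank_of_alt hA' halt
  obtain ⟨φ, hφ⟩ := H27.exists_equiv_jBilin hA' halt (m := m) (by omega)
  let τ : H →* symplecticGroup (Fin m) (ZMod p) := MonoidHom.mk'
    (fun h => ⟨LinearMap.toMatrix' (φ.symm.conj (σ h)), H27.toMatrix'_mem_sp fun u v => by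
      simp [← hφ, LinearEquiv.conj_apply, hA h]⟩) fun a b => Subtype.ext (by
      simp [← LinearMap.toMatrix'_mul, LinearEquiv.conj_apply, End.mul_eq_comp,
        LinearMap.comp_assoc])
  have hτ : ∀ h v, φ (τ h • v) = σ h (φ v) := fun h v => by
    simp [τ, H27.sp_smul_def, LinearMap.toMatrix'_mulVec, LinearEquiv.conj_apply]
  let ψ : AddChar (ZMod p) ℂ := ZMod.stdAddChar
  have hψ : ψ ≠ 1 := by simpa using ZMod.isPrimitive_stdAddChar p one_ne_zero
  obtain ⟨ρ, hρ, -⟩ := exists_weilSp (l := Fin m) h2 hψ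
  have h1 : IsCharacter H fun h => ρ.character (τ h) :=
    H11.isCharacter_comp (H11.isCharacter_character ρ) τ
  have h3 : IsCharacter H fun h => ρ.character (τ h)⁻¹ := by
    simpa using H11.isCharacter_comp_inv h1
  have h4 : ∀ h, ρ.character (τ h)⁻¹ * conj (ρ.character (τ h)⁻¹) =
      Nat.card {w // σ h w = w} := fun h => by
    rw [← map_inv, H11.conj_apply h1 h⁻¹, inv_inv, map_inv, weilSp_char_mul h2 hψ ρ hρ,
      H11.permChar_apply]
    exact congrArg _ (Nat.card_congr (φ.toEquiv.subtypeEquiv fun v => by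
      rw [MulAction.mem_fixedBy, LinearEquiv.coe_toEquiv, ← hτ, φ.injective.eq_iff]))
  have h5 : ∀ h, (Nat.card {w // σ h w = w} : ℂ) ≠ 0 := fun h =>
    have : Nonempty {w // σ h w = w} := ⟨⟨0, map_zero _⟩⟩
    Nat.cast_ne_zero.2 Nat.card_pos.ne'
  have h6 : ∀ h, ρ.character (τ h)⁻¹ ≠ 0 := fun h => left_ne_zero_of_mul (h4 h ▸ h5 h)
  have h7 : (p : ℂ) ^ Fintype.card (Fin m) ∈ RN N := pow_mem (natCast_mem _ p) _
  refine ⟨fun h => (p : ℂ) ^ Fintype.card (Fin m) / ρ.character (τ h)⁻¹,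
    IsA.of_mul_eq hN hp.out hH (fun h => ⟨(weil_aux hM h2 hψ ρ hρ _).1,
      div_mem h7.2 (char_mem hN h3 h).2⟩) (IsA.of_char h3) h7 (one_mem _) (mul_one _)
      fun h => div_mul_cancel₀ _ (h6 h), fun h => ?_,
    fun h ⟨w, hw⟩ => (weil_aux hM h2 hψ ρ hρ _).2 ⟨φ.symm w, fun h0 => hw ?_⟩⟩
  · rw [← h4, Module.natCard_eq_pow_finrank (K := ZMod p), Nat.card_zmod, hm, map_div₀]
    have := h6 h
    have := (map_ne_zero (starRingEnd ℂ)).2 (h6 h)
    simp only [Fintype.card_fin, map_pow, map_natCast, pow_add, Nat.cast_mul, Nat.cast_pow]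
    field_simp
  · simpa [hτ] using congrArg φ h0

theorem good_of_selfDual (hN : Nat.card H ∣ N) (hpN : p ∣ N) (hM : IsPModular p M)
    (hH : ¬ p ∣ Nat.card H) [Finite W] {σ : Representation (ZMod p) H W}
    {B : BilinForm (ZMod p) W} (hB : BInv σ B) (hnd : B.Nondegenerate) : Good N M σ := by
  haveI : NeZero (Nat.card H : ZMod p) := ⟨fun h => hH ((ZMod.natCast_eq_zero_iff _ _).1 h)⟩
  obtain ⟨U, U', A, S, h, htop⟩ := exists_sdGood (ρ := σ) hnd hB
  have hA : BInv (sub σ h.invU) (A.restrict U) := fun g x y => h.invA g x y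
  have hA1 : ∀ z, (∀ w, A.restrict U z w = 0) → z = 0 := fun z hz =>
    Subtype.ext (h.ndA _ z.2 fun y hy => hz ⟨y, hy⟩)
  refine Good.of_isCompl hN h.invU h.invW
    ⟨Submodule.disjoint_def.2 h.disj, codisjoint_iff.2 htop⟩ ?_ ?_ <;>
    by_cases h2 : (2 : ZMod p) = 0
  · exact good_of_alt_two hN hpN hM hH hA (fun x => h.alt x) hA1 h2
  · exact good_of_alt_odd hN hM hH hA (fun x => h.alt x) hA1 h2
  · exact good_of_trivial fun g w => Subtype.ext (h.triv h2 g w w.2)
  · refine good_of_quad hN hpN hM hH (B := S.restrict U') (fun g x y => h.invS g x y)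
      fun z hz => Subtype.ext (h.ndS _ z.2 fun y hy => mul_left_cancel₀ h2 ?_)
    have : S z y + S y z = 0 := hz ⟨y, hy⟩
    rw [h.sym y] at this
    linear_combination this

end Cfsg.Agent.H22.KGV
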