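import Cfsg.Agent.Lead.KRDefs
import Cfsg.Agent.H22.FongReynolds
import Cfsg.Agent.H22.PSolvBlock
import Cfsg.Agent.H16.ProjTwo
import Cfsg.Agent.H24.PSolv

/-! The Fong reduction for the number of characters in a block of a solvable group. -/

set_option autoImplicit false

namespace Cfsg.Agent.H22.KRB

open Cfsg Cfsg.Agent.Lead.KR

universe u

theorem card_above_le {G : Type u} [Group G] [Finite G] {N : Subgroup G} [N.Normal]
    {θ : IrrCharacter N} (hinv : ∀ g, cjIrr N g θ = θ) :
    Nat.card (above N {θ}) ≤ Nat.card (ConjClasses (G ⧸ N)) := by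
  have h1 := H23.card_over_eq_card_good le_top H23.le_normalizer' (H16.invBy_of_cjIrr hinv)
    ((QuotientGroup.mk' N).comp (⊤ : Subgroup G).subtype)
    (fun q => by obtain ⟨g, rfl⟩ := QuotientGroup.mk_surjective q; exact ⟨⟨g, trivial⟩, rfl⟩)
    (fun g => QuotientGroup.eq_one_iff _)
  refine le_trans (Eq.trans (Nat.card_congr (H23.topIrr.subtypeEquiv fun χ => ?_)) h1).le
    (Finite.card_subtype_le _)
  exact mem_above_singleton.trans (H16.over_iff_mult χ)

theorem blk : BlkStmt.{u} := by
  intro G _ _ hs p _ M hM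
  refine H1.card_induction (P := fun G _ _ => Group.IsSolvable G → ∀ B : Set (IrrCharacter G),
    IsPBlock M B → ∃ (X : Type u) (_ : Group X) (_ : Finite X), Group.IsSolvable X ∧
      pPrimeCore p X = ⊥ ∧ (Nat.card X).factorization p = blockDefect p B ∧
      Set.ncard B ≤ Nat.card (ConjClasses X)) ?_ G hs
  clear hs
  intro G _ _ ih hs B hB
  have := Fintype.ofFinite G
  have := H3.pPrimeCore_characteristic p G
  have hKp := H3.not_dvd_card_pPrimeCore p G
  obtain ⟨χ, hχ⟩ := H21.block_nonempty hM.2.1 hB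
  obtain ⟨θ, hθ⟩ := exists_under (pPrimeCore p G) χ
  have hb : IsPBlock M {θ} := isPBlock_singleton_of_not_dvd hM hKp θ
  have hc : Covers (pPrimeCore p G) B {θ} := ⟨χ, hχ, θ, rfl, hθ⟩
  by_cases hT : stab (pPrimeCore p G) {θ} = ⊤
  · have hst : ∀ g, g ∈ stab (pPrimeCore p G) {θ} := fun g => hT ▸ Subgroup.mem_top g
    have := H3.pPrimePCore_normal p G
    obtain ⟨k, hk⟩ := exists_relIndex_pPrimePCore (p := p) (G := G)
    have hA := isPBlock_above_of_selfCent hM hKp (H3.pPrimeCore_le_pPrimePCore p G) hk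
      (selfCent_of_isPSolvable (H24.isPSolvable_of_isSolvable hM.1 G hs)) hb fun g _ => hst g
    obtain rfl := H21.block_eq_of_mem hM.2.1 hB hA hχ (mem_above_singleton.2 hθ)
    obtain ⟨P⟩ : Nonempty (Sylow p G) := inferInstance
    refine ⟨G ⧸ pPrimeCore p G, inferInstance, inferInstance, inferInstance,
      H3.pPrimeCore_quotient_pPrimeCore p G, ?_,
      card_above_le fun g => mem_stab_singleton.1 (hst g)⟩
    rw [(H17.dg_sylow_iff hM hA P).1 (isDefectGroup_sylow_above hM hKp hb hst hA P),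
      Subgroup.card_eq_card_quotient_mul_card_subgroup (pPrimeCore p G),
      Nat.factorization_mul Nat.card_pos.ne' Nat.card_pos.ne', Finsupp.add_apply,
      Nat.factorization_eq_zero_of_not_dvd hKp, add_zero]
  · obtain ⟨B', h1, -, h2, rfl⟩ := hc.exists_fr hM.2.1 hb (le_stab _ _) le_rfl hB
    obtain ⟨X, _, _, h3, h4, h5, h6⟩ := ih _ (H1.card_subgroup_lt hT) inferInstance B' h1
    exact ⟨X, inferInstance, inferInstance, h3, h4,
      h5.trans (h2.blockDefect_indSet hM.1 (H21.block_nonempty hM.2.1 h1)).symm,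
      h2.card_indSet.trans_le h6⟩

end Cfsg.Agent.H22.KRB
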