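import Mathlib
import Cfsg.Agent.H22.PSolvHeight
import Cfsg.Agent.H24.PKer
import Cfsg.Agent.H24.SylowNorm
import Cfsg.Agent.H62.Derangement
import Cfsg.Agent.H55.Basic

/-!
# Groups whose characters of `p'`-degree have `q'`-degree (Navarro–Wolf)
-/

set_option autoImplicit false

namespace Cfsg.Agent.H22

open Cfsg Cfsg.Agent.H8
open Cfsg.Agent.H18 hiding stab mem_stab stabilizesBlock_iff
open scoped ComplexConjugate Pointwise commutatorElement

universe u

theorem eq_top_of_forall_conj {A : Type*} [Group A] [Finite A] (R : Subgroup A)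
    (h : ∀ x : A, ∃ t : A, t⁻¹ * x * t ∈ R) : R = ⊤ := by
  obtain ⟨h1, -⟩ := H62.transitive_and_fix_one (X := A ⧸ R) (⊥ : Subgroup A) (fun g _ => by
    obtain ⟨t, ht⟩ := h g
    refine ⟨t, ?_⟩
    rw [MulAction.Quotient.smul_coe, smul_eq_mul, eq_comm, QuotientGroup.eq, ← mul_assoc]
    exact ht)
  rw [eq_top_iff]
  intro x _
  obtain ⟨⟨g, hg⟩, h2⟩ := h1.exists_smul_eq ((1 : A) : A ⧸ R) (x : A ⧸ R)
  rw [Subgroup.mem_bot] at hg
  subst hg
  have h3 : ((1 : A) : A ⧸ R) = x := (one_smul A _).symm.trans h2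
  simpa using QuotientGroup.eq.1 h3

variable {G : Type*} [Group G] [Finite G]

theorem exists_conj_in_Cz {N T : Subgroup G} (hTN : T ≤ Nz N)
    (hcop : (Nat.card T).Coprime (Nat.card N)) (hsolv : Group.IsSolvable T) {b b' a : G}
    (hb : b ∈ Cz T) (hb' : b' ∈ Cz T) (ha : a ∈ N) (h : a * b * a⁻¹ = b') :
    ∃ c ∈ N ⊓ Cz T, c * b * c⁻¹ = b' := by
  have hT : T ≤ Nz (N ⊓ Subgroup.centralizer {b}) := by
    refine H4.le_normalizer_inf hTN (H23.le_normalizer_of_conj_mem fun s hs g hg => ?_)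
    rw [Subgroup.mem_centralizer_singleton_iff] at hg ⊢
    have h1 := Subgroup.mem_centralizer_iff.1 hb s hs
    have h2 := Subgroup.mem_centralizer_iff.1 hb s⁻¹ (T.inv_mem hs)
    rw [mul_assoc, h2, ← mul_assoc, mul_assoc s, hg, ← mul_assoc, h1]
    simp only [mul_assoc]
  obtain ⟨n, hn, hc⟩ := H4.exists_centralizer_of_fixed_mod hT
    (hcop.coprime_dvd_right (Subgroup.card_dvd_of_le inf_le_left)) (Or.inl hsolv) (k := a⁻¹)
    (fun s hs => by
      refine Subgroup.mem_inf.2 ⟨?_, ?_⟩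
      · rw [commutatorElement_def, inv_inv]
        exact N.mul_mem (H4.conj_mem_of_mem_normalizer (hTN hs) (N.inv_mem ha)) ha
      · rw [Subgroup.mem_centralizer_singleton_iff, commutatorElement_def, inv_inv]
        have h1 := Subgroup.mem_centralizer_iff.1 hb s hs
        have h2 := Subgroup.mem_centralizer_iff.1 hb' s⁻¹ (T.inv_mem hs)
        have h3 : a * b = b' * a := by rw [← h]; group
        have h4 : a⁻¹ * b' = b * a⁻¹ := by rw [← h]; group
        calc s * a⁻¹ * s⁻¹ * a * b = s * a⁻¹ * (s⁻¹ * b') * a := by rw [mul_assoc _ a, h3]; group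
          _ = s * (a⁻¹ * b') * s⁻¹ * a := by rw [h2]; group
          _ = (s * b) * a⁻¹ * s⁻¹ * a := by rw [h4]; group
          _ = _ := by rw [h1]; group)
  refine ⟨(n * a⁻¹)⁻¹, ⟨N.inv_mem (N.mul_mem hn.1 (N.inv_mem ha)), Subgroup.inv_mem _ hc⟩, ?_⟩
  have h1 : n * b = b * n := Subgroup.mem_centralizer_singleton_iff.1 hn.2
  rw [← h]
  calc (n * a⁻¹)⁻¹ * b * (n * a⁻¹)⁻¹⁻¹ = a * n⁻¹ * (b * n) * a⁻¹ := by group
    _ = _ := by rw [← h1]; group

theorem inf_Cz_le_of_invBy {N S T : Subgroup G} (hST : S ≤ T) (hTN : T ≤ Nz N)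
    (hcop : (Nat.card T).Coprime (Nat.card N)) (hsolv : Group.IsSolvable T)
    (h : ∀ θ : IrrCharacter N, H23.InvBy N S θ.1 → H23.InvBy N T θ.1) : N ⊓ Cz S ≤ Cz T := by
  have hle : N ⊓ Cz T ≤ N ⊓ Cz S :=
    inf_le_inf_left N (Subgroup.centralizer_le (SetLike.coe_subset_coe.2 hST))
  have h1 := H23.card_inv_eq_card_irr hTN hcop.symm hsolv
  have h2 := H23.card_inv_eq_card_irr (hST.trans hTN)
    (hcop.symm.coprime_dvd_right (Subgroup.card_dvd_of_le hST)) (H2.isSolvable_of_le hST hsolv)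
  rw [Nat.card_congr (Equiv.subtypeEquivRight fun θ => ⟨h θ, fun h' => h'.mono hST⟩), h1,
    H11.card_irr_eq_card_conjClasses, H11.card_irr_eq_card_conjClasses] at h2
  have hinj : Function.Injective (ConjClasses.map (Subgroup.inclusion hle)) := by
    intro x y hxy
    obtain ⟨b, rfl⟩ := ConjClasses.mk_surjective x
    obtain ⟨b', rfl⟩ := ConjClasses.mk_surjective y
    obtain ⟨a, ha⟩ := isConj_iff.1 (ConjClasses.mk_eq_mk_iff_isConj.1 hxy)
    obtain ⟨c, hc, h3⟩ := exists_conj_in_Cz hTN hcop hsolv b.2.2 b'.2.2 a.2.1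
      (congrArg Subtype.val ha)
    exact ConjClasses.mk_eq_mk_iff_isConj.2 (isConj_iff.2 ⟨⟨c, hc⟩, Subtype.ext h3⟩)
  have hsurj := (hinj.bijective_of_nat_card_le h2.ge).2
  have h3 : (N ⊓ Cz T).subgroupOf (N ⊓ Cz S) = ⊤ := eq_top_of_forall_conj _ fun x => by
    obtain ⟨y, hy⟩ := hsurj (ConjClasses.mk x)
    obtain ⟨b, rfl⟩ := ConjClasses.mk_surjective y
    obtain ⟨a, ha⟩ := isConj_iff.1 (ConjClasses.mk_eq_mk_iff_isConj.1 hy)
    refine ⟨a, ?_⟩
    rw [← ha, show a⁻¹ * (a * Subgroup.inclusion hle b * a⁻¹) * a = Subgroup.inclusion hle b by group]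
    exact b.2
  exact (Subgroup.subgroupOf_eq_top.1 h3).trans inf_le_right

theorem exists_linear_of_ne_top {p : ℕ} [Fact p.Prime] (hG : IsPGroup p G) {R : Subgroup G}
    (hR : R ≠ ⊤) : ∃ μ : G →* ℂˣ, R ≤ μ.ker ∧ μ ≠ 1 := by
  obtain ⟨M, hM, hRM⟩ := (eq_top_or_exists_le_coatom R).resolve_left hR
  haveI := hG.isNilpotent
  haveI : M.Normal :=
    Subgroup.NormalizerCondition.normal_of_coatom M Group.normalizerCondition_of_isNilpotent hM
  obtain ⟨x, -, hx⟩ := SetLike.exists_of_lt (lt_top_iff_ne_top.2 hM.1)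
  have h1 : Subgroup.zpowers x ⊔ M = ⊤ := hM.2 _ (lt_of_le_of_ne le_sup_right fun h =>
    hx (h ▸ Subgroup.mem_sup_left (Subgroup.mem_zpowers x)))
  have h2 := card_monoidHom_le_ker M (commutator_le_of_sup_comm h1 (by
    rintro _ ⟨i, rfl⟩ _ ⟨j, rfl⟩
    exact zpow_mul_comm x i j))
  have h3 : 1 < M.index := Subgroup.one_lt_index_of_ne_top hM.1
  rw [← h2] at h3
  haveI : Finite {lam : G →* ℂˣ // M ≤ lam.ker} := Nat.finite_of_card_ne_zero (by omega)
  haveI := Finite.one_lt_card_iff_nontrivial.1 h3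
  obtain ⟨μ, hμ⟩ := exists_ne (⟨1, by simp⟩ : {lam : G →* ℂˣ // M ≤ lam.ker})
  exact ⟨μ.1, hRM.trans μ.2, fun h => hμ (Subtype.ext h)⟩

theorem le_of_normal_of_not_dvd_index {q : ℕ} [Fact q.Prime] {N T : Subgroup G} [N.Normal]
    (hN : IsPGroup q N) (hT : ¬ q ∣ T.index) : N ≤ T := by
  obtain ⟨S, hS⟩ := exists_isSylowIn q T
  exact ((hS.trans_of_not_dvd le_top (by rwa [Subgroup.relIndex_top_right])).le_of_le_normalizer
    hN le_top Subgroup.le_normalizer_of_normal).trans hS.le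

theorem navarro_wolf_aux {p q : ℕ} [hp : Fact p.Prime] [hq : Fact q.Prime] (hpq : p ≠ q) (n : ℕ) :
    ∀ (G : Type u) [Group G] [Finite G], Nat.card G = n → IsPSolvable p G → IsPSolvable q G →
      (∀ χ, IsIrrCharacter G χ → ¬ p ∣ charDegree χ → ¬ q ∣ charDegree χ) → ∀ P : Sylow p G,
      ∃ Q : Subgroup G, IsSylowIn q Q ⊤ ∧ (P : Subgroup G) ≤ Nz Q ∧
        ∀ T : Subgroup G, (P : Subgroup G) ≤ T → ¬ q ∣ T.index → Q ≤ T := by
  induction n using Nat.strong_induction_on with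
  | _ n ih =>
  intro G _ _ hn hps hqs h P
  have hPi : ¬ p ∣ (P : Subgroup G).index := P.not_dvd_index
  by_cases hG : (⊤ : Subgroup G) = ⊥
  · obtain ⟨Q, hQ⟩ := exists_isSylowIn q (⊤ : Subgroup G)
    exact ⟨Q, hQ, le_top.trans (hG.le.trans bot_le), fun T _ _ => le_top.trans (hG.le.trans bot_le)⟩
  obtain ⟨N, _, hN0, -, hmin⟩ := H2.exists_minimal_normal_le (⊤ : Subgroup G) hG
  haveI := Fintype.ofFinite N
  have hf := QuotientGroup.mk'_surjective N
  obtain ⟨Q', hQ', hPQ', hT'⟩ := ih _ (hn ▸ H2.card_quotient_lt_of_ne_bot hN0) _ rfl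
    (H53.isPSolvable_quotient hps N) (H53.isPSolvable_quotient hqs N) (fun χ hχ hd => by
      have := h _ (H11.isIrrCharacter_comp_of_surjective hχ _ hf) (by simpa [charDegree] using hd)
      simpa [charDegree] using this) (P.mapSurjective hf)
  rw [Sylow.coe_mapSurjective] at hPQ' hT'
  set L := Q'.comap (QuotientGroup.mk' N) with hLdef
  have hNL : N ≤ L := fun x hx => by
    rw [Subgroup.mem_comap, show QuotientGroup.mk' N x = 1 from (QuotientGroup.eq_one_iff _).2 hx]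
    exact Q'.one_mem
  have hPL : (P : Subgroup G) ≤ Nz L := H23.le_normalizer_of_conj_mem fun s hs g hg => by
    rw [Subgroup.mem_comap, map_mul, map_mul, map_inv]
    exact H4.conj_mem_of_mem_normalizer (hPQ' ⟨s, hs, rfl⟩) hg
  have hLi : ¬ q ∣ L.index := by
    rw [Subgroup.index_comap_of_surjective _ hf, ← Subgroup.relIndex_top_right]
    exact hQ'.not_dvd
  obtain ⟨k, hk⟩ : ∃ k, N.relIndex L = q ^ k := by
    rw [← H3.card_map_mk', Subgroup.map_comap_eq_self_of_surjective hf]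
    exact IsPGroup.iff_card.1 hQ'.isPGroup
  have hL : ∀ T : Subgroup G, (P : Subgroup G) ≤ T → N ≤ T → ¬ q ∣ T.index → L ≤ T := by
    intro T hPT hNT hT
    have h1 := hT' _ (Subgroup.map_mono hPT) fun hd => hT (hd.trans (T.index_map_dvd hf))
    refine (Subgroup.comap_mono h1).trans ?_
    rw [Subgroup.comap_map_eq, QuotientGroup.ker_mk', sup_eq_left.2 hNT]
  have hθ : ∀ θ, IsIrrCharacter N θ → (P : Subgroup G) ≤ H14.inertia N θ →
      ∀ χ, IsIrrCharacter G χ → ¬ p ∣ charDegree χ → classInner (fun n : N => χ n) θ ≠ 0 →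
      L ≤ H14.inertia N θ := fun θ hθ hP χ hχ hd ho =>
    hL _ hP (H14.le_inertia N (H11.isClassFunction_of_irr hθ)) fun hd' => h χ hχ hd
      ((hd'.mul_right _).trans (H24.index_inertia_mul_deg_dvd N hχ hθ ho))
  have hpq' : p.Coprime q := (Nat.coprime_primes hp.out hq.out).2 hpq
  have htop : ∀ {Q}, IsSylowIn q Q L → IsSylowIn q Q ⊤ := fun hQ =>
    hQ.trans_of_not_dvd le_top (by rwa [Subgroup.relIndex_top_right])
  rcases H24.minimal_normal_of_isPSolvable hp.out hps N hN0 hmin with hNp | hNp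
  · obtain ⟨Q, hQ⟩ := exists_isSylowIn q L
    have hNP : N ≤ P := le_of_normal_of_not_dvd_index hNp hPi
    refine ⟨Q, htop hQ, ?_, fun T hPT hT => hQ.le.trans (hL T hPT (hNP.trans hPT) hT)⟩
    by_contra hc
    obtain ⟨μ, hμ, hμ1⟩ := exists_linear_of_ne_top P.isPGroup'
      (R := (Nz Q).subgroupOf P) (fun h => hc (Subgroup.subgroupOf_eq_top.1 h))
    haveI := Fintype.ofFinite (P : Subgroup G)
    obtain ⟨χ, hχ, hd, ho⟩ := H24.exists_over_not_dvd hp.out (P : Subgroup G) hPi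
      (H11.isIrrCharacter_monoidHom μ) (by rw [H24.deg_monoidHom]; exact hp.out.not_dvd_one)
    let lam : IrrCharacter N := ⟨_, H11.isIrrCharacter_monoidHom (μ.comp (Subgroup.inclusion hNP))⟩
    let mu : IrrCharacter (P : Subgroup G) := ⟨_, H11.isIrrCharacter_monoidHom μ⟩
    have ho1 : Over (P : Subgroup G) χ mu.1 := (over_iff _ _ _).2 ho
    have ho2 : Over (N.subgroupOf P) mu.1 (toSub hNP lam).1 :=
      over_of_res_eq fun x => (toSub_apply hNP lam x).symm
    have ho' : Over N χ lam.1 := over_trans hNP (χ := ⟨χ, hχ⟩) ho1 ho2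
    have hinv := hθ _ lam.2 (fun g hg => (H14.mem_inertia' N).2 fun m => by
      change ((μ (⟨g, hg⟩ * ⟨m, hNP m.2⟩ * (⟨g, hg⟩ : (P : Subgroup G))⁻¹) : ℂˣ) : ℂ) = μ ⟨m, hNP m.2⟩
      rw [map_mul, map_mul, map_inv, mul_inv_cancel_comm]) χ hχ hd ((over_iff _ _ _).1 ho')
    have hker : ∀ {x : G} (hx : x ∈ (P : Subgroup G)), μ ⟨x, hx⟩ = 1 →
        x ∈ μ.ker.map (P : Subgroup G).subtype := fun hx h1 => ⟨⟨_, hx⟩, h1, rfl⟩
    have h1 : ⁅N, Q⁆ ≤ μ.ker.map (P : Subgroup G).subtype := by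
      rw [Subgroup.commutator_le]
      intro m hm x hx
      have h2 : μ ⟨x * m⁻¹ * x⁻¹, hNP (Subgroup.Normal.conj_mem inferInstance _ (N.inv_mem hm) x)⟩ =
          μ (⟨m, hNP hm⟩ : (P : Subgroup G))⁻¹ :=
        Units.ext ((H14.mem_inertia' N).1 (hinv (hQ.le hx)) ⟨m⁻¹, N.inv_mem hm⟩)
      refine ⟨⟨m, hNP hm⟩ * ⟨x * m⁻¹ * x⁻¹,
        hNP (Subgroup.Normal.conj_mem inferInstance _ (N.inv_mem hm) x)⟩, ?_, ?_⟩
      · change μ _ = 1
        rw [map_mul, h2, map_inv, mul_inv_cancel]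
      · change m * (x * m⁻¹ * x⁻¹) = _
        rw [commutatorElement_def]; group
    have h2 : N ≤ μ.ker.map (P : Subgroup G).subtype := by
      intro m hm
      obtain ⟨a, ha, c, hc', rfl⟩ := H4.exists_commutator_mul_centralizer (A := Q) (K := N)
        Subgroup.le_normalizer_of_normal
        (IsPGroup.coprime_card_of_ne q p hpq.symm _ _ hQ.isPGroup hNp)
        (Or.inl (H4.isSolvable_of_isPGroup hQ.isPGroup)) hm
      exact Subgroup.mul_mem _ (h1 ha) (hker (hNP hc'.1) (hμ (Cz_le_Nz Q hc'.2)))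
    refine hμ1 (MonoidHom.ext fun g => ?_)
    obtain ⟨l, hl, m, hm, hg⟩ := hQ.frattini (hPL g.2)
    obtain ⟨a, ha, x, hx, rfl⟩ := Subgroup.mem_sup_of_normal_left.1
      (sup_comm Q N ▸ le_sup_of_isSylowIn hk hQ hl)
    have h3 : x * m ∈ (P : Subgroup G) := by
      have : x * m = a⁻¹ * g := by rw [hg]; group
      rw [this]
      exact Subgroup.mul_mem _ (Subgroup.inv_mem _ (hNP ha)) g.2
    have h4 : (g : G) ∈ μ.ker.map (P : Subgroup G).subtype := by
      rw [hg, mul_assoc]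
      exact Subgroup.mul_mem _ (h2 ha)
        (hker h3 (hμ (Subgroup.mul_mem _ (Subgroup.le_normalizer hx) hm)))
    obtain ⟨g', hg', he⟩ := h4
    rwa [show g' = g from Subtype.ext he] at hg'
  rcases H24.minimal_normal_of_isPSolvable hq.out hqs N hN0 hmin with hNq | hNq
  · refine ⟨L, ⟨le_top, hQ'.isPGroup.comap_of_ker_isPGroup _ (by rwa [QuotientGroup.ker_mk']),
      by rwa [Subgroup.relIndex_top_right]⟩, hPL, fun T hPT hT =>
        hL T hPT (le_of_normal_of_not_dvd_index hNq hT) hT⟩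
  have hLp : (Nat.card L).Coprime p := by
    rw [← H3.card_mul_relIndex hNL, hk]
    exact Nat.Coprime.mul_left hNp (hpq'.symm.pow_left k)
  have hPcop : ∀ {X : Subgroup G}, X ≤ L → (Nat.card (P : Subgroup G)).Coprime (Nat.card X) := fun hX =>
    H3.coprime_card_of_isPGroup P.isPGroup' (H3.coprime_card_of_le hX hLp).symm
  have hPs : Group.IsSolvable (P : Subgroup G) := H4.isSolvable_of_isPGroup P.isPGroup'
  obtain ⟨Q₀, hPQ⟩ := H4.exists_invariant_sylow hPL (hPcop le_rfl) (Or.inl hPs) q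
  have hQ := isSylowIn_map_subtype Q₀
  set Q := (Q₀ : Subgroup L).map L.subtype
  have hC : N ⊓ Cz (P : Subgroup G) ≤ Cz (Q ⊔ P) := by
    refine inf_Cz_le_of_invBy le_sup_right Subgroup.le_normalizer_of_normal ?_
      (H55.isSolvable_sup (H4.isSolvable_of_isPGroup hQ.isPGroup) hPs hPQ) fun θ hθP => ?_
    · rw [sup_comm]
      exact H3.coprime_card_sup_of_le_normalizer hPQ (hPcop hNL)
        (H3.coprime_card_of_isPGroup hQ.isPGroup hNq.symm)
    · have hNp' : ¬ p ∣ Nat.card N := (Nat.Prime.coprime_iff_not_dvd hp.out).1 hNp.symm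
      obtain ⟨χ, hχ, hd, ho⟩ := H24.exists_over_not_dvd_of_inv P N hθP
        (fun h => hNp' (h.trans (H24.deg_dvd_card θ.2)))
        (fun h => hNp' (h.trans (H72.detOrder_dvd_card (H11.isCharacter_of_irr θ.2))))
      have h1 := hθ _ θ.2 (fun g hg => (H14.mem_inertia' N).2 fun m => hθP g hg m _ rfl) χ hχ hd ho
      refine H23.InvBy.sup Subgroup.le_normalizer_of_normal Subgroup.le_normalizer_of_normal
        (fun s hs g g' hg => ?_) hθP
      rw [← (H14.mem_inertia' N).1 (h1 (hQ.le hs)) g]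
      exact congrArg θ.1 (Subtype.ext hg)
  refine ⟨Q, htop hQ, hPQ, fun T hPT hT => ?_⟩
  have h1 : L ≤ T ⊔ N := hL _ (le_sup_of_le_left hPT) le_sup_right fun hd =>
    hT (hd.trans (Subgroup.index_dvd_of_le le_sup_left))
  have hPTL : (P : Subgroup G) ≤ Nz (T ⊓ L) :=
    H4.le_normalizer_inf (hPT.trans Subgroup.le_normalizer) hPL
  obtain ⟨R₀, hPR⟩ := H4.exists_invariant_sylow hPTL (hPcop inf_le_right) (Or.inl hPs) q
  have hR := isSylowIn_map_subtype R₀
  set R := (R₀ : Subgroup (T ⊓ L : Subgroup G)).map (T ⊓ L).subtype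
  have h2 : ¬ q ∣ (T ⊓ L).relIndex L := by
    have e1 : L = (T ⊓ L) ⊔ N := by
      refine le_antisymm (fun x hx => ?_) (sup_le inf_le_right hNL)
      obtain ⟨t, ht, m, hm, rfl⟩ := Subgroup.mem_sup_of_normal_right.1 (h1 hx)
      exact Subgroup.mul_mem_sup ⟨ht, (L.mul_mem_cancel_right (hNL hm)).1 hx⟩ hm
    have e2 := H3.card_sup_dvd (T ⊓ L) N
    rw [← e1, ← H3.card_mul_relIndex (inf_le_right : T ⊓ L ≤ L)] at e2
    exact fun hd => (Nat.Prime.coprime_iff_not_dvd hq.out).1 hNq.symm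
      (hd.trans (Nat.dvd_of_mul_dvd_mul_left Nat.card_pos e2))
  have hR' := hR.trans_of_not_dvd inf_le_right h2
  obtain ⟨c, hc, hcQ⟩ := H4.invariant_sylow_conj hPL (hPcop le_rfl) (Or.inl hPs) Q₀ hR'.toSylow hPQ
    (by rw [hR'.map_toSylow]; exact hPR)
  have h3 : MulAut.conj (c : G) • Q = R := by
    rw [H4.conj_smul_map_subtype, ← hR'.map_toSylow, ← hcQ]; rfl
  obtain ⟨x, hx, a, ha, hxa⟩ := Subgroup.mem_sup_of_normal_right.1 (le_sup_of_isSylowIn hk hQ c.2)
  obtain ⟨x', hx', a', ha', he⟩ := H4.exists_centralizer_mul_centralizer hPQ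
    (Subgroup.le_normalizer_of_normal (H := N)) (hPcop (inf_le_right.trans hNL)) (Or.inl hPs) hx ha
    (hxa ▸ hc)
  have h4 : (c : G) ∈ Nz Q := by
    rw [← hxa, he]
    exact Subgroup.mul_mem _ (Subgroup.le_normalizer hx'.1) (Cz_le_Nz Q
      (Subgroup.centralizer_le (SetLike.coe_subset_coe.2 le_sup_left) (hC ha')))
  rw [← mem_normalizer_iff_conj_smul_eq.1 h4, h3]
  exact hR.le.trans inf_le_left

/-- **Navarro–Wolf.** -/
theorem navarro_wolf {G : Type u} [Group G] [Finite G] {p q : ℕ} [Fact p.Prime] [Fact q.Prime]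
    (hpq : p ≠ q) (hps : IsPSolvable p G) (hqs : IsPSolvable q G)
    (h : ∀ χ, IsIrrCharacter G χ → ¬ p ∣ charDegree χ → ¬ q ∣ charDegree χ) (P : Sylow p G) :
    ∃ Q : Subgroup G, IsSylowIn q Q ⊤ ∧ (P : Subgroup G) ≤ Nz Q ∧
      ∀ T : Subgroup G, (P : Subgroup G) ≤ T → ¬ q ∣ T.index → Q ≤ T :=
  navarro_wolf_aux hpq _ G rfl hps hqs h P

theorem not_dvd_index_of_principal {p q : ℕ} [Fact p.Prime] [Fact q.Prime] (hpq : p ≠ q)
    (hps : IsPSolvable p G) (hqs : IsPSolvable q G) {M : Ideal AlgInt} (hM : IsPModular p M)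
    (h : ∀ χ : IrrCharacter G, χ ∈ principalBlock M G → ¬ p ∣ charDegree χ.1 →
      ¬ q ∣ charDegree χ.1) : ¬ q ∣ (pPrimeCore p G).index := by
  have hf := QuotientGroup.mk'_surjective (pPrimeCore p G)
  obtain ⟨P⟩ : Nonempty (Sylow p (G ⧸ pPrimeCore p G)) := inferInstance
  obtain ⟨Q, hQ, hPQ, -⟩ := navarro_wolf hpq (H53.isPSolvable_quotient hps (pPrimeCore p G))
    (H53.isPSolvable_quotient hqs _) (fun χ hχ hd => by
      have := h (infl hf ⟨χ, hχ⟩) ((mem_principal_iff_of_isPSolvable hM hps).2 fun n hn =>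
        infl_apply_of_mem_ker hf _ (by rwa [QuotientGroup.ker_mk'])) (by rwa [charDegree_infl])
      rwa [charDegree_infl] at this) P
  have := H24.not_dvd_index_pPrimeCore_of_le_normalizer hpq
    (H53.isPSolvable_quotient hps (pPrimeCore p G)) P hQ.toSylowTop hPQ
  rwa [H3.pPrimeCore_quotient_pPrimeCore, Subgroup.index_bot] at this

end Cfsg.Agent.H22
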