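import Cfsg.Agent.H54.RfKitP
import Cfsg.Agent.H72.VBAS

/-! # Standard subgroups of type `²F₄(q)`: a `2`-element moving `t` inside `t Z` -/

set_option autoImplicit false

namespace Cfsg.Agent.H22.RfA

open Cfsg Cfsg.Agent.H15.O8 Cfsg.Agent.H39 Cfsg.Agent.H36.O8T Subgroup Cfsg.Agent.H54.RF
open Cfsg.Agent.H72.VB (Y1 Lam supp Y1_normal fld_tor fT chrZ chrW sec2)

universe u v

variable {K : Type v} [Field K] [Finite K] {T : Tits K} {G : Type u} [Group G] [Finite G]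

theorem lam_tor {l : MulAut (U T)} (hl : l ∈ Lam T) (d : Kˣ × Kˣ) :
    ∃ e, l⁻¹ * tor T d * l = tor T e := by
  obtain ⟨c, φ, rfl⟩ := hl
  refine ⟨fT φ⁻¹ d, ?_⟩
  have e : (tor T c)⁻¹ * tor T d * tor T c = tor T d := by
    rw [← map_inv, ← map_mul, ← map_mul, inv_mul_cancel_comm]
  rw [← mul_inv_eq_iff_eq_mul.2 (fld_tor (T := T) φ⁻¹ d), map_inv]
  conv_rhs => rw [← e]
  group

omit [Finite K] in
theorem conj_Y1 (s : U T) : MulAut.conj s ∈ Y1 T := by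
  refine ⟨fun z hz => ?_, fun w hw => ?_⟩
  · rw [MulAut.conj_apply, cZ z hz s, mul_inv_cancel_right]
  · have := (z2 _).1 (inv_mem hw) s
    rwa [commutatorElement_def, inv_inv, mul_assoc, mul_assoc, ← mul_assoc s] at this

omit [Finite K] in
theorem tor_Y1 {b : Kˣ} (h : tor T (1, b) ∈ Y1 T) : b = 1 := by
  have := h.2 (x6 T 1) (by o8s)
  rw [tor_x6] at this
  o8s at this
  have := T.charP
  exact Nu_eq_one (T := T) (Units.ext (by rw [Nu_val, Units.val_one]; grind))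

variable {M : FF T G} {t : G}

theorem od_conj (h : Ctx M t) {g k : G} (hg : S1 M t g) (hk : Od M t k) : Od M t (g * k * g⁻¹) := by
  obtain ⟨-, h2, a, -, e⟩ := hg
  have h1 : ∀ x ∈ M.cf.C, Commute (g * k * g⁻¹) x := fun x hx => by
    have := comm_conj (hk.comm (KX M ((mem_normalizer_iff''.1 h2 x).1 hx))) g
    simpa only [mul_assoc, mul_inv_cancel_left, mul_inv_cancel, mul_one] using this
  refine h.od_of ?_ ?_ fun w _ => h1 _ (φK M w)
  · have := (e ▸ comm_conj hk.2.1 g).mul_right (h1 _ (φK M (x4 T a))).inv_right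
    rwa [mul_inv_cancel_right] at this
  · have := (MulAut.conj g).orderOf_eq k
    rw [MulAut.conj_apply] at this
    exact this ▸ hk.2.2

/-- first correction: an element centralizing `O`, trivial on `Z` and `W / Z` -/
theorem step1 (h : Ctx M t) {g : G} (hg : S1 M t g) : ∃ g₁, S1 M t g₁ ∧
    (∀ k, Od M t k → Commute g₁ k) ∧ ∃ γ ∈ Y1 T, ∀ u, g₁ * M.φ u * g₁⁻¹ = M.φ (γ u) := by
  haveI := Y1_normal (T := T)
  obtain ⟨β, hβ⟩ := exists_aut M hg.1
  obtain ⟨l, hl, hy⟩ := supp β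
  obtain ⟨α, α0, α1⟩ := H92.UL.exists_ne h.q2
  obtain ⟨d, hd⟩ := lam_tor hl (Units.mk0 α α0, 1)
  have hβ' : ∀ u, g⁻¹ * M.φ u * g = M.φ (β⁻¹ u) := fun u => by
    conv_lhs => rw [← show β (β⁻¹ u) = u from β.apply_symm_apply u, ← hβ]
    group
  refine ⟨g⁻¹ * M.h (Units.mk0 α α0, 1) * g * M.h d⁻¹, ⟨?_, ?_, ?_⟩, fun k hk => ?_,
    β⁻¹ * tor T (Units.mk0 α α0, 1) * β * tor T d⁻¹, ?_, fun u => ?_⟩
  · exact mul_mem (mul_mem (mul_mem (inv_mem hg.1) (h_norm_S _ _)) hg.1) (h_norm_S _ _)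
  · exact mul_mem (mul_mem (mul_mem (inv_mem hg.2.1) (h_norm_C _ _)) hg.2.1) (h_norm_C _ _)
  · obtain ⟨a, a0, e⟩ := hg.2.2
    have hz := eq_x4 (chrZ β⁻¹ _ (x4_mem (T := T) (a + α * T.θ α * a)))
    refine ⟨_, fun k => ?_, (?_ : _ = t * M.φ (β⁻¹ (x4 T (a + α * T.θ α * a)))).trans
      (congrArg (fun u => t * M.φ u) hz)⟩
    · rw [k, x4_zero, map_eq_one_iff _ (MulEquiv.injective _)] at hz
      have h3 : a + α * T.θ α * a = 0 := congrArg U.a4 hz
      have := T.charP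
      have h4 : (α * T.θ α + 1) * a = 0 := by grind
      exact α1 (nrm_eq_one (T := T) (by have := (mul_eq_zero.1 h4).resolve_right a0; grind))
    · have e1 := conj_eq_iff.2 (h.th d⁻¹)
      have e2 := conj_eq_iff.2 (h.th (Units.mk0 α α0, 1))
      have e3 := M.hφ (Units.mk0 α α0, 1) (x4 T a)
      rw [tor_x4] at e3
      have e4 : t = t * M.φ (x4 T a) * M.φ (x4 T a) := by
        rw [mul_assoc, ← map_mul, ← x4_add, add_self (T := T), x4_zero, map_one, mul_one]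
      calc _ = g⁻¹ * M.h (Units.mk0 α α0, 1) * (g * (M.h d⁻¹ * t * (M.h d⁻¹)⁻¹) * g⁻¹) *
            (M.h (Units.mk0 α α0, 1))⁻¹ * g := by group
        _ = g⁻¹ * ((M.h (Units.mk0 α α0, 1) * t * (M.h (Units.mk0 α α0, 1))⁻¹) *
            (M.h (Units.mk0 α α0, 1) * M.φ (x4 T a) * (M.h (Units.mk0 α α0, 1))⁻¹)) * g := by
          rw [e1, e]; group
        _ = g⁻¹ * (g * t * g⁻¹) * g * (g⁻¹ * M.φ (x4 T (a + α * T.θ α * a)) * g) := by
          rw [e2, e3, e, x4_add, map_mul]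
          conv_lhs => rw [e4]
          simp only [Units.val_mk0]
          group
        _ = _ := by rw [hβ']; group
  · refine Commute.mul_left ?_ (hk.comm (hX M _)).symm
    have := comm_conj ((od_conj h hg hk).comm (hX M (Units.mk0 α α0, 1))).symm g⁻¹
    simpa only [mul_assoc, inv_mul_cancel_left, inv_inv, inv_mul_cancel, mul_one] using this
  · have : β⁻¹ * tor T (Units.mk0 α α0, 1) * β * tor T d⁻¹ =
        (l⁻¹ * β)⁻¹ * (tor T d * (l⁻¹ * β) * (tor T d)⁻¹) := by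
      rw [map_inv, ← hd]; group
    rw [this]
    exact mul_mem (inv_mem hy) (Normal.conj_mem inferInstance _ hy _)
  · rw [MulAut.mul_apply, MulAut.mul_apply, MulAut.mul_apply, ← hβ', ← M.hφ, ← hβ, ← M.hφ]
    group

/-- second correction: the element centralizes the torus of `K₄` -/
theorem step2 {g : G} (hg : S1 M t g) {γ : MulAut (U T)} (hγ : γ ∈ Y1 T)
    (e : ∀ u, g * M.φ u * g⁻¹ = M.φ (γ u)) : ∃ u, ∀ b, Commute ((M.φ u)⁻¹ * g) (M.h (1, b)) := by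
  haveI := Y1_normal (T := T)
  have hW : g ∈ normalizer (M.cf.s (W T) : Set G) := mem_normalizer_fintype (by
    rintro _ ⟨w, hw, rfl⟩
    exact ⟨γ w, chrW γ w hw, (e w).symm⟩)
  have key : ∀ b, (M.h (1, b))⁻¹ * (g * M.h (1, b) * g⁻¹) ∈ M.φ.range := fun b => by
    obtain ⟨u, c, k⟩ := (M.cf.mem_B _).1 ((M.cf.nW (g * M.h (1, b) * g⁻¹)
      ((mem_normalizer_iff.1 hg.2.1 _).1 (hK M b))).1 (mul_mem (mul_mem hW
        ((M.cf.nW _ (hK M b)).2 (M.cf.d_mem_B b))) (inv_mem hW)))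
    change _ = M.φ u * M.h (1, c) at k
    have k1 : γ * tor T (1, b) * γ⁻¹ = MulAut.conj u * tor T (1, c) := MulEquiv.ext fun x =>
      M.inj (by
        rw [MulAut.mul_apply, MulAut.mul_apply, MulAut.mul_apply, MulAut.conj_apply, ← e, ← M.hφ,
          map_mul, map_mul, map_inv, ← M.hφ]
        calc _ = g * M.h (1, b) * g⁻¹ * (g * M.φ (γ⁻¹ x) * g⁻¹) * (g * M.h (1, b) * g⁻¹)⁻¹ := by
              group
          _ = _ := by rw [e, show γ (γ⁻¹ x) = x from γ.apply_symm_apply x, k]; group)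
    have k2 : tor T (1, c * b⁻¹) =
        (MulAut.conj u)⁻¹ * (γ * (tor T (1, b) * γ⁻¹ * (tor T (1, b))⁻¹)) := by
      rw [← mul_assoc γ, ← mul_assoc γ, k1, mul_assoc, inv_mul_cancel_left, ← map_inv, ← map_mul]
      simp
    have k3 : c * b⁻¹ = 1 := tor_Y1 (k2 ▸ mul_mem (inv_mem (conj_Y1 u))
      (mul_mem hγ (Normal.conj_mem inferInstance _ (inv_mem hγ) _)))
    rw [k, mul_inv_eq_one.1 k3, ← mul_assoc]
    exact (mem_normalizer_iff''.1 (h_norm_S M.toPF (1, b)) _).1 ⟨u, rfl⟩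
  let s : Kˣ →* normalizer (M.φ.range : Set G) :=
    M.cf.d.codRestrict _ fun b => h_norm_S M.toPF (1, b)
  obtain ⟨⟨_, hx⟩, ⟨u, rfl⟩, k⟩ := sec2 (M.φ.range.subgroupOf (normalizer (M.φ.range : Set G)))
    (M.φ.range_eq_map ▸ ((isPGroup_U (T := T)).to_subgroup ⊤).map M.φ).comap_subtype
    (Nat.card_units K ▸ Nat.Even.sub_odd Nat.card_pos (CF.even_card (T := T)) odd_one) s
    ((MulAut.conj (⟨g, hg.1⟩ : normalizer (M.φ.range : Set G))).toMonoidHom.comp s) key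
  refine ⟨u, fun b => conj_eq_iff.1 ?_⟩
  have k1 : g * M.h (1, b) * g⁻¹ = M.φ u * M.h (1, b) * (M.φ u)⁻¹ := congrArg Subtype.val (k b)
  calc _ = (M.φ u)⁻¹ * (g * M.h (1, b) * g⁻¹) * M.φ u := by group
    _ = _ := by rw [k1]; group

theorem st2a : St2aStmt.{u, v} := by
  intro K _ _ T G _ _ M t h g hg
  obtain ⟨g, hg, ho, γ, hγ, e⟩ := step1 h.toCtx hg
  obtain ⟨u, hu⟩ := step2 hg hγ e
  obtain ⟨h1, h2, c, c0, e1⟩ := hg
  have z : ∀ a, Commute ((M.φ u)⁻¹ * g) (M.φ (x4 T a)) := fun a =>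
    ((φ_comm M).2 (cZ _ (x4_mem a) u)).inv_left.mul_left
      (conj_eq_iff.1 (by rw [e, hγ.1 _ (x4_mem a)]))
  have e2 : (M.φ u)⁻¹ * g * t * ((M.φ u)⁻¹ * g)⁻¹ = t * M.φ (x4 T c) := by
    have := conj_eq_iff.2 ((h.tφ u).mul_right ((φ_comm M).2 (cZ _ (x4_mem c) u))).inv_left
    rw [← this, ← e1]; group
  have n1 : (M.φ u)⁻¹ * g ∈ normalizer (M.φ.range : Set G) :=
    mul_mem (inv_mem (le_normalizer ⟨u, rfl⟩)) h1
  have n2 : (M.φ u)⁻¹ * g ∈ normalizer (M.cf.C : Set G) :=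
    mul_mem (inv_mem (le_normalizer (φK M u))) h2
  have o : ∀ k, Od M t k → Commute ((M.φ u)⁻¹ * g) k := fun k hk =>
    (hk.φ u).symm.inv_left.mul_left (ho k hk)
  generalize (M.φ u)⁻¹ * g = x at hu z e2 n1 n2 o
  obtain ⟨a, ha, b, hb, a2, b2, e3⟩ := two_odd x
  have e4 : Commute (x ^ 2) t := conj_eq_iff.1 (by
    calc _ = x * (x * t * x⁻¹) * x⁻¹ := by rw [sq]; group
      _ = x * (t * M.φ (x4 T c)) * x⁻¹ := by rw [e2]
      _ = x * t * x⁻¹ * (x * M.φ (x4 T c) * x⁻¹) := by group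
      _ = t := by
        rw [e2, conj_eq_iff.2 (z c), mul_assoc, ← map_mul, ← x4_add, add_self (T := T), x4_zero,
          map_one, mul_one])
  have e5 : Commute b t := by
    obtain ⟨k, hk⟩ := hb
    have h3 : Commute (b ^ 2) t := by
      rw [← hk, ← zpow_natCast, ← zpow_mul, mul_comm, zpow_mul, zpow_natCast]
      exact e4.zpow_left k
    obtain ⟨m, hm⟩ := b2
    have h4 : b = (b ^ 2) ^ (m + 1) := by
      rw [← pow_mul, show 2 * (m + 1) = orderOf b + 1 by omega, pow_succ, pow_orderOf_eq_one, one_mul]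
    exact h4 ▸ h3.pow_left _
  refine ⟨a, ⟨zpowers_le.2 n1 ha, zpowers_le.2 n2 ha, c, c0, ?_⟩, a2,
    fun k hk => comm_of_zpowers ha (o k hk), fun b => comm_of_zpowers ha (hu b),
    fun c => comm_of_zpowers ha (z c)⟩
  rw [← e2, e3]
  conv_lhs => rw [← conj_eq_iff.2 e5]
  group

end Cfsg.Agent.H22.RfA
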