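import Mathlib
import Cfsg.Agent.H32.MinDegSL
import Cfsg.Agent.H32.LinTransv

/-! Weight projections for the groups of transvections with a common centre in a complex
representation of `SL_n(q)`. -/

set_option autoImplicit false

namespace Cfsg.Agent.H22.SLDeg

open Matrix Module Cfsg.Agent.H32 Finset

section Idem

variable {V : Type*} [AddCommGroup V] [Module ℂ V] [FiniteDimensional ℂ V]

theorem exists_nat_trace {P : End ℂ V} (h : IsIdempotentElem P) :
    ∃ k : ℕ, LinearMap.trace ℂ V P = k :=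
  ⟨_, (LinearMap.IsIdempotentElem.isProj_range P h).trace⟩

theorem mul_eq_smul {P A : End ℂ V} (h : IsIdempotentElem P) (h1 : LinearMap.trace ℂ V P = 1)
    (hA : Commute A P) : A * P = LinearMap.trace ℂ V (A * P) • P := by
  have h2 : finrank ℂ (LinearMap.range P) = 1 := by
    have := (LinearMap.IsIdempotentElem.isProj_range P h).trace
    rw [h1] at this
    exact_mod_cast this.symm
  obtain ⟨v, hv, h3⟩ := finrank_eq_one_iff'.1 h2
  obtain ⟨w, hw⟩ := v.2
  obtain ⟨c, hc⟩ := h3 ⟨A v, A w, by rw [← hw, ← End.mul_apply, ← hA.eq, End.mul_apply]⟩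
  have h4 : A * P = c • P := by
    ext x
    obtain ⟨a, ha⟩ := h3 ⟨P x, x, rfl⟩
    have ha' : a • (v : V) = P x := congrArg Subtype.val ha
    have hc' : c • (v : V) = A v := congrArg Subtype.val hc
    rw [End.mul_apply, LinearMap.smul_apply, ← ha', map_smul, ← hc', smul_comm]
  rw [h4, map_smul, h1, smul_eq_mul, mul_one]

variable {G : Type*} [Group G] (ρ : Representation ℂ G V)

theorem trace_eq_one {P : End ℂ V} (h : IsIdempotentElem P) (h1 : LinearMap.trace ℂ V P = 1)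
    {a b y : G} (ha : Commute (ρ a) P) (hb : Commute (ρ b) P) (hab : a * b * a⁻¹ = b * y) :
    LinearMap.trace ℂ V (ρ y * P) = 1 := by
  have h2 : ρ b * (ρ y * P) = ρ a * (ρ b * P) * ρ a⁻¹ := by
    rw [← mul_assoc, ← map_mul, ← hab, map_mul, map_mul]
    have : Commute (ρ a⁻¹) P := by
      have h3 : ρ a⁻¹ * P = ρ a⁻¹ * (P * ρ a) * ρ a⁻¹ := by
        rw [mul_assoc, mul_assoc, ← map_mul, mul_inv_cancel, map_one, mul_one]
      rw [Commute, SemiconjBy, h3, ← ha.eq, ← mul_assoc, ← map_mul, inv_mul_cancel, map_one,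
        one_mul]
    simp only [mul_assoc, this.eq]
  rw [mul_eq_smul h h1 hb, mul_smul_comm, smul_mul_assoc, ha.eq, mul_assoc, ← map_mul,
    mul_inv_cancel, map_one, mul_one, ← mul_eq_smul h h1 hb] at h2
  have h3 := congrArg (ρ b⁻¹ * ·) h2
  simp only [← mul_assoc, ← map_mul, inv_mul_cancel, map_one, one_mul] at h3
  rw [h3, h1]

variable [Fintype G]

open Classical in
/-- The averaging operator of a subgroup. -/
noncomputable def av (H : Subgroup G) : End ℂ V := (Fintype.card H : ℂ)⁻¹ • ∑ h : H, ρ h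

variable {ρ}

omit [FiniteDimensional ℂ V] in
theorem mul_av {H : Subgroup G} {g : G} (hg : g ∈ H) : ρ g * av ρ H = av ρ H := by
  classical
  rw [av, mul_smul_comm, mul_sum]
  congr 1
  refine Fintype.sum_equiv (Equiv.mulLeft (⟨g, hg⟩ : H)) _ _ fun x => ?_
  rw [← map_mul]; rfl

omit [FiniteDimensional ℂ V] in
theorem av_mul {H : Subgroup G} {g : G} (hg : g ∈ H) : av ρ H * ρ g = av ρ H := by
  classical
  rw [av, smul_mul_assoc, sum_mul]
  congr 1
  refine Fintype.sum_equiv (Equiv.mulRight (⟨g, hg⟩ : H)) _ _ fun x => ?_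
  rw [← map_mul]; rfl

omit [FiniteDimensional ℂ V] in
theorem av_mul_of {H : Subgroup G} {X : End ℂ V} (h : ∀ g ∈ H, ρ g * X = X) :
    av ρ H * X = X := by
  classical
  rw [av, smul_mul_assoc, sum_mul, sum_congr rfl fun (x : H) _ => h x x.2, sum_const, card_univ,
    ← Nat.cast_smul_eq_nsmul ℂ, smul_smul, inv_mul_cancel₀ (by simp), one_smul]

omit [FiniteDimensional ℂ V] in
theorem mul_av_of {H : Subgroup G} {X : End ℂ V} (h : ∀ g ∈ H, X * ρ g = X) :
    X * av ρ H = X := by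
  classical
  rw [av, mul_smul_comm, mul_sum, sum_congr rfl fun (x : H) _ => h x x.2, sum_const, card_univ,
    ← Nat.cast_smul_eq_nsmul ℂ, smul_smul, inv_mul_cancel₀ (by simp), one_smul]

theorem exists_trace_av {H K : Subgroup G} (h : H ≤ K) :
    ∃ k : ℕ, LinearMap.trace ℂ V (av ρ H) = LinearMap.trace ℂ V (av ρ K) + k := by
  have h1 : av ρ H * av ρ K = av ρ K := av_mul_of fun g hg => mul_av (h hg)
  have h2 : av ρ K * av ρ H = av ρ K := mul_av_of fun g hg => av_mul (h hg)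
  have h3 : av ρ H * av ρ H = av ρ H := av_mul_of fun g hg => mul_av hg
  have h4 : av ρ K * av ρ K = av ρ K := av_mul_of fun g hg => mul_av hg
  obtain ⟨k, hk⟩ := exists_nat_trace (P := av ρ H - av ρ K) (by
    rw [IsIdempotentElem, sub_mul, mul_sub, mul_sub, h1, h2, h3, h4, sub_self, sub_zero])
  exact ⟨k, by rw [← hk, map_sub, add_sub_cancel]⟩

omit [FiniteDimensional ℂ V] in
open Classical in
theorem trace_av {H K : Subgroup G} (h : H ≤ K) :
    (Fintype.card K : ℂ) * LinearMap.trace ℂ V (av ρ K) =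
      ∑ g : K, LinearMap.trace ℂ V (ρ g * av ρ H) := by
  have h2 : av ρ K * av ρ H = av ρ K := mul_av_of fun g hg => av_mul (h hg)
  rw [← h2, av, smul_mul_assoc, map_smul, smul_eq_mul, mul_inv_cancel_left₀ (by simp), sum_mul,
    map_sum]

end Idem

variable {n : ℕ} {F : Type*} [Field F] [Fintype F] [DecidableEq F]

/-- The functionals killing `u`. -/
def an (u : Fin n → F) : Finset (Fin n → F) := univ.filter fun φ => φ ⬝ᵥ u = 0

theorem mem_an {u φ : Fin n → F} : φ ∈ an u ↔ φ ⬝ᵥ u = 0 := by simp [an]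

theorem card_an {u : Fin n → F} (hu : u ≠ 0) : (an u).card = Fintype.card F ^ (n - 1) := by
  have := card_ker_dot hu
  rw [Fintype.card_fin] at this
  rw [← this, ← Fintype.card_coe, Fintype.card_eq_nat_card]
  exact Nat.card_congr (Equiv.subtypeEquivRight fun φ => by simp [mem_an, dotProduct_comm])

theorem card_an_ne (u : Fin n → F) : ((an u).card : ℂ) ≠ 0 :=
  Nat.cast_ne_zero.2 (card_pos.2 ⟨0, mem_an.2 (zero_dotProduct _)⟩).ne'

theorem sum_an_add {M : Type*} [AddCommMonoid M] {u φ₀ : Fin n → F} (h : φ₀ ⬝ᵥ u = 0)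
    (f : (Fin n → F) → M) : ∑ φ ∈ an u, f (φ₀ + φ) = ∑ φ ∈ an u, f φ :=
  sum_equiv (Equiv.addLeft φ₀) (fun φ => by simp [mem_an, h]) fun _ _ => rfl

variable {ψ : AddChar F ℂ} {c₀ : F}

open Classical in
theorem sum_an_char (hψ : ψ c₀ ≠ 1) (u x : Fin n → F) :
    ∑ φ ∈ an u, ψ (φ ⬝ᵥ x) = if x ∈ Submodule.span F {u} then ((an u).card : ℂ) else 0 := by
  split_ifs with h
  · obtain ⟨a, rfl⟩ := Submodule.mem_span_singleton.1 h
    rw [sum_congr rfl (g := fun _ => 1) fun φ hφ => by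
      rw [dotProduct_smul, mem_an.1 hφ, smul_zero, AddChar.map_zero_eq_one]]
    simp
  · obtain ⟨f, h1, h2⟩ := exists_dot_eq_of_notMem h c₀
    have h3 := sum_an_add (h2 u (Submodule.mem_span_singleton_self u)) fun φ => ψ (φ ⬝ᵥ x)
    simp only [add_dotProduct, AddChar.map_add_eq_mul, h1, ← mul_sum] at h3
    exact (mul_left_eq_self₀.1 h3).resolve_left hψ

variable {V : Type*} [AddCommGroup V] [Module ℂ V]
  (ρ : Representation ℂ (SpecialLinearGroup (Fin n) F) V) (ψ)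

/-- The projection onto a weight space of the transvections with centre `u`. -/
noncomputable def E (u l : Fin n → F) : End ℂ V :=
  ((an u).card : ℂ)⁻¹ • ∑ φ ∈ an u, ψ (-(φ ⬝ᵥ l)) • ρ (ts u φ)

variable {ρ ψ}

theorem ts_mul_E {u φ : Fin n → F} (h : φ ⬝ᵥ u = 0) (l : Fin n → F) :
    ρ (ts u φ) * E ψ ρ u l = ψ (φ ⬝ᵥ l) • E ψ ρ u l := by
  rw [E, mul_smul_comm, smul_comm (ψ (φ ⬝ᵥ l))]
  congr 1
  rw [mul_sum, smul_sum,
    ← sum_an_add h fun φ' => ψ (φ ⬝ᵥ l) • ψ (-(φ' ⬝ᵥ l)) • ρ (ts u φ')]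
  refine sum_congr rfl fun φ' h' => ?_
  rw [ts_add_right h (mem_an.1 h'), map_mul, mul_smul_comm, smul_smul, ← AddChar.map_add_eq_mul,
    add_dotProduct]
  congr 2
  ring

open Classical in
theorem E_mul_E (hψ : ψ c₀ ≠ 1) (u l' l : Fin n → F) :
    E ψ ρ u l' * E ψ ρ u l =
      if l - l' ∈ Submodule.span F {u} then E ψ ρ u l else 0 := by
  conv_lhs => rw [E]
  rw [smul_mul_assoc, sum_mul, sum_congr rfl (g := fun φ => ψ (φ ⬝ᵥ (l - l')) • E ψ ρ u l),
    ← sum_smul, sum_an_char hψ, smul_smul]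
  · split_ifs
    · rw [inv_mul_cancel₀ (card_an_ne u), one_smul]
    · simp
  · intro φ hφ
    rw [smul_mul_assoc, ts_mul_E (mem_an.1 hφ), smul_smul, ← AddChar.map_add_eq_mul,
      dotProduct_sub]
    congr 2
    ring

theorem idem_E (hψ : ψ c₀ ≠ 1) (u l : Fin n → F) : IsIdempotentElem (E ψ ρ u l) := by
  rw [IsIdempotentElem, E_mul_E hψ, if_pos (by simp)]

theorem sum_E (hψ : ψ c₀ ≠ 1) {u : Fin n → F} (hu : u ≠ 0) :
    ∑ l, E ψ ρ u l = (Fintype.card F : ℂ) • (1 : End ℂ V) := by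
  classical
  have hn : n ≠ 0 := by rintro rfl; exact hu (Subsingleton.elim _ _)
  have h0 : (an 0 : Finset (Fin n → F)) = univ := by ext; simp [mem_an]
  have h1 : ∀ φ : Fin n → F, ∑ l, ψ (-(φ ⬝ᵥ l)) =
      if φ = 0 then (Fintype.card F : ℂ) ^ n else 0 := by
    intro φ
    have := sum_an_char hψ 0 (-φ)
    rw [h0] at this
    simp only [dotProduct_neg, dotProduct_comm _ φ] at this
    rw [this]
    simp
  simp only [E, ← smul_sum]
  rw [sum_comm]
  simp only [← sum_smul, h1, ite_smul, zero_smul]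
  rw [sum_ite_eq' _ (0 : Fin n → F), if_pos (mem_an.2 (zero_dotProduct _)), ts_zero_right,
    map_one, smul_smul, card_an hu]
  congr 1
  obtain ⟨m, rfl⟩ := Nat.exists_eq_succ_of_ne_zero hn
  have : (Fintype.card F : ℂ) ≠ 0 := by simp
  simp only [Nat.succ_eq_add_one, Nat.add_sub_cancel, Nat.cast_pow, pow_succ]
  field_simp

theorem conj_E (g : SpecialLinearGroup (Fin n) F) (u l : Fin n → F) :
    ρ g * E ψ ρ u l = E ψ ρ (g.1 *ᵥ u) (g.1 *ᵥ l) * ρ g := by
  have key : ∀ φ, φ ∈ an u ↔ φ ᵥ* (g⁻¹).1 ∈ an (g.1 *ᵥ u) := fun φ => by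
    rw [mem_an, mem_an, vecMul_inv_dot]
  let e : (Fin n → F) ≃ (Fin n → F) :=
    { toFun := fun φ => φ ᵥ* (g⁻¹).1
      invFun := fun φ => φ ᵥ* g.1
      left_inv := fun φ => by simp only [vecMul_vecMul]; rw [sl_inv_mul, vecMul_one]
      right_inv := fun φ => vecMul_vecMul_inv g φ }
  rw [E, E, mul_smul_comm, smul_mul_assoc, mul_sum, sum_mul, card_equiv e key]
  congr 1
  refine sum_equiv e key fun φ _ => ?_
  change _ = (ψ (-(φ ᵥ* (g⁻¹).1 ⬝ᵥ g.1 *ᵥ l)) • ρ (ts (g.1 *ᵥ u) (φ ᵥ* (g⁻¹).1))) * ρ g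
  rw [vecMul_inv_dot, ← conj_ts, mul_smul_comm, smul_mul_assoc, ← map_mul, ← map_mul,
    inv_mul_cancel_right]

theorem E_smul {c : F} (hc : c ≠ 0) (u l : Fin n → F) :
    E ψ ρ (c • u) (c • l) = E ψ ρ u l := by
  have key : ∀ φ, φ ∈ an (c • u) ↔ c • φ ∈ an u := fun φ => by
    simp [mem_an, hc]
  let e : (Fin n → F) ≃ (Fin n → F) := MulAction.toPerm (Units.mk0 c hc)
  rw [E, E, card_equiv e key]
  congr 1
  refine sum_equiv e key fun φ hφ => ?_
  change _ = ψ (-((c • φ) ⬝ᵥ l)) • ρ (ts u (c • φ))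
  have : φ ⬝ᵥ u = 0 := by simpa [mem_an, hc] using hφ
  rw [ts_smul this, dotProduct_smul, smul_dotProduct]

theorem E_of_mem {u l : Fin n → F} (h : l ∈ Submodule.span F {u}) : E ψ ρ u l = E ψ ρ u 0 := by
  obtain ⟨a, rfl⟩ := Submodule.mem_span_singleton.1 h
  rw [E, E]
  congr 1
  refine sum_congr rfl fun φ hφ => ?_
  rw [dotProduct_smul, mem_an.1 hφ, smul_zero, dotProduct_zero]

theorem commute_E {g : SpecialLinearGroup (Fin n) F} {u l : Fin n → F} {c : F} (hc : c ≠ 0)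
    (h1 : g.1 *ᵥ u = c • u) (h2 : g.1 *ᵥ l = c • l) : Commute (ρ g) (E ψ ρ u l) := by
  rw [Commute, SemiconjBy, conj_E, h1, h2, E_smul hc]

theorem E_zero (u : Fin n → F) :
    E ψ ρ u 0 = ((an u).card : ℂ)⁻¹ • ∑ φ ∈ an u, ρ (ts u φ) := by
  simp [E]

open Classical in
theorem trace_E (hψ : ψ c₀ ≠ 1) {τ : ℂ} {u : Fin n → F}
    (hτ : ∀ φ, φ ≠ 0 → φ ⬝ᵥ u = 0 → ρ.character (ts u φ) = τ) (l : Fin n → F) :
    LinearMap.trace ℂ V (E ψ ρ u l) = ((an u).card : ℂ)⁻¹ * (ρ.character 1 - τ) +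
      if l ∈ Submodule.span F {u} then τ else 0 := by
  have h0 : (0 : Fin n → F) ∈ an u := mem_an.2 (zero_dotProduct _)
  have h1 := sum_an_char hψ u (-l)
  simp only [dotProduct_neg, neg_mem_iff] at h1
  have h2 : ∑ φ ∈ an u, ψ (-(φ ⬝ᵥ l)) * ρ.character (ts u φ) =
      (ρ.character 1 - τ) + (∑ φ ∈ an u, ψ (-(φ ⬝ᵥ l))) * τ := by
    rw [sum_mul, ← add_sum_erase _ _ h0, ← add_sum_erase _ _ h0,
      sum_congr rfl fun φ hφ => by
        rw [hτ φ (ne_of_mem_erase hφ) (mem_an.1 (mem_of_mem_erase hφ))]]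
    simp only [zero_dotProduct, neg_zero, AddChar.map_zero_eq_one, ts_zero_right, one_mul]
    ring
  rw [E, map_smul, map_sum]
  simp only [map_smul, smul_eq_mul]
  erw [h2]
  rw [h1, mul_add]
  split_ifs
  · rw [inv_mul_cancel_left₀ (card_an_ne u)]
  · simp

end Cfsg.Agent.H22.SLDeg
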