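import Mathlib
import Cfsg.Agent.H22.SLDegA
import Cfsg.Agent.H22.CuspD

/-! Representations of `SL_n(q)` in which the non-trivial weights of the transvections with a
common centre have multiplicity one. -/

set_option autoImplicit false

namespace Cfsg.Agent.H22.SLDeg

open Matrix Module Cfsg.Agent.H32 Finset

variable {n : ℕ} {F : Type*} [Field F] [Fintype F] [DecidableEq F]

omit [DecidableEq F] in
theorem exists_pow_ne_one {k : ℕ} (h : ¬ Fintype.card F - 1 ∣ k) : ∃ c : F, c ≠ 0 ∧ c ^ k ≠ 1 := by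
  classical
  obtain ⟨g, hg⟩ := IsCyclic.exists_ofOrder_eq_natCard (α := Fˣ)
  refine ⟨g, g.ne_zero, fun h1 => h ?_⟩
  rw [← Fintype.card_units, Fintype.card_eq_nat_card, ← hg]
  exact orderOf_dvd_of_pow_eq_one (Units.ext h1)

omit [Fintype F] [DecidableEq F] in
theorem vecMul_inv_of {g : SpecialLinearGroup (Fin n) F} {φ : Fin n → F} {c : F} (hc : c ≠ 0)
    (h : φ ᵥ* g.1 = c • φ) : φ ᵥ* (g⁻¹).1 = c⁻¹ • φ := by
  have := vecMul_vecMul_inv g φ
  rw [h, smul_vecMul] at this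
  rw [eq_inv_smul_iff₀ hc, this]

omit [Fintype F] [DecidableEq F] in
theorem vecMul_one_add (x φ χ : Fin n → F) :
    χ ᵥ* (1 + vecMulVec x φ) = χ + (χ ⬝ᵥ x) • φ := by
  rw [vecMul_add, vecMul_one, vecMul_vecMulVec]

variable {ψ : AddChar F ℂ} {c₀ : F} {V : Type*} [AddCommGroup V] [Module ℂ V]
  [FiniteDimensional ℂ V] {ρ : Representation ℂ (SpecialLinearGroup (Fin n) F) V}

local notation "tr" => LinearMap.trace ℂ V

theorem mu_one (hψ : ψ c₀ ≠ 1) (hn : 3 ≤ n) (h3 : n = 3 → ¬ Fintype.card F - 1 ∣ 3)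
    (h4 : n = 4 → ¬ Fintype.card F - 1 ∣ 2) {u l v φ : Fin n → F} (hu : u ≠ 0)
    (hl : l ∉ Submodule.span F {u}) (h1 : tr (E ψ ρ u l) = 1) (hφ : φ ≠ 0) (hφu : φ ⬝ᵥ u = 0)
    (hφl : φ ⬝ᵥ l = 0) (hφv : φ ⬝ᵥ v = 0) : tr (ρ (ts v φ) * E ψ ρ u l) = 1 := by
  have hc : ∀ x χ : Fin n → F, χ ⬝ᵥ x = 0 → χ ⬝ᵥ u = 0 → χ ⬝ᵥ l = 0 →
      Commute (ρ (ts x χ)) (E ψ ρ u l) := fun x χ a b c =>
    commute_E one_ne_zero (by rw [ts_mulVec a, b]; simp) (by rw [ts_mulVec a, c]; simp)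
  have tor : ∀ (g : SpecialLinearGroup (Fin n) F) (c b b' : F), c ≠ 0 → b' ≠ 0 → b * b'⁻¹ ≠ 1 →
      g.1 *ᵥ u = c • u → g.1 *ᵥ l = c • l → g.1 *ᵥ v = b • v → φ ᵥ* g.1 = b' • φ →
      tr (ρ (ts v φ) * E ψ ρ u l) = 1 := by
    intro g c b b' hc0 hb' hb g1 g2 g3 g4
    have hs : ∀ s : F, (s • φ) ⬝ᵥ v = 0 := fun s => by rw [smul_dotProduct, hφv, smul_zero]
    refine trace_eq_one ρ (idem_E hψ u l) h1 (commute_E hc0 g1 g2)
      (hc v ((b * b'⁻¹ - 1)⁻¹ • φ) (hs _) (by simp [hφu]) (by simp [hφl])) ?_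
    rw [conj_ts, g3, smul_vecMul, vecMul_inv_of hb' g4, ts_smul (by simp [hφv]),
      ← ts_add_right (hs _) hφv]
    congr 1
    rw [smul_smul, smul_smul]
    nth_rewrite 3 [← one_smul F φ]
    rw [← add_smul]
    congr 1
    linear_combination inv_mul_cancel₀ (sub_ne_zero.2 hb)
  let D : Submodule F (Fin n → F) := Submodule.span F {u, l, v}
  by_cases hD : ∃ x, φ ⬝ᵥ x = 0 ∧ x ∉ D
  · obtain ⟨x, hx, hxD⟩ := hD
    obtain ⟨χ, c1, c2⟩ := exists_dot_eq_of_notMem hxD 1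
    have cu := c2 u (Submodule.subset_span (by simp))
    have cl := c2 l (Submodule.subset_span (by simp))
    have cv := c2 v (Submodule.subset_span (by simp))
    refine trace_eq_one ρ (idem_E hψ u l) h1 (hc v χ cv cu cl) (hc x φ hx hφu hφl) ?_
    rw [conj_ts, ts_mulVec cv, c1, one_smul, vecMul_ts_inv cv, hφv, zero_smul, sub_zero,
      ts_add_left hx hφv]
  push Not at hD
  obtain ⟨x, hx⟩ := H26.exists_dot_eq_one hφ
  rw [dotProduct_comm] at hx
  have hker : finrank F D + 1 = n := by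
    have h2 := Module.Dual.finrank_ker_add_one_of_ne_zero (f := dotProductBilin F F φ) (by
      intro h0
      have := LinearMap.congr_fun h0 x
      simp [hx] at this)
    rw [finrank_fin_fun] at h2
    have hDk : D = LinearMap.ker (dotProductBilin F F φ) := by
      refine le_antisymm (Submodule.span_le.2 ?_) fun y hy => hD y hy
      rintro y (rfl | rfl | rfl) <;> simpa
    rw [hDk, h2]
  by_cases hv : v ∈ Submodule.span F {u, l}
  · have hn3 : n = 3 := by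
      have : D ≤ Submodule.span F {u, l} := by
        refine Submodule.span_le.2 ?_
        rintro y (rfl | rfl | rfl)
        · exact Submodule.subset_span (by simp)
        · exact Submodule.subset_span (by simp)
        · exact hv
      have h5 := Submodule.finrank_mono this
      have h6 := finrank_span_le_card (R := F) ({u, l} : Set (Fin n → F))
      have h7 : ({u, l} : Set (Fin n → F)).toFinset.card ≤ 2 := by
        rw [Set.toFinset_insert, Set.toFinset_singleton]; exact card_le_two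
      omega
    obtain ⟨c, hc0, hc3⟩ := exists_pow_ne_one (h3 hn3)
    let g : SpecialLinearGroup (Fin n) F :=
      ⟨c • (1 + vecMulVec (((c ^ 3)⁻¹ - 1) • x) φ), by
        rw [det_smul, det_one_add_vecMulVec, dotProduct_smul, hx, Fintype.card_fin, hn3]
        simp [hc0]⟩
    have hg : ∀ y, φ ⬝ᵥ y = 0 → g.1 *ᵥ y = c • y := fun y hy => by
      simp only [g]
      rw [smul_mulVec, one_add_vecMulVec_mulVec, hy, zero_smul, add_zero]
    refine tor g c c (c * (c ^ 3)⁻¹) hc0 (by simp [hc0]) ?_ (hg _ hφu) (hg _ hφl) (hg _ hφv) ?_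
    · rwa [show c * (c * (c ^ 3)⁻¹)⁻¹ = c ^ 3 by field_simp]
    · simp only [g]
      rw [vecMul_smul, vecMul_one_add, dotProduct_smul, hx, mul_smul]
      congr 1
      rw [smul_eq_mul, mul_one, sub_smul, one_smul, add_sub_cancel]
  · have hn4 : n = 4 := by
      have h5 := finrank_span_le_card (R := F) ({u, l, v} : Set (Fin n → F))
      have h7 : ({u, l, v} : Set (Fin n → F)).toFinset.card ≤ 3 := by
        rw [Set.toFinset_insert, Set.toFinset_insert, Set.toFinset_singleton]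
        exact card_le_three
      have a1 : Submodule.span F {u} < Submodule.span F {u, l} :=
        lt_of_le_of_ne (Submodule.span_mono (by simp)) fun h =>
          hl (by rw [h]; exact Submodule.subset_span (by simp))
      have a2 : Submodule.span F {u, l} < D :=
        lt_of_le_of_ne (Submodule.span_mono (Set.insert_subset_insert (by simp))) fun h =>
          hv (by rw [h]; exact Submodule.subset_span (by simp))
      have b1 := Submodule.finrank_lt_finrank_of_lt a1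
      have b2 := Submodule.finrank_lt_finrank_of_lt a2
      rw [finrank_span_singleton hu] at b1
      have : finrank F D ≤ 3 := h5.trans h7
      omega
    obtain ⟨b, hb0, hb2⟩ := exists_pow_ne_one (h4 hn4)
    obtain ⟨χ, c1, c2⟩ := exists_dot_eq_of_notMem hv 1
    have cu := c2 u (Submodule.subset_span (by simp))
    have cl := c2 l (Submodule.subset_span (by simp))
    let g : SpecialLinearGroup (Fin n) F :=
      ⟨(1 + vecMulVec ((b - 1) • v) χ) * (1 + vecMulVec ((b⁻¹ - 1) • x) φ), by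
        rw [det_mul, det_one_add_vecMulVec, det_one_add_vecMulVec, dotProduct_smul,
          dotProduct_smul, hx, c1]
        simp [hb0]⟩
    have hg : ∀ y, φ ⬝ᵥ y = 0 → g.1 *ᵥ y = y + (χ ⬝ᵥ y) • (b - 1) • v := fun y hy => by
      simp only [g]
      rw [← mulVec_mulVec, one_add_vecMulVec_mulVec _ φ, hy, zero_smul, add_zero,
        one_add_vecMulVec_mulVec]
    refine tor g 1 b b⁻¹ one_ne_zero (inv_ne_zero hb0) ?_ (by rw [hg _ hφu, cu]; simp)
      (by rw [hg _ hφl, cl]; simp) (by rw [hg _ hφv, c1, one_smul, sub_smul]; simp) ?_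
    · rwa [inv_inv, ← pow_two]
    · simp only [g]
      rw [← vecMul_vecMul, vecMul_one_add _ χ, dotProduct_smul, hφv, smul_zero, zero_smul,
        add_zero, vecMul_one_add, dotProduct_smul, hx, smul_eq_mul, mul_one, sub_smul, one_smul,
        add_sub_cancel]

theorem trace_ts_mul_E (hψ : ψ c₀ ≠ 1) (hn : 3 ≤ n) (h3 : n = 3 → ¬ Fintype.card F - 1 ∣ 3)
    (h4 : n = 4 → ¬ Fintype.card F - 1 ∣ 2) {u v φ : Fin n → F} (hu : u ≠ 0)
    (h1 : ∀ l, l ∉ Submodule.span F {u} → tr (E ψ ρ u l) = 1) (hv : v ∉ Submodule.span F {u})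
    (hφ : φ ≠ 0) (hφu : φ ⬝ᵥ u = 0) (hφv : φ ⬝ᵥ v = 0) :
    tr (ρ (ts v φ) * E ψ ρ u 0) =
      ρ.character (ts v φ) + 1 - (Fintype.card F : ℂ) ^ (n - 2) := by
  classical
  have h5 : ∑ l, tr (ρ (ts v φ) * E ψ ρ u l) = Fintype.card F * ρ.character (ts v φ) := by
    rw [← map_sum, ← mul_sum, sum_E hψ hu, mul_smul_comm, map_smul, mul_one]
    rfl
  have h6 : ∀ l, tr (ρ (ts v φ) * E ψ ρ u l) =
      (if l ∈ Submodule.span F {u} then tr (ρ (ts v φ) * E ψ ρ u 0) - 1 else 0) +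
        if l ⬝ᵥ φ = 0 then 1 else 0 := by
    intro l
    rw [dotProduct_comm]
    by_cases hl : l ∈ Submodule.span F {u}
    · rw [if_pos hl, E_of_mem hl, if_pos, sub_add_cancel]
      obtain ⟨a, rfl⟩ := Submodule.mem_span_singleton.1 hl
      simp [hφu]
    rw [if_neg hl, zero_add]
    split_ifs with h
    · exact mu_one hψ hn h3 h4 hu hl (h1 l hl) hφ hφu h hφv
    · rw [← (idem_E (ρ := ρ) hψ u l).eq, ← mul_assoc, conj_E, mul_assoc,
        LinearMap.trace_mul_comm, mul_assoc, ts_mulVec hφv, ts_mulVec hφv, hφu, zero_smul,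
        add_zero, E_mul_E hψ, if_neg, mul_zero, map_zero]
      rw [add_sub_cancel_left]
      intro h'
      exact hv (by simpa [h] using Submodule.smul_mem _ (φ ⬝ᵥ l)⁻¹ h')
  have h7 : (univ.filter fun l => l ∈ Submodule.span F {u}).card = Fintype.card F := by
    rw [← card_span_singleton hu, ← Fintype.card_subtype, Fintype.card_eq_nat_card]
  have h8 : (univ.filter fun l => l ⬝ᵥ φ = 0).card = Fintype.card F ^ (n - 1) := card_an hφ
  rw [sum_congr rfl fun l _ => h6 l] at h5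
  simp only [sum_add_distrib, ← sum_filter, sum_const, h7, h8, nsmul_eq_mul, mul_one] at h5
  have hq : (Fintype.card F : ℂ) ≠ 0 := by simp
  rw [show n - 1 = (n - 2) + 1 by omega] at h5
  push_cast at h5
  refine mul_left_cancel₀ hq ?_
  linear_combination h5

section Two

omit [Fintype F] [DecidableEq F] in
theorem mul_val (a b : SpecialLinearGroup (Fin n) F) : (a * b).1 = a.1 * b.1 := rfl

variable (u v : Fin n → F)

/-- The elements acting trivially modulo the plane spanned by `u` and `v`. -/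
def KK : Subgroup (SpecialLinearGroup (Fin n) F) where
  carrier := {g | ∀ φ, φ ⬝ᵥ u = 0 → φ ⬝ᵥ v = 0 → φ ᵥ* g.1 = φ}
  mul_mem' {a b} ha hb φ h1 h2 := by
    rw [mul_val, ← vecMul_vecMul, ha φ h1 h2, hb φ h1 h2]
  one_mem' φ _ _ := by simp
  inv_mem' {a} ha φ h1 h2 := by
    have := vecMul_vecMul_inv a φ
    rwa [ha φ h1 h2] at this

/-- The stabilizer of a point. -/
def PP : Subgroup (SpecialLinearGroup (Fin n) F) where
  carrier := {g | ∃ c : F, c ≠ 0 ∧ g.1 *ᵥ u = c • u}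
  mul_mem' := by
    rintro a b ⟨c, hc, ha⟩ ⟨d, hd, hb⟩
    refine ⟨d * c, mul_ne_zero hd hc, ?_⟩
    rw [mul_val, ← mulVec_mulVec, hb, mulVec_smul, ha, mul_smul]
  one_mem' := ⟨1, one_ne_zero, by simp⟩
  inv_mem' := by
    rintro a ⟨c, hc, ha⟩
    refine ⟨c⁻¹, inv_ne_zero hc, ?_⟩
    rw [eq_inv_smul_iff₀ hc, ← mulVec_smul, ← ha, mulVec_mulVec, sl_inv_mul, one_mulVec]

/-- The functionals killing `u` and `v`. -/
def an2 : Finset (Fin n → F) := univ.filter fun φ => φ ⬝ᵥ u = 0 ∧ φ ⬝ᵥ v = 0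

variable {u v}

theorem mem_an2 {φ : Fin n → F} : φ ∈ an2 u v ↔ φ ⬝ᵥ u = 0 ∧ φ ⬝ᵥ v = 0 := by simp [an2]

omit [Fintype F] [DecidableEq F] in
theorem smul_eq (g : SpecialLinearGroup (Fin n) F) (x : Fin n → F) : g • x = g.1 *ᵥ x := rfl

omit [Fintype F] [DecidableEq F] in
theorem ts_mem_KK {x φ : Fin n → F} (h : φ ⬝ᵥ x = 0) (hx : x = u ∨ x = v) : ts x φ ∈ KK u v := by
  intro χ h1 h2
  rw [coe_ts h, vecMul_one_add]
  rcases hx with rfl | rfl <;> simp [h1, h2]

variable {α β : Fin n → F} (a1 : α ⬝ᵥ u = 1) (a2 : α ⬝ᵥ v = 0) (b1 : β ⬝ᵥ u = 0)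
  (b2 : β ⬝ᵥ v = 1)
include a1 a2 b1 b2

omit [Fintype F] [DecidableEq F] in
theorem KK_apply {g : SpecialLinearGroup (Fin n) F} (hg : g ∈ KK u v) (x : Fin n → F) :
    g.1 *ᵥ x = x + ((α ᵥ* g.1 - α) ⬝ᵥ x) • u + ((β ᵥ* g.1 - β) ⬝ᵥ x) • v := by
  have h1 : g.1 *ᵥ x - x ∈ Submodule.span F {u, v} := by
    by_contra h
    obtain ⟨χ, c1, c2⟩ := exists_dot_eq_of_notMem h 1
    rw [dotProduct_sub, dotProduct_mulVec, hg χ (c2 u (Submodule.subset_span (by simp)))
      (c2 v (Submodule.subset_span (by simp))), sub_self] at c1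
    exact zero_ne_one c1
  obtain ⟨a, c, h⟩ := Submodule.mem_span_pair.1 h1
  rw [sub_dotProduct, sub_dotProduct, ← dotProduct_mulVec, ← dotProduct_mulVec, ← dotProduct_sub,
    ← dotProduct_sub, ← h, add_assoc, ← sub_eq_iff_eq_add', ← h]
  simp [a1, a2, b1, b2]

omit [Fintype F] [DecidableEq F] in
theorem KK_decomp {g : SpecialLinearGroup (Fin n) F} (hg : g ∈ KK u v) (hu : g.1 *ᵥ u = u) :
    ∃ φ χ, φ ⬝ᵥ u = 0 ∧ χ ⬝ᵥ u = 0 ∧ χ ⬝ᵥ v = 0 ∧ g = ts v χ * ts u φ := by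
  have h1 : (α ᵥ* g.1 - α) ⬝ᵥ u = 0 := by rw [sub_dotProduct, ← dotProduct_mulVec, hu, sub_self]
  have h2 : (β ᵥ* g.1 - β) ⬝ᵥ u = 0 := by rw [sub_dotProduct, ← dotProduct_mulVec, hu, sub_self]
  have h3 : g.1 = (1 + vecMulVec v (β ᵥ* g.1 - β)) * (1 + vecMulVec u (α ᵥ* g.1 - α)) := by
    refine ext_of_mulVec_single fun i => ?_
    rw [← mulVec_mulVec, one_add_vecMulVec_mulVec, one_add_vecMulVec_mulVec, dotProduct_add,
      dotProduct_smul, h2, smul_zero, add_zero]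
    exact KK_apply a1 a2 b1 b2 hg _
  have h4 : (β ᵥ* g.1 - β) ⬝ᵥ v = 0 := by
    have := g.2
    rw [h3, det_mul, det_one_add_vecMulVec, det_one_add_vecMulVec, h1] at this
    simpa using this
  refine ⟨_, _, h1, h2, h4, Subtype.ext ?_⟩
  rw [mul_val, coe_ts h1, coe_ts h4, ← h3]

omit b1 b2 in
theorem sum_an_eq {M : Type*} [AddCommMonoid M] (f : (Fin n → F) → M) :
    ∑ φ ∈ an v, f φ = ∑ χ ∈ an2 u v, ∑ t : F, f (χ + t • α) := by
  rw [← sum_product']
  refine sum_nbij' (fun φ => (φ - (φ ⬝ᵥ u) • α, φ ⬝ᵥ u)) (fun x => x.1 + x.2 • α) ?_ ?_ ?_ ?_ ?_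
  · intro φ h
    simp [mem_an2, a1, a2, mem_an.1 h]
  · intro x h
    simp [mem_an, a2, (mem_an2.1 (mem_product.1 h).1).2]
  · intro φ _
    simp
  · intro x h
    simp [a1, (mem_an2.1 (mem_product.1 h).1).1]
  · intro φ _
    simp

omit b1 b2 in
theorem card_an2 (hn : 2 ≤ n) (hv : v ≠ 0) : (an2 u v).card = Fintype.card F ^ (n - 2) := by
  have := sum_an_eq a1 a2 fun _ => 1
  simp only [sum_const, card_univ, smul_eq_mul, mul_one, card_an hv] at this
  rw [show n - 1 = n - 2 + 1 by omega, pow_succ] at this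
  exact (Nat.eq_of_mul_eq_mul_right Fintype.card_pos this).symm

theorem gap (hn : 2 ≤ n) : ∃ j : ℕ, (j = 0 ∨ Fintype.card F ≤ j) ∧
    (Fintype.card F : ℂ) ^ 2 * (((Fintype.card F : ℂ) ^ (n - 2))⁻¹ *
      ∑ χ ∈ an2 u v, tr (ρ (ts v χ) * E ψ ρ u 0) - tr (E ψ ρ v 0 * E ψ ρ u 0)) =
      (Fintype.card F - 1) * j := by
  classical
  have hu : u ≠ 0 := by rintro rfl; simp at a1
  have hv : v ≠ 0 := by rintro rfl; simp at b2
  have hq : (Fintype.card F : ℂ) ≠ 0 := by simp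
  let K := KK u v
  let U := K ⊓ MulAction.stabilizer (SpecialLinearGroup (Fin n) F) u
  let B := K ⊓ PP u
  have hU : ∀ g, g ∈ U ↔ g ∈ K ∧ g.1 *ᵥ u = u := fun _ => Iff.rfl
  have hUB : U ≤ B := fun g hg => ⟨hg.1, 1, one_ne_zero, by rw [one_smul]; exact hg.2⟩
  let A : End ℂ V := ((Fintype.card F : ℂ) ^ (n - 2))⁻¹ • ∑ χ ∈ an2 u v, ρ (ts v χ)
  have hc : ((an2 u v).card : ℂ) = (Fintype.card F : ℂ) ^ (n - 2) := by
    rw [card_an2 a1 a2 hn hv, Nat.cast_pow]
  have hA : ∀ χ, χ ⬝ᵥ u = 0 → χ ⬝ᵥ v = 0 → ρ (ts v χ) * A = A := by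
    intro χ h1 h2
    simp only [A]
    rw [mul_smul_comm, mul_sum]
    congr 1
    refine sum_equiv (Equiv.addLeft χ) (fun φ => by simp [mem_an2, h1, h2]) fun φ hφ => ?_
    rw [← map_mul, ← ts_add_right h2 (mem_an2.1 hφ).2]
    rfl
  have hE : ∀ χ, χ ⬝ᵥ u = 0 → χ ⬝ᵥ v = 0 → Commute (ρ (ts v χ)) (E ψ ρ u 0) := fun χ h1 h2 =>
    commute_E one_ne_zero (by rw [ts_mulVec h2, h1]; simp) (by simp)
  have hP : E ψ ρ u 0 * A = av ρ U := by
    have h1 : av ρ U * (E ψ ρ u 0 * A) = E ψ ρ u 0 * A := av_mul_of fun g hg => by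
      obtain ⟨φ, χ, c1, c2, c3, rfl⟩ := KK_decomp a1 a2 b1 b2 hg.1 hg.2
      rw [map_mul, mul_assoc, ← mul_assoc (ρ (ts u φ)), ts_mul_E c1, dotProduct_zero,
        AddChar.map_zero_eq_one, one_smul, ← mul_assoc, (hE χ c2 c3).eq, mul_assoc, hA χ c2 c3]
    have h2 : av ρ U * E ψ ρ u 0 = av ρ U := by
      rw [E_zero, mul_smul_comm, mul_sum, sum_congr rfl (g := fun _ => av ρ U), sum_const,
        ← Nat.cast_smul_eq_nsmul ℂ, smul_smul, inv_mul_cancel₀ (card_an_ne u), one_smul]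
      intro φ hφ
      have := mem_an.1 hφ
      exact av_mul ((hU _).2 ⟨ts_mem_KK this (Or.inl rfl), by rw [ts_mulVec this, this]; simp⟩)
    have h3 : av ρ U * A = av ρ U := by
      simp only [A]
      rw [mul_smul_comm, mul_sum, sum_congr rfl (g := fun _ => av ρ U), sum_const,
        ← Nat.cast_smul_eq_nsmul ℂ, smul_smul, hc, inv_mul_cancel₀ (pow_ne_zero _ hq), one_smul]
      intro φ hφ
      have := mem_an2.1 hφ
      exact av_mul ((hU _).2 ⟨ts_mem_KK this.2 (Or.inr rfl),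
        by rw [ts_mulVec this.2, this.1]; simp⟩)
    rw [← h1, ← mul_assoc, h2, h3]
  let f : SpecialLinearGroup (Fin n) F → ℂ := fun g => tr (ρ g * av ρ U)
  have ta : ∀ t : F, (t • α) ⬝ᵥ v = 0 := fun t => by simp [a2]
  have tb : ∀ t : F, (t • β) ⬝ᵥ u = 0 := fun t => by simp [b1]
  have e1 : ((Fintype.card F : ℂ) ^ (n - 2))⁻¹ * ∑ χ ∈ an2 u v, tr (ρ (ts v χ) * E ψ ρ u 0) =
      tr (av ρ U) := by
    rw [← hP, LinearMap.trace_mul_comm]
    simp only [A]
    rw [smul_mul_assoc, map_smul, sum_mul, map_sum, smul_eq_mul]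
  have e2 : Fintype.card F * tr (E ψ ρ v 0 * E ψ ρ u 0) = ∑ t : F, f (ts v (t • α)) := by
    have h1 : (Fintype.card F : ℂ) • E ψ ρ v 0 = A * ∑ t : F, ρ (ts v (t • α)) := by
      simp only [A]
      rw [E_zero, sum_an_eq a1 a2, smul_mul_assoc, sum_mul_sum, smul_smul, card_an hv,
        show n - 1 = n - 2 + 1 by omega]
      congr 1
      · rw [Nat.cast_pow, pow_succ]
        field_simp
      · refine sum_congr rfl fun χ hχ => sum_congr rfl fun t _ => ?_
        rw [ts_add_right (mem_an2.1 hχ).2 (ta t), map_mul]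
    rw [← smul_eq_mul, ← map_smul, ← smul_mul_assoc, h1, mul_assoc, LinearMap.trace_mul_comm,
      mul_assoc, hP, sum_mul, map_sum]
  have f1 : ∀ g ∈ K, ∀ g' ∈ K, g.1 *ᵥ u = g'.1 *ᵥ u → f g = f g' := by
    intro g hg g' hg' h
    have : g⁻¹ * g' ∈ U := (hU _).2 ⟨K.mul_mem (K.inv_mem hg) hg', by
      rw [mul_val, ← mulVec_mulVec, ← h, mulVec_mulVec, sl_inv_mul,
        one_mulVec]⟩
    simp only [f]
    conv_lhs => rw [← mul_av this, ← mul_assoc, ← map_mul, mul_inv_cancel_left]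
  have f2 : ∀ x ∈ U, ∀ g, f (x * g) = f g := by
    intro x hx g
    simp only [f]
    rw [map_mul ρ, mul_assoc, LinearMap.trace_mul_comm, mul_assoc, av_mul hx]
  let Φ : (Fin n → F) → ℂ := fun z => if h : ∃ g ∈ K, g.1 *ᵥ u = z then f h.choose else 0
  have hΦ : ∀ g ∈ K, Φ (g.1 *ᵥ u) = f g := fun g hg => by
    have h : ∃ g' ∈ K, g'.1 *ᵥ u = g.1 *ᵥ u := ⟨g, hg, rfl⟩
    simp only [Φ]
    rw [dif_pos h]
    exact f1 _ h.choose_spec.1 _ hg h.choose_spec.2
  have ne0 : ∀ g : SpecialLinearGroup (Fin n) F, g.1 *ᵥ u ≠ 0 := fun g h =>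
    hu ((smul_eq_zero_iff_eq g).1 h)
  have hΦ0 : Φ 0 = 0 := dif_neg fun ⟨g, _, h⟩ => ne0 g h
  have xU : ∀ s : F, ts u (s • β) ∈ U := fun s =>
    (hU _).2 ⟨ts_mem_KK (tb s) (Or.inl rfl), by rw [ts_mulVec (tb s), tb]; simp⟩
  have yK : ∀ t : F, ts v (t • α) ∈ K := fun t => ts_mem_KK (ta t) (Or.inr rfl)
  have xy : ∀ a c : F, c ≠ 0 →
      (ts u (((a - 1) * c⁻¹) • β) * ts v (c • α)).1 *ᵥ u = a • u + c • v := by
    intro a c hc0
    rw [mul_val, ← mulVec_mulVec, ts_mulVec (ta _), ts_mulVec (tb _)]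
    simp only [smul_dotProduct, dotProduct_add, dotProduct_smul, a1, b1, b2, smul_eq_mul,
      mul_one]
    match_scalars
    · field_simp
      ring
    · ring
  have hΦ1 : ∀ a c : F, c ≠ 0 → Φ (a • u + c • v) = f (ts v (c • α)) := by
    intro a c hc0
    rw [← xy a c hc0, hΦ _ (K.mul_mem (xU _).1 (yK _)), f2 _ (xU _)]
  have orb : ∀ a c : F, a • u + c • v ≠ 0 → ∃ g ∈ K, g.1 *ᵥ u = a • u + c • v := by
    intro a c h
    rcases eq_or_ne c 0 with rfl | hc0
    · have ha : a ≠ 0 := by rintro rfl; simp at h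
      refine ⟨_, K.mul_mem (yK (-a⁻¹)) (K.mul_mem (xU ((a - 1) * 1⁻¹)).1 (yK 1)), ?_⟩
      rw [mul_val, ← mulVec_mulVec, xy a 1 one_ne_zero, ts_mulVec (ta _)]
      simp [a1, a2, ha]
    · exact ⟨_, K.mul_mem (xU _).1 (yK _), xy a c hc0⟩
  have inj : Function.Injective fun p : F × F => p.1 • u + p.2 • v := by
    intro p p' h
    have h1 := congrArg (α ⬝ᵥ ·) h
    have h2 := congrArg (β ⬝ᵥ ·) h
    simp only [dotProduct_add, dotProduct_smul, a1, a2, b1, b2, smul_eq_mul, mul_one, mul_zero,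
      add_zero, zero_add] at h1 h2
    exact Prod.ext h1 h2
  have inj' : Function.Injective fun a : F => a • u := smul_left_injective F hu
  obtain ⟨cK, k1, k2⟩ := Cusp.sum_smul_orbit (G := K) u
    ((univ.image fun p : F × F => p.1 • u + p.2 • v).erase 0) (fun z => by
      rw [mem_erase, mem_image]
      constructor
      · rintro ⟨h, p, -, rfl⟩
        obtain ⟨g, hg, h⟩ := orb _ _ h
        exact ⟨⟨g, hg⟩, h⟩
      · rintro ⟨g, rfl⟩
        refine ⟨ne0 g, (1 + (α ᵥ* g.1.1 - α) ⬝ᵥ u, (β ᵥ* g.1.1 - β) ⬝ᵥ u), mem_univ _, ?_⟩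
        rw [add_smul, one_smul]
        exact (KK_apply a1 a2 b1 b2 g.2 u).symm)
  obtain ⟨cB, l1, l2⟩ := Cusp.sum_smul_orbit (G := B) u
    ((univ.image fun a : F => a • u).erase 0) (fun z => by
      rw [mem_erase, mem_image]
      constructor
      · rintro ⟨h, a, -, rfl⟩
        obtain ⟨g, hg, h'⟩ := orb a 0 (by simpa using h)
        rw [zero_smul, add_zero] at h'
        exact ⟨⟨g, hg, a, by rintro rfl; simp at h, h'⟩, h'⟩
      · rintro ⟨g, rfl⟩
        obtain ⟨c, -, h⟩ := g.2.2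
        exact ⟨ne0 g, c, mem_univ _, h.symm⟩)
  have m1 : (0 : Fin n → F) ∈ univ.image fun p : F × F => p.1 • u + p.2 • v :=
    mem_image.2 ⟨0, mem_univ _, by simp⟩
  have m2 : (0 : Fin n → F) ∈ univ.image fun a : F => a • u :=
    mem_image.2 ⟨0, mem_univ _, by simp⟩
  have k3 := k2 Φ
  have l3 := l2 Φ
  rw [sum_erase _ hΦ0, sum_image fun _ _ _ _ h => inj h, Fintype.sum_prod_type_right,
    ← add_sum_erase _ _ (mem_univ (0 : F)),
    sum_congr (s₂ := univ.erase (0 : F)) rfl fun c hc =>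
      sum_congr (s₂ := univ) rfl fun a _ => hΦ1 a c (ne_of_mem_erase hc)] at k3
  rw [sum_erase _ hΦ0, sum_image fun _ _ _ _ h => inj' h] at l3
  have k4 : ∑ g : K, Φ (g • u) = Fintype.card K * tr (av ρ K) := by
    rw [trace_av (inf_le_left : U ≤ K)]
    exact sum_congr rfl fun g _ => hΦ g g.2
  have l4 : ∑ g : B, Φ (g • u) = Fintype.card B * tr (av ρ B) := by
    rw [trace_av hUB]
    exact sum_congr rfl fun g _ => hΦ g g.2.1
  rw [card_erase_of_mem m1, card_image_of_injective _ inj, card_univ, Fintype.card_prod] at k1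
  rw [card_erase_of_mem m2, card_image_of_injective _ inj', card_univ] at l1
  have q1 : 1 ≤ Fintype.card F := Fintype.card_pos
  have cK0 : (cK : ℂ) ≠ 0 := by
    rw [Nat.cast_ne_zero]; rintro rfl; exact Fintype.card_ne_zero k1.symm
  have cB0 : (cB : ℂ) ≠ 0 := by
    rw [Nat.cast_ne_zero]; rintro rfl; exact Fintype.card_ne_zero l1.symm
  rw [k4, ← k1, Nat.cast_mul, mul_comm _ (cK : ℂ), mul_assoc,
    Nat.cast_sub (Nat.mul_pos q1 q1)] at k3
  rw [l4, ← l1, Nat.cast_mul, mul_comm _ (cB : ℂ), mul_assoc, Nat.cast_sub q1] at l3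
  have k5 := mul_left_cancel₀ cK0 k3
  have l5 := mul_left_cancel₀ cB0 l3
  simp only [zero_smul, add_zero, sum_const, card_univ, nsmul_eq_mul, ← mul_sum] at k5
  rw [← add_sum_erase _ _ (mem_univ (0 : F)), zero_smul, ts_zero_right] at e2
  have f0 : f 1 = tr (av ρ U) := by simp [f]
  obtain ⟨b, hb⟩ := exists_trace_av (ρ := ρ) (inf_le_left : B ≤ K)
  obtain ⟨b', hb'⟩ := exists_trace_av (ρ := ρ) hUB
  refine ⟨Fintype.card F * (b + b') + b, ?_, ?_⟩
  · rcases Nat.eq_zero_or_pos (b + b') with h | h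
    · left; rw [h]; omega
    · right; nlinarith
  · rw [e1]
    push_cast at k5 l5 ⊢
    linear_combination (-(Fintype.card F : ℂ)) * e2 - Fintype.card F * f0 + k5 - l5 +
      ((Fintype.card F : ℂ) ^ 2 - Fintype.card F) * hb' +
      ((Fintype.card F : ℂ) ^ 2 - 1) * hb

end Two

end Cfsg.Agent.H22.SLDeg
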