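import Mathlib
import Cfsg.Agent.H27.SympBasic

set_option autoImplicit false

namespace Cfsg.Agent.H22.SpCell

open Matrix Polynomial

variable {l : Type*} [Fintype l] [DecidableEq l] {F : Type*} [Field F]

/-- A Lagrangian frame `R` in general position to its image puts `g` into the big cell normal form. -/
theorem exists_conj_of_frame (g : symplecticGroup l F) (R : Matrix (l ⊕ l) l F)
    (h0 : Rᵀ * J l F * R = 0) (hd : (Rᵀ * J l F * (g : Matrix (l ⊕ l) (l ⊕ l) F) * R).det ≠ 0) :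
    ∃ (P : symplecticGroup l F) (B D : Matrix l l F),
      ((P⁻¹ * g * P : symplecticGroup l F) : Matrix (l ⊕ l) (l ⊕ l) F) =
        fromBlocks 0 B (-(Rᵀ * J l F * (g : Matrix (l ⊕ l) (l ⊕ l) F) * R)) D := by
  set G : Matrix (l ⊕ l) (l ⊕ l) F := (g : Matrix (l ⊕ l) (l ⊕ l) F) with hG
  set β := Rᵀ * J l F * G * R with hβ
  have hu : IsUnit β.det := isUnit_iff_ne_zero.2 hd
  have hg : Gᵀ * J l F * G = J l F := SymplecticGroup.mem_iff'.1 g.2
  have k1 : Rᵀ * J l F * (G * R * (-β⁻¹)) = -1 := by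
    rw [Matrix.mul_neg, Matrix.mul_neg, ← Matrix.mul_assoc, ← Matrix.mul_assoc, ← hβ,
      Matrix.mul_nonsing_inv _ hu]
  have k2 : (G * R * (-β⁻¹))ᵀ * J l F * R = 1 := by
    have := congrArg Matrix.transpose k1
    rw [transpose_mul, transpose_mul Rᵀ, transpose_transpose, J_transpose, transpose_neg 1,
      transpose_one, Matrix.neg_mul, Matrix.mul_neg, neg_inj, ← Matrix.mul_assoc] at this
    exact this
  have k3 : (G * R * (-β⁻¹))ᵀ * J l F * (G * R * (-β⁻¹)) = 0 := by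
    have : (G * R * (-β⁻¹))ᵀ * J l F * (G * R * (-β⁻¹)) =
        (-β⁻¹)ᵀ * (Rᵀ * (Gᵀ * J l F * G) * R) * (-β⁻¹) := by
      simp only [transpose_mul, Matrix.mul_assoc]
    rw [this, hg, h0, Matrix.mul_zero, Matrix.zero_mul]
  have hP : fromCols R (G * R * (-β⁻¹)) ∈ symplecticGroup l F := by
    rw [SymplecticGroup.mem_iff', transpose_fromCols, fromRows_mul, fromRows_mul_fromCols,
      h0, k1, k2, k3]
    rfl
  set P : symplecticGroup l F := ⟨_, hP⟩ with hPd
  set g' : Matrix (l ⊕ l) (l ⊕ l) F := ((P⁻¹ * g * P : symplecticGroup l F) :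
    Matrix (l ⊕ l) (l ⊕ l) F) with hg'
  have e1 : (P : Matrix (l ⊕ l) (l ⊕ l) F) * (fromRows (1 : Matrix l l F) (0 : Matrix l l F) : Matrix (l ⊕ l) l F) = R := by
    simp [hPd, fromCols_mul_fromRows]
  have e2 : (P : Matrix (l ⊕ l) (l ⊕ l) F) * (fromRows (0 : Matrix l l F) (-β) : Matrix (l ⊕ l) l F) = G * R := by
    simp only [hPd, fromCols_mul_fromRows, Matrix.mul_zero, zero_add, Matrix.mul_assoc,
      Matrix.neg_mul, Matrix.mul_neg, neg_neg, Matrix.nonsing_inv_mul _ hu, Matrix.mul_one]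
  have e3 : ((P⁻¹ : symplecticGroup l F) : Matrix (l ⊕ l) (l ⊕ l) F) *
      (P : Matrix (l ⊕ l) (l ⊕ l) F) = 1 := by
    rw [← Submonoid.coe_mul, inv_mul_cancel, Submonoid.coe_one]
  have e4 : g' * (fromRows (1 : Matrix l l F) (0 : Matrix l l F) : Matrix (l ⊕ l) l F) = (fromRows (0 : Matrix l l F) (-β) : Matrix (l ⊕ l) l F) := by
    rw [hg', Submonoid.coe_mul, Submonoid.coe_mul, Matrix.mul_assoc, Matrix.mul_assoc, e1, ← hG,
      ← e2, ← Matrix.mul_assoc, e3, Matrix.one_mul]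
  refine ⟨P, g'.toBlocks₁₂, g'.toBlocks₂₂, ?_⟩
  rw [← hg']
  conv_lhs => rw [← fromBlocks_toBlocks g']
  rw [← fromBlocks_toBlocks g', fromBlocks_mul_fromRows] at e4
  simp only [Matrix.mul_one, Matrix.mul_zero, add_zero] at e4
  obtain ⟨a1, a2⟩ := fromRows_inj.eq_iff.1 e4
  rw [a1, a2]

theorem cell_mem {D E S : Matrix l l F} (hDE : D * E = 1) (hS : Sᵀ = S) :
    fromBlocks 0 (-Dᵀ) E (E * S) ∈ symplecticGroup l F := by
  rw [SymplecticGroup.fromBlocks_mem_iff]
  refine ⟨by simp, ?_, ?_⟩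
  · rw [transpose_neg, transpose_transpose, transpose_mul, hS, Matrix.neg_mul, Matrix.mul_neg,
      ← Matrix.mul_assoc, hDE, Matrix.mul_assoc, ← transpose_mul, hDE]
    simp
  · rw [transpose_zero, Matrix.zero_mul, Matrix.mul_neg, ← transpose_mul, hDE]
    simp

/-- The characteristic polynomial of a big cell element. -/
theorem charpoly_cell {D E : Matrix l l F} (S : Matrix l l F) (hDE : D * E = 1) :
    C D.det * (fromBlocks 0 (-Dᵀ) E (E * S)).charpoly =
      ((X ^ 2 : F[X]) • D.map C - (X : F[X]) • S.map C + Dᵀ.map C).det := by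
  have hJ : (J l F[X]).det = 1 := SymplecticGroup.det_eq_one (SymplecticGroup.J_mem l F[X])
  have h1 : (fromBlocks (1 : Matrix l l F[X]) 0 0 (D.map C)).det = C D.det := by
    rw [det_fromBlocks_zero₂₁, det_one, one_mul]
    exact ((C : F →+* F[X]).map_det D).symm
  have hm : D.map C * E.map C = (1 : Matrix l l F[X]) := by
    rw [← Matrix.map_mul, hDE, Matrix.map_one _ (map_zero _) (map_one _)]
  have hs : ∀ A : Matrix l l F, charmatrix A = (X : F[X]) • (1 : Matrix l l F[X]) - A.map C := by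
    intro A
    rw [charmatrix, Matrix.scalar_apply, ← Matrix.smul_one_eq_diagonal]
    rfl
  rw [← h1, charpoly, ← det_mul, ← mul_one (det _), ← hJ, ← det_mul, charmatrix_fromBlocks, J,
    fromBlocks_multiply, fromBlocks_multiply, hs, hs]
  simp only [Matrix.one_mul, Matrix.zero_mul, add_zero, zero_add, Matrix.mul_zero, Matrix.mul_one,
    Matrix.mul_neg, hm, neg_neg, Matrix.map_mul, Matrix.mul_sub, ← Matrix.mul_assoc,
    Matrix.mul_smul, Matrix.map_zero _ (map_zero _), sub_zero, smul_zero, neg_zero]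
  rw [det_fromBlocks_one₂₂]
  congr 1
  rw [Matrix.map_neg _ (map_neg _)]
  simp only [Matrix.neg_mul, Matrix.smul_mul, Matrix.one_mul, neg_neg, smul_sub, smul_smul, sq,
    sub_neg_eq_add]
  abel

theorem levi_mem {X Y : Matrix l l F} (h : X * Y = 1) :
    fromBlocks X 0 0 Yᵀ ∈ symplecticGroup l F := by
  rw [SymplecticGroup.fromBlocks_mem_iff]
  refine ⟨by simp, by simp, ?_⟩
  rw [← transpose_mul, mul_eq_one_comm.1 h]
  simp

/-- Factorisation of a big cell element with prescribed Levi part. -/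
theorem cell_factor (g : symplecticGroup l F) {B Cm D₀ : Matrix l l F}
    (hg : (g : Matrix (l ⊕ l) (l ⊕ l) F) = fromBlocks 0 B Cm D₀) {X Y D E S : Matrix l l F}
    (hXY : X * Y = 1) (hDE : D * E = 1) (hE : E * X = Cm) (hS : Sᵀ = S) :
    ∃ (M₁ M₂ : symplecticGroup l F) (W : Matrix l l F), g = M₁ * M₂ ∧
      (M₁ : Matrix (l ⊕ l) (l ⊕ l) F) = fromBlocks 0 (-Dᵀ) E (E * S) ∧
      (M₂ : Matrix (l ⊕ l) (l ⊕ l) F) = fromBlocks X W 0 Yᵀ := by
  set M₁ : symplecticGroup l F := ⟨_, cell_mem hDE hS⟩ with hM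
  have hm := g.2
  rw [hg, SymplecticGroup.fromBlocks_mem_iff] at hm
  obtain ⟨-, -, h3⟩ := hm
  have hED : E * D = 1 := mul_eq_one_comm.1 hDE
  have hB : B = -(Dᵀ * Yᵀ) := by
    have h4 : Cmᵀ * B = -1 := by
      rw [transpose_zero, Matrix.zero_mul, zero_sub] at h3
      rw [← h3, neg_neg]
    have h5 : Dᵀ * Yᵀ * Cmᵀ = 1 := by
      rw [← transpose_mul, ← transpose_mul, ← hE, Matrix.mul_assoc, ← Matrix.mul_assoc X, hXY,
        Matrix.one_mul, hED, transpose_one]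
    calc B = Dᵀ * Yᵀ * Cmᵀ * B := by rw [h5, Matrix.one_mul]
      _ = _ := by rw [Matrix.mul_assoc, h4, Matrix.mul_neg, Matrix.mul_one]
  refine ⟨M₁, M₁⁻¹ * g, D * D₀ - S * Yᵀ, by group, rfl, ?_⟩
  have e : (M₁ : Matrix (l ⊕ l) (l ⊕ l) F) * fromBlocks X (D * D₀ - S * Yᵀ) 0 Yᵀ = g := by
    rw [hg, hM, fromBlocks_multiply, hB, ← hE]
    simp only [Matrix.zero_mul, Matrix.mul_zero, add_zero, zero_add, Matrix.neg_mul,
      Matrix.mul_sub, ← Matrix.mul_assoc, hED, Matrix.one_mul, sub_add_cancel, sub_zero]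
  rw [Submonoid.coe_mul, ← e, ← Matrix.mul_assoc, ← Submonoid.coe_mul, inv_mul_cancel,
    Submonoid.coe_one, Matrix.one_mul]

end Cfsg.Agent.H22.SpCell
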