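import Mathlib
import Cfsg.Agent.H75.QuadOrbit

/-! Orbits of quadratic forms of rank at least two in odd characteristic. -/

set_option autoImplicit false

namespace Cfsg.Agent.H22.SpWeil

open Module QuadraticMap Cfsg.Agent.H75

variable {F : Type*} [Field F] {V : Type*} [AddCommGroup V] [Module F V]

theorem plane_polar' {Q₀ : QuadraticForm F (F × F)} {a b c : F}
    (hQ : ∀ v, Q₀ v = v.1 ^ 2 * a + v.2 ^ 2 * b + v.1 * v.2 * c) (v w : F × F) :
    polar Q₀ v w = 2 * a * v.1 * w.1 + 2 * b * v.2 * w.2 + c * (v.1 * w.2 + v.2 * w.1) := by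
  simp only [polar, hQ, Prod.fst_add, Prod.snd_add]
  ring

theorem exists_plane (Q : QuadraticForm F V) (e f : V) (l : V →ₗ[F] F × F)
    (h1 : l e = (1, 0)) (h2 : l f = (0, 1))
    (h3 : ∀ x, l x = 0 → polar Q e x = 0 ∧ polar Q f x = 0) :
    ∃ ι : F × F →ₗ[F] V, (∀ w, l (ι w) = w) ∧
      (∀ w, Q (ι w) = w.1 ^ 2 * Q e + w.2 ^ 2 * Q f + w.1 * w.2 * polar Q e f) ∧
      ∀ w x, l x = 0 → Q (ι w + x) = Q (ι w) + Q x := by
  let ι : F × F →ₗ[F] V :=
    (LinearMap.toSpanSingleton F V e).coprod (LinearMap.toSpanSingleton F V f)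
  have hι : ∀ w, ι w = w.1 • e + w.2 • f := fun w => rfl
  refine ⟨ι, fun w => ?_, fun w => ?_, fun w x hx => ?_⟩
  · rw [hι, map_add, map_smul, map_smul, h1, h2]
    simp
  · rw [hι, quad_add_smul]
  · rw [QuadraticMap.map_add Q, hι, polar_add_left, polar_smul_left, polar_smul_left,
      (h3 x hx).1, (h3 x hx).2]
    simp

variable [Fintype F]

theorem natCard_diag_isom_le (h2 : (2 : F) ≠ 0) {Q₀ : QuadraticForm F (F × F)} {a b : F}
    (hQ : ∀ v, Q₀ v = v.1 ^ 2 * a + v.2 ^ 2 * b + v.1 * v.2 * 0) (ha : a ≠ 0) (hb : b ≠ 0) :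
    Nat.card {N : F × F →ₗ[F] F × F // Q₀.comp N = Q₀} ≤ 2 * (Fintype.card F + 1) := by
  classical
  have hfin : Finite (F × F →ₗ[F] F × F) := DFunLike.finite _
  have hN : ∀ N : {N : F × F →ₗ[F] F × F // Q₀.comp N = Q₀}, Q₀ (N.1 (1, 0)) = a ∧
      Q₀ (N.1 (0, 1)) = b ∧ polar Q₀ (N.1 (1, 0)) (N.1 (0, 1)) = 0 := by
    intro N
    refine ⟨?_, ?_, ?_⟩
    · rw [← comp_apply, N.2, hQ]; simp
    · rw [← comp_apply, N.2, hQ]; simp
    · rw [← polar_comp_apply, N.2, plane_polar' hQ]; simp
  have h := natCard_le_mul_ncard (fun N : {N : F × F →ₗ[F] F × F // Q₀.comp N = Q₀} =>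
      if (N.1 (1, 0)).1 + 1 = 0 then none else some ((N.1 (1, 0)).2 / ((N.1 (1, 0)).1 + 1)))
    Set.univ Set.finite_univ (fun _ => trivial) 2 (by
      intro N₀
      have hv : ∀ N : {N : F × F →ₗ[F] F × F // Q₀.comp N = Q₀},
          (if (N.1 (1, 0)).1 + 1 = 0 then none else
            some ((N.1 (1, 0)).2 / ((N.1 (1, 0)).1 + 1))) =
          (if (N₀.1 (1, 0)).1 + 1 = 0 then none else
            some ((N₀.1 (1, 0)).2 / ((N₀.1 (1, 0)).1 + 1))) →
          N.1 (1, 0) = N₀.1 (1, 0) := by
        intro N h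
        have h1 := (hN N).1
        have h0 := (hN N₀).1
        rw [hQ] at h1 h0
        generalize N.1 (1, 0) = v at h h1
        generalize N₀.1 (1, 0) = v₀ at h h0
        obtain ⟨s, t⟩ := v
        obtain ⟨s₀, t₀⟩ := v₀
        simp only at h h1 h0
        split_ifs at h with ht ht₀ ht₀
        · have e1 : t ^ 2 * b = 0 := by linear_combination h1 - a * (s - 1) * ht
          have e2 : t₀ ^ 2 * b = 0 := by linear_combination h0 - a * (s₀ - 1) * ht₀
          have e3 : t = 0 := by simpa [hb] using e1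
          have e4 : t₀ = 0 := by simpa [hb] using e2
          have e5 : s = s₀ := by linear_combination ht - ht₀
          rw [e3, e4, e5]
        · have hr := Option.some.inj h
          obtain ⟨r, hr1⟩ : ∃ r, r = t / (s + 1) := ⟨_, rfl⟩
          have e1 : t = r * (s + 1) := by rw [hr1, div_mul_cancel₀ _ ht]
          have e2 : t₀ = r * (s₀ + 1) := by rw [hr1, hr, div_mul_cancel₀ _ ht₀]
          subst e1 e2
          have e3 : a * (s - 1) + b * r ^ 2 * (s + 1) = 0 :=
            mul_left_cancel₀ ht (by linear_combination h1)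
          have e4 : a * (s₀ - 1) + b * r ^ 2 * (s₀ + 1) = 0 :=
            mul_left_cancel₀ ht₀ (by linear_combination h0)
          have e5 : s = s₀ := mul_left_cancel₀ (mul_ne_zero h2 ha) (by
            linear_combination (s₀ + 1) * e3 - (s + 1) * e4)
          rw [e5]
      refine ncard_le_two_of_injOn (fun N => N.1 (0, 1)) ?_ (N₀.1 (0, 1)) (-N₀.1 (0, 1)) ?_
      · intro N h N' h' hNN'
        exact Subtype.ext (plane_ext ((hv N h).trans (hv N' h').symm) hNN')
      · intro N h
        obtain ⟨-, h1, h3⟩ := hN N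
        obtain ⟨h0, h1', h3'⟩ := hN N₀
        rw [hv N h] at h3
        rw [plane_polar' hQ] at h3 h3'
        rw [hQ] at h0 h1 h1'
        show N.1 (0, 1) = _ ∨ N.1 (0, 1) = _
        generalize N.1 (0, 1) = w at h1 h3
        generalize N₀.1 (0, 1) = w₀ at h1' h3'
        generalize N₀.1 (1, 0) = v at h0 h3 h3'
        obtain ⟨s, t⟩ := v
        obtain ⟨x, y⟩ := w
        obtain ⟨x₀, y₀⟩ := w₀
        simp only at h0 h1 h1' h3 h3'
        have e3 : a * s * x + b * t * y = 0 := mul_left_cancel₀ h2 (by linear_combination h3)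
        have e4 : a * s * x₀ + b * t * y₀ = 0 := mul_left_cancel₀ h2 (by linear_combination h3')
        have hx : x = -(b / a * t) * (s * y - t * x) := by
          field_simp
          linear_combination s * e3 - x * h0
        have hy : y = s * (s * y - t * x) := mul_left_cancel₀ ha (by
          linear_combination t * e3 - y * h0)
        have hx₀ : x₀ = -(b / a * t) * (s * y₀ - t * x₀) := by
          field_simp
          linear_combination s * e4 - x₀ * h0
        have hy₀ : y₀ = s * (s * y₀ - t * x₀) := mul_left_cancel₀ ha (by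
          linear_combination t * e4 - y₀ * h0)
        have k1 : (s * y - t * x) ^ 2 = 1 := mul_left_cancel₀ (mul_ne_zero ha hb) (by
          linear_combination (x ^ 2 * a + y ^ 2 * b) * h0 + a * h1 - (a * s * x + b * t * y) * e3)
        have k2 : (s * y₀ - t * x₀) ^ 2 = 1 := mul_left_cancel₀ (mul_ne_zero ha hb) (by
          linear_combination (x₀ ^ 2 * a + y₀ ^ 2 * b) * h0 + a * h1' -
            (a * s * x₀ + b * t * y₀) * e4)
        rcases sq_eq_sq_iff_eq_or_eq_neg.1 (k1.trans k2.symm) with k | k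
        · rw [k] at hx hy
          exact Or.inl (Prod.ext (hx.trans hx₀.symm) (hy.trans hy₀.symm))
        · rw [k, mul_neg] at hx hy
          exact Or.inr (Prod.ext (hx.trans (congrArg _ hx₀.symm))
            (hy.trans (congrArg _ hy₀.symm))))
  rwa [Set.ncard_univ, Nat.card_eq_fintype_card (α := Option F), Fintype.card_option] at h

theorem natCard_hyp_isom_le' {Q₀ : QuadraticForm F (F × F)}
    (hQ : ∀ v, Q₀ v = v.1 ^ 2 * 0 + v.2 ^ 2 * 0 + v.1 * v.2 * 1) :
    Nat.card {N : F × F →ₗ[F] F × F // Q₀.comp N = Q₀} ≤ 2 * (Fintype.card F - 1) := by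
  classical
  have hfin : Finite (F × F →ₗ[F] F × F) := DFunLike.finite _
  have hN : ∀ N : {N : F × F →ₗ[F] F × F // Q₀.comp N = Q₀}, Q₀ (N.1 (1, 0)) = 0 ∧
      Q₀ (N.1 (0, 1)) = 0 ∧ polar Q₀ (N.1 (1, 0)) (N.1 (0, 1)) = 1 := by
    intro N
    refine ⟨?_, ?_, ?_⟩
    · rw [← comp_apply, N.2, hQ]; simp
    · rw [← comp_apply, N.2, hQ]; simp
    · rw [← polar_comp_apply, N.2, plane_polar' hQ]; simp
  have h := natCard_le_mul_ncard (fun N : {N : F × F →ₗ[F] F × F // Q₀.comp N = Q₀} =>
      (N.1 (1, 0)).1 + (N.1 (1, 0)).2) {0}ᶜ (Set.toFinite _) (by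
      intro N h
      obtain ⟨h0, -, h3⟩ := hN N
      rw [plane_polar' hQ] at h3
      rw [hQ] at h0
      rw [Set.mem_singleton_iff] at h
      generalize N.1 (1, 0) = v at h h0 h3
      have h4 : v.1 ^ 2 = 0 := by linear_combination v.1 * h - h0
      have h5 : v.1 = 0 := pow_eq_zero_iff two_ne_zero |>.mp h4
      rw [h5, zero_add] at h
      simp [h5, h] at h3) 2 (by
      intro N₀
      refine ncard_le_two_of_injOn (fun N => N.1 (1, 0)) ?_
        ((N₀.1 (1, 0)).1 + (N₀.1 (1, 0)).2, 0) (0, (N₀.1 (1, 0)).1 + (N₀.1 (1, 0)).2) ?_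
      · intro N _ N' _ hNN'
        refine Subtype.ext (plane_ext hNN' ?_)
        obtain ⟨h0, h1, h3⟩ := hN N
        obtain ⟨-, h1', h3'⟩ := hN N'
        have hNN2 : N.1 (1, 0) = N'.1 (1, 0) := hNN'
        rw [← hNN2] at h3'
        rw [plane_polar' hQ] at h3 h3'
        rw [hQ] at h0 h1 h1'
        generalize N.1 (0, 1) = w at h1 h3
        generalize N'.1 (0, 1) = w₀ at h1' h3'
        generalize N.1 (1, 0) = v at h0 h3 h3'
        obtain ⟨s, t⟩ := v
        obtain ⟨x, y⟩ := w
        obtain ⟨x₀, y₀⟩ := w₀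
        simp only [mul_zero, zero_add, mul_one, zero_mul, one_mul] at h0 h1 h1' h3 h3'
        rcases mul_eq_zero.mp h0 with rfl | rfl
        · have e1 : y = 0 := by linear_combination t * h1 - y * h3
          have e2 : y₀ = 0 := by linear_combination t * h1' - y₀ * h3'
          have e3 : x = x₀ := by linear_combination x₀ * h3 - x * h3'
          rw [e1, e2, e3]
        · have e1 : x = 0 := by linear_combination s * h1 - x * h3
          have e2 : x₀ = 0 := by linear_combination s * h1' - x₀ * h3'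
          have e3 : y = y₀ := by linear_combination y₀ * h3 - y * h3'
          rw [e1, e2, e3]
      · intro N h
        obtain ⟨h0, -, -⟩ := hN N
        rw [hQ] at h0
        simp only [Set.mem_ofPred_eq] at h
        rw [← h]
        simp only [mul_zero, zero_add, mul_one] at h0
        rcases mul_eq_zero.mp h0 with h1 | h1
        · right; ext <;> simp [h1]
        · left; ext <;> simp [h1])
  rwa [Set.ncard_compl, Set.ncard_singleton, Nat.card_eq_fintype_card (α := F)] at h

variable [FiniteDimensional F V]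

theorem quad_hyp_bound' {S : Set (QuadraticForm F V)} (hc : QClosed S)
    (hf : S.Finite) {Q : QuadraticForm F V} (hQ : Q ∈ S) {e f : V} (hef : polar Q e f = 1)
    (he : Q e = 0) (hf0 : Q f = 0) :
    (Fintype.card F ^ finrank F V - 1) * (Fintype.card F ^ finrank F V - Fintype.card F) ≤
      2 * (Fintype.card F + 1) * S.ncard := by
  let l : V →ₗ[F] F × F := (Q.polarBilin f).prod (Q.polarBilin e)
  have hl : ∀ x, l x = (polar Q f x, polar Q e x) := fun x => rfl
  obtain ⟨ι, h1, h3, h5⟩ := exists_plane Q e f l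
    (by rw [hl, polar_comm, hef, polar_self, he, smul_zero])
    (by rw [hl, hef, polar_self, hf0, smul_zero])
    fun x hx => ⟨congrArg Prod.snd hx, congrArg Prod.fst hx⟩
  rw [he, hf0, hef] at h3
  have hV : Finite V := Module.finite_of_finite F
  let π : V →ₗ[F] LinearMap.ker l := LinearMap.codRestrict _ (LinearMap.id - ι ∘ₗ l)
    (fun x => by simp [h1])
  have hπ : ∀ x, (π x : V) = x - ι (l x) := fun x => rfl
  have hπι : ∀ w, π (ι w) = 0 := fun w => Subtype.ext (by rw [hπ, h1, sub_self]; rfl)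
  have hπk : ∀ k : LinearMap.ker l, π k = k := fun k => Subtype.ext (by
    rw [hπ, show l k = 0 from k.2, map_zero, sub_zero])
  let X := {N : F × F →ₗ[F] F × F // Function.Surjective N} × (LinearMap.ker l →ₗ[F] F × F)
  have hfin1 : Finite (F × F →ₗ[F] F × F) := DFunLike.finite _
  have hfin2 : Finite (LinearMap.ker l →ₗ[F] F × F) := DFunLike.finite _
  let φ : X → (V →ₗ[F] F × F) := fun x => x.1.1 ∘ₗ l + x.2 ∘ₗ π
  have hφι : ∀ x w, φ x (ι w) = x.1.1 w := fun x w => by simp [φ, h1, hπι]
  have hφk : ∀ x (k : LinearMap.ker l), φ x k = x.2 k := fun x k => by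
    simp [φ, show l k = 0 from k.2, hπk]
  have h := natCard_le_mul_of_plane hf (Q.comp ι) (fun v hv => by
      have a1 := hv (1, 0)
      have a2 := hv (0, 1)
      rw [plane_polar' (Q₀ := Q.comp ι) h3] at a1 a2
      ext
      · simpa using a2
      · simpa using a1)
    (Q.comp ((LinearMap.ker l).subtype ∘ₗ π)) φ (by
      intro x y hxy
      refine Prod.ext (Subtype.ext (LinearMap.ext fun w => ?_)) (LinearMap.ext fun k => ?_)
      · rw [← hφι, ← hφι, hxy]
      · rw [← hφk, ← hφk, hxy]) (by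
      intro x w
      obtain ⟨w', hw'⟩ := x.1.2 w
      exact ⟨ι w', by rw [hφι, hw']⟩) (by
      intro x
      let g : V →ₗ[F] V := ι ∘ₗ φ x + (LinearMap.ker l).subtype ∘ₗ π
      have hg : ∀ y, g y = ι (φ x y) + π y := fun y => rfl
      have hinj : Function.Injective g := by
        rw [injective_iff_map_eq_zero]
        intro y hy
        have e1 : φ x y = 0 := by
          have := congrArg l hy
          rwa [hg, map_add, h1, show l (π y) = 0 from (π y).2, add_zero, map_zero] at this
        have e2 : (π y : V) = 0 := by rwa [hg, e1, map_zero, zero_add] at hy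
        have e3 : y = ι (l y) := by rwa [hπ, sub_eq_zero] at e2
        rw [e3, hφι] at e1
        have e4 := (LinearMap.injective_iff_surjective.mpr x.1.2) (e1.trans (map_zero _).symm)
        rw [e3, e4, map_zero]
      have := hc Q hQ (LinearEquiv.ofInjectiveEndo g hinj)
      convert this using 1
      ext y
      exact (h5 (φ x y) (π y) (π y).2).symm)
  have h6 := natCard_hyp_isom_le' (Q₀ := Q.comp ι) h3
  have h7 := natCard_surjective_two (F := F) (V := F × F) (by simp)
  have hls : Function.Surjective l := fun w => ⟨ι w, h1 w⟩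
  have h8 := l.finrank_range_add_finrank_ker
  rw [LinearMap.range_eq_top.mpr hls] at h8
  have h9 : Nat.card (LinearMap.ker l →ₗ[F] F × F) =
      Fintype.card F ^ (finrank F (LinearMap.ker l) * 2) := by
    rw [Module.natCard_eq_pow_finrank (K := F), Module.finrank_linearMap, Nat.card_eq_fintype_card]
    simp
  simp only [finrank_top, finrank_prod, finrank_self] at h7 h8
  rw [Nat.card_prod, h9] at h
  rw [← h8]
  have h10 := (Nat.mul_le_mul_right _ h7).trans (h.trans (Nat.mul_le_mul_right _ h6))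
  generalize finrank F (LinearMap.ker l) = m at h10
  have hq : 1 < Fintype.card F := Fintype.one_lt_card
  obtain ⟨r, hr⟩ : ∃ r, Fintype.card F = r + 2 := ⟨Fintype.card F - 2, by omega⟩
  rw [hr] at h10 ⊢
  have e1 : (r + 2) ^ (1 + 1) - 1 = (r + 1) * (r + 3) := by
    rw [Nat.sub_eq_iff_eq_add (Nat.one_le_pow _ _ (by omega))]; ring
  have e2 : (r + 2) ^ (1 + 1) - (r + 2) = (r + 1) * (r + 2) := by
    rw [Nat.sub_eq_iff_eq_add (Nat.le_self_pow (by omega) _)]; ring
  have e3 : r + 2 - 1 = r + 1 := rfl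
  rw [e1, e2, e3] at h10
  have h11 : (r + 1) * (r + 3) * (r + 2) * (r + 2) ^ (m * 2) ≤ 2 * S.ncard := by
    refine Nat.le_of_mul_le_mul_left (c := r + 1) ?_ (by omega)
    calc _ = (r + 1) * (r + 3) * ((r + 1) * (r + 2)) * (r + 2) ^ (m * 2) := by ring
      _ ≤ _ := h10
      _ = _ := by ring
  calc _ ≤ (r + 2) ^ (1 + 1 + m) * (r + 2) ^ (1 + 1 + m) :=
        Nat.mul_le_mul (Nat.sub_le _ _) (Nat.sub_le _ _)
    _ = (r + 2) ^ 3 * ((r + 2) * (r + 2) ^ (m * 2)) := by ring
    _ ≤ ((r + 3) * ((r + 1) * (r + 3))) * ((r + 2) * (r + 2) ^ (m * 2)) := by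
        refine Nat.mul_le_mul_right _ ?_
        nlinarith [Nat.zero_le r, Nat.zero_le (r ^ 2), Nat.zero_le (r ^ 3)]
    _ = (r + 3) * ((r + 1) * (r + 3) * (r + 2) * (r + 2) ^ (m * 2)) := by ring
    _ ≤ (r + 3) * (2 * S.ncard) := Nat.mul_le_mul_left _ h11
    _ = _ := by ring

theorem quad_rank_two_bound (h2 : (2 : F) ≠ 0) {S : Set (QuadraticForm F V)} (hc : QClosed S)
    (hf : S.Finite) {Q : QuadraticForm F V} (hQ : Q ∈ S)
    (hr : ¬ ∃ (a : F) (f : Dual F V), ∀ x, Q x = a * f x ^ 2) :
    (Fintype.card F ^ finrank F V - 1) * (Fintype.card F ^ finrank F V - Fintype.card F) ≤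
      2 * (Fintype.card F + 1) * S.ncard := by
  push Not at hr
  obtain ⟨e, he⟩ := hr 0 0
  rw [zero_mul] at he
  have a1 : 2 * Q e ≠ 0 := mul_ne_zero h2 he
  have hself : ∀ x, polar Q x x = 2 * Q x := fun x => by
    rw [polar_self, nsmul_eq_mul, Nat.cast_ofNat]
  obtain ⟨x, hx⟩ := hr (Q e) ((2 * Q e)⁻¹ • Q.polarBilin e)
  simp only [LinearMap.smul_apply, polarBilin_apply_apply, smul_eq_mul] at hx
  obtain ⟨f, hef, hf0⟩ : ∃ f, polar Q e f = 0 ∧ Q f ≠ 0 := by
    refine ⟨(1 : F) • x + (-((2 * Q e)⁻¹ * polar Q e x)) • e, ?_, fun h => hx ?_⟩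
    · rw [polar_add_right, polar_smul_right, polar_smul_right, hself, smul_eq_mul, smul_eq_mul]
      field_simp
      ring
    · rw [quad_add_smul, polar_comm Q x e] at h
      field_simp at h ⊢
      linear_combination h
  have a2 : 2 * Q f ≠ 0 := mul_ne_zero h2 hf0
  let l : V →ₗ[F] F × F := ((2 * Q e)⁻¹ • Q.polarBilin e).prod ((2 * Q f)⁻¹ • Q.polarBilin f)
  have hl : ∀ x, l x = ((2 * Q e)⁻¹ * polar Q e x, (2 * Q f)⁻¹ * polar Q f x) := fun x => rfl
  have h4 : ∀ x, l x = 0 → polar Q e x = 0 ∧ polar Q f x = 0 := fun x hx =>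
    ⟨(mul_eq_zero.1 (congrArg Prod.fst hx)).resolve_left (inv_ne_zero a1),
      (mul_eq_zero.1 (congrArg Prod.snd hx)).resolve_left (inv_ne_zero a2)⟩
  obtain ⟨ι, h1, h3, h5⟩ := exists_plane Q e f l
    (by rw [hl, hself, polar_comm Q f e, hef, inv_mul_cancel₀ a1, mul_zero])
    (by rw [hl, hself, hef, inv_mul_cancel₀ a2, mul_zero]) h4
  rw [hef] at h3
  by_cases hz : ∀ x, l x = 0 → Q x = 0
  · have hV : Finite V := Module.finite_of_finite F
    have hfin1 : Finite (V →ₗ[F] F × F) := DFunLike.finite _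
    have hls : Function.Surjective l := fun w => ⟨ι w, h1 w⟩
    have h := natCard_le_mul_of_plane hf (Q.comp ι) (fun v hv => by
        have b1 := hv (1, 0)
        have b2 := hv (0, 1)
        rw [plane_polar' (Q₀ := Q.comp ι) h3] at b1 b2
        ext
        · simpa [h2, he] using b1
        · simpa [h2, hf0] using b2) 0
      (fun φ : {φ : V →ₗ[F] F × F // Function.Surjective φ} => φ.1) Subtype.val_injective
      (fun φ => φ.2) (by
        intro φ
        obtain ⟨g, hg⟩ := exists_equiv_comp_eq_of_surjective l φ.1 hls φ.2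
        have := hc Q hQ g
        convert this using 1
        ext y
        have h6 : l (g y - ι (l (g y))) = 0 := by simp [h1]
        have h7 := h5 (l (g y)) _ h6
        rw [add_sub_cancel, hz _ h6, hg] at h7
        exact h7.symm)
    have h6 := natCard_diag_isom_le h2 (Q₀ := Q.comp ι) h3 he hf0
    have h8 := l.finrank_range_add_finrank_ker
    rw [LinearMap.range_eq_top.mpr hls] at h8
    simp only [finrank_top, finrank_prod, finrank_self] at h8
    exact (natCard_surjective_two (by omega)).trans (h.trans (Nat.mul_le_mul_right _ h6))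
  · push Not at hz
    obtain ⟨w, hw, hw0⟩ := hz
    have hodd : Fintype.card F % 2 = 1 := by
      rw [FiniteField.odd_card_of_char_ne_two]
      intro h
      apply h2
      have := ringChar.spec F 2
      rw [h] at this
      exact_mod_cast this.mpr dvd_rfl
    open Polynomial in
    obtain ⟨s, t, hst⟩ := FiniteField.exists_root_sum_quadratic (f := C (Q e) * X ^ 2)
      (g := C (Q f) * X ^ 2 + C (Q w)) (by rw [degree_C_mul_X_pow _ he]; rfl)
      (by
        rw [degree_add_eq_left_of_degree_lt] <;> rw [degree_C_mul_X_pow _ hf0]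
        · rfl
        · exact degree_C_le.trans_lt (by norm_num)) hodd
    simp only [Polynomial.eval_mul, Polynomial.eval_C, Polynomial.eval_pow, Polynomial.eval_X,
      Polynomial.eval_add] at hst
    have b1 : Q (ι (s, t) + w) = 0 := by
      rw [h5 _ _ hw, h3]
      linear_combination hst
    have b2 : polar Q (ι (s, t) + w) w = 2 * Q w := by
      rw [polar_add_left, hself, polar, h5 _ _ hw]
      ring
    generalize ι (s, t) + w = z at b1 b2
    have b3 : 2 * Q w ≠ 0 := mul_ne_zero h2 hw0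
    refine quad_hyp_bound' hc hf hQ (e := z)
      (f := (2 * Q w)⁻¹ • w + (-((2 * Q w)⁻¹ ^ 2 * Q w)) • z) ?_ b1 ?_
    · rw [polar_add_right, polar_smul_right, polar_smul_right, b2, hself, b1, smul_eq_mul,
        inv_mul_cancel₀ b3]
      simp
    · rw [quad_add_smul, b1, polar_comm Q w z, b2]
      field_simp
      ring

end Cfsg.Agent.H22.SpWeil
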