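import Mathlib
import Cfsg.Agent.H27.SympBasic
import Cfsg.Agent.H75.Siegel
import Cfsg.Agent.H11.Inner

/-!
# Representations of `Sp(2n,q)` whose Siegel weights have rank at most one
-/

namespace Cfsg.Agent.H22.SpWeil

open Module Matrix H27

section Gen

variable {M : Type*} [AddCommGroup M] [Module ℂ M]

theorem ext_wt {G A N : Type*} [Group G] [AddCommGroup A] [Finite A] [AddCommGroup N] [Finite N]
    (ρ : Representation ℂ G M) (x : A → G) (hx : ∀ a b, x (a + b) = x a * x b)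
    (χ : N →+ AddChar A ℂ) (hA : ∀ a ≠ 0, ∃ m, χ m a ≠ 1) (p : Submodule ℂ M)
    (h : ∀ m, H75.wt ρ x (χ m) ≤ p) : p = ⊤ := by
  classical
  have := Fintype.ofFinite A
  have := Fintype.ofFinite N
  have hx0 : x 0 = 1 := by
    have := hx 0 0
    rw [add_zero] at this
    exact left_eq_mul.mp this
  rw [eq_top_iff]
  intro v _
  let P : N → M := fun m => ∑ a, χ m (-a) • ρ (x a) v
  have hP : ∀ m, P m ∈ H75.wt ρ x (χ m) := by
    intro m b
    simp only [P, map_sum, map_smul, Finset.smul_sum]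
    refine Fintype.sum_equiv (Equiv.addLeft b) _ _ fun a => ?_
    rw [Equiv.coe_addLeft, hx, map_mul, Module.End.mul_apply, smul_smul, ← AddChar.map_add_eq_mul]
    congr 2
    rw [neg_add, add_neg_cancel_left]
  have hsum : ∑ m, P m = (Fintype.card N : ℂ) • v := by
    simp only [P]
    rw [Finset.sum_comm]
    rw [Finset.sum_eq_single 0]
    · simp [hx0, Nat.cast_smul_eq_nsmul]
    · intro a _ ha
      rw [← Finset.sum_smul]
      obtain ⟨m, hm⟩ := hA (-a) (neg_ne_zero.mpr ha)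
      let ψ : AddChar N ℂ :=
        { toFun := fun m => χ m (-a)
          map_zero_eq_one' := by simp
          map_add_eq_mul' := fun m m' => by simp }
      have hψ : ψ ≠ 0 := AddChar.ne_zero_iff.mpr ⟨m, hm⟩
      have : ∑ m, ψ m = 0 := by
        rw [AddChar.sum_eq_ite, if_neg hψ]
      rw [show (∑ m, χ m (-a)) = 0 from this, zero_smul]
    · simp
  have h1 : (Fintype.card N : ℂ) • v ∈ p := hsum ▸ p.sum_mem fun m _ => h m (hP m)
  exact (p.smul_mem_iff (Nat.cast_ne_zero.mpr Fintype.card_ne_zero)).mp h1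

end Gen

variable {l : Type*} [Fintype l] [DecidableEq l] {F : Type*} [Field F] [Fintype F]
  {M : Type*} [AddCommGroup M] [Module ℂ M]
  (ρ : Representation ℂ (symplecticGroup l F) M) (ψ : AddChar F ℂ)

local notation "ω" => jBilin l F

/-- Weight space of a transvection group. -/
def W (v : l ⊕ l → F) (c : F) : Submodule ℂ M where
  carrier := {x | ∀ a, ρ (spTv v a) x = ψ (c * a) • x}
  add_mem' hv hw a := by rw [map_add, hv a, hw a, smul_add]
  zero_mem' a := by simp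
  smul_mem' c v hv a := by rw [map_smul, hv a, smul_comm]

/-- Functional calculus for a transvection group. -/
noncomputable def fn (v : l ⊕ l → F) (f : F → ℂ) : End ℂ M :=
  ∑ a, ((Fintype.card F : ℂ)⁻¹ * ∑ c, f c * ψ (-(c * a))) • ρ (spTv v a)

open scoped Classical in
/-- The projection onto `W v c`. -/
noncomputable def E (v : l ⊕ l → F) (c : F) : End ℂ M := fn ρ ψ v fun e => if e = c then 1 else 0

open scoped Classical in
/-- The symbol of `C`. -/
noncomputable def kap (c : F) : ℂ :=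
  if h : IsSquare c then ψ (2 * h.choose) + ψ (-(2 * h.choose)) else 0

/-- The analogue of `π(2v) + π(-2v)`. -/
noncomputable def C (v : l ⊕ l → F) : End ℂ M := fn ρ ψ v (kap ψ)

/-- All weights on isotropic planes have rank at most one. -/
def Spec : Prop := ∀ u v : l ⊕ l → F, ω u v = 0 → ∀ p : Submodule ℂ M,
  (∀ x : M, ∀ a α β : F, (∀ s t : F, x ∈ W ρ ψ (s • u + t • v) (a * (s * α + t * β) ^ 2)) →
    x ∈ p) → p = ⊤

/-- Elements of the Heisenberg radical. -/
def X (u v : l ⊕ l → F) : symplecticGroup l F := spTv (u + v) 1 * spTv u (-1) * spTv v (-1)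

variable {ρ ψ}

omit [Fintype F] in
theorem mem_W {v : l ⊕ l → F} {c : F} {x : M} :
    x ∈ W ρ ψ v c ↔ ∀ a, ρ (spTv v a) x = ψ (c * a) • x := Iff.rfl

omit [Fintype F] in
theorem W_smul {v : l ⊕ l → F} {c : F} {x : M} (hx : x ∈ W ρ ψ v c) (s : F) :
    x ∈ W ρ ψ (s • v) (s ^ 2 * c) := fun a => by
  rw [spTv_smul, hx]; congr 2; ring

omit [Fintype F] in
theorem W_one {v : l ⊕ l → F} {y : F} {x : M} (hx : x ∈ W ρ ψ v (y ^ 2)) (hy : y ≠ 0) :
    x ∈ W ρ ψ (y⁻¹ • v) 1 := by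
  have := W_smul hx y⁻¹
  rwa [← mul_pow, inv_mul_cancel₀ hy, one_pow] at this

omit [Fintype F] in
theorem W_conj {v : l ⊕ l → F} {c : F} {x : M} (hx : x ∈ W ρ ψ v c) (g : symplecticGroup l F) :
    ρ g x ∈ W ρ ψ ((g : Matrix (l ⊕ l) (l ⊕ l) F) *ᵥ v) c := fun a => by
  rw [← spTv_conj, ← Module.End.mul_apply, ← map_mul, inv_mul_cancel_right, map_mul,
    Module.End.mul_apply, hx, map_smul]

omit [Fintype F] in
theorem W_tv {u v : l ⊕ l → F} (h : ω u v = 0) {c : F} {x : M} (hx : x ∈ W ρ ψ u c) (a : F) :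
    ρ (spTv v a) x ∈ W ρ ψ u c := fun b => by
  rw [← Module.End.mul_apply, ← map_mul, spTv_comm h, map_mul, Module.End.mul_apply, hx, map_smul]

theorem W_fn {u v : l ⊕ l → F} (h : ω u v = 0) {c : F} {x : M} (hx : x ∈ W ρ ψ u c) (f : F → ℂ) :
    fn ρ ψ v f x ∈ W ρ ψ u c := by
  rw [fn, LinearMap.sum_apply]
  exact Submodule.sum_mem _ fun a _ => Submodule.smul_mem _ _ (W_tv h hx a)

theorem fn_apply (hψ : ψ.IsPrimitive) {v : l ⊕ l → F} {c : F} {x : M} (hx : x ∈ W ρ ψ v c)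
    (f : F → ℂ) : fn ρ ψ v f x = f c • x := by
  classical
  rw [fn, LinearMap.sum_apply]
  simp only [LinearMap.smul_apply, mem_W.mp hx, smul_smul]
  rw [← Finset.sum_smul]
  congr 1
  simp only [mul_assoc, Finset.sum_mul, ← Finset.mul_sum]
  rw [Finset.sum_comm]
  have : ∀ e, ∑ a, f e * (ψ (-(e * a)) * ψ (c * a)) = if c = e then f e * Fintype.card F else 0 := by
    intro e
    rw [← Finset.mul_sum]
    have : ∀ a, ψ (-(e * a)) * ψ (c * a) = ψ (a * (c - e)) := fun a => by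
      rw [← AddChar.map_add_eq_mul]; congr 1; ring
    simp only [this]
    rw [AddChar.sum_mulShift _ hψ]
    simp only [sub_eq_zero]
    split_ifs <;> simp
  simp only [this, Finset.sum_ite_eq, Finset.mem_univ, if_true]
  have : (Fintype.card F : ℂ) ≠ 0 := Nat.cast_ne_zero.mpr Fintype.card_ne_zero
  field_simp

theorem fn_conj (g : symplecticGroup l F) (v : l ⊕ l → F) (f : F → ℂ) :
    ρ g * fn ρ ψ v f = fn ρ ψ ((g : Matrix (l ⊕ l) (l ⊕ l) F) *ᵥ v) f * ρ g := by
  simp only [fn, Finset.mul_sum, Finset.sum_mul, mul_smul_comm, smul_mul_assoc, ← map_mul,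
    ← spTv_conj, inv_mul_cancel_right]

theorem ext_W (hψ : ψ.IsPrimitive) (v : l ⊕ l → F) (p : Submodule ℂ M)
    (h : ∀ c, W ρ ψ v c ≤ p) : p = ⊤ := by
  refine ext_wt ρ (spTv v) (fun a b => (spTv_mul v a b).symm)
    (H75.pairChar ψ AddMonoidHom.mul) (fun a ha => ?_) p fun c x hx => h c hx
  obtain ⟨m, hm⟩ := AddChar.ne_one_iff.mp (hψ ha)
  exact ⟨m, by simpa [mul_comm] using hm⟩

theorem end_ext (hψ : ψ.IsPrimitive) (v : l ⊕ l → F) {N : Type*} [AddCommGroup N] [Module ℂ N]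
    {A B : M →ₗ[ℂ] N} (h : ∀ c, ∀ x ∈ W ρ ψ v c, A x = B x) : A = B := by
  have := ext_W hψ v (LinearMap.eqLocus A B) fun c x hx => h c x hx
  exact LinearMap.eqLocus_eq_top.mp this

open scoped Classical in
theorem E_apply (hψ : ψ.IsPrimitive) {v : l ⊕ l → F} {c : F} {x : M} (hx : x ∈ W ρ ψ v c) (e : F) :
    E ρ ψ v e x = if c = e then x else 0 := by
  rw [E, fn_apply hψ hx]
  split_ifs <;> simp

theorem E_mem (hψ : ψ.IsPrimitive) (v : l ⊕ l → F) (e : F) (x : M) :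
    E ρ ψ v e x ∈ W ρ ψ v e := by
  have := ext_W (ρ := ρ) hψ v ((W ρ ψ v e).comap (E ρ ψ v e)) fun c x hx => by
    rw [Submodule.mem_comap, E_apply hψ hx]
    split_ifs with h
    · exact h ▸ hx
    · exact Submodule.zero_mem _
  exact (this ▸ Submodule.mem_top : x ∈ (W ρ ψ v e).comap (E ρ ψ v e))

theorem sum_E (hψ : ψ.IsPrimitive) (v : l ⊕ l → F) (x : M) : ∑ e, E ρ ψ v e x = x := by
  classical
  have : ∑ e, E ρ ψ v e = 1 := end_ext (ρ := ρ) hψ v fun c x hx => by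
    simp [LinearMap.sum_apply, E_apply hψ hx]
  rw [← LinearMap.sum_apply, this, Module.End.one_apply]

theorem ext_W2 (hψ : ψ.IsPrimitive) {z u : l ⊕ l → F} (h : ω z u = 0) {d : F} (p : Submodule ℂ M)
    (hp : ∀ c, ∀ x ∈ W ρ ψ z d, x ∈ W ρ ψ u c → x ∈ p) {x : M} (hx : x ∈ W ρ ψ z d) : x ∈ p := by
  rw [← sum_E (ρ := ρ) hψ u x]
  exact p.sum_mem fun c _ => hp c _ (W_fn h hx _) (E_mem hψ u c x)

theorem kap_sq (y : F) : kap ψ (y ^ 2) = ψ (2 * y) + ψ (-(2 * y)) := by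
  have h : IsSquare (y ^ 2) := ⟨y, sq y⟩
  rw [kap, dif_pos h]
  have h1 := h.choose_spec
  rw [← sq] at h1
  rcases sq_eq_sq_iff_eq_or_eq_neg.mp h1 with h2 | h2
  · rw [← h2]
  · have h3 : h.choose = -y := (neg_eq_iff_eq_neg.mp h2.symm)
    rw [h3, mul_neg, neg_neg, add_comm]

theorem C_apply (hψ : ψ.IsPrimitive) {v : l ⊕ l → F} {y : F} {x : M}
    (hx : x ∈ W ρ ψ v (y ^ 2)) : C ρ ψ v x = (ψ (2 * y) + ψ (-(2 * y))) • x := by
  rw [C, fn_apply hψ hx, kap_sq]

omit [Fintype F] in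
theorem X_mulVec {u v : l ⊕ l → F} (h : ω u v = 0) (x : l ⊕ l → F) :
    (X u v : Matrix (l ⊕ l) (l ⊕ l) F) *ᵥ x = x + ω x u • v + ω x v • u := by
  have h' : ω v u = 0 := by rw [← jBilin_isAlt.neg_eq, h, neg_zero]
  rw [X, Submonoid.coe_mul, Submonoid.coe_mul, ← mulVec_mulVec, ← mulVec_mulVec]
  simp only [spTv_mulVec, map_add, map_smul, LinearMap.add_apply, LinearMap.smul_apply, h, h',
    jBilin_isAlt.self_eq_zero, smul_eq_mul]
  module

omit [Fintype F] in
theorem X_mul {u v w : l ⊕ l → F} (hv : ω u v = 0) (hw : ω u w = 0) :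
    X u v * X u w = X u (v + w) * spTv u (ω w v) := by
  have hv' : ω v u = 0 := by rw [← jBilin_isAlt.neg_eq, hv, neg_zero]
  have hw' : ω w u = 0 := by rw [← jBilin_isAlt.neg_eq, hw, neg_zero]
  have hvw : ω u (v + w) = 0 := by rw [map_add, hv, hw, add_zero]
  refine sp_ext fun x => ?_
  rw [Submonoid.coe_mul, Submonoid.coe_mul, ← mulVec_mulVec, ← mulVec_mulVec, X_mulVec hv,
    X_mulVec hw, X_mulVec hvw]
  simp only [spTv_mulVec, map_add, map_smul, LinearMap.add_apply, LinearMap.smul_apply, hv, hw,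
    hw', jBilin_isAlt.self_eq_zero, smul_eq_mul]
  module

omit [Fintype F] in
theorem W_X {u v : l ⊕ l → F} (h : ω u v = 0) {c : F} {x : M} (hx : x ∈ W ρ ψ u c) :
    ρ (X u v) x ∈ W ρ ψ u c := by
  rw [X, map_mul, map_mul, Module.End.mul_apply, Module.End.mul_apply]
  exact W_tv (by rw [map_add, h, jBilin_isAlt.self_eq_zero, add_zero])
    (W_tv (jBilin_isAlt.self_eq_zero u) (W_tv h hx _) _) _

omit [Fintype F] in
theorem X_apply {u v : l ⊕ l → F} {b : F} {x : M} (h1 : x ∈ W ρ ψ u 1) (h2 : x ∈ W ρ ψ v (b ^ 2))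
    (h3 : x ∈ W ρ ψ (u + v) ((1 + b) ^ 2)) : ρ (X u v) x = ψ (2 * b) • x := by
  rw [X, map_mul, map_mul, Module.End.mul_apply, Module.End.mul_apply, h2, map_smul, h1, map_smul,
    map_smul, h3, smul_smul, smul_smul, ← AddChar.map_add_eq_mul, ← AddChar.map_add_eq_mul]
  congr 2
  ring

/-- Reduction of `Spec` on the weight space `W u 1`. -/
theorem spec_one (hψ : ψ.IsPrimitive) (hS : Spec ρ ψ) {u v : l ⊕ l → F} (h : ω u v = 0)
    (p : Submodule ℂ M)
    (hp : ∀ x : M, ∀ β : F, (∀ s t : F, x ∈ W ρ ψ (s • u + t • v) ((s + t * β) ^ 2)) → x ∈ p)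
    {x : M} (hx : x ∈ W ρ ψ u 1) : x ∈ p := by
  classical
  have := hS u v h (p.comap (E ρ ψ u 1)) fun x a α β hx => by
    have h1 := hx 1 0
    rw [one_smul, zero_smul, add_zero, one_mul, zero_mul, add_zero] at h1
    rw [Submodule.mem_comap, E_apply hψ h1]
    split_ifs with h2
    · have hα : α ≠ 0 := by rintro rfl; simp at h2
      refine hp x (β / α) fun s t => ?_
      convert hx s t using 1
      have : a = (α ^ 2)⁻¹ := eq_inv_of_mul_eq_one_left h2
      rw [this]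
      field_simp
    · exact p.zero_mem
  have h3 : x ∈ p.comap (E ρ ψ u 1) := this ▸ Submodule.mem_top
  rwa [Submodule.mem_comap, E_apply hψ hx, if_pos rfl] at h3

theorem L1 (hψ : ψ.IsPrimitive) (hS : Spec ρ ψ) {u v : l ⊕ l → F} (h : ω u v = 0) {x : M}
    (hx : x ∈ W ρ ψ u 1) : C ρ ψ v x = ρ (X u v) x + ρ (X u (-v)) x := by
  refine spec_one hψ hS h (LinearMap.eqLocus (C ρ ψ v) (ρ (X u v) + ρ (X u (-v))))
    (fun x β hx => ?_) hx
  have h1 := hx 1 0
  have h2 := hx 0 1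
  have h3 := hx 1 1
  have h4 := hx 0 (-1)
  have h5 := hx 1 (-1)
  simp only [one_smul, zero_smul, add_zero, zero_add, one_mul, zero_mul, one_pow, neg_smul,
    neg_mul] at h1 h2 h3 h4 h5
  rw [LinearMap.mem_eqLocus, LinearMap.add_apply, C_apply hψ h2, X_apply h1 h2 h3,
    X_apply h1 h4 h5, add_smul, mul_neg]

theorem inter (hψ : ψ.IsPrimitive) (hS : Spec ρ ψ) {u v : l ⊕ l → F} (h : ω u v = 0) {c : F}
    (hc : ¬ IsSquare c) {x : M} (hx : x ∈ W ρ ψ u 1) : E ρ ψ v c x = 0 := by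
  classical
  refine spec_one hψ hS h (LinearMap.ker (E ρ ψ v c)) (fun x β hx => ?_) hx
  have h2 := hx 0 1
  simp only [one_smul, zero_smul, zero_add, one_mul] at h2
  rw [LinearMap.mem_ker, E_apply hψ h2, if_neg]
  rintro rfl
  exact hc ⟨β, sq β⟩

theorem L2 (hψ : ψ.IsPrimitive) (hS : Spec ρ ψ) {u v w : l ⊕ l → F} (hv : ω u v = 0)
    (hw : ω u w = 0) {x : M} (hx : x ∈ W ρ ψ u 1) :
    C ρ ψ v (C ρ ψ w x) = ψ (ω w v) • C ρ ψ (v + w) x + ψ (-ω w v) • C ρ ψ (v - w) x := by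
  have hv' : ω u (-v) = 0 := by rw [map_neg, hv, neg_zero]
  have hw' : ω u (-w) = 0 := by rw [map_neg, hw, neg_zero]
  have key : ∀ v w : l ⊕ l → F, ω u v = 0 → ω u w = 0 →
      ρ (X u v) (ρ (X u w) x) = ψ (ω w v) • ρ (X u (v + w)) x := fun v w hv hw => by
    rw [← Module.End.mul_apply, ← map_mul, X_mul hv hw, map_mul, Module.End.mul_apply, hx, map_smul,
      one_mul]
  rw [L1 hψ hS hv (x := C ρ ψ w x) (W_fn hw hx _), L1 hψ hS hw hx, map_add, map_add, key _ _ hv hw, key _ _ hv hw',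
    key _ _ hv' hw, key _ _ hv' hw', L1 hψ hS (v := v + w) (by rw [map_add, hv, hw, add_zero]) hx,
    L1 hψ hS (v := v - w) (by rw [map_sub, hv, hw, sub_zero]) hx]
  simp only [map_neg, LinearMap.neg_apply, neg_neg, neg_add, sub_eq_add_neg, smul_add]
  abel

omit [Fintype F] in
theorem decomp {v w : l ⊕ l → F} (hvw : ω v w ≠ 0) (y : l ⊕ l → F) :
    ∃ z u, y = z + u ∧ ω u v = 0 ∧ ω u w = 0 ∧ ∀ u, ω u v = 0 → ω u w = 0 → ω z u = 0 := by
  have hwv : ω w v = -ω v w := (jBilin_isAlt.neg_eq _ _).symm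
  refine ⟨(ω y w / ω v w) • v + (-ω y v / ω v w) • w,
    y - ((ω y w / ω v w) • v + (-ω y v / ω v w) • w), by abel, ?_, ?_, fun u h1 h2 => ?_⟩
  · simp only [map_sub, map_add, map_smul, LinearMap.sub_apply, LinearMap.add_apply,
      LinearMap.smul_apply, jBilin_isAlt.self_eq_zero, smul_eq_mul, hwv]
    field_simp
    ring
  · simp only [map_sub, map_add, map_smul, LinearMap.sub_apply, LinearMap.add_apply,
      LinearMap.smul_apply, jBilin_isAlt.self_eq_zero, smul_eq_mul]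
    field_simp
    ring
  · rw [← jBilin_isAlt.neg_eq, map_add, map_smul, map_smul, h1, h2]
    simp

omit [Fintype F] in
theorem exists_perp (hl : 2 ≤ Fintype.card l) (hψ : ψ.IsPrimitive) {v w : l ⊕ l → F}
    (hvw : ω v w ≠ 0) :
    ∃ u u', ω u v = 0 ∧ ω u w = 0 ∧ ω u' v = 0 ∧ ω u' w = 0 ∧ ψ (ω u' u) ≠ 1 := by
  let f : (l ⊕ l → F) →ₗ[F] F × F := LinearMap.prod ((ω).flip v) ((ω).flip w)
  have hf : LinearMap.ker f ≠ ⊥ := LinearMap.ker_ne_bot_of_finrank_lt (by
    rw [finrank_prod, finrank_self, finrank_fintype_fun_eq_card, Fintype.card_sum]; omega)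
  obtain ⟨u, hu, hu0⟩ := Submodule.exists_mem_ne_zero_of_ne_bot hf
  have h1 : ω u v = 0 := congrArg Prod.fst hu
  have h2 : ω u w = 0 := congrArg Prod.snd hu
  obtain ⟨y, hy⟩ : ∃ y, ω y u ≠ 0 := by
    by_contra h
    push Not at h
    exact hu0 (jBilin_nondegenerate.2 u h)
  obtain ⟨z, u', rfl, h3, h4, h5⟩ := decomp hvw y
  rw [map_add, LinearMap.add_apply, h5 u h1 h2, zero_add] at hy
  obtain ⟨m, hm⟩ := AddChar.ne_one_iff.mp (hψ hy)
  refine ⟨u, m • u', h1, h2, by simp [h3], by simp [h4], ?_⟩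
  simpa [mul_comm] using hm

theorem L3 (hl : 2 ≤ Fintype.card l) (hψ : ψ.IsPrimitive) (hS : Spec ρ ψ)
    (hρ : ρ.IsIrreducible) (hy : ∃ y, W ρ ψ y 1 ≠ ⊥) {v w : l ⊕ l → F} (hvw : ω v w ≠ 0)
    (p : Submodule ℂ M) (hp : ∀ u, ω u v = 0 → ω u w = 0 → W ρ ψ u 1 ≤ p) : p = ⊤ := by
  classical
  have hL : ∀ x, p.mkQ x = 0 ↔ x ∈ p := fun x => Submodule.Quotient.mk_eq_zero p
  have stepA : ∀ z, (∀ u, ω u v = 0 → ω u w = 0 → ω z u = 0) → W ρ ψ z 1 ≤ p := by
    intro z hz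
    have A1 : ∀ u, ω u v = 0 → ω u w = 0 → ∀ x ∈ W ρ ψ z 1,
        p.mkQ (C ρ ψ u x) = (2 : ℂ) • p.mkQ x := by
      intro u h1 h2 x hx
      refine ext_W2 hψ (hz u h1 h2) (LinearMap.eqLocus (p.mkQ ∘ₗ C ρ ψ u) ((2 : ℂ) • p.mkQ))
        (fun c x hx hx' => ?_) hx
      rw [LinearMap.mem_eqLocus, LinearMap.comp_apply, LinearMap.smul_apply]
      by_cases hc : IsSquare c
      · obtain ⟨y, rfl⟩ := hc
        rw [← sq] at hx'
        rw [C_apply hψ hx', map_smul]
        by_cases hy : y = 0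
        · subst hy
          norm_num
        · rw [(hL x).mpr (hp _ (by simp [h1]) (by simp [h2]) (W_one hx' hy)), smul_zero, smul_zero]
      · have := inter hψ hS (hz u h1 h2) hc hx
        rw [E_apply hψ hx', if_pos rfl] at this
        simp [this]
    obtain ⟨u, u', h1, h2, h3, h4, h5⟩ := exists_perp hl hψ hvw
    intro x hx
    have e1 := congrArg p.mkQ (L2 hψ hS (hz u h1 h2) (hz u' h3 h4) hx)
    rw [A1 u h1 h2 (C ρ ψ u' x) (W_fn (hz u' h3 h4) hx _), A1 u' h3 h4 x hx, map_add, map_smul,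
      map_smul, A1 (u + u') (by simp [h1, h3]) (by simp [h2, h4]) x hx,
      A1 (u - u') (by simp [h1, h3]) (by simp [h2, h4]) x hx, smul_smul, smul_smul, smul_smul,
      ← add_smul, ← sub_eq_zero, ← sub_smul, smul_eq_zero] at e1
    refine (hL x).mp (e1.resolve_left fun h => h5 ?_)
    have e2 : ψ (ω u' u) * ψ (-ω u' u) = 1 := by
      rw [← AddChar.map_add_eq_mul, add_neg_cancel, AddChar.map_zero_eq_one]
    have e3 : (ψ (ω u' u) - 1) ^ 2 = 0 := by
      linear_combination (-ψ (ω u' u) / 2) * h - e2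
    exact sub_eq_zero.mp (pow_eq_zero_iff two_ne_zero |>.mp e3)
  have stepB : ∀ y, W ρ ψ y 1 ≤ p := by
    intro y x hx
    obtain ⟨z, u, rfl, h1, h2, h3⟩ := decomp hvw y
    have := hS z u (h3 u h1 h2) (p.comap (E ρ ψ (z + u) 1)) fun x a α β hx => by
      have e1 := hx 1 1
      have e2 := hx 1 0
      have e3 := hx 0 1
      simp only [one_smul, zero_smul, add_zero, zero_add, one_mul, zero_mul] at e1 e2 e3
      rw [Submodule.mem_comap, E_apply hψ e1]
      split_ifs with h4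
      · have hr : α + β ≠ 0 := by intro h; simp [h] at h4
        have ha : a = ((α + β) ^ 2)⁻¹ := eq_inv_of_mul_eq_one_left h4
        rw [show a * α ^ 2 = (α / (α + β)) ^ 2 by rw [ha]; field_simp] at e2
        rw [show a * β ^ 2 = (β / (α + β)) ^ 2 by rw [ha]; field_simp] at e3
        by_cases hα : α = 0
        · have hβ : β ≠ 0 := by rintro rfl; simp [hα] at hr
          exact hp _ (by simp [h1]) (by simp [h2]) (W_one e3 (div_ne_zero hβ hr))
        · exact stepA _ (fun u h1 h2 => by simp [h3 u h1 h2]) (W_one e2 (div_ne_zero hα hr))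
      · exact p.zero_mem
    have h4 : x ∈ p.comap (E ρ ψ (z + u) 1) := this ▸ Submodule.mem_top
    rwa [Submodule.mem_comap, E_apply hψ hx, if_pos rfl] at h4
  obtain ⟨y, hy⟩ := hy
  rcases ((H11.isIrreducible_iff ρ).mp hρ).2 (⨆ y, W ρ ψ y 1) (fun g x hx => by
    have : (⨆ y, W ρ ψ y 1) ≤ (⨆ y, W ρ ψ y 1).comap (ρ g) :=
      iSup_le fun y x hx => Submodule.mem_iSup_of_mem _ (W_conj hx g)
    exact this hx) with h | h
  · exact absurd (le_bot_iff.mp (h ▸ le_iSup (fun y => W ρ ψ y 1) y)) hy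
  · exact top_le_iff.mp (h ▸ iSup_le stepB)

omit [Fintype F] in
theorem exists_ne_zero_of_ne {v : l ⊕ l → F} (hv : v ≠ 0) : ∃ w, ω v w ≠ 0 := by
  by_contra h
  push Not at h
  exact hv (jBilin_nondegenerate.1 v h)

/-- The standing hypotheses: an irreducible representation of Weil type `ψ`. -/
structure Typ (ρ : Representation ℂ (symplecticGroup l F) M) (ψ : AddChar F ℂ) : Prop where
  hl : 2 ≤ Fintype.card l
  prim : ψ.IsPrimitive
  spec : Spec ρ ψ
  irr : ρ.IsIrreducible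
  ne : ∃ y, W ρ ψ y 1 ≠ ⊥

theorem L4 (h : Typ ρ ψ) (v : l ⊕ l → F) {c : F} (hc : ¬ IsSquare c) {x : M}
    (hx : x ∈ W ρ ψ v c) : x = 0 := by
  classical
  by_cases hv : v = 0
  · subst hv
    have hc0 : c ≠ 0 := by rintro rfl; exact hc IsSquare.zero
    obtain ⟨m, hm⟩ := AddChar.ne_one_iff.mp (h.prim hc0)
    have := hx m
    rw [spTv_zero_vec, map_one, Module.End.one_apply, ← sub_eq_zero] at this
    nth_rewrite 1 [← one_smul ℂ x] at this
    rw [← sub_smul, smul_eq_zero] at this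
    exact this.resolve_left fun h => hm (sub_eq_zero.mp h).symm
  · obtain ⟨w, hw⟩ := exists_ne_zero_of_ne hv
    have := L3 h.hl h.prim h.spec h.irr h.ne hw (LinearMap.ker (E ρ ψ v c))
      fun u h1 _ x hx => inter h.prim h.spec h1 hc hx
    have h4 : x ∈ LinearMap.ker (E ρ ψ v c) := this ▸ Submodule.mem_top
    rwa [LinearMap.mem_ker, E_apply h.prim hx, if_pos rfl] at h4

theorem L5 (h : Typ ρ ψ) (v w : l ⊕ l → F) :
    C ρ ψ v * C ρ ψ w = ψ (ω w v) • C ρ ψ (v + w) + ψ (-ω w v) • C ρ ψ (v - w) := by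
  apply LinearMap.eqLocus_eq_top.mp
  by_cases hvw : ω v w = 0
  · refine h.spec v w hvw _ fun x a α β hx => ?_
    have key : ∀ r : F, (∀ s t : F, a * (s * α + t * β) ^ 2 = (r * (s * α + t * β)) ^ 2) →
        x ∈ LinearMap.eqLocus (C ρ ψ v * C ρ ψ w)
          (ψ (ω w v) • C ρ ψ (v + w) + ψ (-ω w v) • C ρ ψ (v - w)) := by
      intro r hr
      simp only [hr] at hx
      have e1 := hx 1 0
      have e2 := hx 0 1
      have e3 := hx 1 1
      have e4 := hx 1 (-1)
      simp only [one_smul, zero_smul, add_zero, zero_add, one_mul, zero_mul, neg_smul,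
        ← sub_eq_add_neg] at e1 e2 e3 e4
      have hwv : ω w v = 0 := by rw [← jBilin_isAlt.neg_eq, hvw, neg_zero]
      rw [LinearMap.mem_eqLocus, Module.End.mul_apply, LinearMap.add_apply, LinearMap.smul_apply,
        LinearMap.smul_apply, C_apply h.prim e2, map_smul, C_apply h.prim e1, C_apply h.prim e3,
        C_apply h.prim e4, hwv, neg_zero, AddChar.map_zero_eq_one, one_smul, one_smul, smul_smul,
        ← add_smul]
      congr 1
      simp only [add_mul, mul_add, ← AddChar.map_add_eq_mul]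
      ring_nf
    by_cases ha : IsSquare a
    · obtain ⟨r, rfl⟩ := ha
      exact key r fun s t => by ring
    · have e1 := hx 1 0
      have e2 := hx 0 1
      simp only [one_mul, zero_mul, add_zero, zero_add] at e1 e2
      have hn : ∀ γ : F, γ ≠ 0 → ¬ IsSquare (a * γ ^ 2) := fun γ hγ ⟨r, hr⟩ =>
        ha ⟨r / γ, by field_simp; rw [hr]; ring⟩
      by_cases hα : α = 0
      · by_cases hβ : β = 0
        · exact key 0 fun s t => by simp [hα, hβ]
        · rw [L4 h _ (hn β hβ) e2]; exact Submodule.zero_mem _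
      · rw [L4 h _ (hn α hα) e1]; exact Submodule.zero_mem _
  · exact L3 h.hl h.prim h.spec h.irr h.ne hvw _ fun u h1 h2 x hx => L2 h.prim h.spec h1 h2 hx

end Cfsg.Agent.H22.SpWeil
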