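import Mathlib
import Cfsg.Agent.H22.SpWeilA
import Cfsg.Agent.H22.SpWeilB

/-!
# Characters of Weil type are determined by two bits
-/

namespace Cfsg.Agent.H22.SpWeil

open Module Matrix H27

variable {l : Type*} [Fintype l] [DecidableEq l] {F : Type*} [Field F] [Fintype F]
  {M : Type*} [AddCommGroup M] [Module ℂ M]
  {ρ : Representation ℂ (symplecticGroup l F) M} {ψ : AddChar F ℂ}

local notation "ω" => jBilin l F

theorem exists_gamma (h2 : (2 : F) ≠ 0) (hψ : ψ.IsPrimitive) (c : F) :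
    ∃ γ : F → ℂ, ∀ y, ∑ s, γ s * kap ψ ((s * y) ^ 2) = ψ (y ^ 2 * c) := by
  classical
  refine ⟨fun s => (2 * Fintype.card F : ℂ)⁻¹ * ∑ x, ψ (x ^ 2 * c) * ψ (-(2 * s * x)), fun y => ?_⟩
  simp only [kap_sq, mul_assoc, Finset.sum_mul, ← Finset.mul_sum]
  rw [Finset.sum_comm]
  have : ∀ x, ∑ s, ψ (x ^ 2 * c) * (ψ (-(2 * (s * x))) * (ψ (2 * (s * y)) + ψ (-(2 * (s * y))))) =
      (if y = x then ψ (x ^ 2 * c) * Fintype.card F else 0) +
        (if -y = x then ψ (x ^ 2 * c) * Fintype.card F else 0) := by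
    intro x
    have e1 : ∀ s, ψ (-(2 * (s * x))) * (ψ (2 * (s * y)) + ψ (-(2 * (s * y)))) =
        ψ (s * (2 * (y - x))) + ψ (s * (2 * (-y - x))) := fun s => by
      rw [mul_add, ← AddChar.map_add_eq_mul, ← AddChar.map_add_eq_mul]
      congr 2 <;> ring
    simp only [e1, ← Finset.mul_sum, Finset.sum_add_distrib]
    rw [AddChar.sum_mulShift _ hψ, AddChar.sum_mulShift _ hψ]
    simp only [mul_eq_zero, h2, false_or, sub_eq_zero]
    split_ifs <;> simp [mul_add]
  simp only [this, Finset.sum_add_distrib, Finset.sum_ite_eq, Finset.mem_univ, if_true, neg_sq]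
  have : (Fintype.card F : ℂ) ≠ 0 := Nat.cast_ne_zero.mpr Fintype.card_ne_zero
  field_simp
  ring

theorem L6 (h : Typ ρ ψ) {c : F} {γ : F → ℂ}
    (hγ : ∀ y, ∑ s, γ s * kap ψ ((s * y) ^ 2) = ψ (y ^ 2 * c)) (v : l ⊕ l → F) :
    ρ (spTv v c) = ∑ s, γ s • C ρ ψ (s • v) := by
  refine end_ext (ρ := ρ) h.prim v fun e x hx => ?_
  by_cases he : IsSquare e
  · obtain ⟨y, rfl⟩ := he
    rw [← sq] at hx
    rw [hx, ← hγ, LinearMap.sum_apply, Finset.sum_smul]
    refine Finset.sum_congr rfl fun s _ => ?_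
    rw [LinearMap.smul_apply, C, fn_apply h.prim (W_smul hx s), smul_smul, mul_pow]
  · rw [L4 h v he hx, map_zero, map_zero]

theorem C_zero (hψ : ψ.IsPrimitive) : C ρ ψ 0 = (2 : ℂ) • 1 := by
  ext x
  have : x ∈ W ρ ψ 0 (0 ^ 2) := fun a => by simp [spTv_zero_vec]
  rw [C_apply hψ this]
  norm_num

theorem trace_C [FiniteDimensional ℂ M] {v w : l ⊕ l → F} (hv : v ≠ 0) (hw : w ≠ 0) :
    LinearMap.trace ℂ M (C ρ ψ v) = LinearMap.trace ℂ M (C ρ ψ w) := by
  obtain ⟨g, -, rfl⟩ := sp_exists_mulVec_eq ⊤ (fun _ _ => Subgroup.mem_top _) hv hw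
  have : C ρ ψ v = ρ g⁻¹ * (C ρ ψ ((g : Matrix (l ⊕ l) (l ⊕ l) F) *ᵥ v) * ρ g) := by
    rw [C, C, ← fn_conj, ← mul_assoc, ← map_mul, inv_mul_cancel, map_one, one_mul]
  rw [this, LinearMap.trace_mul_comm, mul_assoc, ← map_mul, mul_inv_cancel, map_one, mul_one]

theorem sum_psi (hψ : ψ.IsPrimitive) {v : l ⊕ l → F} (hv : v ≠ 0) : ∑ u, ψ (ω u v) = 0 := by
  classical
  let χ : AddChar (l ⊕ l → F) ℂ := ψ.compAddMonoidHom ((ω).flip v).toAddMonoidHom
  have hχ : χ ≠ 0 := by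
    obtain ⟨w, hw⟩ := exists_ne_zero_of_ne hv
    obtain ⟨m, hm⟩ := AddChar.ne_one_iff.mp (hψ hw)
    refine AddChar.ne_zero_iff.mpr ⟨-(m • w), ?_⟩
    have : ω (-(m • w)) v = ω v w * m := by
      rw [map_neg, LinearMap.neg_apply, jBilin_isAlt.neg_eq, map_smul, smul_eq_mul, mul_comm]
    show ψ (ω (-(m • w)) v) ≠ 1
    rwa [this]
  have := AddChar.sum_eq_ite χ
  rwa [if_neg hχ] at this

theorem L7 [FiniteDimensional ℂ M] (h : Typ ρ ψ) {v : l ⊕ l → F} (hv : v ≠ 0) :
    ((Fintype.card F : ℂ) ^ Fintype.card l + 1) * LinearMap.trace ℂ M (C ρ ψ v) =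
        2 * finrank ℂ M ∨
      ((Fintype.card F : ℂ) ^ Fintype.card l - 1) * LinearMap.trace ℂ M (C ρ ψ v) =
        -2 * finrank ℂ M := by
  classical
  have := h.irr
  set t := LinearMap.trace ℂ M (C ρ ψ v) with ht
  set d : ℂ := (finrank ℂ M : ℂ) with hd
  have hτ : ∀ u, LinearMap.trace ℂ M (C ρ ψ u) = t + if u = 0 then 2 * d - t else 0 := by
    intro u
    split_ifs with hu
    · rw [hu, C_zero h.prim, map_smul, LinearMap.trace_one]; simp [hd]
    · rw [add_zero, trace_C hu hv]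
  obtain ⟨lam, hlam⟩ := H11.exists_eq_smul_id_of_commute ρ (∑ u, C ρ ψ u) fun g => by
    rw [Finset.mul_sum, Finset.sum_mul]
    exact (Fintype.sum_equiv (MulAction.toPerm g) _ _ fun u => fn_conj g u _).symm
  have e1 := congrArg (LinearMap.trace ℂ M) hlam
  rw [map_sum, map_smul, LinearMap.trace_id, ← hd] at e1
  simp only [hτ, Finset.sum_add_distrib, Finset.sum_ite_eq', Finset.mem_univ, if_true,
    Finset.sum_const, Finset.card_univ, Fintype.card_fun, Fintype.card_sum, nsmul_eq_mul,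
    smul_eq_mul, Nat.cast_pow] at e1
  have e2 := congrArg (fun T => LinearMap.trace ℂ M (C ρ ψ v * T)) hlam
  simp only [Finset.mul_sum, L5 h, map_sum, map_add, map_smul, Finset.sum_add_distrib,
    mul_smul_comm, smul_eq_mul] at e2
  have e3 : ∑ u, ψ (ω u v) * LinearMap.trace ℂ M (C ρ ψ u) = 2 * d - t := by
    simp only [hτ, mul_add, Finset.sum_add_distrib, ← Finset.sum_mul, sum_psi h.prim hv, mul_ite,
      mul_zero, Finset.sum_ite_eq', Finset.mem_univ, if_true]
    simp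
  have e4 : ∑ w, ψ (ω w v) * LinearMap.trace ℂ M (C ρ ψ (v + w)) = 2 * d - t := by
    rw [← e3]
    refine Fintype.sum_equiv (Equiv.addLeft v) _ _ fun w => ?_
    simp [jBilin_isAlt.self_eq_zero]
  have e5 : ∑ w, ψ (-ω w v) * LinearMap.trace ℂ M (C ρ ψ (v - w)) = 2 * d - t := by
    rw [← e3]
    refine Fintype.sum_equiv (Equiv.subLeft v) _ _ fun w => ?_
    simp [jBilin_isAlt.self_eq_zero]
  rw [e4, e5, ← Module.End.one_eq_id, mul_one, ← ht] at e2
  rw [← sub_eq_zero, ← sub_eq_zero (a := _ * t), ← mul_eq_zero]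
  rw [pow_add] at e1
  linear_combination t * e1 - d * e2

theorem L8 {M' : Type*} [AddCommGroup M'] [Module ℂ M'] [FiniteDimensional ℂ M]
    [FiniteDimensional ℂ M'] {ρ' : Representation ℂ (symplecticGroup l F) M'} (h2 : (2 : F) ≠ 0)
    (h : Typ ρ ψ) (h' : Typ ρ' ψ) {v : l ⊕ l → F} (hv : v ≠ 0)
    (ht : finrank ℂ M' * LinearMap.trace ℂ M (C ρ ψ v) =
      finrank ℂ M * LinearMap.trace ℂ M' (C ρ' ψ v)) : ρ.character = ρ'.character := by
  classical
  let S : Submodule ℂ (End ℂ M × End ℂ M') :=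
    Submodule.span ℂ (Set.range fun y => (C ρ ψ y, C ρ' ψ y))
  have hgen : ∀ y, (C ρ ψ y, C ρ' ψ y) ∈ S := fun y => Submodule.subset_span ⟨y, rfl⟩
  have hmul : ∀ A ∈ S, ∀ B ∈ S, A * B ∈ S := by
    intro A hA B hB
    induction hA, hB using Submodule.span_induction₂ with
    | mem_mem A B hA hB =>
      obtain ⟨y, rfl⟩ := hA
      obtain ⟨z, rfl⟩ := hB
      rw [Prod.mk_mul_mk, L5 h, L5 h']
      exact S.add_mem (S.smul_mem _ (hgen _)) (S.smul_mem _ (hgen _))
    | zero_left => rw [zero_mul]; exact S.zero_mem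
    | zero_right => rw [mul_zero]; exact S.zero_mem
    | add_left _ _ _ _ _ _ h1 h2 => rw [add_mul]; exact S.add_mem h1 h2
    | add_right _ _ _ _ _ _ h1 h2 => rw [mul_add]; exact S.add_mem h1 h2
    | smul_left r _ _ _ _ h1 => rw [smul_mul_assoc]; exact S.smul_mem _ h1
    | smul_right r _ _ _ _ h1 => rw [mul_smul_comm]; exact S.smul_mem _ h1
  have htv : ∀ w c, (ρ (spTv w c), ρ' (spTv w c)) ∈ S := by
    intro w c
    obtain ⟨γ, hγ⟩ := exists_gamma h2 h.prim c
    have : (ρ (spTv w c), ρ' (spTv w c)) = ∑ s, γ s • (C ρ ψ (s • w), C ρ' ψ (s • w)) := by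
      rw [L6 h hγ, L6 h' hγ, Prod.ext_iff, Prod.fst_sum, Prod.snd_sum]
      exact ⟨rfl, rfl⟩
    rw [this]
    exact S.sum_mem fun s _ => S.smul_mem _ (hgen _)
  let H : Subgroup (symplecticGroup l F) :=
    { carrier := {g | (ρ g, ρ' g) ∈ S ∧ (ρ g⁻¹, ρ' g⁻¹) ∈ S}
      mul_mem' := fun {a b} ha hb => by
        refine ⟨?_, ?_⟩
        · rw [map_mul, map_mul]; exact hmul _ ha.1 _ hb.1
        · rw [_root_.mul_inv_rev, map_mul, map_mul]; exact hmul _ hb.2 _ ha.2
      one_mem' := by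
        have := htv 0 0
        rw [spTv_zero] at this
        exact ⟨this, by rwa [inv_one]⟩
      inv_mem' := fun {a} ha => ⟨ha.2, by rw [inv_inv]; exact ha.1⟩ }
  have hH : H = ⊤ := sp_eq_top_of_spTv_mem H fun w c => ⟨htv w c, by rw [spTv_inv]; exact htv _ _⟩
  have hfun : ∀ A ∈ S, finrank ℂ M' * LinearMap.trace ℂ M A.1 =
      finrank ℂ M * LinearMap.trace ℂ M' A.2 := by
    intro A hA
    induction hA using Submodule.span_induction with
    | mem A hA =>
      obtain ⟨y, rfl⟩ := hA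
      by_cases hy : y = 0
      · subst hy
        simp only [C_zero h.prim, map_smul, LinearMap.trace_one, smul_eq_mul]
        ring
      · simp only [trace_C hy hv, ht]
    | zero => simp
    | add _ _ _ _ h1 h2 => simp only [Prod.fst_add, Prod.snd_add, map_add, mul_add, h1, h2]
    | smul r _ _ h1 =>
      simp only [Prod.smul_fst, Prod.smul_snd, map_smul, smul_eq_mul]
      linear_combination r * h1
  have hchar : (finrank ℂ M' : ℂ) • ρ.character = (finrank ℂ M : ℂ) • ρ'.character := by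
    ext g
    exact hfun _ (hH ▸ Subgroup.mem_top g : g ∈ H).1
  have := h.irr
  have := h'.irr
  have := Fintype.ofFinite (symplecticGroup l F)
  have i1 := H11.isIrrCharacter_character ρ
  have i2 := H11.isIrrCharacter_character ρ'
  refine H11.irr_eq_of_classInner_ne_zero i1 i2 fun h0 => ?_
  have e := congrArg (fun χ => classInner χ ρ'.character) hchar
  simp only [H11.classInner_smul_left, h0, H11.classInner_irr_self i2, mul_zero, mul_one] at e
  exact (H11.finrank_pos_of_isIrreducible ρ).ne' (by exact_mod_cast e.symm)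

end Cfsg.Agent.H22.SpWeil
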