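import Mathlib
import Cfsg.Agent.H22.SpWeilC
import Cfsg.Agent.H75.WeilSp

/-!
# Small characters of `Sp(2n,q)` are of Weil type
-/

namespace Cfsg.Agent.H22.SpWeil

open Module Matrix H27 H75

variable {l : Type*} [Fintype l] [DecidableEq l] {F : Type*} [Field F] [Fintype F]
  {M : Type*} [AddCommGroup M] [Module ℂ M]
  {ρ : Representation ℂ (symplecticGroup l F) M} {ψ : AddChar F ℂ}

local notation "ω" => jBilin l F

omit [Fintype F] in
theorem spTv_elim (x : l → F) (c : F) : spTv (Sum.elim x 0) c = siegel (c • symSq x) := by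
  refine sp_ext fun y => ?_
  rw [spTv_mulVec, coe_siegel, jBilin_apply_sum, fromBlocks_mulVec]
  ext (i | i)
  · simp [symSq, smul_mulVec, vecMulVec_mulVec, dotProduct, mul_comm, mul_left_comm]
  · simp

omit [Fintype F] in
theorem exists_sp_isotropic (hl : 2 ≤ Fintype.card l) {u v : l ⊕ l → F} (h : ω u v = 0) :
    ∃ (g : symplecticGroup l F) (u' v' : l → F),
      (g : Matrix (l ⊕ l) (l ⊕ l) F) *ᵥ u = Sum.elim u' 0 ∧
      (g : Matrix (l ⊕ l) (l ⊕ l) F) *ᵥ v = Sum.elim v' 0 := by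
  classical
  let Y : Submodule F (l ⊕ l → F) := Submodule.span F (({u, v} : Finset (l ⊕ l → F)) : Set _)
  have hY : finrank F Y ≤ finrank F (l → F) := by
    rw [finrank_fintype_fun_eq_card]
    exact (finrank_span_finset_le_card _).trans (Finset.card_le_two.trans hl)
  obtain ⟨f, hf⟩ := finrank_le_iff_exists_linearMap.mp hY
  let ι : (l → F) →ₗ[F] (l ⊕ l → F) :=
    { toFun := fun x => Sum.elim x 0
      map_add' := fun x y => by ext (i | i) <;> simp
      map_smul' := fun c x => by ext (i | i) <;> simp }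
  have hι : Function.Injective ι := fun x y hxy => by
    ext i; exact congrFun hxy (Sum.inl i)
  have h' : ω v u = 0 := by rw [← jBilin_isAlt.neg_eq, h, neg_zero]
  obtain ⟨g, -, hg⟩ := sp_witt_subspace ⊤ (fun _ _ => Subgroup.mem_top _) Y (ι ∘ₗ f) (hι.comp hf)
    fun x y => by
      have e1 : ω ((ι ∘ₗ f) x) ((ι ∘ₗ f) y) = 0 := by
        rw [jBilin_apply_sum]; simp [ι]
      rw [e1]
      obtain ⟨x, hx⟩ := x
      obtain ⟨y, hy⟩ := y
      simp only [Y, Finset.coe_insert, Finset.coe_singleton, Submodule.mem_span_pair] at hx hy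
      obtain ⟨a, b, rfl⟩ := hx
      obtain ⟨c, d, rfl⟩ := hy
      simp [h, h', jBilin_isAlt.self_eq_zero]
  exact ⟨g, f ⟨u, Submodule.subset_span (by simp)⟩, f ⟨v, Submodule.subset_span (by simp)⟩,
    hg ⟨u, _⟩, hg ⟨v, _⟩⟩

theorem spec_of_lt [FiniteDimensional ℂ M] (h2 : (2 : F) ≠ 0) (hl : 2 ≤ Fintype.card l)
    (hψ : ψ.IsPrimitive)
    (hd : 2 * (Fintype.card F + 1) * finrank ℂ M <
      (Fintype.card F ^ Fintype.card l - 1) * (Fintype.card F ^ Fintype.card l - Fintype.card F)) :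
    Spec ρ ψ := by
  classical
  have hfin : Finite (Dual F (symMat l F)) := DFunLike.finite _
  obtain ⟨r, hr⟩ := AddChar.ne_one_iff.mp (hψ (one_ne_zero (α := F)))
  rw [AddChar.mulShift_one] at hr
  let χ := pairChar ψ (dualPair F (symMat l F))
  have hinj : Function.Injective χ := by
    refine pairChar_injective _ _ fun B hB => ?_
    obtain ⟨a, ha⟩ := DFunLike.ne_iff.mp hB
    have ha' : B a ≠ 0 := ha
    refine ⟨(r / B a) • a, ?_⟩
    rwa [dualPair_apply, map_smul, smul_eq_mul, div_mul_cancel₀ _ ha']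
  let S : Set (Dual F (symMat l F)) := {B | wt ρ siegel (χ B) ≠ ⊥}
  have hS : S.ncard ≤ finrank ℂ M := by
    have := card_le_finrank ρ siegel χ hinj (Set.toFinite S).toFinset
      (fun m hm => by simpa [S] using hm)
    rwa [Set.ncard_eq_toFinset_card]
  have hcl : QClosed (symQuad '' S) := by
    rintro _ ⟨B, hB, rfl⟩ e
    let g := LinearMap.toMatrix' (e : (l → F) →ₗ[F] (l → F))
    let g' := LinearMap.toMatrix' (e.symm : (l → F) →ₗ[F] (l → F))
    have hg : g * g' = 1 := by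
      rw [← LinearMap.toMatrix'_comp]; simp
    refine ⟨B ∘ₗ symConj g, wt_ne_bot_of_conj (siegelLevi g g' hg) (fun a =>
      ⟨symConj g a, siegel_mul_levi g g' hg a, rfl⟩) hB, ?_⟩
    ext v
    rw [QuadraticMap.comp_apply, symQuad_apply, symQuad_apply, LinearMap.comp_apply, symConj_symSq,
      LinearMap.toMatrix'_mulVec]
  have hrk : ∀ B ∈ S, ∃ (a : F) (f : Dual F (l → F)), ∀ x, B (symSq x) = a * f x ^ 2 := by
    intro B hB
    by_contra hn
    have := quad_rank_two_bound h2 hcl ((Set.toFinite S).image _) ⟨B, hB, rfl⟩ hn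
    rw [finrank_fintype_fun_eq_card] at this
    have h3 := (Set.ncard_image_le (f := symQuad) (Set.toFinite S)).trans hS
    exact absurd (this.trans (Nat.mul_le_mul_left _ h3)) (not_le.mpr hd)
  intro u v huv p hp
  obtain ⟨g, u', v', hu, hv⟩ := exists_sp_isotropic hl huv
  have := ext_wt ρ siegel siegel_add χ (fun a ha => by
      obtain ⟨B, hB⟩ := Module.Projective.exists_dual_eq_one F ha
      refine ⟨r • B, ?_⟩
      simpa [χ, hB] using hr) (p.comap (ρ g⁻¹)) fun B x hx => by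
    by_cases hB : B ∈ S
    · obtain ⟨a, f, hf⟩ := hrk B hB
      refine hp _ a (f u') (f v') fun s t => ?_
      have e1 : x ∈ W ρ ψ (Sum.elim (s • u' + t • v') 0) (a * (s * f u' + t * f v') ^ 2) := by
        intro c
        rw [spTv_elim, hx]
        simp [χ, hf, mul_comm]
      have e2 := W_conj e1 g⁻¹
      have e3 : Sum.elim (s • u' + t • v') 0 =
          (g : Matrix (l ⊕ l) (l ⊕ l) F) *ᵥ (s • u + t • v) := by
        rw [mulVec_add, mulVec_smul, mulVec_smul, hu, hv]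
        ext (i | i) <;> simp
      rwa [e3, ← sp_smul_def, ← sp_smul_def, inv_smul_smul] at e2
    · have : wt ρ siegel (χ B) = ⊥ := not_not.mp hB
      rw [this] at hx
      rw [(Submodule.mem_bot ℂ).mp hx]
      exact Submodule.zero_mem _
  rw [eq_top_iff]
  intro x _
  have h4 : ρ g x ∈ p.comap (ρ g⁻¹) := this ▸ Submodule.mem_top
  rwa [Submodule.mem_comap, ← Module.End.mul_apply, ← map_mul, inv_mul_cancel, map_one,
    Module.End.one_apply] at h4

omit [Fintype F] in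
theorem W_mulShift (ε : F) (v : l ⊕ l → F) (c : F) :
    W ρ (ψ.mulShift ε) v c = W ρ ψ v (ε * c) := by
  ext x
  simp only [mem_W, AddChar.mulShift_apply, mul_assoc]

theorem exists_typ [FiniteDimensional ℂ M] (h2 : (2 : F) ≠ 0) (hl : 2 ≤ Fintype.card l)
    (hψ : ψ.IsPrimitive) (hρ : ρ.IsIrreducible) (h1 : finrank ℂ M ≠ 1)
    (hd : 2 * (Fintype.card F + 1) * finrank ℂ M <
      (Fintype.card F ^ Fintype.card l - 1) * (Fintype.card F ^ Fintype.card l - Fintype.card F))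
    {ε : F} (hε : ¬ IsSquare ε) : Typ ρ ψ ∨ Typ ρ (ψ.mulShift ε) := by
  have hε0 : ε ≠ 0 := by rintro rfl; exact hε IsSquare.zero
  have hψ' : (ψ.mulShift ε).IsPrimitive := AddChar.IsPrimitive.of_ne_one (hψ hε0)
  have hF : ringChar F ≠ 2 := fun h => h2 (by
    have := ringChar.spec F 2
    rw [h] at this
    exact_mod_cast this.mpr dvd_rfl)
  obtain ⟨y, c, hc, hW⟩ : ∃ y c, c ≠ 0 ∧ W ρ ψ y c ≠ ⊥ := by
    by_contra hn
    push Not at hn
    have e1 : ρ.ker = ⊤ := sp_eq_top_of_spTv_mem _ fun w a => by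
      rw [MonoidHom.mem_ker]
      refine end_ext (ρ := ρ) hψ w fun c x hx => ?_
      by_cases hc : c = 0
      · rw [hx, hc]; simp
      · rw [hn w c hc] at hx
        rw [(Submodule.mem_bot ℂ).mp hx, map_zero, map_zero]
    have e2 := finrank_le_one_of_trivial ρ hρ fun g => (e1 ▸ Subgroup.mem_top g : g ∈ ρ.ker)
    have e3 := H11.finrank_pos_of_isIrreducible ρ
    omega
  obtain ⟨x, hx, hx0⟩ := Submodule.exists_mem_ne_zero_of_ne_bot hW
  by_cases hs : IsSquare c
  · obtain ⟨r, rfl⟩ := hs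
    rw [← sq] at hx hc
    exact Or.inl ⟨hl, hψ, spec_of_lt h2 hl hψ hd, hρ,
      _, Submodule.ne_bot_iff _ |>.mpr ⟨x, W_one hx (fun h => hc (by simp [h])), hx0⟩⟩
  · obtain ⟨r, hr⟩ : IsSquare (c * ε) := by
      rw [FiniteField.isSquare_iff hF (mul_ne_zero hc hε0), mul_pow,
        (FiniteField.pow_dichotomy hF hc).resolve_left (by rwa [← FiniteField.isSquare_iff hF hc]),
        (FiniteField.pow_dichotomy hF hε0).resolve_left
          (by rwa [← FiniteField.isSquare_iff hF hε0])]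
      simp
    have hr0 : r ≠ 0 := by rintro rfl; exact mul_ne_zero hc hε0 (by simpa using hr)
    refine Or.inr ⟨hl, hψ', spec_of_lt h2 hl hψ' hd, hρ, (ε / r) • y,
      Submodule.ne_bot_iff _ |>.mpr ⟨x, ?_, hx0⟩⟩
    have e : ε * 1 = (ε / r) ^ 2 * c := by
      field_simp
      linear_combination -hr
    rw [W_mulShift, e]
    exact W_smul hx _

/-- The diagonal similitude. -/
def dg (l : Type*) [DecidableEq l] {F : Type*} [Field F] (ε : F) : Matrix (l ⊕ l) (l ⊕ l) F :=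
  diagonal (Sum.elim (fun _ => ε) fun _ => 1)

omit [Fintype F] in
theorem dg_mul (a b : F) : dg l a * dg l b = dg l (a * b) := by
  rw [dg, dg, dg, diagonal_mul_diagonal]
  congr 1
  ext (i | i) <;> simp

omit [Fintype F] [Fintype l] in
theorem dg_one : dg l (1 : F) = 1 := by
  rw [dg, ← diagonal_one]
  congr 1
  ext (i | i) <;> simp

omit [Fintype F] in
theorem jBilin_dg (a : F) (x y : l ⊕ l → F) : ω (dg l a *ᵥ x) (dg l a *ᵥ y) = a * ω x y := by
  simp only [jBilin_apply_sum, dg, mulVec_diagonal, Sum.elim_inl, Sum.elim_inr, Finset.mul_sum]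
  exact Finset.sum_congr rfl fun i _ => by ring

/-- The diagonal automorphism. -/
def twist (l : Type*) [Fintype l] [DecidableEq l] {F : Type*} [Field F] {ε : F} (hε : ε ≠ 0) :
    symplecticGroup l F →* symplecticGroup l F where
  toFun g := ⟨dg l ε * g * dg l ε⁻¹, (mem_sp_iff _).mpr fun u v => by
    rw [← mulVec_mulVec, ← mulVec_mulVec, ← mulVec_mulVec, ← mulVec_mulVec, jBilin_dg, jBilin_sp,
      jBilin_dg, mul_inv_cancel_left₀ hε]⟩
  map_one' := Subtype.ext (by
    simp only [OneMemClass.coe_one, Matrix.mul_one, dg_mul, mul_inv_cancel₀ hε, dg_one])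
  map_mul' g h := Subtype.ext (by
    simp only [Submonoid.coe_mul, Submonoid.mk_mul_mk, Matrix.mul_assoc]
    rw [← Matrix.mul_assoc (dg l ε⁻¹), dg_mul, inv_mul_cancel₀ hε, dg_one, Matrix.one_mul])

omit [Fintype F] in
theorem coe_twist {ε : F} (hε : ε ≠ 0) (g : symplecticGroup l F) :
    (twist l hε g : Matrix (l ⊕ l) (l ⊕ l) F) = dg l ε * g * dg l ε⁻¹ := rfl

omit [Fintype F] in
theorem twist_surjective {ε : F} (hε : ε ≠ 0) : Function.Surjective (twist l hε) := fun g =>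
  ⟨twist l (inv_ne_zero hε) g, Subtype.ext (by
    rw [coe_twist, coe_twist, inv_inv, ← Matrix.mul_assoc, ← Matrix.mul_assoc, dg_mul,
      mul_inv_cancel₀ hε, dg_one, Matrix.one_mul, Matrix.mul_assoc, dg_mul, mul_inv_cancel₀ hε,
      dg_one, Matrix.mul_one])⟩

omit [Fintype F] in
theorem twist_spTv {ε : F} (hε : ε ≠ 0) (v : l ⊕ l → F) (c : F) :
    twist l hε (spTv v c) = spTv (dg l ε *ᵥ v) (c / ε) := by
  refine sp_ext fun x => ?_
  have e1 : dg l ε *ᵥ (dg l ε⁻¹ *ᵥ x) = x := by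
    rw [mulVec_mulVec, dg_mul, mul_inv_cancel₀ hε, dg_one, one_mulVec]
  rw [coe_twist, ← mulVec_mulVec, ← mulVec_mulVec, spTv_mulVec, spTv_mulVec, mulVec_add,
    mulVec_smul, e1]
  congr 2
  nth_rewrite 2 [← e1]
  rw [jBilin_dg]
  field_simp

theorem trace_E [FiniteDimensional ℂ M] (hψ : ψ.IsPrimitive) (v : l ⊕ l → F) (c : F) :
    LinearMap.trace ℂ M (E ρ ψ v c) = finrank ℂ (W ρ ψ v c) := by
  classical
  refine LinearMap.IsProj.trace ⟨E_mem hψ v c, fun x hx => ?_⟩
  rw [E_apply hψ hx, if_pos rfl]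

theorem twist_ne [FiniteDimensional ℂ M] (h : Typ ρ ψ) {ε : F} (hε0 : ε ≠ 0) (hε : ¬ IsSquare ε) :
    (fun g => ρ.character (twist l hε0 g)) ≠ ρ.character := by
  intro he
  obtain ⟨y, hy⟩ := h.ne
  let ρ' : Representation ℂ (symplecticGroup l F) M := ρ.comp (twist l hε0)
  have e1 : W ρ' ψ y 1 = ⊥ := by
    rw [eq_bot_iff]
    intro x hx
    refine L4 h (dg l ε *ᵥ y) hε fun a => ?_
    have := hx (ε * a)
    rw [one_mul] at this
    rw [← this]
    show _ = ρ (twist l hε0 _) x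
    rw [twist_spTv, mul_div_cancel_left₀ _ hε0]
  have e2 : LinearMap.trace ℂ M (E ρ' ψ y 1) = LinearMap.trace ℂ M (E ρ ψ y 1) := by
    simp only [E, fn, map_sum, map_smul]
    refine Finset.sum_congr rfl fun a _ => ?_
    congr 1
    exact congrFun he _
  rw [trace_E h.prim, trace_E h.prim, e1, finrank_bot, Nat.cast_zero, eq_comm, Nat.cast_eq_zero,
    Submodule.finrank_eq_zero] at e2
  exact hy e2

/-- The two bits attached to a small irreducible character. -/
def Bits (ψ : AddChar F ℂ) (ε : F) (v : l ⊕ l → F) (χ : symplecticGroup l F → ℂ)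
    (b : Bool × Bool) : Prop :=
  ∃ (n : ℕ) (ρ : Representation ℂ (symplecticGroup l F) (Fin n → ℂ)), ρ.character = χ ∧
    Typ ρ (if b.1 then ψ else ψ.mulShift ε) ∧
    ((Fintype.card F : ℂ) ^ Fintype.card l + if b.2 then 1 else -1) *
      LinearMap.trace ℂ _ (C ρ (if b.1 then ψ else ψ.mulShift ε) v) =
        (if b.2 then 2 else -2) * finrank ℂ (Fin n → ℂ)

theorem Bits.eq (h2 : (2 : F) ≠ 0) {ε : F} {v : l ⊕ l → F} (hv : v ≠ 0)
    {χ χ' : symplecticGroup l F → ℂ} {b : Bool × Bool} (h : Bits ψ ε v χ b)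
    (h' : Bits ψ ε v χ' b) : χ = χ' := by
  obtain ⟨n, ρ, rfl, h3, h4⟩ := h
  obtain ⟨n', ρ', rfl, h5, h6⟩ := h'
  refine L8 h2 h3 h5 hv ?_
  have hQ : ((Fintype.card F : ℂ) ^ Fintype.card l + if b.2 then 1 else -1) ≠ 0 := by
    have hl := h3.hl
    have h7 : 1 < Fintype.card F ^ Fintype.card l :=
      Nat.one_lt_pow (by omega) Fintype.one_lt_card
    split_ifs
    · exact_mod_cast Nat.succ_ne_zero (Fintype.card F ^ Fintype.card l)
    · rw [← sub_eq_add_neg, sub_ne_zero]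
      exact_mod_cast h7.ne'
  apply mul_left_cancel₀ hQ
  linear_combination (finrank ℂ (Fin n' → ℂ) : ℂ) * h4 - (finrank ℂ (Fin n → ℂ) : ℂ) * h6

theorem exists_bits (h2 : (2 : F) ≠ 0) (hl : 2 ≤ Fintype.card l) (hψ : ψ.IsPrimitive) {ε : F}
    (hε : ¬ IsSquare ε) {v : l ⊕ l → F} (hv : v ≠ 0) {χ : symplecticGroup l F → ℂ}
    (hχ : IsIrrCharacter _ χ) {d : ℕ} (hd : χ 1 = d) (h1 : d ≠ 1)
    (hlt : 2 * (Fintype.card F + 1) * d <
      (Fintype.card F ^ Fintype.card l - 1) * (Fintype.card F ^ Fintype.card l - Fintype.card F)) :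
    ∃ b, Bits ψ ε v χ b := by
  obtain ⟨n, ρ, hρ, rfl⟩ := hχ
  have e : finrank ℂ (Fin n → ℂ) = d := by
    rw [Representation.char_one] at hd
    exact_mod_cast hd
  rcases exists_typ h2 hl hψ hρ (e ▸ h1) (e ▸ hlt) hε with h | h
  · rcases L7 h hv with h3 | h3
    · exact ⟨(true, true), n, ρ, rfl, h, h3⟩
    · exact ⟨(true, false), n, ρ, rfl, h, by simpa [sub_eq_add_neg] using h3⟩
  · rcases L7 h hv with h3 | h3
    · exact ⟨(false, true), n, ρ, rfl, h, h3⟩
    · exact ⟨(false, false), n, ρ, rfl, h, by simpa [sub_eq_add_neg] using h3⟩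

/-- The four Weil characters are all the small non-trivial irreducible characters. -/
theorem main (h2 : (2 : F) ≠ 0) (hl : 2 ≤ Fintype.card l) :
    ∃ χ₁ χ₂ χ₃ χ₄ : IrrCharacter (symplecticGroup l F), χ₁ ≠ χ₂ ∧ χ₃ ≠ χ₄ ∧ ∃ a b : ℕ,
      2 * a = Fintype.card F ^ Fintype.card l + 1 ∧ 2 * b + 1 = Fintype.card F ^ Fintype.card l ∧
      χ₁.1 1 = a ∧ χ₂.1 1 = a ∧ χ₃.1 1 = b ∧ χ₄.1 1 = b ∧
      ∀ (χ : IrrCharacter (symplecticGroup l F)) (d : ℕ), χ.1 1 = d → d ≠ 1 →
        (d ≤ a ∨ 2 * (Fintype.card F + 1) * d < (Fintype.card F ^ Fintype.card l - 1) *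
          (Fintype.card F ^ Fintype.card l - Fintype.card F)) →
        χ = χ₁ ∨ χ = χ₂ ∨ χ = χ₃ ∨ χ = χ₄ := by
  classical
  have : Nonempty l := Fintype.card_pos_iff.mp (by omega)
  have hF : ringChar F ≠ 2 := fun h => h2 (by
    have := ringChar.spec F 2
    rw [h] at this
    exact_mod_cast this.mpr dvd_rfl)
  obtain ⟨ε, hε⟩ := FiniteField.exists_nonsquare hF
  have hε0 : ε ≠ 0 := by rintro rfl; exact hε IsSquare.zero
  have hprim := AddChar.FiniteField.primitiveChar_to_Complex_isPrimitive F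
  set ψ := AddChar.FiniteField.primitiveChar_to_Complex F
  have hψ : ψ ≠ 1 := by simpa using hprim (one_ne_zero (α := F))
  obtain ⟨ρ, h3, h4⟩ := exists_weilSp (l := l) h2 hψ
  obtain ⟨h5, h6, -⟩ := weilSp_irr h2 hψ ρ h3 (eigenspace_parity_invariant ρ h4)
  obtain ⟨h7, h8⟩ := two_mul_finrank_parity (l := l) h2
  obtain ⟨v, hv⟩ := exists_ne (0 : l ⊕ l → F)
  set a := finrank ℂ ((parity l F).eigenspace 1)
  set b := finrank ℂ ((parity l F).eigenspace (-1))
  set q := Fintype.card F with hq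
  set Q := q ^ Fintype.card l with hQ
  have hq3 : 3 ≤ q := by
    have := FiniteField.odd_card_of_char_ne_two hF
    have : 1 < q := Fintype.one_lt_card
    omega
  have hQq : q * q ≤ Q := by
    rw [← sq]; exact Nat.pow_le_pow_right (by omega) hl
  have hlt : ∀ d ≤ a, 2 * (q + 1) * d < (Q - 1) * (Q - q) := by
    intro d hd
    obtain ⟨k, hk⟩ : ∃ k, Q = q + k := ⟨Q - q, by have : q ≤ q * q := Nat.le_mul_self q; omega⟩
    have e1 : Q - 1 = 2 * b := by omega
    have e2 : Q - q = k := by omega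
    have e3 : a = b + 1 := by omega
    have e4 : 2 * q ≤ k := by nlinarith
    have e5 : q + 1 ≤ b := by nlinarith
    rw [e1, e2]
    nlinarith
  have hb2 : 2 ≤ b := by nlinarith
  have hb1 : b ≠ 1 := by omega
  have hba : a = b + 1 := by omega
  have ha1 : a ≠ 1 := by omega
  let P : IrrCharacter (symplecticGroup l F) → Prop := fun χ =>
    ∃ d : ℕ, χ.1 1 = d ∧ d ≠ 1 ∧ 2 * (q + 1) * d < (Q - 1) * (Q - q)
  have hP : ∀ χ, P χ → ∃ c, Bits ψ ε v χ.1 c := fun χ ⟨d, e1, e2, e3⟩ =>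
    exists_bits h2 hl hprim hε hv χ.2 e1 e2 e3
  let tw : IrrCharacter (symplecticGroup l F) → IrrCharacter (symplecticGroup l F) := fun χ =>
    ⟨_, H11.isIrrCharacter_comp_of_surjective χ.2 (twist l hε0) (twist_surjective hε0)⟩
  have htw1 : ∀ χ, (tw χ).1 1 = χ.1 1 := fun χ => by simp [tw]
  have htw : ∀ χ, P χ → χ ≠ tw χ := fun χ hχ he => by
    obtain ⟨c, n, σ, e1, e2, -⟩ := hP χ hχ
    refine twist_ne e2 hε0 hε ?_
    rw [e1]
    exact (congrArg Subtype.val he).symm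
  let χ₁ : IrrCharacter (symplecticGroup l F) := ⟨_, H11.isIrrCharacter_character _ (h := h5)⟩
  let χ₃ : IrrCharacter (symplecticGroup l F) := ⟨_, H11.isIrrCharacter_character _ (h := h6)⟩
  have d1 : χ₁.1 1 = a := Representation.char_one _
  have d3 : χ₃.1 1 = b := Representation.char_one _
  have d2 : (tw χ₁).1 1 = a := (htw1 _).trans d1
  have d4 : (tw χ₃).1 1 = b := (htw1 _).trans d3
  have P1 : P χ₁ := ⟨a, d1, ha1, hlt a le_rfl⟩
  have P2 : P (tw χ₁) := ⟨a, d2, ha1, hlt a le_rfl⟩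
  have P3 : P χ₃ := ⟨b, d3, hb1, hlt b (by omega)⟩
  have P4 : P (tw χ₃) := ⟨b, d4, hb1, hlt b (by omega)⟩
  refine ⟨χ₁, tw χ₁, χ₃, tw χ₃, htw _ P1, htw _ P3, a, b, h7, h8, d1, d2, d3, d4,
    fun χ d e1 e2 e3 => ?_⟩
  have P0 : P χ := ⟨d, e1, e2, e3.elim (hlt d) id⟩
  by_contra hn
  push Not at hn
  have hne : ∀ χ χ' : IrrCharacter (symplecticGroup l F), χ.1 1 = a → χ'.1 1 = b → χ ≠ χ' := by
    rintro χ _ e1 e2 rfl
    rw [e1] at e2
    have : a = b := by exact_mod_cast e2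
    omega
  choose! f hf using hP
  have hcard : ({χ, χ₁, tw χ₁, χ₃, tw χ₃} : Finset _).card ≤ (Finset.univ : Finset (Bool × Bool)).card := by
    refine Finset.card_le_card_of_injOn f (fun _ _ => Finset.mem_coe.mpr (Finset.mem_univ _)) ?_
    have hall : ∀ x ∈ ({χ, χ₁, tw χ₁, χ₃, tw χ₃} : Finset _), P x := by
      intro x hx
      simp only [Finset.mem_insert, Finset.mem_singleton] at hx
      rcases hx with rfl | rfl | rfl | rfl | rfl <;> assumption
    intro x hx y hy hxy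
    exact Subtype.ext (Bits.eq h2 hv (hf x (hall x hx)) (hxy ▸ hf y (hall y hy)))
  rw [Finset.card_insert_of_notMem (by simp [hn]),
    Finset.card_insert_of_notMem (by simp [htw _ P1, hne _ _ d1 d3, hne _ _ d1 d4]),
    Finset.card_insert_of_notMem (by simp [hne _ _ d2 d3, hne _ _ d2 d4]),
    Finset.card_insert_of_notMem (by simp [htw _ P3])] at hcard
  simp at hcard

end Cfsg.Agent.H22.SpWeil
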