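import Cfsg.Agent.H6.TIDefs

/-! Lines in the geometry of weakly closed TI-subgroups. -/

set_option autoImplicit false
set_option linter.unusedSectionVars false

namespace Cfsg.Agent.H22.TIBB

open Cfsg Subgroup Cfsg.Agent.H6.TI
open Cfsg.Agent.H83 (cj mem_cj conj_mem_cj cj_mul cj_eq_self cj_eq_self_iff cj_one)
open scoped Cfsg.Agent.H63 commutatorElement

universe u

variable {G : Type u} [Group G]

theorem dih {a b : G} (ha : a * a = 1) (hb : b * b = 1) (k : ℕ) :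
    a * ((a * b) ^ k)⁻¹ = (a * b) ^ k * a := by
  have h1 : a * (a * b)⁻¹ * a⁻¹ = a * b := by
    rw [mul_inv_rev, inv_eq_of_mul_eq_one_right ha, inv_eq_of_mul_eq_one_right hb, mul_assoc,
      mul_assoc, ha, mul_one]
  rw [← inv_pow, ← mul_inv_eq_iff_eq_mul, ← conj_pow, h1]

theorem dih_a {a b : G} (ha : a * a = 1) (hb : b * b = 1) (k : ℕ) :
    (a * b) ^ k * a * ((a * b) ^ k)⁻¹ = (a * b) ^ (2 * k) * a := by
  rw [mul_assoc, dih ha hb, ← mul_assoc, ← pow_add, two_mul]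

theorem dih_b {a b : G} (ha : a * a = 1) (hb : b * b = 1) (k : ℕ) :
    (a * b) ^ (k + 1) * b * ((a * b) ^ (k + 1))⁻¹ = (a * b) ^ (2 * k + 1) * a := by
  have : (a * b) ^ (k + 1) * b = (a * b) ^ k * a := by
    rw [pow_succ, mul_assoc, mul_assoc, hb, mul_one]
  rw [this, mul_assoc, dih ha hb, ← mul_assoc, ← pow_add, two_mul, add_assoc]

theorem nmem {H : Subgroup G} {g x : G} (hg : g ∈ N[H]) (hx : x ∈ H) : g * x * g⁻¹ ∈ H :=
  (mem_normalizer_iff.1 hg x).1 hx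

theorem norm_ax {A B : Subgroup G} {g : G} (h1 : g ∈ N[A]) (h2 : g ∈ N[B]) : g ∈ N[ax A B] := by
  rw [← cj_eq_self_iff, ← ax_cj, cj_eq_self h1, cj_eq_self h2]

theorem norm_vv {A B : Subgroup G} {g : G} (h1 : g ∈ N[A]) (h2 : g ∈ N[B]) : g ∈ N[vv A B] := by
  rw [← cj_eq_self_iff, ← vv_cj, cj_eq_self h1, cj_eq_self h2]

theorem comm_sup {A B V : Subgroup G} (hn : A ⊔ B ≤ N[V]) {g : G} (h1 : ∀ a ∈ A, ⁅a, g⁆ ∈ V)
    (h2 : ∀ b ∈ B, ⁅b, g⁆ ∈ V) {l : G} (hl : l ∈ A ⊔ B) : ⁅l, g⁆ ∈ V := by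
  let S : Subgroup G :=
    { carrier := {l | l ∈ N[V] ∧ ⁅l, g⁆ ∈ V}
      one_mem' := ⟨one_mem _, by simp⟩
      mul_mem' := fun {x y} hx hy => ⟨mul_mem hx.1 hy.1, by
        rw [show ⁅x * y, g⁆ = x * ⁅y, g⁆ * x⁻¹ * ⁅x, g⁆ by simp only [commutatorElement_def]; group]
        exact mul_mem (nmem hx.1 hy.2) hx.2⟩
      inv_mem' := fun {x} hx => ⟨inv_mem hx.1, by
        rw [show ⁅x⁻¹, g⁆ = x⁻¹ * ⁅x, g⁆⁻¹ * x⁻¹⁻¹ by simp only [commutatorElement_def]; group]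
        exact nmem (inv_mem hx.1) (inv_mem hx.2)⟩ }
  exact (sup_le (c := S) (fun a ha => ⟨hn (mem_sup_left ha), h1 a ha⟩)
    (fun b hb => ⟨hn (mem_sup_right hb), h2 b hb⟩) hl).2

/-- A point over `V`. -/
structure Pt (Ω : Set (Subgroup G)) (V P : Subgroup G) (n : ℕ) : Prop where
  mem : P ∈ Ω
  vle : V ≤ N[P]
  cA : ∀ p ∈ P, ∀ v ∈ V, v ∉ P → p * v = v * p → p ∈ V
  ne : ∃ w ∈ P, w ∈ V ∧ w ≠ 1
  card : Nat.card ↥(P ⊓ V) = n

variable [Finite G] {Ω : Set (Subgroup G)} (h : TI Ω) (ba : BA Ω) {A B P Q : Subgroup G}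
include h

theorem inv_eq (hP : P ∈ Ω) {a : G} (ha : a ∈ P) : a⁻¹ = a :=
  inv_eq_of_mul_eq_one_right (h.sq P hP a ha)

theorem one_of (e : Ed Ω A B) {x : G} (h1 : x ∈ A) (h2 : x ∈ B) : x = 1 :=
  mem_bot.1 (h.ti A e.l B e.r e.ne ▸ mem_inf.2 ⟨h1, h2⟩)

theorem exA (e : Ed Ω A B) : ∃ a ∈ A, a ∉ ax A B := by
  by_contra hc
  push Not at hc
  exact e.ne (h.wc A e.l B e.r fun a ha => (hc a ha).2)

omit h in
theorem exI (e : Ed Ω A B) : ∃ i ∈ ax A B, i ≠ 1 := by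
  by_contra hc
  push Not at hc
  exact e.nb ((eq_bot_iff_forall _).2 hc)

include ba

omit h in
theorem memI (e : Ed Ω A B) {a : G} (ha : a ∈ A) (hv : a ∈ vv A B) : a ∈ ax A B :=
  ba.vinf e ▸ mem_inf.2 ⟨hv, ha⟩

theorem pt (e : Ed Ω A B) {l : G} (hl : l ∈ A ⊔ B) : Pt Ω (vv A B) (cj l A) (hh A B) := by
  have e' := e.cj h l
  have hv : vv (cj l A) (cj l B) = vv A B := by rw [vv_cj, cj_eq_self (ba.vnorm e hl)]
  obtain ⟨i, hi, h1⟩ := exI e'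
  refine ⟨e'.l, hv ▸ ba.vle e', fun p hp v hv' h2 h3 => ?_, ⟨i, hi.1, hv ▸ mem_sup_left hi, h1⟩, ?_⟩
  · exact hv ▸ mem_sup_left ((ba.cA e' p hp v (hv ▸ hv') h2).1 h3)
  · rw [← hv, inf_comm, ba.vinf e', ← hh_cj l, hh]

theorem pt' (e : Ed Ω A B) {l : G} (hl : l ∈ A ⊔ B) : Pt Ω (vv A B) (cj l B) (hh A B) := by
  rw [vv_comm, (ba.card e).1]
  exact pt h ba (ba.symm e) (sup_comm A B ▸ hl)

omit h in
theorem Pt.ax_eq {V : Subgroup G} {n : ℕ} (p : Pt Ω V P n) (q : Pt Ω V Q n) (ne : P ≠ Q) :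
    ax P Q = P ⊓ V := by
  refine le_antisymm (fun x hx => ⟨hx.1, ?_⟩) (inf_le_inf_left P q.vle)
  obtain ⟨w, h1, h2, h3⟩ := q.ne
  exact p.cA x hx.1 w h2 (fun h4 => ne (ba.eq P p.mem Q q.mem w h4 h1 h3))
    (ba.comm P p.mem Q q.mem ne x hx w ⟨h1, p.vle h2⟩)

theorem odd (e : Ed Ω A B) {a : G} (ha : a ∈ A) (ha' : a ∉ ax A B) {b : G} (hb : b ∈ B)
    (hb' : b ∉ ax B A) : Odd (orderOf (a * b)) ∧ Fpf (a * b) (vv A B) := by
  have sa := h.sq A e.l a ha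
  have sb := h.sq B e.r b hb
  constructor
  · by_contra hc
    obtain ⟨m, hm⟩ := Nat.not_odd_iff_even.1 hc
    have hpos := orderOf_pos (a * b)
    have z1 : (a * b) ^ m ≠ 1 := pow_ne_one_of_lt_orderOf (by omega) (by omega)
    have z2 : ((a * b) ^ m)⁻¹ = (a * b) ^ m :=
      inv_eq_of_mul_eq_one_right (by rw [← pow_add, ← hm, pow_orderOf_eq_one])
    have za : a * (a * b) ^ m = (a * b) ^ m * a := by rw [← dih sa sb, z2]
    have zb : b * (a * b) ^ m = (a * b) ^ m * b := by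
      have c1 : Commute a ((a * b) ^ m) := za
      have c2 := (c1.inv_left.mul_left ((Commute.refl (a * b)).pow_right m)).eq
      rwa [inv_mul_cancel_left] at c2
    have zA : (a * b) ^ m ∉ A := fun h1 => hb' ⟨hb, ba.cent A e.l _ h1 z1 b zb⟩
    have hc : ∀ k, (a * b) ^ k ∈ A ⊔ B := fun k =>
      pow_mem (mul_mem (mem_sup_left ha) (mem_sup_right hb)) k
    obtain ⟨P, p, hP⟩ : ∃ P, Pt Ω (vv A B) P (hh A B) ∧ (a * b) ^ m * a ∈ P := by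
      obtain ⟨k, rfl | rfl⟩ := Nat.even_or_odd' m
      · exact ⟨_, pt h ba e (hc k), dih_a sa sb k ▸ conj_mem_cj ha⟩
      · exact ⟨_, pt' h ba e (hc (k + 1)), dih_b sa sb k ▸ conj_mem_cj hb⟩
    have pA := pt h ba e (one_mem _)
    rw [cj_one] at pA
    have ne : A ≠ P := by
      rintro rfl
      exact zA ((mul_mem_cancel_right ha).1 hP)
    have h2 : a ∈ ax A P := ⟨ha, ba.cent P p.mem _ hP (fun h3 => zA (by
      rw [eq_inv_of_mul_eq_one_left h3]; exact inv_mem ha)) a (by rw [← mul_assoc, za])⟩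
    rw [pA.ax_eq ba p ne] at h2
    exact ha' (memI ba e ha h2.2)
  · intro v hv hc
    have e' := ba.symm e
    have h1 : ⁅a, v⁆ = ⁅b, v⁆ := by
      have : a * v * a⁻¹ = b * v * b⁻¹ := by
        calc a * v * a⁻¹ = a⁻¹ * (v * (a * b)) * b⁻¹ := by
              rw [inv_eq h e.l ha]; group
          _ = _ := by rw [← hc]; group
      rw [commutatorElement_def, commutatorElement_def, this]
    have h2 : ⁅a, v⁆ = 1 :=
      one_of h e (ba.brk e a ha v hv).1 (h1 ▸ (ba.brk e' b hb v (vv_comm A B ▸ hv)).1)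
    by_contra hv1
    by_cases h3 : v ∈ A
    · exact hb' ((ba.cA e' b hb v (vv_comm A B ▸ hv) fun h4 => hv1 (one_of h e h3 h4)).1
        (commutatorElement_eq_one_iff_mul_comm.1 (h1 ▸ h2)))
    · exact ha' ((ba.cA e a ha v hv h3).1 (commutatorElement_eq_one_iff_mul_comm.1 h2))

theorem swap (e : Ed Ω A B) {a : G} (ha : a ∈ A) (ha' : a ∉ ax A B) {b : G} (hb : b ∈ B)
    (hb' : b ∉ ax B A) : ∃ s R, OnL A B R ∧ s ∈ R ∧ s ∉ vv A B ∧ s ∈ closure ({a, b} : Set G) ∧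
      s * a * s⁻¹ = b ∧ cj s A = B ∧ cj s B = A := by
  have sa := h.sq A e.l a ha
  have sb := h.sq B e.r b hb
  obtain ⟨m, hm⟩ := (odd h ba e ha ha' hb hb').1
  have h0 : (a * b) ^ (2 * m + 1) = 1 := hm ▸ pow_orderOf_eq_one _
  have hc : (a * b) ^ (m * (m + 1)) ∈ A ⊔ B :=
    pow_mem (mul_mem (mem_sup_left ha) (mem_sup_right hb)) _
  have hs : (a * b) ^ (m * (m + 1)) * a * ((a * b) ^ (m * (m + 1)))⁻¹ = (a * b) ^ m * a := by
    rw [dih_a sa sb, show 2 * (m * (m + 1)) = (2 * m + 1) * m + m by ring, pow_add, pow_mul, h0,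
      one_pow, one_mul]
  have h1 : (a * b) ^ m * a * a * ((a * b) ^ m * a)⁻¹ = b := by
    rw [mul_inv_rev, inv_eq h e.l ha, mul_assoc _ a a, sa, mul_one, ← mul_assoc, dih_a sa sb]
    exact (eq_inv_of_mul_eq_one_left (by rw [mul_assoc, ← pow_succ, h0])).trans (inv_eq h e.r hb)
  have hR := hs ▸ conj_mem_cj (g := (a * b) ^ (m * (m + 1))) ha
  have h2 : cj ((a * b) ^ m * a) A = B := ba.eq _ (h.conj A e.l _) B e.r b
    (by have := conj_mem_cj (g := (a * b) ^ m * a) ha; rwa [h1] at this) hb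
    fun h3 => hb' (h3 ▸ one_mem _)
  have ca : a ∈ closure ({a, b} : Set G) := subset_closure (by simp)
  have cb : b ∈ closure ({a, b} : Set G) := subset_closure (by simp)
  refine ⟨_, _, ⟨_, hc, rfl⟩, hR, fun h3 => ha' (memI ba e ha ?_),
    mul_mem (pow_mem (mul_mem ca cb) _) ca, h1, h2, ?_⟩
  · exact (mem_normalizer_iff.1 (ba.vnorm e hc) a).2 (hs ▸ h3)
  · rw [← h2, ← cj_mul, h.sq _ (h.conj A e.l _) _ hR, cj_one]

theorem swap' (e : Ed Ω A B) : ∃ s R, OnL A B R ∧ s ∈ R ∧ s ∉ vv A B ∧ cj s A = B ∧ cj s B = A := by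
  obtain ⟨a, ha, ha'⟩ := exA h e
  obtain ⟨b, hb, hb'⟩ := exA h (ba.symm e)
  obtain ⟨s, R, h1, h2, h3, -, -, h4, h5⟩ := swap h ba e ha ha' hb hb'
  exact ⟨s, R, h1, h2, h3, h4, h5⟩

theorem onB (e : Ed Ω A B) : OnL A B B := by
  obtain ⟨s, R, h1, h2, -, h4, -⟩ := swap' h ba e
  exact ⟨s, h1.le h2, h4.symm⟩

theorem ptL (e : Ed Ω A B) (o : OnL A B P) : Pt Ω (vv A B) P (hh A B) := by
  obtain ⟨l, hl, rfl⟩ := o
  exact pt h ba e hl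

theorem lin (e : Ed Ω A B) (o : OnL A B P) (o' : OnL A B Q) (ne : P ≠ Q) :
    Ed Ω P Q ∧ vv P Q = vv A B ∧ ax P Q = P ⊓ vv A B ∧ hh P Q = hh A B := by
  have p := ptL h ba e o
  have q := ptL h ba e o'
  have h1 := p.ax_eq ba q ne
  have h2 := q.ax_eq ba p ne.symm
  have e' : Ed Ω P Q := ⟨p.mem, q.mem, ne, fun h3 => by
    obtain ⟨w, w1, w2, w3⟩ := p.ne
    exact w3 (mem_bot.1 (h3 ▸ h1 ▸ mem_inf.2 ⟨w1, w2⟩))⟩
  have h4 : hh P Q = hh A B := by rw [hh, h1, p.card]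
  refine ⟨e', eq_of_le_of_card_ge (sup_le (h1 ▸ inf_le_right) (h2 ▸ inf_le_right)) ?_, h1, h4⟩
  rw [ba.vcard e, ba.vcard e', h4]

theorem odd' (e : Ed Ω A B) (o : OnL A B P) (o' : OnL A B Q) (ne : P ≠ Q) {p q : G} (hp : p ∈ P)
    (hp' : p ∉ vv A B) (hq : q ∈ Q) (hq' : q ∉ vv A B) :
    Odd (orderOf (p * q)) ∧ Fpf (p * q) (vv A B) := by
  obtain ⟨h1, h2, h3, -⟩ := lin h ba e o o' ne
  obtain ⟨-, -, h4, -⟩ := lin h ba e o' o ne.symm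
  exact h2 ▸ odd h ba h1 hp (fun h5 => hp' (h3 ▸ h5).2) hq fun h5 => hq' (h4 ▸ h5).2

theorem memV (e : Ed Ω A B) (o : OnL A B P) (o' : OnL A B Q) (ne : P ≠ Q) {p : G} (hp : p ∈ P)
    (hn : p ∈ N[Q]) : p ∈ vv A B :=
  ((lin h ba e o o' ne).2.2.1.le ⟨hp, hn⟩).2

omit h in
theorem commL (e : Ed Ω A B) {g : G} (h1 : ∀ a ∈ A, ⁅a, g⁆ ∈ ax A B)
    (h2 : ∀ b ∈ B, ⁅b, g⁆ ∈ ax B A) {l : G} (hl : l ∈ A ⊔ B) : ⁅l, g⁆ ∈ vv A B :=
  comm_sup (ba.vnorm e) (fun a ha => mem_sup_left (h1 a ha)) (fun b hb => mem_sup_right (h2 b hb)) hl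

theorem fixL (e : Ed Ω A B) (o : OnL A B P) {g : G} (hg : g ∈ N[A])
    (h1 : ∀ a ∈ A, ⁅a, g⁆ ∈ ax A B) (h2 : ∀ b ∈ B, ⁅b, g⁆ ∈ ax B A) : g ∈ N[P] := by
  have p := ptL h ba e o
  obtain ⟨l, hl, rfl⟩ := o
  rw [← cj_eq_self_iff, ← cj_mul,
    show g * l = ⁅l, g⁆⁻¹ * (l * g) by rw [commutatorElement_def]; group, cj_mul, cj_mul,
    cj_eq_self hg, cj_eq_self (p.vle (inv_mem (commL ba e h1 h2 hl)))]

theorem sw2 {y : G} (hy : y * y = 1) (e : Ed Ω Q (cj y Q)) : ∃ p R, OnL Q (cj y Q) R ∧ p ∈ R ∧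
    p ∉ vv Q (cj y Q) ∧ p ∉ N[Q] ∧ y ∈ N[R] ∧ p * y = y * p ∧ y * p ∈ N[Q] := by
  obtain ⟨b, hb, hb'⟩ := exA h e
  have hQ : cj y (cj y Q) = Q := by rw [← cj_mul, hy, cj_one]
  obtain ⟨p, R, h1, h2, h3, h4, h5, h6, -⟩ := swap h ba e hb hb' (conj_mem_cj (g := y) hb) (by
    intro h7
    have h8 := ax_cj y Q (cj y Q)
    rw [hQ] at h8
    rw [h8, mem_cj] at h7
    exact hb' (by simpa [mul_assoc] using h7))
  have sp := h.sq R (h1.mem h e.l) p h2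
  have h7 : closure ({b, y * b * y⁻¹} : Set G) ≤ C1[y * p] := by
    rw [closure_le, Set.insert_subset_iff, Set.singleton_subset_iff]
    constructor <;> rw [SetLike.mem_coe, mem_centralizer_singleton_iff]
    · rw [eq_comm, ← mul_inv_eq_iff_eq_mul]
      calc _ = y * (p * b * p⁻¹) * y⁻¹ := by group
        _ = y * y * b * (y * y)⁻¹ := by rw [h5]; group
        _ = _ := by rw [hy]; group
    · rw [eq_comm, ← mul_inv_eq_iff_eq_mul]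
      calc _ = y * (p * (y * b * y⁻¹) * p⁻¹) * y⁻¹ := by group
        _ = y * (p * p * b * (p * p)⁻¹) * y⁻¹ := by rw [← h5]; group
        _ = _ := by rw [sp]; group
  have h8 : p * y = y * p := by
    have := mem_centralizer_singleton_iff.1 (h7 h4)
    rw [← mul_assoc] at this
    exact mul_right_cancel this
  refine ⟨p, R, h1, h2, h3, fun h9 => e.ne ((cj_eq_self h9).symm.trans h6), ?_, h8, ?_⟩
  · exact ba.cent R (h1.mem h e.l) p h2 (fun h9 => h3 (h9 ▸ one_mem _)) y h8.symm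
  · rw [← cj_eq_self_iff, cj_mul, h6, hQ]

theorem tor (e : Ed Ω A B) {a : G} (ha : a ∈ A) (ha' : a ∉ ax A B) {a' : G} (hc : a' ∈ A)
    (hc' : a' ∉ ax A B) : ∃ ρ ∈ A ⊔ B, ρ ∈ N[A] ∧ ρ ∈ N[B] ∧ ρ * a * ρ⁻¹ = a' ∧
      (a * a' ∉ ax A B → Odd (orderOf ρ) ∧ Fpf ρ (vv A B)) := by
  obtain ⟨b, hb, hb'⟩ := exA h (ba.symm e)
  obtain ⟨s, R, h1, h2, h3, -, h5, h6, h7⟩ := swap h ba e ha ha' hb hb'
  obtain ⟨s', R', k1, k2, k3, -, k5, k6, k7⟩ := swap h ba e hc hc' hb hb'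
  have sp := h.sq R' (k1.mem h e.l) s' k2
  have n1 : s' * s ∈ N[A] := by rw [← cj_eq_self_iff, cj_mul, h6, k7]
  have e1 : s' * s * a * (s' * s)⁻¹ = a' := by
    calc _ = s' * (s * a * s⁻¹) * s'⁻¹ := by group
      _ = s' * s' * a' * (s' * s')⁻¹ := by rw [h5, ← k5]; group
      _ = _ := by rw [sp]; group
  refine ⟨s' * s, mul_mem (k1.le k2) (h1.le h2), n1, by rw [← cj_eq_self_iff, cj_mul, h7, k6], e1,
    fun h8 => odd' h ba e k1 h1 ?_ k2 k3 h2 h3⟩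
  rintro rfl
  have h9 := ba.brk e a ha _ (memV h ba e h1 (onL_left A B) (by
    rintro rfl
    exact e.ne ((cj_eq_self (le_normalizer h2)).symm.trans h6)) (mul_mem k2 h2) n1)
  rw [commutatorElement_def, inv_eq h e.l ha, mul_assoc, mul_assoc, ← mul_assoc _ a, e1] at h9
  exact h8 h9

theorem l5 (e : Ed Ω A B) (U : Subgroup G) (hU : U ≤ A) (hn : (A ⊔ B) ⊓ N[A] ≤ N[U]) :
    U ≤ ax A B ∨ U = A := by
  refine or_iff_not_imp_left.2 fun h1 => le_antisymm hU fun a ha => ?_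
  obtain ⟨u, hu, hu'⟩ := SetLike.not_le_iff_exists.1 h1
  have k : ∀ a ∈ A, a ∉ ax A B → a ∈ U := fun a ha ha' => by
    obtain ⟨ρ, h2, h3, -, rfl, -⟩ := tor h ba e (hU hu) hu' ha ha'
    exact nmem (hn ⟨h2, h3⟩) hu
  by_cases h2 : a ∈ ax A B
  · exact (mul_mem_cancel_left hu).1
      (k _ (mul_mem (hU hu) ha) fun h3 => hu' ((mul_mem_cancel_right h2).1 h3))
  · exact k a ha h2

theorem der (e : Ed Ω A B) {g : G} (h1 : g ∈ N[A]) (h3 : g ∈ C[vv A B]) :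
    (∀ a ∈ A, ⁅a, g⁆ ∈ ax A B) ∧ g * g ∈ C[A] := by
  have cv : ∀ v ∈ vv A B, g * v * g⁻¹ = v := fun v hv => by rw [← h3 v hv, mul_inv_cancel_right]
  have k : ∀ a ∈ A, ⁅a, g⁆ ∈ ax A B := fun a ha => by
    obtain ⟨j, hj, hj'⟩ := exI (ba.symm e)
    have jv : j ∈ vv A B := mem_sup_right hj
    refine (ba.cA e _ (by
      rw [commutatorElement_def, mul_assoc, mul_assoc, ← mul_assoc g]
      exact mul_mem ha (nmem h1 (inv_mem ha))) j jv fun h4 => hj' (one_of h e h4 hj.1)).1 ?_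
    have h5 := cv _ (nmem (ba.vnorm e (mem_sup_left (inv_mem ha))) jv)
    rw [← mul_inv_eq_iff_eq_mul, commutatorElement_def]
    calc _ = a * (g * (a⁻¹ * (g⁻¹ * j * g) * a⁻¹⁻¹) * g⁻¹) * a⁻¹ := by group
      _ = _ := by rw [mul_assoc g⁻¹, h3 j jv, inv_mul_cancel_left, h5]; group
  refine ⟨k, fun a ha => ?_⟩
  have h4 := cv _ (mem_sup_left (k a⁻¹ (inv_mem ha)))
  have h5 := h.sq A e.l _ (k a⁻¹ (inv_mem ha)).1
  rw [← h4] at h5
  nth_rewrite 1 [h4] at h5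
  rw [commutatorElement_def] at h5
  rw [eq_comm, ← mul_inv_eq_iff_eq_mul, eq_comm, ← inv_mul_eq_one, ← h5]
  group

theorem tl (e : Ed Ω A B) {t : G} (h1 : t ∈ C[A]) (h2 : t ∈ N[B]) :
    t ∈ C[vv A B] ∧ ∃ i ∈ ax A B, t * i ∈ C[B] := by
  have h3 : t ∈ N[A] := centralizer_le_normalizer _ h1
  have cA : ∀ a ∈ A, t * a * t⁻¹ = a := fun a ha => by rw [← h1 a ha, mul_inv_cancel_right]
  have h4 : t ∈ C[vv A B] := by
    intro v hv
    obtain ⟨i, hi, j, hj, rfl⟩ := (ba.vmem e v).1 hv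
    obtain ⟨a, ha, ha'⟩ := exA h e
    have h5 := ba.brk e a ha j (mem_sup_right hj)
    have h6 := (ba.phi e a ha ha' _ h5).unique ⟨nmem (norm_ax h2 h3) hj, by
      rw [← cA _ h5.1, conjugate_commutatorElement, cA a ha]⟩ ⟨hj, rfl⟩
    rw [mul_assoc, ← mul_inv_eq_iff_eq_mul.1 h6, ← mul_assoc, h1 i hi.1, mul_assoc]
  refine ⟨h4, ?_⟩
  obtain ⟨s, R, o, k1, -, k2, -⟩ := swap' h ba e
  obtain ⟨i, hi, j, hj, k3⟩ := (ba.vmem e _).1 (commL ba e (g := t) (fun a ha => by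
    rw [commutatorElement_eq_one_iff_mul_comm.2 (h1 a ha)]; exact one_mem _)
    (der h ba (ba.symm e) h2 (vv_comm A B ▸ h4)).1 (o.le k1))
  have k4 : s * t * s⁻¹ ∈ C[B] := by
    rw [← k2, ← H83.cj_centralizer]; exact conj_mem_cj h1
  have k5 : j ∈ C[B] := fun b hb => ba.mul_comm B e.r b hb j hj.1
  refine ⟨i, hi, ?_⟩
  have k6 : t * i = j⁻¹ * (s * t * s⁻¹) := by
    rw [← h1 i hi.1, eq_inv_mul_iff_mul_eq, ← mul_assoc,
      ← ba.comm A e.l B e.r e.ne i hi j hj, ← k3, commutatorElement_def]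
    group
  exact k6 ▸ mul_mem (inv_mem k5) k4

omit h ba [Finite G] in
theorem inv_comm {g : G} (h1 : g ∈ N[A]) (h2 : g ∈ N[B]) (h3 : ∀ a ∈ A, ⁅a, g⁆ ∈ ax A B) :
    ∀ a ∈ A, ⁅a, g⁻¹⁆ ∈ ax A B :=
  (H83.mem_centMod.1 (inv_mem ((H83.mem_centMod (H := N[A] ⊓ N[B])
    (hN := fun _ hx => norm_ax hx.1 hx.2)).2 ⟨⟨h1, h2⟩, h3⟩))).2

theorem two (e : Ed Ω A B) {g : G} (h1 : g ∈ N[A]) (h2 : g ∈ N[B]) (h3 : Is2 g)
    (h4 : ∀ a ∈ A, ⁅a, g⁆ ∈ ax A B) : ∀ b ∈ B, ⁅b, g⁆ ∈ ax B A := by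
  obtain ⟨s, R, o, k1, k2, k3, k4⟩ := swap' h ba e
  have hN : N[A] ⊓ N[B] ≤ N[ax B A] := fun _ hx => norm_ax hx.2 hx.1
  have hT := H83.le_norm_centMod (hN := hN) le_normalizer inf_le_right hN
  have gH : g ∈ N[A] ⊓ N[B] := ⟨h1, h2⟩
  have ρH : g * s * g⁻¹ * s ∈ N[A] ⊓ N[B] := by
    refine ⟨cj_eq_self_iff.1 ?_, cj_eq_self_iff.1 ?_⟩ <;> rw [cj_mul, cj_mul, cj_mul]
    · rw [k3, cj_eq_self (inv_mem h2), k4, cj_eq_self h1]
    · rw [k4, cj_eq_self (inv_mem h1), k3, cj_eq_self h2]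
  have k5 : (g * s * g⁻¹ * s)⁻¹ * g ∈ H83.centMod _ B _ hN := by
    refine ⟨mul_mem (inv_mem ρH) gH, fun b hb => ?_⟩
    have k6 := conj_mem_cj (g := s) (h4 _ (mem_cj.1 (k3.ge hb)))
    rw [← ax_cj, k3, k4] at k6
    rw [show (g * s * g⁻¹ * s)⁻¹ * g = s⁻¹ * g * s⁻¹ by group]
    nth_rewrite 1 [inv_eq h (o.mem h e.l) k1]
    convert k6 using 1
    simp only [commutatorElement_def]
    group
  have o' : OnL A B (cj g R) := by
    obtain ⟨l, hl, rfl⟩ := o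
    refine ⟨g * l * g⁻¹, nmem (H83.le_norm_sup inf_le_left inf_le_right gH) hl, ?_⟩
    rw [cj_mul, cj_mul, cj_eq_self (inv_mem h1)]
  by_cases k6 : cj g R = R
  · have k7 := memV h ba e o (onB h ba e) (by
      rintro rfl
      exact e.ne (k4.symm.trans (cj_eq_self (le_normalizer k1))))
      (mul_mem (k6 ▸ conj_mem_cj k1) k1) ρH.2
    have k8 := (H83.mem_centMod.1 (mul_mem (H83.mem_centMod.2 ⟨ρH, fun b hb =>
      ba.brk (ba.symm e) b hb _ (vv_comm A B ▸ k7)⟩) k5)).2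
    rwa [mul_inv_cancel_left] at k8
  have k7 := (odd' h ba e o' o k6 (conj_mem_cj k1)
    (fun k8 => k2 ((mem_normalizer_iff.1 (norm_vv h1 h2) s).2 k8)) k1 k2).1
  generalize g * s * g⁻¹ * s = ρ at ρH k5 k7
  have k8 : ∀ n : ℕ, (ρ ^ n)⁻¹ * g ^ n ∈ H83.centMod _ B _ hN := fun n => by
    induction n with
    | zero => simp
    | succ n ih =>
      convert mul_mem (nmem (hT (inv_mem ρH)) ih) k5 using 1
      rw [pow_succ, pow_succ]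
      group
  have k9 := k8 (orderOf ρ)
  rw [pow_orderOf_eq_one, inv_one, one_mul] at k9
  obtain ⟨k, hk⟩ := h3
  exact (H83.mem_of_pelt_of_pow_mem hk k9 (Nat.coprime_two_right.2 k7)).2

omit h in
theorem mem_brI (e : Ed Ω A B) {g : G} (h1 : g ∈ N[A]) (h2 : g ∈ N[B]) {x : G} :
    x ∈ br (ax A B) g ↔ ∃ i ∈ ax A B, x = ⁅i, g⁆ :=
  ba.mem_br _ g x (fun a ha b hb => ba.mul_comm A e.l a ha.1 b hb.1) (norm_ax h1 h2)

omit h ba [Finite G] in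
theorem comm_mem {H : Subgroup G} {g x : G} (hg : g ∈ N[H]) (hx : x ∈ H) : ⁅x, g⁆ ∈ H := by
  rw [commutatorElement_def, mul_assoc, mul_assoc, ← mul_assoc g]
  exact mul_mem hx (nmem hg (inv_mem hx))

theorem wg (e : Ed Ω A B) {g : G} (h1 : g ∈ N[A]) (h2 : g ∈ N[B]) (h3 : Is2 g)
    (h4 : ∀ a ∈ A, ⁅a, g⁆ ∈ ax A B) : g ∈ C[vv A B] ∨ qq A B ≤ C1[g].relIndex (ax A B) := by
  have hv := norm_vv h1 h2
  have hW := fun x => ba.mem_br (vv A B) g x (ba.vcomm e) hv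
  by_cases h5 : br (vv A B) g = ⊥
  · exact Or.inl fun v hv => commutatorElement_eq_one_iff_mul_comm.1
      (mem_bot.1 (h5 ▸ (hW _).2 ⟨v, hv, rfl⟩))
  refine Or.inr ((ba.sub2 e _ (fun x hx => ?_) (fun l hl => mem_normalizer_fintype fun x hx => ?_)
    h5).trans ?_)
  · obtain ⟨v, hv', rfl⟩ := (hW x).1 hx
    exact comm_mem hv hv'
  · obtain ⟨v, hv', rfl⟩ := (hW x).1 hx
    have k1 := nmem (ba.vnorm e hl) hv'
    have k2 := commL ba e h4 (two h ba e h1 h2 h3 h4) hl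
    have k3 := ba.vcomm e _ k2 _ (nmem hv (inv_mem k1))
    refine (hW _).2 ⟨_, k1, ?_⟩
    calc _ = l * v * l⁻¹ * (⁅l, g⁆ * (g * (l * v * l⁻¹)⁻¹ * g⁻¹)) * ⁅l, g⁆⁻¹ := by
          simp only [commutatorElement_def]; group
      _ = _ := by rw [k3]; simp only [commutatorElement_def]; group
  · rw [← ba.card_br (ax A B) g (fun a ha b hb => ba.mul_comm A e.l a ha.1 b hb.1) (norm_ax h1 h2)]
    refine card_le_of_le fun x hx => ?_
    obtain ⟨v, hv', rfl⟩ := (hW x).1 hx.1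
    obtain ⟨i, hi, j, hj, rfl⟩ := (ba.vmem e v).1 hv'
    have k1 := comm_mem (norm_ax h1 h2) hi
    have k2 := comm_mem (norm_ax h2 h1) hj
    have k3 : ⁅i * j, g⁆ = ⁅j, g⁆ * ⁅i, g⁆ := by
      calc _ = i * ⁅j, g⁆ * i⁻¹ * ⁅i, g⁆ := by simp only [commutatorElement_def]; group
        _ = _ := by rw [ba.comm A e.l B e.r e.ne i hi _ k2, mul_inv_cancel_right]
    have k4 := hx.2
    rw [k3] at k4 ⊢
    rw [one_of h e ((A.mul_mem_cancel_right k1.1).1 k4) k2.1, one_mul]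
    exact (mem_brI ba e h1 h2).2 ⟨i, hi, rfl⟩

theorem eqv (e : Ed Ω A B) {g : G} (h1 : g ∈ N[A]) (h2 : g ∈ N[B])
    (h4 : ∀ a ∈ A, ⁅a, g⁆ ∈ ax A B) :
    (∀ a ∈ A, ∀ j ∈ ax B A, ⁅a, g * j * g⁻¹⁆ = g * ⁅a, j⁆ * g⁻¹) ∧
    (∀ a ∈ A, ∀ z ∈ br (ax B A) g, ⁅a, z⁆ ∈ br (ax A B) g) ∧
    Nat.card (br (ax B A) g) = Nat.card (br (ax A B) g) := by
  have e' := ba.symm e
  have k1 : ∀ a ∈ A, ∀ j ∈ ax B A, ⁅a, g * j * g⁻¹⁆ = g * ⁅a, j⁆ * g⁻¹ := fun a ha j hj => by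
    have k := ba.comm A e.l B e.r e.ne _ (inv_comm h1 h2 h4 _ (inv_mem ha)) j hj
    calc _ = g * (a * (⁅a⁻¹, g⁻¹⁆ * j) * ⁅a⁻¹, g⁻¹⁆⁻¹ * a⁻¹ * j⁻¹) * g⁻¹ := by
          simp only [commutatorElement_def]; group
      _ = _ := by rw [k]; simp only [commutatorElement_def]; group
  have k2 : ∀ a ∈ A, ∀ j ∈ ax B A, ⁅a, ⁅j, g⁆⁆ = ⁅⁅a, j⁆, g⁆ := fun a ha j hj => by
    have hi := ba.brk e a ha j (mem_sup_right hj)
    rw [commutatorElement_def j, inv_eq h e.r hj.1, mul_assoc j, mul_assoc j, ba.phi_mul e a ha j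
      (mem_sup_right hj) _ (mem_sup_right (nmem (norm_ax h2 h1) hj)), k1 a ha j hj,
      commutatorElement_def _ g, inv_eq h e.l hi.1]
    group
  have k3 : ∀ a ∈ A, ∀ z ∈ br (ax B A) g, ⁅a, z⁆ ∈ br (ax A B) g := fun a ha z hz => by
    obtain ⟨j, hj, rfl⟩ := (mem_brI ba e' h2 h1).1 hz
    exact (mem_brI ba e h1 h2).2 ⟨_, ba.brk e a ha j (mem_sup_right hj), k2 a ha j hj⟩
  refine ⟨k1, k3, ?_⟩
  obtain ⟨a, ha, ha'⟩ := exA h e
  have k4 : ∀ z ∈ br (ax B A) g, z ∈ ax B A := fun z hz => by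
    obtain ⟨j, hj, rfl⟩ := (mem_brI ba e' h2 h1).1 hz
    exact comm_mem (norm_ax h2 h1) hj
  refine Nat.card_eq_of_bijective (fun z => ⟨⁅a, z.1⁆, k3 a ha z.1 z.2⟩) ⟨fun z z' k => ?_, ?_⟩
  · exact Subtype.ext ((ba.phi e a ha ha' _ (ba.brk e a ha _ (mem_sup_right (k4 _ z'.2)))).unique
      ⟨k4 _ z.2, congrArg Subtype.val k⟩ ⟨k4 _ z'.2, rfl⟩)
  · rintro ⟨x, hx⟩
    obtain ⟨i, hi, rfl⟩ := (mem_brI ba e h1 h2).1 hx
    obtain ⟨j, ⟨hj, rfl⟩, -⟩ := ba.phi e a ha ha' i hi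
    exact ⟨⟨_, (mem_brI ba e' h2 h1).2 ⟨j, hj, rfl⟩⟩, Subtype.ext (k2 a ha j hj)⟩

theorem part (e : Ed Ω A B) (Z Z' : Subgroup G) (h1 : Z ≤ ax A B) (h2 : Z' ≤ ax B A)
    (h3 : Nat.card Z = qq A B) (h5 : ∀ a ∈ A, ∀ z ∈ Z', ⁅a, z⁆ ∈ Z) :
    (∀ w ∈ Z ⊔ Z', w ∈ A ∨ ∃ a ∈ A, w ∈ cj a B) ∧
      ((∀ b ∈ B, ∀ z ∈ Z, ⁅b, z⁆ ∈ Z') → ∀ P, OnL A B P → P = A ∨ Orb A B P) := by
  have hm : ∀ w ∈ Z ⊔ Z', ∃ z ∈ Z, ∃ z' ∈ Z', z * z' = w := fun w hw =>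
    (H83.mem_sup_right_norm (H83.le_norm_of_le_cent fun z hz z' hz' =>
      (ba.comm A e.l B e.r e.ne z (h1 hz) z' (h2 hz')).symm)).1 hw
  have k1 : ∀ w ∈ Z ⊔ Z', w ∈ A ∨ ∃ a ∈ A, w ∈ cj a B := fun w hw => by
    obtain ⟨z, hz, z', hz', rfl⟩ := hm w hw
    by_cases k : z' ∈ A
    · exact Or.inl (mul_mem (h1 hz).1 k)
    have hb := fun x => ba.mem_br A z' x (ba.mul_comm A e.l) (h2 hz').2
    have k2 : br A z' = Z := eq_of_le_of_card_ge (fun x hx => by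
      obtain ⟨a, ha, rfl⟩ := (hb x).1 hx
      exact h5 a ha z' hz') (by rw [h3, ba.brq e z' (mem_sup_right (h2 hz')) k])
    obtain ⟨a, ha, rfl⟩ := (hb z).1 (k2 ▸ hz)
    refine Or.inr ⟨a, ha, ?_⟩
    rw [commutatorElement_def, inv_mul_cancel_right]
    exact conj_mem_cj (h2 hz').1
  refine ⟨k1, fun h6 P o => ?_⟩
  have cm : ∀ x y : G, x * y * x⁻¹ = ⁅x, y⁆ * y := fun x y => by rw [commutatorElement_def]; group
  have k2 : A ⊔ B ≤ N[Z ⊔ Z'] := by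
    refine sup_le (fun a ha => mem_normalizer_fintype fun w hw => ?_)
      fun b hb => mem_normalizer_fintype fun w hw => ?_ <;>
      obtain ⟨z, hz, z', hz', rfl⟩ := hm w hw <;> rw [← conj_mul]
    · rw [ba.mul_comm A e.l a ha z (h1 hz).1, mul_inv_cancel_right, cm]
      exact mul_mem (mem_sup_left hz) (mul_mem (mem_sup_left (h5 a ha z' hz')) (mem_sup_right hz'))
    · rw [ba.mul_comm B e.r b hb z' (h2 hz').1, mul_inv_cancel_right, cm]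
      exact mul_mem (mul_mem (mem_sup_right (h6 b hb z hz)) (mem_sup_left hz)) (mem_sup_right hz')
  have hP := o.mem h e.l
  obtain ⟨l, hl, rfl⟩ := o
  obtain ⟨z, hz, hz1⟩ := (nontrivial_iff_exists_ne_one Z).1
    (Finite.one_lt_card_iff_nontrivial.1 (by have := (ba.hq e).2.1; omega))
  have k3 : l * z * l⁻¹ ≠ 1 := fun k => hz1 (by simpa using k)
  have k4 := conj_mem_cj (g := l) (h1 hz).1
  rcases k1 _ (nmem (k2 hl) (mem_sup_left hz)) with k | ⟨a, ha, k⟩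
  · exact Or.inl (ba.eq _ hP A e.l _ k4 k k3)
  · exact Or.inr ⟨a, ha, ba.eq _ hP _ (h.conj B e.r a) _ k4 k k3⟩

theorem fix0 (e : Ed Ω A B) {g : G} (h1 : g ∈ N[A]) (h2 : g ∈ N[B]) (h3 : Is2 g)
    (h4 : ∀ a ∈ A, ⁅a, g⁆ ∈ ax A B) (h5 : C1[g].relIndex (ax A B) = qq A B) :
    ∀ P, OnL A B P → P = A ∨ Orb A B P := by
  refine (part h ba e (br (ax A B) g) (br (ax B A) g) (fun x hx => ?_) (fun x hx => ?_) ?_
    (eqv h ba e h1 h2 h4).2.1).2 (eqv h ba (ba.symm e) h2 h1 (two h ba e h1 h2 h3 h4)).2.1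
  · obtain ⟨i, hi, rfl⟩ := (mem_brI ba e h1 h2).1 hx
    exact comm_mem (norm_ax h1 h2) hi
  · obtain ⟨i, hi, rfl⟩ := (mem_brI ba (ba.symm e) h2 h1).1 hx
    exact comm_mem (norm_ax h2 h1) hi
  · rw [ba.card_br (ax A B) g (fun a ha b hb => ba.mul_comm A e.l a ha.1 b hb.1) (norm_ax h1 h2), h5]

theorem three (e : Ed Ω A B) {a : G} (ha : a ∈ A) {b : G} (hb : b ∈ B) (hc : cj b A = cj a B) :
    cj (a * b * a) B = A ∧ ∀ j ∈ ax B A, ⁅b, ⁅a, j⁆⁆ = j ∧ a * b * a * j * (a * b * a)⁻¹ = ⁅a, j⁆ := by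
  refine ⟨by rw [cj_mul, ← hc, ← cj_mul, mul_assoc, h.sq B e.r b hb, mul_one,
    cj_eq_self (le_normalizer ha)], fun j hj => ?_⟩
  have hi := ba.brk e a ha j (mem_sup_right hj)
  have k1 : a * j * a⁻¹ = ⁅a, j⁆ * j := by rw [commutatorElement_def]; group
  have k2 := conj_mem_cj (g := a) hj.1
  generalize ⁅a, j⁆ = i at hi k1 ⊢
  have hj' := ba.brk (ba.symm e) b hb i (mem_sup_right hi)
  have k3 : b * (i * j) * b⁻¹ = i * (⁅b, i⁆ * j) := by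
    rw [← mul_assoc i, ba.comm A e.l B e.r e.ne i hi _ hj', ← conj_mul,
      ba.mul_comm B e.r b hb j hj.1, commutatorElement_def]
    group
  rw [← hc, mem_cj, k1, inv_eq h e.r hb] at k2
  nth_rewrite 2 [← inv_eq h e.r hb] at k2
  rw [k3] at k2
  have k4 := one_of h e ((A.mul_mem_cancel_left hi.1).1 k2) (B.mul_mem hj'.1 hj.1)
  refine ⟨by rw [eq_inv_of_mul_eq_one_left k4, inv_eq h e.r hj.1], ?_⟩
  calc _ = a * (b * (a * j * a⁻¹) * b⁻¹) * a⁻¹ := by group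
    _ = _ := by rw [k1, k3, k4, mul_one, ba.mul_comm A e.l a ha i hi.1, mul_inv_cancel_right]

omit h ba [Finite G] in
theorem bb : BBStmt.{u} := fun _ h ba =>
  { odd := fun e _ ha ha' _ hb hb' => odd h ba e ha ha' hb hb'
    onB := onB h ba
    vleP := fun e o => (ptL h ba e o).vle
    lin := lin h ba
    fixL := fun e o _ hg _ => fixL h ba e o hg
    swap := fun e _ ha ha' _ hb hb' => swap h ba e ha ha' hb hb'
    sw2 := fun _ _ _ hy e => sw2 h ba hy e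
    tor := fun e _ ha ha' _ hb hb' => tor h ba e ha ha' hb hb'
    l5 := l5 h ba
    tl := fun e _ h1 h2 => tl h ba e h1 h2
    der := fun e _ h1 _ h3 => der h ba e h1 h3
    two := fun e _ => two h ba e
    wg := fun e _ => wg h ba e
    eqv := fun e _ => eqv h ba e
    part := fun e Z Z' h1 h2 h3 _ => part h ba e Z Z' h1 h2 h3
    fix0 := fun e _ => fix0 h ba e
    three := fun e _ ha _ _ hb => three h ba e ha hb }

end Cfsg.Agent.H22.TIBB
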