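import Cfsg.Agent.H4.U4A3

/-! Project U4F, piece A4: the subgroups `Pt t` of `U T` in characteristic two. -/

set_option autoImplicit false

namespace Cfsg.Agent.H22.U4A4

open Cfsg.Agent.H97 Cfsg.Agent.H97.U4 Subgroup
open Cfsg.Agent.H97.U5 (Hm Cp zp ch_center ivs_miss)
open Cfsg.Agent.H96.VB hiding LA LB
open Cfsg.Agent.H4.U4A3 (cm_one pt_of_fix mem_Z1_of_fix center_le_Z1)
open scoped commutatorElement

universe u

/-- elements whose commutators include those of another element -/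
theorem ivs_sub {G : Type u} [Group G] {P X Y : Subgroup G} (hX : Ch P X) (hY : Ch P Y) :
    IvS P {v | ∃ v' ∈ X, v' ∉ Y ∧ v' * v⁻¹ ∉ Y ∧ ∀ x ∈ P, ∃ y ∈ P, ⁅x, v'⁆ = ⁅y, v⁆} := by
  rintro α v hv ⟨v', h1, h2, h3, h4⟩
  have hv' := hX.le h1
  refine ⟨ext α v', hX.ivs α v' hv' h1, hY.ivs.compl α v' hv' h2, ?_, fun x hx => ?_⟩
  · rw [← ext_map_inv α hv, ← ext_map_mul α hv' (inv_mem hv)]
    exact hY.ivs.compl α _ (mul_mem hv' (inv_mem hv)) h3
  · obtain ⟨y, hy, e⟩ := h4 _ (ext_mem α⁻¹ hx)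
    refine ⟨ext α y, ext_mem α hy, ?_⟩
    rw [← ext_map_comm α hy hv, ← e, ext_map_comm α (ext_mem α⁻¹ hx) hv', ext_ext_inv]

variable {K : Type u} [Field K] {T : Hm K} {p : ℕ} {t : K}

theorem xt_mem (t : K) : xt T t ∈ Pt T t := pt_of_fix (map_one _) (by simp)

theorem center_Pt (ht : t ≠ 0) : Pt T t ⊓ centralizer (Pt T t : Set (U T)) = Z1 T t :=
  le_antisymm (center_le_Z1 (g := xt T t) (Z2_le_J.trans (J_le_Pt t)) (xt_mem t) ht)
    fun _ hz => ⟨J_le_Pt t hz.1.1, fun _ hx => (Z1_comm ht hz hx).symm⟩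

theorem ch_Z1 (ht : t ≠ 0) : Ch (Pt T t) (Z1 T t) := center_Pt (T := T) ht ▸ ch_center

theorem ch_J (h0 : (2 : K) = 0) (ht : t ≠ 0) : Ch (Pt T t) (J T) := by
  refine Ch.of_iff (ivs_miss (ch_Z1 ht).ivs) fun g =>
    ⟨fun hg => ⟨J_le_Pt t hg, ?_⟩, fun ⟨hg, z, _, hz, e'⟩ => ?_⟩
  · by_cases e : g.d = 0
    · refine ⟨xm T t, J_le_Pt t rfl, mem_Z1_of_fix (xm_Z2 _) (map_one _) (by simp),
        fun x _ k => ht ?_⟩
      have := (cm_Z' (k := x) (show g ∈ Z2 T from ⟨hg, e⟩)).2.1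
      rwa [k] at this
    · have hz : xa T T.ep (by simp) ∈ Z T := ⟨rfl, rfl, rfl⟩
      refine ⟨_, J_le_Pt t rfl, Z_le_Z1 t hz, fun x _ k => T.ep_ne ?_⟩
      have k' : ⁅x, g⁆ = (xa T T.ep (by simp))⁻¹ := by rw [← k, commutatorElement_inv]
      have e1 := (cm_J (g := x) hg).1
      rw [k'] at e1
      have : x.t = 0 := by simpa [e] using e1.symm
      rw [cm_one.2 (comm_J hg this)] at k
      exact (congrArg U.a k).symm
  · by_contra gt
    have gt : g.t ≠ 0 := gt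
    have z1 : z ∈ Z1 T t := hz
    obtain ⟨l, h1, h3⟩ := T.exists_fix ht (y := g.t) (by
      have : _ = _ := hg
      linear_combination this)
    have z2 : T.σ g.t * z.m = g.t * T.σ z.m := by
      rw [h3, map_mul, h1]; linear_combination l * z1.2
    have gs := T.σ_ne_zero gt
    have sn : z.m / g.t + T.σ (z.m / g.t) = 0 := by
      rw [map_div₀]; field_simp; linear_combination -z2 + T.σ g.t * z.m * h0
    have hc : ⁅g, xd T _ sn⁆⁻¹ * z ∈ Z T := by
      have c2 : ⁅g, xd T _ sn⁆ ∈ Z2 T := cm_Z2 _ _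
      have c3 := mul_mem (inv_mem c2) z1.1
      refine ⟨c3.1, ?_, c3.2⟩
      simp only [U.mul_m, U.inv_m, U.inv_t, c2.1, c2.2, z1.1.2,
        (cm_J (g := g) (k := xd T _ sn) rfl).1, xd_d]
      field_simp; ring
    obtain ⟨w, hw⟩ := exists_cm_xm hc gt
    refine e' (xd T _ sn * xm T w) (J_le_Pt t (mul_mem (show xd T _ sn ∈ J T from rfl)
      (Z2_le_J (xm_Z2 w)))) ?_
    have c4 : xd T _ sn * ⁅g, xm T w⁆ = ⁅g, xm T w⁆ * xd T _ sn := (comm_Z (cm_Z (xm_Z2 w)) _).symm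
    calc _ = ⁅g, xd T _ sn⁆ * (xd T _ sn * ⁅g, xm T w⁆ * (xd T _ sn)⁻¹) := by
          simp only [commutatorElement_def]; group
      _ = z := by rw [c4, mul_inv_cancel_right, hw, mul_inv_cancel_left]

theorem ch_Z2 (h0 : (2 : K) = 0) (ht : t ≠ 0) (hM : Mid T) : Ch (Pt T t) (Z2 T) := by
  obtain ⟨f, hf, f0, f1⟩ := hM
  have f1' : f - 1 ≠ 0 := sub_ne_zero.2 f1
  have hs := T.σ_ne_zero ht
  refine Ch.of_iff ((ch_J h0 ht).ivs.inter ((ch_Z1 ht).ivs.union
    (ivs_sub (ch_J h0 ht) (ch_Z1 ht)))) fun v =>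
    ⟨fun hv => ⟨J_le_Pt t hv.1, hv.1, ?_⟩, fun ⟨_, hv, h⟩ => ?_⟩
  · refine or_iff_not_imp_left.2 fun hn => ⟨xm T (f * v.m), rfl, fun h => hn ⟨hv, ?_⟩,
      fun h => hn ⟨hv, ?_⟩, fun x hx => ⟨xt T (f * x.t), ?_, ?_⟩⟩
    · have := h.2
      simp only [xm_m, map_mul, hf] at this
      exact mul_left_cancel₀ f0 (by linear_combination this)
    · have := h.2
      simp only [U.mul_m, U.inv_m, xm_m, xm_t, hv.1, hv.2, map_add, map_mul, map_neg, map_zero,
        hf] at this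
      exact mul_left_cancel₀ f1' (by linear_combination this)
    · have : _ = _ := hx
      rw [mem_Pt, xt_t, map_mul, hf]
      linear_combination f * this
    · refine eq_of_Z (cm_Z (xm_Z2 _)) (cm_Z hv) ?_
      rw [cm_a2 (xm_Z2 _), cm_a2 hv, xm_m, xt_t, map_mul, map_mul, hf]; ring
  · have hv : v ∈ J T := hv
    rcases h with h | ⟨v', hv', n1, n2, h⟩
    · exact Z1_le_Z2 t h
    by_contra hn
    have hd : v.d ≠ 0 := fun e => hn ⟨hv, e⟩
    have key : ∀ c, T.σ c = c → c * (T.σ t * v'.m - t * T.σ v'.m) * v.d ^ 2 +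
        c ^ 2 * (t * T.σ t) * v'.d * v.d ^ 2 =
        c * v'.d * (T.σ t * v.m - t * T.σ v.m) * v.d + c ^ 2 * (t * T.σ t) * v'.d ^ 2 * v.d := by
      intro c hc
      obtain ⟨y, hy, e⟩ := h (xt T (c * t)) (pt_of_fix hc rfl)
      obtain ⟨l, h1, h3⟩ := T.exists_fix ht (y := y.t) (by
        have : _ = _ := hy
        linear_combination this)
      obtain ⟨a1, a2⟩ := cm_J (g := xt T (c * t)) hv'
      obtain ⟨b1, b2⟩ := cm_J (g := y) hv
      rw [e, b1, h3, xt_t] at a1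
      rw [e, b2, h3, xt_t, map_mul, map_mul, h1, hc] at a2
      have e1 : l * v.d = c * v'.d := mul_left_cancel₀ ht (by linear_combination a1)
      linear_combination -v.d ^ 2 * a2 + ((T.σ t * v.m - t * T.σ v.m) * v.d +
        (t * T.σ t) * v.d * (l * v.d + c * v'.d)) * e1
    have k1 := key 1 (map_one _)
    have k2 := key f hf
    have k3 : v'.d * (v.d - v'.d) = 0 :=
      mul_left_cancel₀ (mul_ne_zero (mul_ne_zero (mul_ne_zero f0 f1') (mul_ne_zero ht hs)) hd)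
        (by linear_combination k2 - f * k1)
    have k4 : (T.σ t * v'.m - t * T.σ v'.m) * v.d = v'.d * (T.σ t * v.m - t * T.σ v.m) :=
      mul_left_cancel₀ hd (by linear_combination k1 - (t * T.σ t) * v.d * k3)
    rcases mul_eq_zero.1 k3 with e | e
    · refine n1 ⟨⟨hv', e⟩, mul_right_cancel₀ hd ?_⟩
      rw [e] at k4
      linear_combination k4
    · have e' : v'.d = v.d := (sub_eq_zero.1 e).symm
      have t1 : v.t = 0 := hv
      have t2 : v'.t = 0 := hv'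
      refine n2 ⟨⟨by simp [t1, t2], by simp [e']⟩, mul_right_cancel₀ hd ?_⟩
      rw [e'] at k4
      simp only [U.mul_m, U.inv_m, t1, t2, map_add, map_neg, zero_mul, add_zero]
      linear_combination k4

theorem a4 : A4Stmt T p := fun h0 t ht => by
  refine ⟨ch_J h0 ht, fun hM h => ?_⟩
  have c2 := ch_Z2 h0 ht hM
  have eZ : ⁅Pt T t, Z2 T⁆ = Z T :=
    le_antisymm (commutator_le.2 fun _ _ _ hy => cm_Z hy) fun z hz => by
      obtain ⟨w, rfl⟩ := exists_cm_xm (k := xt T t) hz ht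
      exact commutator_mem_commutator (xt_mem t) (xm_Z2 w)
  have cZ : Ch (Pt T t) (Z T) := eZ ▸ Ch.self.commutator c2
  exact h.ne (top_le_iff.1 fun v _ => h.chain2 c2 cZ (fun x _ => cm_Z2 v x)
    (fun x hx => cm_Z hx) fun x hx => cm_one.2 (comm_Z hx v).symm)

end Cfsg.Agent.H22.U4A4
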