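import Cfsg.Agent.H97.U4Defs
import Cfsg.Agent.H15.U5As

/-! Project U4F, piece AS: the automizer of `U T`. -/

set_option autoImplicit false
set_option linter.unusedSectionVars false

namespace Cfsg.Agent.H22.U4As

open Cfsg.Agent.H97 Cfsg.Agent.H97.U4 Subgroup
open Cfsg.Agent.H97.U5 (Hm)
open Cfsg.Agent.H15.U5A (abs_as stab stab_normal)
open scoped commutatorElement

universe u

variable {K : Type u} [Field K] [Finite K] {T : Hm K} {p : ℕ}

/-- An additive map which is semilinear over the fixed field and respects norms. -/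
theorem ring_of (φ : K →+ K) (h1 : φ 1 = 1)
    (hf : ∀ t f, T.σ f = f → φ (t * f) = φ t * φ f)
    (hn : ∀ t, φ (t * T.σ t) = φ t * T.σ (φ t)) (hs : ∀ t, φ (T.σ t) = T.σ (φ t)) :
    ∃ ψ : RingAut K, ∀ t, ψ t = φ t := by
  have hq : ∀ t, φ (t * t) = φ t * φ t := fun t => by
    have := hf t (t + T.σ t) (by rw [map_add, T.inv, add_comm])
    rw [mul_add, map_add, map_add, hn, hs] at this
    linear_combination this
  have hm : ∀ s t, φ (s * t) = φ s * φ t := fun s t => by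
    by_cases ht : T.σ t = t
    · exact hf s t ht
    have h0 : t - T.σ t ≠ 0 := fun e => ht (sub_eq_zero.1 e).symm
    have h0' : T.σ t - t ≠ 0 := sub_ne_zero.2 ht
    obtain ⟨b, hb⟩ : ∃ b, b = (s - T.σ s) / (t - T.σ t) := ⟨_, rfl⟩
    have b1 : T.σ b = b := by
      rw [hb, map_div₀, map_sub, map_sub, T.inv, T.inv]; field_simp; ring
    have b2 : T.σ (s - t * b) = s - t * b := by
      rw [map_sub, map_mul, b1, hb]; field_simp; ring
    generalize ha : s - t * b = a at b2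
    have e : s = a + t * b := by rw [← ha]; ring
    rw [e, show (a + t * b) * t = t * a + t * t * b by ring, map_add, map_add, hf _ _ b2,
      hf _ _ b1, hf _ _ b1, hq]
    ring
  let ρ : K →+* K := { φ with map_one' := h1, map_mul' := hm }
  exact ⟨RingEquiv.ofBijective ρ (Finite.injective_iff_bijective.1 ρ.injective), fun _ => rfl⟩

/-- The functional equations satisfied by the coordinates of an automorphism. -/
theorem alg {k1 k2 k3 ι μ : K → K} (π : K →+ K) (πi : ∀ t, π t = 0 → t = 0)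
    (κ0 : k3 T.ep ≠ 0) (sk3 : ∀ x, T.σ (k3 x) = -k3 x)
    (h3 : ∀ t d, T.σ d = -d → k2 (t * d) = π t * k3 d)
    (h4 : ∀ t m, k1 (T.σ t * m - t * T.σ m) = T.σ (π t) * k2 m - π t * T.σ (k2 m))
    (h5 : ∀ t d, T.σ d = -d → k1 (t * T.σ t * d) + ι (t * d) =
      T.σ (π t) * μ d - π t * T.σ (μ d) + π t * T.σ (π t) * k3 d) (hM : Mid T) :
    ∃ (φ : RingAut K) (e : K), T.σ e = e ∧ e ≠ 0 ∧ (∀ t, π t = π 1 * φ t) ∧
      ∀ d, T.σ d = -d → k3 d = e * φ d := by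
  have c0 : π 1 ≠ 0 := fun h => one_ne_zero (πi 1 h)
  have c0' := T.σ_ne_zero c0
  obtain ⟨φ, hφ⟩ : ∃ φ : K →+ K, ∀ t, π t = π 1 * φ t :=
    ⟨(AddMonoidHom.mulLeft (π 1)⁻¹).comp π, fun t => by simp [c0]⟩
  have φ1 : φ 1 = 1 := (mul_left_cancel₀ c0 ((mul_one _).trans (hφ 1))).symm
  generalize π 1 = c at c0 c0' hφ
  have φi : ∀ t, φ t = 0 → t = 0 := fun t h => πi t (by rw [hφ, h, mul_zero])
  have se : ∀ f, T.σ f = f → T.σ (f * T.ep) = -(f * T.ep) := fun f hf => by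
    rw [map_mul, hf, T.σ_ep, mul_neg]
  have sκ := sk3 T.ep
  have a1 : ∀ t f, T.σ f = f → φ (t * f) * k3 T.ep = φ t * k3 (f * T.ep) := fun t f hf => by
    have e1 := h3 (t * f) T.ep T.σ_ep
    rw [mul_assoc, h3 t _ (se f hf), hφ, hφ] at e1
    exact mul_left_cancel₀ c0 (by linear_combination -e1)
  have a2 : ∀ f, T.σ f = f → k3 (f * T.ep) = φ f * k3 T.ep := fun f hf => by
    have := a1 1 f hf
    rwa [one_mul, φ1, one_mul, eq_comm] at this
  have a3 : ∀ t f, T.σ f = f → φ (t * f) = φ t * φ f := fun t f hf =>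
    mul_right_cancel₀ κ0 (by rw [a1 t f hf, a2 f hf, mul_assoc])
  have a4 : ∀ f, T.σ f = f → T.σ (φ f) = φ f := fun f hf => by
    have := sk3 (f * T.ep)
    rw [a2 f hf, map_mul, sκ] at this
    exact mul_right_cancel₀ κ0 (by linear_combination -this)
  have a5 : ∀ t s, k1 ((T.σ t * s + t * T.σ s) * T.ep) =
      k3 T.ep * (c * T.σ c) * (T.σ (φ t) * φ s + φ t * T.σ (φ s)) := fun t s => by
    have := h4 t (s * T.ep)
    rw [h3 s _ T.σ_ep, hφ, hφ, map_mul, map_mul, map_mul, map_mul, T.σ_ep, sκ] at this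
    rw [show (T.σ t * s + t * T.σ s) * T.ep = T.σ t * (s * T.ep) - t * (T.σ s * -T.ep) by ring, this]
    ring
  have a6 : ∀ f x, T.σ f = f → T.σ x = x → k1 (x * f * T.ep) = φ f * k1 (x * T.ep) :=
    fun f x hf hx => by
      obtain ⟨b, rfl⟩ := T.exists_tr hx
      have e1 := a5 1 b
      have e2 := a5 1 (b * f)
      rw [map_one, one_mul, one_mul] at e1 e2
      rw [map_mul, hf, a3 b f hf, map_mul, a4 f hf, ← add_mul] at e2
      rw [e1, e2]; ring
  have nf : ∀ t, T.σ (t * T.σ t) = t * T.σ t := fun t => by rw [map_mul, T.inv, mul_comm]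
  obtain ⟨E, hE⟩ : ∃ E : K → K, ∀ t, E t =
      c * T.σ c * (φ t * T.σ (φ t)) * k3 T.ep - k1 (t * T.σ t * T.ep) := ⟨_, fun _ => rfl⟩
  obtain ⟨f, hf, f0, f1⟩ := hM
  have g0 : φ f ≠ 0 := fun h => f0 (φi f h)
  have g1 : φ f - 1 ≠ 0 := fun h => f1 (sub_eq_zero.1 (φi _ (by rw [map_sub, φ1, h])))
  have a7 : ∀ t, E (t * f) = φ f ^ 2 * E t := fun t => by
    have e1 := a6 f (t * T.σ t * f) hf (by rw [map_mul, nf, hf])
    rw [a6 f _ hf (nf t)] at e1
    rw [hE, hE, a3 t f hf, map_mul, map_mul, hf, a4 f hf,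
      show t * f * (T.σ t * f) = t * T.σ t * f * f by ring, e1]
    ring
  have a8 : ∀ t, (φ f ^ 2 - φ f) * E t = c * φ t * T.σ (φ f * μ T.ep - μ (f * T.ep)) -
      T.σ c * T.σ (φ t) * (φ f * μ T.ep - μ (f * T.ep)) := fun t => by
    have e1 := h5 (t * f) _ T.σ_ep
    have e2 := h5 t _ (se f hf)
    have e3 := a7 t
    rw [← mul_assoc, ← mul_assoc, a6 f _ hf (nf t), a2 f hf, hφ, map_mul] at e2
    rw [hφ, map_mul T.σ c] at e1
    rw [hE (t * f)] at e3
    rw [a3 t f hf, map_mul T.σ (φ t), a4 f hf] at e1 e3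
    rw [sub_mul, ← e3, hE, map_sub, map_mul T.σ (φ f), a4 f hf]
    linear_combination e2 - e1
  have a9 : ∀ t, E t = 0 := fun t => by
    have e1 := a8 (t * f)
    rw [a7, a3 t f hf, map_mul T.σ (φ t), a4 f hf] at e1
    exact (mul_eq_zero.1 (show (φ f * (φ f - 1)) ^ 2 * E t = 0 by
      linear_combination e1 - φ f * a8 t)).resolve_left (pow_ne_zero 2 (mul_ne_zero g0 g1))
  have n0 : c * T.σ c * k3 T.ep ≠ 0 := mul_ne_zero (mul_ne_zero c0 c0') κ0
  have b0 : k1 (1 * T.ep) = c * T.σ c * k3 T.ep := by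
    have := a9 1
    rw [hE, φ1, map_one, mul_one, mul_one] at this
    linear_combination -this
  have b1 : ∀ t, φ (t * T.σ t) = φ t * T.σ (φ t) := fun t => by
    have e1 := a9 t
    have e2 := a6 _ 1 (nf t) (map_one _)
    rw [one_mul, b0] at e2
    rw [hE, e2] at e1
    exact mul_right_cancel₀ n0 (by linear_combination -e1)
  have b2 : ∀ t, φ (T.σ t) = T.σ (φ t) := fun t => by
    have e1 := a5 t 1
    have e2 := a6 (T.σ t + t) 1 (by rw [map_add, T.inv, add_comm]) (map_one _)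
    rw [one_mul, b0, map_add] at e2
    rw [φ1, map_one, mul_one, mul_one, mul_one, mul_one, e2] at e1
    exact mul_right_cancel₀ n0 (by linear_combination e1)
  obtain ⟨ψ, hψ⟩ := ring_of φ φ1 a3 b1 b2
  have p0 : ψ T.ep ≠ 0 := (map_ne_zero ψ).2 T.ep_ne
  have p1 : T.σ (ψ T.ep) = -ψ T.ep := by rw [← T.com, T.σ_ep, map_neg]
  refine ⟨ψ, k3 T.ep / ψ T.ep, by rw [map_div₀, sκ, p1, neg_div_neg_eq], div_ne_zero κ0 p0,
    fun t => by rw [hφ, hψ], fun d hd => ?_⟩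
  have e1 := a2 (d / T.ep) (by rw [map_div₀, hd, T.σ_ep, neg_div_neg_eq])
  rw [div_mul_cancel₀ _ T.ep_ne, ← hψ, map_div₀] at e1
  rw [e1]; ring

variable (c : ChSStmt T)

/-- automorphisms trivial on `U / Z₂` -/
def Y1 : Subgroup (MulAut (U T)) :=
  stab ⊤ (Z2 T) (fun _ _ _ => trivial) fun β => (c β).2.2.1

theorem dZ2 {x y : U T} : x⁻¹ * y ∈ Z2 T ↔ y.t = x.t ∧ y.d = x.d := by
  simp [mem_Z2, neg_add_eq_zero, eq_comm]

theorem mem_Y1 {β : MulAut (U T)} : β ∈ Y1 c ↔ ∀ x, (β x).t = x.t ∧ (β x).d = x.d :=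
  forall_congr' fun _ => ⟨fun h => dZ2.1 (h trivial), fun h _ => dZ2.2 h⟩

theorem pow_fix {G : Type*} [Group G] {γ : MulAut G} {g : G} (h : γ (g⁻¹ * γ g) = g⁻¹ * γ g)
    (n : ℕ) : (γ ^ n) g = g * (g⁻¹ * γ g) ^ n := by
  induction n with
  | zero => simp
  | succ n ih =>
    rw [pow_succ', MulAut.mul_apply, ih, map_mul, map_pow, h, pow_succ', ← mul_assoc,
      mul_inv_cancel_left]

theorem Y1_p [CharP K p] : IsPGroup p (Y1 c) := by
  rintro ⟨β, hβ⟩
  have h1 := (mem_Y1 c).1 hβ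
  have h2 : ∀ w ∈ Z2 T, (β w).m = w.m := fun w hw => by
    have e0 : ⁅xt T (w.m / T.ep), xd T T.ep (by simp)⁆.m = w.m := by simp [cm_m, T.ep_ne]
    have e1 : (β ⁅xt T (w.m / T.ep), xd T T.ep (by simp)⁆).m = w.m := by
      rw [map_commutatorElement, cm_m, (h1 _).1, (h1 _).1, (h1 _).2, (h1 _).2, ← cm_m, e0]
    have e2 := cm_Z2 (xt T (w.m / T.ep)) (xd T T.ep (by simp))
    generalize ⁅xt T (w.m / T.ep), xd T T.ep (by simp)⁆ = y at e0 e1 e2
    have e3 : y⁻¹ * w ∈ Z T := ⟨by simp [e2.1, hw.1], by simp [e2.1, e0], by simp [e2.2, hw.2]⟩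
    have e4 := ((c β).2.2.2 _ e3).2.1
    rw [map_mul, map_inv] at e4
    simp only [U.mul_m, U.inv_m, U.inv_t, (h1 y).1, e2.1, e1] at e4
    linear_combination e4
  have h3 : ∀ z ∈ Z T, β z = z := fun z hz => by
    obtain ⟨w, rfl⟩ := exists_cm_xm (k := xt T 1) hz one_ne_zero
    refine eq_of_Z ((c β).2.2.2 _ hz) hz ?_
    rw [map_commutatorElement, cm_a2 ((c β).2.2.1 _ (xm_Z2 w)), cm_a2 (xm_Z2 w), (h1 _).1,
      h2 _ (xm_Z2 w)]
  have h4 : ∀ w ∈ Z2 T, (β ^ p) w = w := fun w hw => by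
    have e : w⁻¹ * β w ∈ Z T :=
      ⟨by simp [(h1 w).1], by simp [h2 w hw, hw.1], by simp [(h1 w).2]⟩
    rw [pow_fix (h3 _ e), pow_J_eq_one p e.1, mul_one]
  refine ⟨2, Subtype.ext (MulEquiv.ext fun g => ?_)⟩
  have e : g⁻¹ * (β ^ p) g ∈ Z2 T := pow_mem hβ p g trivial
  change (β ^ p ^ 2) g = g
  rw [pow_two, pow_mul, pow_fix (h4 _ e), pow_J_eq_one p e.1, mul_one]

theorem disj : ∀ l ∈ Lam T, l ∈ Y1 c → l = 1 := by
  rintro _ ⟨e, φ, rfl⟩ hl
  have h1 := (mem_Y1 c).1 hl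
  have e1 : ∀ v, (e.1 : K) * (e.2 : K)⁻¹ * φ v = v := fun v => by simpa using (h1 (xt T v)).1
  have e2 : (e.1 : K) * (e.2 : K)⁻¹ = 1 := by simpa using e1 1
  have e5 : φ = 1 := RingEquiv.ext fun v => by simpa [e2] using e1 v
  have e3 : (e.1 : K) = e.2 := (mul_inv_eq_one₀ e.2.ne_zero).1 e2
  have e4 : (e.2 : K) * T.σ e.2 = 1 := by
    simpa [e5, T.ep_ne] using (h1 (xd T T.ep (by simp))).2
  exact MulEquiv.ext fun g => by ext <;> simp [e5, e3, e4]

theorem supp (hM : Mid T) (β : MulAut (U T)) : ∃ l ∈ Lam T, l⁻¹ * β ∈ Y1 c := by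
  obtain ⟨cQ, cJ, c2, cZ⟩ := c β
  let sd : K → U T := fun x => xd T (pr T x) (pr_sk T x)
  let sa : K → U T := fun x => xa T (pr T x) (pr_sk T x)
  have sk' : ∀ {d : K}, T.σ d = -d → d + T.σ d = 0 := fun h => by rw [h, add_neg_cancel]
  have ht : ∀ g, (β g).t = (β (xt T g.t)).t := fun g => by
    have : (β (g * (xt T g.t)⁻¹)).t = 0 := cJ _ (by simp [mem_J])
    rw [map_mul, map_inv] at this
    simpa [add_neg_eq_zero] using this
  have hd : ∀ g, (β g).d = (β (sd g.d)).d := fun g => by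
    have : (β (g * (sd g.d)⁻¹)).d = 0 := cQ _ (by simp [mem_Q, sd, pr_eq T g.hd])
    rw [map_mul, map_inv] at this
    simpa [add_neg_eq_zero] using this
  have hm : ∀ g ∈ Z2 T, (β g).m = (β (xm T g.m)).m ∧
      (β g).a = (β (sa g.a)).a + (β (xm T g.m)).a := fun g hg => by
    have e : g = sa g.a * xm T g.m := by ext <;> simp [sa, pr_eq T g.ha, hg.1, hg.2]
    have z := cZ (sa g.a) ⟨rfl, rfl, rfl⟩
    constructor <;> conv_lhs => rw [e, map_mul]
    · simp [z.1, z.2.1]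
    · simp [z.1]
  let π : K →+ K := AddMonoidHom.mk' (fun t => (β (xt T t)).t) fun s t => by
    have : xt T (s + t) = xt T s * xt T t := by ext <;> simp
    simp only [this, map_mul, U.mul_t]
  have hπ : ∀ t, (β (xt T t)).t = π t := fun _ => rfl
  have sdJ : ∀ x, β (sd x) ∈ J T := fun x => cJ _ rfl
  obtain ⟨φ, e, he, e0, h1, h2⟩ := alg (T := T) (k1 := fun x => (β (sa x)).a)
    (k2 := fun x => (β (xm T x)).m) (k3 := fun x => (β (sd x)).d) (ι := fun x => (β (xm T x)).a)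
    (μ := fun x => (β (sd x)).m) π
    (fun t h => by
      have := (c β⁻¹).2.1 (β (xt T t)) h
      rwa [MulAut.inv_apply_self] at this)
    (fun h => by
      have : (β⁻¹ (β (sd T.ep))).d = 0 := (c β⁻¹).1 (β (sd T.ep)) h
      rw [MulAut.inv_apply_self] at this
      exact T.ep_ne ((pr_eq T (by simp)).symm.trans this))
    (fun x => U.σ_d _)
    (fun t d h => by
      have e1 := (hm _ (cm_Z2 (xt T t) (sd d))).1
      rw [map_commutatorElement, (cm_J (sdJ d)).1, (cm_J (k := sd d) rfl).1] at e1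
      simpa [sd, pr_eq T (sk' h), hπ] using e1.symm)
    (fun t m => by
      have e1 := (hm _ (cm_Z2 (xt T t) (xm T m))).2
      have e2 : xm T 0 = 1 := rfl
      rw [map_commutatorElement, cm_a2 (c2 _ (xm_Z2 m)), cm_a2 (xm_Z2 m),
        (cm_Z (xm_Z2 m)).2.1, e2, map_one] at e1
      simpa [hπ] using e1.symm)
    (fun t d h => by
      have e1 := (hm _ (cm_Z2 (xt T t) (sd d))).2
      rw [map_commutatorElement, (cm_J (sdJ d)).2, (cm_J (k := sd d) rfl).1,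
        (cm_J (k := sd d) rfl).2] at e1
      simpa [sd, pr_eq T (sk' h), hπ] using e1.symm) hM
  obtain ⟨b, hb⟩ := T.nrm e he
  have b0 : b ≠ 0 := fun h => e0 (by rw [← hb, h, zero_mul])
  have p0 : π 1 ≠ 0 := fun h => by
    have : (β⁻¹ (β (xt T 1))).t = 0 := (c β⁻¹).2.1 (β (xt T 1)) h
    rw [MulAut.inv_apply_self] at this
    exact one_ne_zero this
  set l := tor T (Units.mk0 (π 1 * b) (mul_ne_zero p0 b0), Units.mk0 b b0) * fld T φ with hl
  refine ⟨l, ⟨_, _, hl⟩, fun x _ => ?_⟩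
  have k : x⁻¹ * (l⁻¹ * β) x = l⁻¹ ((l x)⁻¹ * β x) := by
    rw [map_mul, map_inv, MulAut.inv_apply_self, MulAut.mul_apply]
  rw [k]
  refine (c _).2.2.1 _ (dZ2.2 ⟨?_, ?_⟩)
  · rw [ht, hπ, h1, hl]; simp [b0]
  · rw [hd]
    refine (h2 _ x.σ_d).trans ?_
    rw [hl]; simp [hb]

omit c in
theorem asS [Fact p.Prime] [CharP K p] (c : ChSStmt T) : ASStmt T p := by
  intro hM C hC hi
  have : (Y1 c).Normal := stab_normal _ _ _ _
  have : (MulAut.conj : U T →* MulAut (U T)).range.Normal := ⟨by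
    rintro _ ⟨s, rfl⟩ g
    exact ⟨g s, MulEquiv.ext fun x => by simp⟩⟩
  obtain ⟨β, L, hL, hp, h⟩ := abs_as (I := (MulAut.conj : U T →* MulAut (U T)).range) (C := C)
    (Y1_p c) (disj c) (supp c hM) (by
      rintro _ ⟨s, rfl⟩
      exact (mem_Y1 c).2 fun x => ⟨by simp, by simp⟩)
    (by rintro _ ⟨s, rfl⟩; exact hC s) hi
  refine ⟨β, L, fun l hl => hL hl, hp, fun γ => (h γ).trans ⟨?_, ?_⟩⟩
  · rintro ⟨_, ⟨s, rfl⟩, l, hl, e⟩
    exact ⟨s, l, hl, e⟩
  · rintro ⟨s, l, hl, e⟩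
    exact ⟨_, ⟨s, rfl⟩, l, hl, e⟩

end Cfsg.Agent.H22.U4As
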