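import Mathlib
import Cfsg.Agent.H42.VpDefs
import Cfsg.Agent.S0191

/-! Insurance proofs of two small pieces on vanishing elements. -/

set_option autoImplicit false

namespace Cfsg.Agent.H22.VpZ0

open Subgroup Cfsg

universe u

theorem z0 : H42.Vp.Z0Stmt.{u} := by
  intro G _ _ x g z hz hz1 e
  classical
  haveI : (zpowers z).Normal := ⟨fun n hn a => by
    have hc : n ∈ center G := (zpowers_le.2 hz) hn
    rw [mem_center_iff.1 hc a]
    simpa using hn⟩
  have : ∃ χ, IsIrrCharacter G χ ∧ ¬ zpowers z ≤ H11.charKer χ := by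
    by_contra h
    push Not at h
    exact hz1 (H11.eq_one_of_forall_mem_charKer fun χ hχ => h χ hχ (mem_zpowers z))
  obtain ⟨χ, hχ, h1⟩ := this
  refine ⟨χ, hχ, H23.apply_eq_zero_of_isConj_coset (fun n hn => ?_) hχ h1⟩
  obtain ⟨k, rfl⟩ := (mem_powers_iff_mem_zpowers.2 hn)
  have key : ∀ k : ℕ, IsConj x (z ^ k * x) := by
    intro k
    induction k with
    | zero => rw [pow_zero, one_mul]
    | succ k ih =>
      refine ih.trans (isConj_iff.2 ⟨g, ?_⟩)
      have h2 := mem_center_iff.1 (pow_mem hz k) g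
      have h3 := mem_center_iff.1 hz x
      calc g * (z ^ k * x) * g⁻¹ = (g * z ^ k) * x * g⁻¹ := by group
        _ = z ^ k * (g * x * g⁻¹) := by rw [h2]; group
        _ = z ^ (k + 1) * x := by rw [e, h3, pow_succ, mul_assoc]
  exact key k

theorem i1 : H42.Vp.I1Stmt.{u} := by
  intro G _ _ K hK x h k hk
  classical
  haveI := Fintype.ofFinite K
  have hc : IsConj (⟨k, hk⟩ : K) ⟨x * k * x⁻¹, hK.conj_mem k hk x⟩ :=
    H11.isConj_iff_forall_irr.2 fun θ hθ => ((H14.mem_inertia' K).1 (h θ hθ) ⟨k, hk⟩).symm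
  obtain ⟨c, hc⟩ := isConj_iff.1 hc
  exact ⟨c, c.2, (congrArg Subtype.val hc).symm⟩

theorem n : H42.Vp.NStmt.{u} := by
  intro G _ _ hG
  classical
  by_contra hcon
  push Not at hcon
  have lin : ∀ χ, IsIrrCharacter G χ → χ 1 = 1 := by
    intro χ hχ
    have nz : ∀ g, χ g ≠ 0 := by
      intro g hg
      have hz := hcon g ⟨χ, hχ, hg⟩
      obtain ⟨lam, -, h2⟩ := H11.exists_monoidHom_of_le_center hχ _ le_rfl
      have := h2 ⟨g, hz⟩
      rw [show χ ((⟨g, hz⟩ : center G) : G) = 0 from hg] at this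
      exact mul_ne_zero (Units.ne_zero _) (H11.irr_apply_one_ne_zero hχ) this.symm
    obtain ⟨n, ρ, hρ, rfl⟩ := hχ
    have h1 : ρ.character 1 = (Module.finrank ℂ (Fin n → ℂ) : ℂ) := ρ.char_one
    rw [h1]
    rcases lt_trichotomy 1 (Module.finrank ℂ (Fin n → ℂ)) with l | l | l
    · obtain ⟨g, hg⟩ := S0191.result ρ l
      exact absurd hg (nz g)
    · rw [← l, Nat.cast_one]
    · exact absurd (by rw [h1, Nat.lt_one_iff.1 l, Nat.cast_zero]) (nz 1)
  refine hG ⟨⟨fun a b => ?_⟩⟩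
  have : a * b * a⁻¹ * b⁻¹ = 1 := H11.eq_one_of_forall_mem_charKer fun χ hχ => by
    obtain ⟨lam, hl⟩ := H11.exists_monoidHom_of_apply_one_eq_one (H11.isCharacter_of_irr hχ)
      (lin χ hχ)
    rw [H11.mem_charKer_irr_iff hχ, hl]
    simp
  rw [mul_inv_eq_one, mul_inv_eq_iff_eq_mul] at this
  exact this

end Cfsg.Agent.H22.VpZ0
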